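import Mathlib
import Cfsg.Agent.H26.Gd2
import Cfsg.Agent.H27.GalInt

set_option autoImplicit false

/-!
# Averages of real elements of `2`-power cyclotomic rings
-/

namespace Cfsg.Agent.H26

open Cfsg Cfsg.Agent.H3 Cfsg.Agent.H11 Cfsg.Agent.H27 Finset Polynomial
open scoped ComplexConjugate

theorem poly_of_integral_aux {n : ℕ} {K : Type} [Field K] [CharZero K]
    [NeZero (2 ^ n)] [IsCyclotomicExtension {2 ^ n} ℚ K] (φ : K →+* ℂ) {ζ : ℂ}
    (hζ : IsPrimitiveRoot ζ (2 ^ n)) (f : ℤ[X]) (h : ℕ)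
    (hint : IsIntegral ℤ (aeval ζ f / 2 ^ h)) : ∃ g : ℤ[X], aeval ζ f = 2 ^ h * aeval ζ g := by
  have hφ : Function.Injective φ := φ.injective
  have h0 := IsCyclotomicExtension.zeta_spec (2 ^ n) ℚ K
  have h1 : IsPrimitiveRoot (φ (IsCyclotomicExtension.zeta (2 ^ n) ℚ K)) (2 ^ n) :=
    h0.map_of_injective hφ
  obtain ⟨i, hi, hcop, hζi⟩ := h1.isPrimitiveRoot_iff.mp hζ
  set ζK := (IsCyclotomicExtension.zeta (2 ^ n) ℚ K) ^ i with hζK
  have hζK' : IsPrimitiveRoot ζK (2 ^ n) := h0.pow_of_coprime i hcop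
  have hφζ : φ ζK = ζ := by rw [hζK, map_pow]; exact hζi
  have hφa : ∀ g : ℤ[X], φ (aeval ζK g) = aeval ζ g := by
    intro g
    rw [← hφζ, aeval_def, aeval_def, hom_eval₂]
    congr 1
    exact RingHom.ext_int _ _
  have h2 : IsIntegral ℤ (aeval ζK f / 2 ^ h : K) := by
    have h3 : (φ.toIntAlgHom) (aeval ζK f / 2 ^ h : K) = aeval ζ f / 2 ^ h := by
      change φ (aeval ζK f / 2 ^ h : K) = _
      rw [map_div₀, hφa, map_pow, map_ofNat]
    exact (isIntegral_algHom_iff (φ.toIntAlgHom) hφ).mp (by rw [h3]; exact hint)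
  have : Fact (Nat.Prime 2) := ⟨Nat.prime_two⟩
  obtain ⟨⟨y, hy0⟩, hy⟩ := (IsCyclotomicExtension.Rat.isIntegralClosure_adjoin_singleton_of_prime_pow
    hζK').isIntegral_iff.1 h2
  have hy1 : y = aeval ζK f / 2 ^ h := hy
  have hy2 : y ∈ (aeval ζK : ℤ[X] →ₐ[ℤ] K).range := by
    rw [← Algebra.adjoin_singleton_eq_range_aeval]; exact hy0
  obtain ⟨g, hg⟩ := hy2
  refine ⟨g, ?_⟩
  have h4 : aeval ζK g = aeval ζK f / 2 ^ h := by rw [← hy1]; exact hg
  have h5 := congrArg φ h4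
  rw [hφa, map_div₀, hφa, map_pow, map_ofNat] at h5
  rw [h5]
  field_simp

set_option backward.isDefEq.respectTransparency false in
theorem poly_of_integral {n : ℕ} {ζ : ℂ} (hζ : IsPrimitiveRoot ζ (2 ^ n)) (f : ℤ[X]) (h : ℕ)
    (hint : IsIntegral ℤ (aeval ζ f / 2 ^ h)) : ∃ g : ℤ[X], aeval ζ f = 2 ^ h * aeval ζ g := by
  have : NeZero (2 ^ n) := ⟨by positivity⟩
  have : NeZero (((2 ^ n : ℕ)) : ℚ) := ⟨by positivity⟩
  exact poly_of_integral_aux (K := CyclotomicField (2 ^ n) ℚ)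
    (IsAlgClosed.lift : CyclotomicField (2 ^ n) ℚ →ₐ[ℚ] ℂ).toRingHom hζ f h hint

theorem poly_eq_zero {n : ℕ} {ζ : ℂ} (hζ : IsPrimitiveRoot ζ (2 ^ (n + 1))) (f : ℤ[X])
    (hf : aeval ζ f = 0) (hd : ∀ i, 2 ^ n ≤ i → f.coeff i = 0) : f = 0 := by
  by_contra hne
  have hd' : f.natDegree < 2 ^ n := by
    by_contra h
    exact hne (leadingCoeff_eq_zero.mp (hd _ (by omega)))
  have hint : IsIntegral ℤ ζ := hζ.isIntegral (by positivity)
  have h1 := minpoly.isIntegrallyClosed_dvd hint hf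
  have h2 := natDegree_le_of_dvd h1 hne
  have h3 := hζ.totient_le_degree_minpoly
  rw [Nat.totient_prime_pow_succ Nat.prime_two] at h3
  simp only [Nat.add_one_sub_one, mul_one] at h3
  omega

theorem sum_cop_two (n : ℕ) (F : ℕ → ℂ) :
    ∑ m ∈ cop (2 ^ (n + 1)), F m = ∑ t ∈ range (2 ^ n), F (2 * t + 1) := by
  symm
  refine Finset.sum_bij (fun t _ => 2 * t + 1) ?_ ?_ ?_ ?_
  · intro t ht
    rw [Finset.mem_range] at ht
    rw [mem_cop]
    refine ⟨by rw [pow_succ]; omega, ?_⟩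
    rw [Nat.coprime_pow_right_iff (by omega), Nat.coprime_two_right]
    exact ⟨t, rfl⟩
  · intro t _ t' _ h; simpa using h
  · intro m hm
    rw [mem_cop] at hm
    obtain ⟨hm1, hm2⟩ := hm
    rw [Nat.coprime_pow_right_iff (by omega), Nat.coprime_two_right] at hm2
    obtain ⟨t, ht⟩ := hm2
    refine ⟨t, ?_, ht.symm⟩
    rw [Finset.mem_range]
    rw [pow_succ] at hm1
    omega
  · intro t _; rfl

theorem real_avg {n : ℕ} {M : Ideal AlgInt} (hM : IsPModular 2 M) {ζ : ℂ}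
    (hζ : IsPrimitiveRoot ζ (2 ^ (n + 1))) (g : ℤ[X]) (hreal : conj (aeval ζ g) = aeval ζ g) :
    ∃ k : ℤ, ∑ m ∈ cop (2 ^ (n + 1)), aeval (ζ ^ m) g = ((cop (2 ^ (n + 1))).card : ℂ) * k ∧
      MemLocalIdeal M (aeval ζ g - k) := by
  have hpr := hM.2.1.isPrime
  have hN'0 : 0 < 2 ^ n := by positivity
  have hζN : ζ ^ 2 ^ n = -1 := by
    have h1 : (ζ ^ 2 ^ n) * (ζ ^ 2 ^ n) = 1 := by
      rw [← pow_add, ← two_mul, ← pow_succ']; exact hζ.pow_eq_one
    rcases mul_self_eq_one_iff.mp h1 with h2 | h2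
    · exfalso
      have h3 := hζ.dvd_of_pow_eq_one _ h2
      have h4 := Nat.le_of_dvd hN'0 h3
      rw [pow_succ] at h4
      omega
    · exact h2
  -- reduction
  have hmon : (X ^ 2 ^ n + 1 : ℤ[X]).Monic := monic_X_pow_add_C (1 : ℤ) hN'0.ne'
  have hdeg : (X ^ 2 ^ n + 1 : ℤ[X]).natDegree = 2 ^ n := natDegree_X_pow_add_C (r := (1 : ℤ))
  set r := g %ₘ (X ^ 2 ^ n + 1) with hr
  have hrd : r.natDegree < 2 ^ n := by
    have h1 := natDegree_modByMonic_lt g hmon (by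
      intro h
      rw [h, natDegree_one] at hdeg
      omega)
    rwa [hdeg] at h1
  have hev : ∀ ξ : ℂ, ξ ^ 2 ^ n = -1 → aeval ξ g = aeval ξ r := by
    intro ξ hξ
    have h1 := modByMonic_add_div g (X ^ 2 ^ n + 1 : ℤ[X])
    conv_lhs => rw [← h1]
    rw [map_add, map_mul, map_add, map_pow, aeval_X, map_one, hξ]
    simp
    rfl
  have hodd : ∀ t : ℕ, (ζ ^ (2 * t + 1)) ^ 2 ^ n = -1 := by
    intro t
    rw [← pow_mul, mul_comm, pow_mul, hζN]
    exact Odd.neg_one_pow ⟨t, rfl⟩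
  -- r(1) = r_0
  have hr1 : r.eval 1 = r.coeff 0 := by
    set U : ℤ[X] := r + reflect (2 ^ n) r - C (r.coeff 0) * (X ^ 2 ^ n + 1) with hU
    have hζ0 : ζ ≠ 0 := hζ.ne_zero (by positivity)
    have hrefl : aeval ζ (reflect (2 ^ n) r) = - aeval ζ r := by
      haveI : Invertible (ζ⁻¹) := invertibleOfNonzero (inv_ne_zero hζ0)
      have h1 := eval₂_reflect_mul_pow (algebraMap ℤ ℂ) (ζ⁻¹) (2 ^ n) r hrd.le
      rw [invOf_eq_inv, inv_inv, inv_pow, hζN] at h1
      have h2 : conj (aeval ζ r) = eval₂ (algebraMap ℤ ℂ) ζ⁻¹ r := by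
        have h3 : conj ζ = ζ⁻¹ := by
          have h4 : ‖ζ‖ = 1 := Complex.norm_eq_one_of_pow_eq_one hζ.pow_eq_one (by positivity)
          rw [Complex.inv_def, Complex.normSq_eq_norm_sq, h4]
          simp
        rw [aeval_def, hom_eval₂, h3]
        congr 1
        exact RingHom.ext_int _ _
      have h3 : aeval ζ r = aeval ζ g := (hev ζ hζN).symm
      rw [← h2, h3, hreal, ← h3] at h1
      rw [aeval_def]
      linear_combination -h1
    have hU0 : aeval ζ U = 0 := by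
      rw [hU, map_sub, map_add, hrefl, map_mul, map_add, map_pow, aeval_X, hζN, map_one]
      ring
    have hUd : ∀ i, 2 ^ n ≤ i → U.coeff i = 0 := by
      intro i hi
      have hri : r.coeff i = 0 := coeff_eq_zero_of_natDegree_lt (by omega)
      have h1i : (1 : ℤ[X]).coeff i = 0 := by
        rw [coeff_one, if_neg (by omega)]
      rw [hU, coeff_sub, coeff_add, coeff_reflect, coeff_C_mul, coeff_add, coeff_X_pow, h1i, hri]
      by_cases hi' : i = 2 ^ n
      · rw [if_pos hi', hi', revAt_le le_rfl, Nat.sub_self]; ring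
      · rw [if_neg hi', revAt_eq_self_of_lt (by omega), hri]; ring
    have h1 := poly_eq_zero hζ U hU0 hUd
    have h2 : U.eval 1 = 0 := by rw [h1, eval_zero]
    have h3 : (reflect (2 ^ n) r).eval 1 = r.eval 1 := by
      have : Invertible (1 : ℤ) := invertibleOne
      have := eval₂_reflect_mul_pow (RingHom.id ℤ) (1 : ℤ) (2 ^ n) r hrd.le
      rw [invOf_one, one_pow, mul_one] at this
      exact this
    rw [hU, eval_sub, eval_add, h3, eval_mul, eval_C, eval_add, eval_pow, eval_X, eval_one,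
      one_pow] at h2
    linarith
  refine ⟨r.coeff 0, ?_, ?_⟩
  · rw [sum_cop_two]
    have hcard : (cop (2 ^ (n + 1))).card = 2 ^ n := by
      rw [card_cop, Nat.totient_prime_pow_succ Nat.prime_two]; simp
    have h1 : ∀ t ∈ range (2 ^ n), aeval (ζ ^ (2 * t + 1)) g =
        ∑ j ∈ range (2 ^ n), (r.coeff j : ℂ) * (ζ ^ j * ((ζ ^ j) ^ 2) ^ t) := by
      intro t _
      rw [hev _ (hodd t), aeval_eq_sum_range' hrd]
      apply Finset.sum_congr rfl
      intro j _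
      rw [zsmul_eq_mul]
      congr 1
      rw [← pow_mul, ← pow_mul, ← pow_mul, ← pow_add]
      congr 1
      ring
    rw [Finset.sum_congr rfl h1, Finset.sum_comm, hcard]
    rw [Finset.sum_eq_single_of_mem 0 (Finset.mem_range.mpr hN'0)]
    · simp
    · intro j hj hj0
      rw [Finset.mem_range] at hj
      rw [← Finset.mul_sum, ← Finset.mul_sum]
      have h2 : (ζ ^ j) ^ 2 ≠ 1 := by
        intro h3
        rw [← pow_mul] at h3
        have h4 := hζ.dvd_of_pow_eq_one _ h3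
        have h5 := Nat.le_of_dvd (by omega) h4
        rw [pow_succ] at h5
        omega
      have h3 : ∑ t ∈ range (2 ^ n), ((ζ ^ j) ^ 2) ^ t = 0 := by
        rw [geom_sum_eq h2]
        have h4 : ((ζ ^ j) ^ 2) ^ 2 ^ n = 1 := by
          rw [← pow_mul, ← pow_mul, ← pow_succ', mul_comm j, pow_mul, hζ.pow_eq_one, one_pow]
        rw [h4, sub_self, zero_div]
      rw [h3, mul_zero, mul_zero]
  · rw [hev ζ hζN, ← hr1]
    have h1 : ∀ q : ℤ[X], MemLocalIdeal M (aeval ζ q - ((q.eval 1 : ℤ) : ℂ)) := by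
      intro q
      rw [aeval_eq_sum_range, eval_eq_sum_range]
      push_cast
      rw [← Finset.sum_sub_distrib]
      apply li_sum
      intro j _
      have h2 : MemLocalIdeal M (ζ ^ j - 1) := by
        apply li_sub_of_pow hM (k := n + 1)
        · exact lr_int ((hζ.isIntegral (by positivity)).pow j)
        · exact lr_one M
        · rw [← pow_mul, mul_comm, pow_mul, hζ.pow_eq_one, one_pow, one_pow, sub_self]
          exact li_zero M
      have h3 : q.coeff j • ζ ^ j - (q.coeff j : ℂ) * 1 ^ j = (q.coeff j : ℂ) * (ζ ^ j - 1) := by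
        rw [zsmul_eq_mul, one_pow]; ring
      rw [h3]
      exact li_mul_left (lr_intCast M _) h2
    exact h1 r

theorem avg_two {n : ℕ} {M : Ideal AlgInt} (hM : IsPModular 2 M) {a : ℕ → ℂ}
    (ha : IsGalSeq (2 ^ (n + 1)) a) (hreal : conj (a 1) = a 1) (h : ℕ)
    (hl : ∀ m ∈ cop (2 ^ (n + 1)), MemLocalRing M (a m / (2 : ℂ) ^ h)) :
    ∃ k : ℤ, ∑ m ∈ cop (2 ^ (n + 1)), a m =
        ((cop (2 ^ (n + 1))).card : ℂ) * ((2 : ℂ) ^ h * k) ∧
      MemLocalIdeal M (a 1 / (2 : ℂ) ^ h - k) := by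
  have hN : (2 ^ (n + 1) : ℕ) ≠ 0 := by positivity
  have hint : IsIntegral ℤ (a 1 / (2 : ℂ) ^ h) := by
    have := IsGalSeq.integral_div hM ha hN h (fun m hm => by push_cast; exact hl m hm)
    simpa using this
  obtain ⟨f, hf⟩ := ha
  set ζ := Complex.exp (2 * Real.pi * Complex.I / (2 ^ (n + 1) : ℕ)) with hζdef
  have hζ : IsPrimitiveRoot ζ (2 ^ (n + 1)) := Complex.isPrimitiveRoot_exp _ hN
  rw [hf 1, pow_one] at hint
  obtain ⟨g, hg⟩ := poly_of_integral hζ f h hint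
  have hgm : ∀ m ∈ cop (2 ^ (n + 1)), aeval (ζ ^ m) f = 2 ^ h * aeval (ζ ^ m) g := by
    intro m hm
    have h0 : aeval ζ (f - C (2 ^ h) * g) = 0 := by
      rw [map_sub, map_mul, hg, aeval_C]; simp
    have h1 := minpoly.isIntegrallyClosed_dvd (hζ.isIntegral (by positivity)) h0
    rw [hζ.minpoly_eq_pow_coprime (mem_cop.mp hm).2] at h1
    obtain ⟨q, hq⟩ := h1
    have h2 : aeval (ζ ^ m) (f - C (2 ^ h) * g) = 0 := by
      rw [hq, map_mul, minpoly.aeval, zero_mul]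
    rw [map_sub, map_mul, aeval_C] at h2
    simp at h2
    linear_combination h2
  have h2h : (2 : ℂ) ^ h ≠ 0 := pow_ne_zero _ (by norm_num)
  have hgr : conj (aeval ζ g) = aeval ζ g := by
    have h1 := hreal
    rw [hf 1, pow_one, hg, map_mul, map_pow] at h1
    have h2 : conj (2 : ℂ) = 2 := Complex.conj_ofNat 2
    rw [h2] at h1
    exact mul_left_cancel₀ h2h h1
  obtain ⟨k, hk1, hk2⟩ := real_avg hM hζ g hgr
  refine ⟨k, ?_, ?_⟩
  · have h3 : ∑ m ∈ cop (2 ^ (n + 1)), a m = 2 ^ h * ∑ m ∈ cop (2 ^ (n + 1)), aeval (ζ ^ m) g := by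
      rw [Finset.mul_sum]
      apply Finset.sum_congr rfl
      intro m hm
      rw [hf m]
      exact hgm m hm
    rw [h3, hk1]; ring
  · rw [hf 1, pow_one, hg, mul_div_cancel_left₀ _ h2h]
    exact hk2

end Cfsg.Agent.H26
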