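import Mathlib
import Cfsg.Agent.H26.Gd3

set_option autoImplicit false

/-!
# Major subsections with at most two Brauer characters, II
-/

namespace Cfsg.Agent.H26

open Cfsg Cfsg.Agent.H3 Cfsg.Agent.H11 Cfsg.Agent.H27 Finset
open scoped ComplexConjugate

universe u

section Pure

variable {X : Type u} [Group X] [Fintype X] {p : ℕ} [hp : Fact p.Prime] {M : Ideal AlgInt}
  {b : Set (IrrCharacter X)}

theorem pure_two {Ψ₁ Ψ₂ : X → ℂ} (hΨ₁ : IsPr p b Ψ₁) (hΨ₂ : IsPr p b Ψ₂)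
    (hgen : ∀ Φ, IsPr p b Φ → ∃ m n : ℤ, Φ = (m : ℂ) • Ψ₁ + (n : ℂ) • Ψ₂)
    (hlin : ∀ m n : ℤ, (m : ℂ) • Ψ₁ + (n : ℂ) • Ψ₂ = 0 → m = 0 ∧ n = 0)
    (x₁ x₂ : IrrCharacter X → ℤ)
    (hx₁ : ∀ θ : IrrCharacter X, classInner Ψ₁ (θ : X → ℂ) = x₁ θ)
    (hx₂ : ∀ θ : IrrCharacter X, classInner Ψ₂ (θ : X → ℂ) = x₂ θ) (n u v : ℤ) (hn : n ≠ 0)
    (h : ∀ θ ∈ b, n ∣ u * x₁ θ + v * x₂ θ) : n ∣ u ∧ n ∣ v := by
  have hn' : (n : ℂ) ≠ 0 := by exact_mod_cast hn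
  set Φ : X → ℂ := ((n : ℂ)⁻¹) • ((u : ℂ) • Ψ₁ + (v : ℂ) • Ψ₂) with hΦ
  have h1 : ∀ θ : IrrCharacter X, classInner Φ (θ : X → ℂ) =
      (n : ℂ)⁻¹ * ((u * x₁ θ + v * x₂ θ : ℤ) : ℂ) := by
    intro θ
    rw [hΦ, classInner_smul_left, classInner_add_left, classInner_smul_left,
      classInner_smul_left, hx₁, hx₂]
    push_cast; rfl
  have h0 : ∀ θ : IrrCharacter X, θ ∉ b → classInner Φ (θ : X → ℂ) = 0 := by
    intro θ hθ
    rw [hΦ, classInner_smul_left, classInner_add_left, classInner_smul_left,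
      classInner_smul_left, hΨ₁.2.2 θ hθ, hΨ₂.2.2 θ hθ]
    simp
  have hP : IsPr p b Φ := by
    refine ⟨?_, ?_, h0⟩
    · rw [isGen_iff]
      constructor
      · intro g h
        have e1 := (isGen_iff.mp hΨ₁.1).1 g h
        have e2 := (isGen_iff.mp hΨ₂.1).1 g h
        simp only [hΦ, Pi.smul_apply, Pi.add_apply, e1, e2]
      · intro θ
        by_cases hθ : θ ∈ b
        · obtain ⟨k, hk⟩ := h θ hθ
          refine ⟨k, ?_⟩
          rw [h1, hk]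
          push_cast
          rw [← mul_assoc, inv_mul_cancel₀ hn', one_mul]
        · exact ⟨0, by rw [h0 θ hθ]; simp⟩
    · intro g hg
      simp only [hΦ, Pi.smul_apply, Pi.add_apply, hΨ₁.2.1 g hg, hΨ₂.2.1 g hg, smul_zero, add_zero]
  obtain ⟨m₁, m₂, hm⟩ := hgen Φ hP
  have h2 : ((u - n * m₁ : ℤ) : ℂ) • Ψ₁ + ((v - n * m₂ : ℤ) : ℂ) • Ψ₂ = 0 := by
    have h3 : (n : ℂ) • Φ = (u : ℂ) • Ψ₁ + (v : ℂ) • Ψ₂ := by
      rw [hΦ, smul_smul, mul_inv_cancel₀ hn', one_smul]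
    rw [hm] at h3
    push_cast
    rw [sub_smul, sub_smul, mul_smul, mul_smul]
    have h4 : (u : ℂ) • Ψ₁ - (n : ℂ) • (m₁ : ℂ) • Ψ₁ + ((v : ℂ) • Ψ₂ - (n : ℂ) • (m₂ : ℂ) • Ψ₂) =
        ((u : ℂ) • Ψ₁ + (v : ℂ) • Ψ₂) - (n : ℂ) • ((m₁ : ℂ) • Ψ₁ + (m₂ : ℂ) • Ψ₂) := by
      rw [smul_add]; abel
    rw [h4, h3, sub_self]
  obtain ⟨h3, h4⟩ := hlin _ _ h2
  exact ⟨⟨m₁, by omega⟩, ⟨m₂, by omega⟩⟩

theorem rank_one_minor (hM : IsPModular p M) (hb : IsPBlock M b) {θ θ' : IrrCharacter X}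
    (hθ : θ ∈ b) (hθ' : θ' ∈ b) :
    MemLocalIdeal M (((p : ℂ) ^ blockDefect p b * mm p (θ : X → ℂ) (θ : X → ℂ)) *
      ((p : ℂ) ^ blockDefect p b * mm p (θ' : X → ℂ) (θ' : X → ℂ)) -
      ((p : ℂ) ^ blockDefect p b * mm p (θ : X → ℂ) (θ' : X → ℂ)) *
      ((p : ℂ) ^ blockDefect p b * mm p (θ' : X → ℂ) (θ : X → ℂ))) := by
  have hpr := hM.2.1.isPrime
  have hp0 : (p : ℂ) ≠ 0 := by exact_mod_cast hM.1.ne_zero
  set a := (Nat.card X).factorization p with ha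
  set d := blockDefect p b with hd
  have hs := isPBlock_sameBlock hb hθ hθ'
  set W₁ := (p : ℂ) ^ a * mm p (θ : X → ℂ) (θ : X → ℂ) / (θ : X → ℂ) 1 with hW₁
  set W₁' := (p : ℂ) ^ a * mm p (θ' : X → ℂ) (θ : X → ℂ) / (θ' : X → ℂ) 1 with hW₁'
  set W₂ := (p : ℂ) ^ a * mm p (θ : X → ℂ) (θ' : X → ℂ) / (θ : X → ℂ) 1 with hW₂
  set W₂' := (p : ℂ) ^ a * mm p (θ' : X → ℂ) (θ' : X → ℂ) / (θ' : X → ℂ) 1 with hW₂'
  have h1 : MemLocalIdeal M (W₁ - W₁') := li_mm_sub hM (irr_isChar θ.2) θ.2 θ'.2 hs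
  have h2 : MemLocalIdeal M (W₂ - W₂') := li_mm_sub hM (irr_isChar θ'.2) θ.2 θ'.2 hs
  have h3 : MemLocalRing M W₁ := lr_mm_div hM (irr_isChar θ.2) θ.2
  have h4 : MemLocalRing M W₂ := lr_mm_div hM (irr_isChar θ'.2) θ.2
  have h5 : MemLocalIdeal M (W₁ * W₂' - W₂ * W₁') := by
    have e : W₁ * W₂' - W₂ * W₁' = W₂ * (W₁ - W₁') - W₁ * (W₂ - W₂') := by ring
    rw [e]
    exact li_sub (li_mul_left h4 h1) (li_mul_left h3 h2)
  obtain ⟨u, hu0, hu, hdeg⟩ := degree_eq hM hθ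
  obtain ⟨u', hu0', hu', hdeg'⟩ := degree_eq hM hθ'
  obtain ⟨-, hle⟩ := fact_degree hM hθ
  have h6 := li_mul_left (lr_natCast M ((p ^ blockHeight p b (θ : X → ℂ) * u) *
    (p ^ blockHeight p b (θ' : X → ℂ) * u'))) h5
  have e1 := (charDegree_spec θ.2).1
  have e2 := (charDegree_spec θ'.2).1
  have n1 : (θ : X → ℂ) 1 ≠ 0 := irr_one_ne_zero θ.2
  have n2 : (θ' : X → ℂ) 1 ≠ 0 := irr_one_ne_zero θ'.2
  have h7 : (p : ℂ) ^ a = (p : ℂ) ^ (a - d) * (p : ℂ) ^ d := by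
    rw [← pow_add]; congr 1; omega
  rw [hdeg] at e1
  rw [hdeg'] at e2
  rw [← ha, ← hd] at e1 e2
  have h8 : ∀ A : ℂ, (p : ℂ) ^ d * A = ((p ^ blockHeight p b (θ : X → ℂ) * u : ℕ) : ℂ) *
      ((p : ℂ) ^ a * A / (θ : X → ℂ) 1) := by
    intro A
    rw [eq_comm, ← mul_div_assoc, div_eq_iff n1, e1, h7]
    push_cast; ring
  have h9 : ∀ A : ℂ, (p : ℂ) ^ d * A = ((p ^ blockHeight p b (θ' : X → ℂ) * u' : ℕ) : ℂ) *
      ((p : ℂ) ^ a * A / (θ' : X → ℂ) 1) := by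
    intro A
    rw [eq_comm, ← mul_div_assoc, div_eq_iff n2, e2, h7]
    push_cast; ring
  rw [h8 (mm p (θ : X → ℂ) (θ : X → ℂ)), h8 (mm p (θ : X → ℂ) (θ' : X → ℂ)),
    h9 (mm p (θ' : X → ℂ) (θ : X → ℂ)), h9 (mm p (θ' : X → ℂ) (θ' : X → ℂ))]
  rw [← hW₁, ← hW₁', ← hW₂, ← hW₂']
  have e : ((p ^ blockHeight p b (θ : X → ℂ) * u : ℕ) : ℂ) * W₁ *
      (((p ^ blockHeight p b (θ' : X → ℂ) * u' : ℕ) : ℂ) * W₂') -
      ((p ^ blockHeight p b (θ : X → ℂ) * u : ℕ) : ℂ) * W₂ *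
      (((p ^ blockHeight p b (θ' : X → ℂ) * u' : ℕ) : ℂ) * W₁') =
      (((p ^ blockHeight p b (θ : X → ℂ) * u) *
    (p ^ blockHeight p b (θ' : X → ℂ) * u') : ℕ) : ℂ) * (W₁ * W₂' - W₂ * W₁') := by
    push_cast; ring
  rw [e]
  exact h6

end Pure

section Main

variable {G : Type u} [Group G] [Fintype G] {p : ℕ} [hp : Fact p.Prime] {M : Ideal AlgInt}
  {C : Subgroup G} [Fintype C] {b : Set (IrrCharacter C)}

/-- contributions with a height zero character -/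
theorem cn_height_zero_ne (hM : IsPModular p M) {x : G} (hx : ∃ k : ℕ, orderOf x = p ^ k)
    (hC : C = Subgroup.centralizer ({x} : Set G))
    {B : Set (IrrCharacter G)} (hB : IsPBlock M B) (hind : IsInducedBlock M C b B)
    (hd : blockDefect p b = blockDefect p B) {χ ψ : IrrCharacter G} (hχ : χ ∈ B) (hψ : ψ ∈ B)
    (hψ0 : blockHeight p B (ψ : G → ℂ) = 0) :
    cn p C x b (χ : G → ℂ) (ψ : G → ℂ) ≠ 0 := by
  classical
  have hpr := hM.2.1.isPrime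
  have hp0 : (p : ℂ) ≠ 0 := by exact_mod_cast hM.1.ne_zero
  have hxC : x ∈ C := by rw [hC]; exact Subgroup.mem_centralizer_singleton_iff.mpr rfl
  set x' : C := ⟨x, hxC⟩ with hx'
  have hxc : ∀ c, x' * c = c * x' := fun c => by
    have h : (c : G) ∈ Subgroup.centralizer ({x} : Set G) := hC ▸ c.2
    exact Subtype.ext (Subgroup.mem_centralizer_singleton_iff.mp h).symm
  have hxp : ∃ k : ℕ, orderOf x' = p ^ k := by
    obtain ⟨k, hk⟩ := hx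
    exact ⟨k, by rw [← hk, ← Subgroup.orderOf_coe]⟩
  obtain ⟨t, ht, ht', htt, -⟩ := not_li_cn hM hind hxc hxp hψ hψ0 hψ hψ0
  obtain ⟨Z, hZ, hZo⟩ := exists_zsec hM hx hC hind.1 (irr_isChar ψ.2)
  intro h1
  have h2 := li_omega_sub hZ (irr_classFun ψ.2) (irr_classFun χ.2)
    (isPBlock_sameBlock hB hψ hχ)
  rw [hZo, hZo, h1, mul_zero, zero_div, sub_zero] at h2
  -- the unit
  have h3 := lr_pPart_div_card hM (n := Nat.card G) Nat.card_pos.ne'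
  obtain ⟨u, hu0, hu, hdeg⟩ := degree_eq hM hψ
  obtain ⟨-, hle⟩ := fact_degree hM hψ
  have h4 := li_mul_right (li_mul_left h3 h2) (lr_natCast M u)
  have h5 : (Nat.card G : ℂ) ≠ 0 := card_ne_zeroC
  have hu0' : (u : ℂ) ≠ 0 := by exact_mod_cast hu0
  have h6 : (p : ℂ) ^ (Nat.card G).factorization p =
      (p : ℂ) ^ ((Nat.card G).factorization p - blockDefect p B) *
        (p : ℂ) ^ blockDefect p B := by
    rw [← pow_add]; congr 1; omega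
  have h7 : (p : ℂ) ^ (Nat.card G).factorization p / (Nat.card G : ℂ)
      * ((Nat.card G : ℂ) * cn p C x b (ψ : G → ℂ) (ψ : G → ℂ) / (ψ : G → ℂ) 1) * (u : ℂ)
      = (p : ℂ) ^ blockDefect p B * cn p C x b (ψ : G → ℂ) (ψ : G → ℂ) := by
    rw [(charDegree_spec ψ.2).1, hdeg, h6, hψ0]
    push_cast
    have h7 : (p : ℂ) ^ ((Nat.card G).factorization p - blockDefect p B) ≠ 0 :=
      pow_ne_zero _ hp0
    field_simp
  rw [h7, ← hd] at h4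
  change MemLocalIdeal M ((p : ℂ) ^ blockDefect p b *
    cn p C x b (ψ : G → ℂ) (ψ : G → ℂ) - t) at htt
  rw [li_congr htt] at h4
  exact ht' h4

theorem cn_height_zero_unit (hM : IsPModular p M) {x : G} (hx : ∃ k : ℕ, orderOf x = p ^ k)
    (hC : C = Subgroup.centralizer ({x} : Set G))
    {B : Set (IrrCharacter G)} (hind : IsInducedBlock M C b B)
    (hd : blockDefect p b = blockDefect p B) {ψ : IrrCharacter G} (hψ : ψ ∈ B)
    (hψ0 : blockHeight p B (ψ : G → ℂ) = 0) :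
    ¬ MemLocalIdeal M ((p : ℂ) ^ blockDefect p B * cn p C x b (ψ : G → ℂ) (ψ : G → ℂ)) := by
  have hpr := hM.2.1.isPrime
  have hxC : x ∈ C := by rw [hC]; exact Subgroup.mem_centralizer_singleton_iff.mpr rfl
  set x' : C := ⟨x, hxC⟩ with hx'
  have hxc : ∀ c, x' * c = c * x' := fun c => by
    have h : (c : G) ∈ Subgroup.centralizer ({x} : Set G) := hC ▸ c.2
    exact Subtype.ext (Subgroup.mem_centralizer_singleton_iff.mp h).symm
  have hxp : ∃ k : ℕ, orderOf x' = p ^ k := by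
    obtain ⟨k, hk⟩ := hx
    exact ⟨k, by rw [← hk, ← Subgroup.orderOf_coe]⟩
  obtain ⟨t, ht, ht', htt, -⟩ := not_li_cn hM hind hxc hxp hψ hψ0 hψ hψ0
  rw [← hd, li_congr htt]
  exact ht'

/-- orthogonal basis: the contributions -/
theorem cn_orth {Ψ₁ Ψ₂ : C → ℂ} (x : G) (χ ψ : G → ℂ) (h1 : IsPr p b Ψ₁)
    (h2 : IsPr p b Ψ₂) (hsp : VB p b ≤ Submodule.span ℂ {Ψ₁, Ψ₂}) {α γ : ℤ} (hα : 0 < α)
    (hγ : 0 < γ) (e1 : classInner Ψ₁ Ψ₁ = α) (e2 : classInner Ψ₁ Ψ₂ = 0)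
    (e3 : classInner Ψ₂ Ψ₂ = γ) : cn p C x b χ ψ =
      ac C x χ Ψ₁ * conj (ac C x ψ Ψ₁) / α + ac C x χ Ψ₂ * conj (ac C x ψ Ψ₂) / γ := by
  have hα' : (α : ℂ) ≠ 0 := by exact_mod_cast hα.ne'
  have hγ' : (γ : ℂ) ≠ 0 := by exact_mod_cast hγ.ne'
  obtain ⟨a, c, hac⟩ := Submodule.mem_span_pair.mp (hsp (reg_ct_mem (b := b) x χ))
  have e2' : classInner Ψ₂ Ψ₁ = 0 := by rw [← classInner_conj_symm, e2, map_zero]
  have h3 : ac C x χ Ψ₁ = a * α := by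
    rw [ac_ct x χ h1, ← hac, classInner_add_left, classInner_smul_left, classInner_smul_left,
      e1, e2', mul_zero, add_zero]
  have h4 : ac C x χ Ψ₂ = c * γ := by
    rw [ac_ct x χ h2, ← hac, classInner_add_left, classInner_smul_left, classInner_smul_left,
      e3, e2, mul_zero, zero_add]
  rw [cn_eq_inner, ← hac, classInner_add_left, classInner_smul_left, classInner_smul_left,
    ← classInner_conj_symm (pRegularPart p (ct C x b ψ)) Ψ₁, ← ac_ct x ψ h1,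
    ← classInner_conj_symm (pRegularPart p (ct C x b ψ)) Ψ₂, ← ac_ct x ψ h2, h3, h4]
  field_simp

end Main

end Cfsg.Agent.H26
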