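import Mathlib
import Cfsg.Agent.H26.Gd4
import Cfsg.Agent.H26.MajSub3

set_option autoImplicit false

/-!
# Major subsections with at most two Brauer characters, III
-/

namespace Cfsg.Agent.H26

open Cfsg Cfsg.Agent.H3 Cfsg.Agent.H11 Cfsg.Agent.H27 Finset
open scoped ComplexConjugate

universe u

section Main

variable {G : Type u} [Group G] [Fintype G] {p : ℕ} [hp : Fact p.Prime] {M : Ideal AlgInt}
  {C : Subgroup G} [Fintype C] {b : Set (IrrCharacter C)}

theorem card_le_rank (hM : IsPModular p M) {B : Set (IrrCharacter G)} (hB : IsPBlock M B) {x : G}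
    (hx : ∃ k : ℕ, orderOf x = p ^ k) (hC : C = Subgroup.centralizer ({x} : Set G))
    (hind : IsInducedBlock M C b B) (hd : blockDefect p b = blockDefect p B) :
    (Nat.card B : ℝ) ≤ (p : ℝ) ^ blockDefect p B * blockRank p b := by
  classical
  have := Fintype.ofFinite (IrrCharacter G)
  set N := Nat.card G with hN'
  have hN : N ≠ 0 := Nat.card_pos.ne'
  have hcop : (0 : ℝ) < ((cop N).card : ℝ) := by
    exact_mod_cast Finset.card_pos.mpr (cop_nonempty hN)
  have h1 : ∀ χ ∈ univ.filter (fun χ : IrrCharacter G => χ ∈ B), ((cop N).card : ℝ) ≤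
      ∑ m ∈ cop N, (p : ℝ) ^ blockDefect p B *
        (cn p C (x ^ m) b (χ : G → ℂ) (χ : G → ℂ)).re := by
    intro χ hχ
    refine le_trans ?_ (avg_cn hM hB hx hC hind hd (Finset.mem_filter.mp hχ).2 hN
      (show x ^ N = 1 from pow_card_eq_one'))
    have h2 : (1 : ℝ) ≤ (p : ℝ) ^ blockHeight p B (χ : G → ℂ) := by
      apply one_le_pow₀
      exact_mod_cast hM.1.one_le
    nlinarith
  have h2 := Finset.sum_le_sum h1
  rw [Finset.sum_comm, Finset.sum_const, nsmul_eq_mul] at h2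
  have h3 : ∀ m ∈ cop N, ∑ χ : IrrCharacter G with χ ∈ B, (p : ℝ) ^ blockDefect p B *
        (cn p C (x ^ m) b (χ : G → ℂ) (χ : G → ℂ)).re =
        (p : ℝ) ^ blockDefect p B * blockRank p b := by
    intro m hm
    have hmc : m.Coprime (orderOf x) :=
      Nat.Coprime.coprime_dvd_right (orderOf_dvd_natCard x) (mem_cop.mp hm).2
    have hCm : C = Subgroup.centralizer ({x ^ m} : Set G) := by rw [pow_cent_eq hmc, hC]
    have hxm : ∃ k : ℕ, orderOf (x ^ m) = p ^ k := by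
      obtain ⟨k, hk⟩ := hx
      exact ⟨k, by rw [← hk]; exact hmc.symm.orderOf_pow⟩
    have h4 := cn_trace hM hB hxm hCm hind
    rw [← Finset.mul_sum]
    congr 1
    have h5 := congrArg Complex.re h4
    rw [Complex.re_sum] at h5
    rw [h5]
    simp
  rw [Finset.sum_congr rfl h3, Finset.sum_const, nsmul_eq_mul] at h2
  have h4 : (Nat.card B : ℝ) = ((univ.filter (fun χ : IrrCharacter G => χ ∈ B)).card : ℝ) := by
    rw [Nat.card_eq_fintype_card, Fintype.card_subtype]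
  rw [h4]
  have h5 : ((cop N).card : ℝ) * ((univ.filter (fun χ : IrrCharacter G => χ ∈ B)).card : ℝ) ≤
      ((cop N).card : ℝ) * ((p : ℝ) ^ blockDefect p B * blockRank p b) := by
    calc _ = ((univ.filter (fun χ : IrrCharacter G => χ ∈ B)).card : ℝ) * ((cop N).card : ℝ) := by
          ring
      _ ≤ _ := h2
  exact le_of_mul_le_mul_left h5 hcop

theorem major_two_aux (hM : IsPModular p M) {B : Set (IrrCharacter G)} (hB : IsPBlock M B) {x : G}
    (hx : ∃ k : ℕ, orderOf x = p ^ k) (hC : C = Subgroup.centralizer ({x} : Set G))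
    (hind : IsInducedBlock M C b B) (hd : blockDefect p b = blockDefect p B)
    (hl : blockRank p b = 2) : Nat.card B ≤ p ^ blockDefect p B := by
  classical
  have hpr := hM.2.1.isPrime
  have hp0 : (p : ℂ) ≠ 0 := by exact_mod_cast hM.1.ne_zero
  have := Fintype.ofFinite (IrrCharacter G)
  have hb := hind.1
  obtain ⟨Ψ₁, Ψ₂, α, β, γ, hΨ₁, hΨ₂, e1, e2, e3, hα, hβ, h2β, hαγ, hgen, hlin⟩ :=
    exists_red hM hb hl
  set d := blockDefect p B with hdd
  have hsp : VB p b ≤ Submodule.span ℂ {Ψ₁, Ψ₂} := by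
    apply VB_le_of hM hb
    intro Φ hΦ
    obtain ⟨m, n, h⟩ := hgen Φ hΦ
    rw [h]
    exact Submodule.mem_span_pair.mpr ⟨m, n, rfl⟩
  have hx₁' : ∀ θ : IrrCharacter C, ∃ k : ℤ, classInner Ψ₁ (θ : C → ℂ) = k :=
    fun θ => (isGen_iff.mp hΨ₁.1).2 θ
  have hx₂' : ∀ θ : IrrCharacter C, ∃ k : ℤ, classInner Ψ₂ (θ : C → ℂ) = k :=
    fun θ => (isGen_iff.mp hΨ₂.1).2 θ
  choose x₁ hx₁ using hx₁'
  choose x₂ hx₂ using hx₂'
  have e2' : classInner Ψ₂ Ψ₁ = β := by
    rw [← classInner_conj_symm, e2]; simp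
  set Δ := α * γ - β ^ 2 with hΔ
  have hΔpos : 0 < Δ := by nlinarith
  -- the divisibilities
  have hdiv : ∀ θ ∈ b, Δ ∣ (p : ℤ) ^ d * (γ * x₁ θ - β * x₂ θ) ∧
      Δ ∣ (p : ℤ) ^ d * (α * x₂ θ - β * x₁ θ) := by
    intro θ hθ
    have h1 := isPr_reg hM hb hθ
    obtain ⟨n₁, n₂, h2⟩ := hgen _ h1
    have h3 : ∀ Φ : C → ℂ, IsPr p b Φ → ∀ k : ℤ, classInner Φ (θ : C → ℂ) = k →
        classInner (((p : ℂ) ^ blockDefect p b) • pRegularPart p (θ : C → ℂ)) Φ =
          (((p : ℤ) ^ d * k : ℤ) : ℂ) := by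
      intro Φ hΦ k hk
      rw [classInner_smul_left]
      have h4 : classInner (pRegularPart p (θ : C → ℂ)) Φ = classInner (θ : C → ℂ) Φ := by
        rw [classInner_pr_comm, hΦ.reg]
      rw [h4, ← classInner_conj_symm, hk, hd]
      push_cast
      simp
    have h4 := h3 Ψ₁ hΨ₁ _ (hx₁ θ)
    have h5 := h3 Ψ₂ hΨ₂ _ (hx₂ θ)
    rw [h2, classInner_add_left, classInner_smul_left, classInner_smul_left, e1, e2'] at h4
    rw [h2, classInner_add_left, classInner_smul_left, classInner_smul_left, e2, e3] at h5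
    have h6 : n₁ * α + n₂ * β = (p : ℤ) ^ d * x₁ θ := by exact_mod_cast h4
    have h7 : n₁ * β + n₂ * γ = (p : ℤ) ^ d * x₂ θ := by exact_mod_cast h5
    constructor
    · exact ⟨n₁, by rw [hΔ]; linear_combination (-γ) * h6 + β * h7⟩
    · exact ⟨n₂, by rw [hΔ]; linear_combination (-α) * h7 + β * h6⟩
  have hd1 := pure_two hΨ₁ hΨ₂ hgen hlin x₁ x₂ hx₁ hx₂ Δ ((p : ℤ) ^ d * γ) (-((p : ℤ) ^ d * β))
    hΔpos.ne' (fun θ hθ => by
      have := (hdiv θ hθ).1
      have e : (p : ℤ) ^ d * (γ * x₁ θ - β * x₂ θ) = (p : ℤ) ^ d * γ * x₁ θ +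
        -((p : ℤ) ^ d * β) * x₂ θ := by ring
      rwa [e] at this)
  have hd2 := pure_two hΨ₁ hΨ₂ hgen hlin x₁ x₂ hx₁ hx₂ Δ (-((p : ℤ) ^ d * β)) ((p : ℤ) ^ d * α)
    hΔpos.ne' (fun θ hθ => by
      have := (hdiv θ hθ).2
      have e : (p : ℤ) ^ d * (α * x₂ θ - β * x₁ θ) = -((p : ℤ) ^ d * β) * x₁ θ +
        (p : ℤ) ^ d * α * x₂ θ := by ring
      rwa [e] at this)
  set BF := univ.filter (fun χ : IrrCharacter G => χ ∈ B) with hBF
  have hcardB : Nat.card B = BF.card := by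
    rw [Nat.card_eq_fintype_card, Fintype.card_subtype]
  have hBF' : ∀ χ ∈ BF, χ ∈ B := fun χ h => (Finset.mem_filter.mp h).2
  have hnz : ∀ χ ∈ BF, ac C x (χ : G → ℂ) Ψ₁ = 0 → ac C x (χ : G → ℂ) Ψ₂ = 0 → False := by
    intro χ hχ h1 h2
    exact cn_self_ne_zero hM hx hC hB hind hd (hBF' χ hχ)
      (cn_zero_of_ac x (χ : G → ℂ) hΨ₁ hΨ₂ hsp h1 h2)
  have hgoal : (BF.card : ℤ) ≤ (p : ℤ) ^ d → Nat.card B ≤ p ^ d := by
    intro h
    rw [hcardB]
    exact_mod_cast h
  apply hgoal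
  rcases red_arith hM.1 hα hβ h2β hαγ hd2.2 ((dvd_neg).mp hd2.1) hd1.1 with h | ⟨h0, hγ, s, hs, hαs⟩
  · -- three forms
    have hΨ₃ : IsPr p b (Ψ₂ - Ψ₁) := hΨ₂.sub hΨ₁
    have e4 : classInner (Ψ₂ - Ψ₁) (Ψ₂ - Ψ₁) = ((γ - 2 * β + α : ℤ) : ℂ) := by
      rw [classInner_sub_left, classInner_sub_right, classInner_sub_right, e1, e2, e2', e3]
      push_cast; ring
    have hac3 : ∀ χ : IrrCharacter G, ac C x (χ : G → ℂ) (Ψ₂ - Ψ₁) =
        ac C x (χ : G → ℂ) Ψ₂ - ac C x (χ : G → ℂ) Ψ₁ := by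
      intro χ
      unfold ac
      rw [classInner_sub_right]
    set S₁ := BF.filter (fun χ : IrrCharacter G => ac C x (χ : G → ℂ) Ψ₁ ≠ 0) with hS₁
    set S₂ := BF.filter (fun χ : IrrCharacter G => ac C x (χ : G → ℂ) Ψ₂ ≠ 0) with hS₂
    set S₃ := BF.filter (fun χ : IrrCharacter G => ac C x (χ : G → ℂ) (Ψ₂ - Ψ₁) ≠ 0) with hS₃
    have c1 : (S₁.card : ℤ) ≤ α := card_ac_le0 hM hB hx hC hind hΨ₁ e1 S₁
      (fun χ h => hBF' χ (Finset.mem_filter.mp h).1) (fun χ h => (Finset.mem_filter.mp h).2)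
    have c2 : (S₂.card : ℤ) ≤ γ := card_ac_le0 hM hB hx hC hind hΨ₂ e3 S₂
      (fun χ h => hBF' χ (Finset.mem_filter.mp h).1) (fun χ h => (Finset.mem_filter.mp h).2)
    have c3 : (S₃.card : ℤ) ≤ γ - 2 * β + α := card_ac_le0 hM hB hx hC hind hΨ₃ e4 S₃
      (fun χ h => hBF' χ (Finset.mem_filter.mp h).1) (fun χ h => (Finset.mem_filter.mp h).2)
    have c4 : 2 * BF.card ≤ S₁.card + S₂.card + S₃.card := by
      have hcf : ∀ (q : IrrCharacter G → Prop) [DecidablePred q], (BF.filter q).card =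
          ∑ χ ∈ BF, if q χ then 1 else 0 := fun q _ => Finset.card_filter q BF
      rw [hS₁, hS₂, hS₃, hcf, hcf, hcf,
        ← Finset.sum_add_distrib, ← Finset.sum_add_distrib, mul_comm, ← smul_eq_mul,
        ← Finset.sum_const]
      apply Finset.sum_le_sum
      intro χ hχ
      have h5 := hnz χ hχ
      rw [hac3]
      by_cases h6 : ac C x (χ : G → ℂ) Ψ₁ = 0
      · have h7 : ac C x (χ : G → ℂ) Ψ₂ ≠ 0 := fun h => h5 h6 h
        simp [h6, h7]
      · by_cases h7 : ac C x (χ : G → ℂ) Ψ₂ = 0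
        · simp [h6, h7]
        · simp only [ne_eq, h6, not_false_eq_true, ite_true, h7]
          omega
    have c5 : (2 * BF.card : ℤ) ≤ S₁.card + S₂.card + S₃.card := by exact_mod_cast c4
    linarith
  · subst h0
    have e2c : classInner Ψ₁ Ψ₂ = 0 := by rw [e2]; simp
    have hγpos : 0 < γ := lt_of_lt_of_le hα hαγ
    by_cases hsd : s = d
    · -- the equal case
      exfalso
      rw [hsd] at hαs
      have hγ0 : (γ : ℂ) ≠ 0 := by exact_mod_cast hγpos.ne'
      have hα0 : (α : ℂ) ≠ 0 := by exact_mod_cast hα.ne'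
      have e2c' : classInner Ψ₂ Ψ₁ = 0 := by rw [e2']; simp
      have hc : ∀ θ ∈ b, ∀ θ' : IrrCharacter C, (p : ℂ) ^ blockDefect p b *
          mm p (θ : C → ℂ) (θ' : C → ℂ) = ((x₁ θ * x₁ θ' + x₂ θ * x₂ θ' : ℤ) : ℂ) := by
        intro θ hθ θ'
        obtain ⟨n₁, n₂, h2⟩ := hgen _ (isPr_reg hM hb hθ)
        have h3 : ∀ Φ : C → ℂ, IsPr p b Φ → ∀ k : ℤ, classInner Φ (θ : C → ℂ) = k →
            classInner (((p : ℂ) ^ blockDefect p b) • pRegularPart p (θ : C → ℂ)) Φ =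
              (((p : ℤ) ^ d * k : ℤ) : ℂ) := by
          intro Φ hΦ k hk
          rw [classInner_smul_left]
          have h4 : classInner (pRegularPart p (θ : C → ℂ)) Φ = classInner (θ : C → ℂ) Φ := by
            rw [classInner_pr_comm, hΦ.reg]
          rw [h4, ← classInner_conj_symm, hk, hd]
          push_cast
          simp
        have h4 := h3 Ψ₁ hΨ₁ _ (hx₁ θ)
        have h5 := h3 Ψ₂ hΨ₂ _ (hx₂ θ)
        rw [h2, classInner_add_left, classInner_smul_left, classInner_smul_left, e1, e2c'] at h4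
        rw [h2, classInner_add_left, classInner_smul_left, classInner_smul_left, e2c, e3] at h5
        have h6 : n₁ * α = (p : ℤ) ^ d * x₁ θ := by
          have : (n₁ : ℂ) * α = ((p : ℤ) ^ d * x₁ θ : ℤ) := by rw [← h4]; ring
          exact_mod_cast this
        have h7 : n₂ * γ = (p : ℤ) ^ d * x₂ θ := by
          have : (n₂ : ℂ) * γ = ((p : ℤ) ^ d * x₂ θ : ℤ) := by rw [← h5]; ring
          exact_mod_cast this
        have hps : (p : ℤ) ^ d ≠ 0 := pow_ne_zero _ (by exact_mod_cast hM.1.ne_zero)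
        have h8 : n₁ = x₁ θ := by
          rw [hαs, mul_comm] at h6
          exact mul_left_cancel₀ hps h6
        have h9 : n₂ = x₂ θ := by
          rw [hγ, mul_comm] at h7
          exact mul_left_cancel₀ hps h7
        unfold mm
        rw [← classInner_smul_left, h2, classInner_add_left, classInner_smul_left,
          classInner_smul_left, hx₁, hx₂, h8, h9]
        push_cast; rfl
      have hminor : ∀ θ ∈ b, ∀ θ' ∈ b, (p : ℤ) ∣ x₁ θ * x₂ θ' - x₂ θ * x₁ θ' := by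
        intro θ hθ θ' hθ'
        have h1 := rank_one_minor hM hb hθ hθ'
        rw [hc θ hθ θ, hc θ' hθ' θ', hc θ hθ θ', hc θ' hθ' θ] at h1
        have h2 : (((x₁ θ * x₁ θ + x₂ θ * x₂ θ : ℤ) : ℂ) * ((x₁ θ' * x₁ θ' + x₂ θ' * x₂ θ' : ℤ) : ℂ)
            - ((x₁ θ * x₁ θ' + x₂ θ * x₂ θ' : ℤ) : ℂ) * ((x₁ θ' * x₁ θ + x₂ θ' * x₂ θ : ℤ) : ℂ)) =
            (((x₁ θ * x₂ θ' - x₂ θ * x₁ θ') ^ 2 : ℤ) : ℂ) := by
          push_cast; ring
        rw [h2, li_intCast_iff hM] at h1
        exact (Nat.prime_iff_prime_int.mp hM.1).dvd_of_dvd_pow h1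
      have hpz : (p : ℤ) ≠ 0 := by exact_mod_cast hM.1.ne_zero
      have hall : ∀ θ ∈ b, (p : ℤ) ∣ -(x₂ θ) ∧ (p : ℤ) ∣ x₁ θ := by
        intro θ hθ
        apply pure_two hΨ₁ hΨ₂ hgen hlin x₁ x₂ hx₁ hx₂ (p : ℤ) (-(x₂ θ)) (x₁ θ) hpz
        intro θ' hθ'
        have := hminor θ hθ θ' hθ'
        have e : -(x₂ θ) * x₁ θ' + x₁ θ * x₂ θ' = x₁ θ * x₂ θ' - x₂ θ * x₁ θ' := by ring
        rwa [e]
      have h1 := pure_two hΨ₁ hΨ₂ hgen hlin x₁ x₂ hx₁ hx₂ (p : ℤ) 1 0 hpz (fun θ hθ => by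
        rw [one_mul, zero_mul, add_zero]; exact (hall θ hθ).2)
      have h2 : (p : ℕ) ∣ 1 := by exact_mod_cast h1.1
      exact hM.1.one_lt.ne' (Nat.dvd_one.mp h2)
    · have hsd' : s < d := lt_of_le_of_ne hs hsd
      have hp2 : 2 ≤ p := hM.1.two_le
      have hαd : 2 * α ≤ (p : ℤ) ^ d := by
        have h1 : p ^ (s + 1) ≤ p ^ d := Nat.pow_le_pow_right hM.1.pos hsd'
        have h2 : 2 * p ^ s ≤ p ^ (s + 1) := by rw [pow_succ, mul_comm]; gcongr
        have h3 : 2 * p ^ s ≤ p ^ d := h2.trans h1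
        rw [hαs]; exact_mod_cast h3
      by_cases hK : ∃ χ₀ ∈ BF, ac C x (χ₀ : G → ℂ) Ψ₂ = 0
      · obtain ⟨χ₀, hχ₀, hχ₀'⟩ := hK
        -- height zero characters
        have hz : ∀ ψ ∈ BF, blockHeight p B (ψ : G → ℂ) = 0 → ac C x (ψ : G → ℂ) Ψ₁ ≠ 0 := by
          intro ψ hψ hψ0 h1
          apply cn_height_zero_ne hM hx hC hB hind hd (hBF' _ hχ₀) (hBF' _ hψ) hψ0
          rw [cn_orth x (χ₀ : G → ℂ) (ψ : G → ℂ) hΨ₁ hΨ₂ hsp hα hγpos e1 e2c e3, h1, hχ₀']
          simp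
        set A := BF.filter (fun χ : IrrCharacter G => ac C x (χ : G → ℂ) Ψ₁ ≠ 0) with hA
        set Z := BF.filter (fun χ : IrrCharacter G => ¬ ac C x (χ : G → ℂ) Ψ₁ ≠ 0) with hZ
        have c1 : (A.card : ℤ) ≤ α := card_ac_le0 hM hB hx hC hind hΨ₁ e1 A
          (fun χ h => hBF' χ (Finset.mem_filter.mp h).1) (fun χ h => (Finset.mem_filter.mp h).2)
        have c2 : (BF.card : ℤ) = A.card + Z.card := by
          exact_mod_cast (Finset.card_filter_add_card_filter_not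
            (s := BF) (fun χ : IrrCharacter G => ac C x (χ : G → ℂ) Ψ₁ ≠ 0)).symm
        obtain ⟨ψ, hψ, hψ0⟩ := exists_height_zero hM hB
        have hxC : x ∈ C := by rw [hC]; exact Subgroup.mem_centralizer_singleton_iff.mpr rfl
        set x' : C := ⟨x, hxC⟩ with hx'
        have hxc : ∀ c, x' * c = c * x' := fun c => by
          have h : (c : G) ∈ Subgroup.centralizer ({x} : Set G) := hC ▸ c.2
          exact Subtype.ext (Subgroup.mem_centralizer_singleton_iff.mp h).symm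
        have hN : Nat.card G ≠ 0 := Nat.card_pos.ne'
        have c3 : ∑ χ ∈ Z, (p : ℤ) ^ (2 * 1) ≤ γ := by
          apply card_ac_le hM hB hx hC hind hΨ₂ e3 Z
            (fun χ h => hBF' χ (Finset.mem_filter.mp h).1) ?_ (fun _ => 1)
          · intro χ hχ m hm
            obtain ⟨hχB, hχ0⟩ := Finset.mem_filter.mp hχ
            rw [not_not] at hχ0
            have hh : 1 ≤ blockHeight p B (χ : G → ℂ) := by
              by_contra hcon
              exact hz χ hχB (by omega) hχ0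
            -- Galois conjugates
            have hxN' : x' ^ Nat.card G = 1 := by
              apply Subtype.ext
              exact pow_card_eq_one'
            have hg1 := gal_acG (C := C) hN (irr_isChar χ.2) hxc hxN' hΨ₁.1
            have h0m : ac C (x ^ m) (χ : G → ℂ) Ψ₁ = 0 := by
              apply (gs_ne_zero hN hg1 hm).mpr
              change ac C (x ^ 1) (χ : G → ℂ) Ψ₁ = 0
              rw [pow_one]; exact hχ0
            have hmc : m.Coprime (orderOf x) :=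
              Nat.Coprime.coprime_dvd_right (orderOf_dvd_natCard x) (mem_cop.mp hm).2
            have hCm : C = Subgroup.centralizer ({x ^ m} : Set G) := by rw [pow_cent_eq hmc, hC]
            have hxm : ∃ k : ℕ, orderOf (x ^ m) = p ^ k := by
              obtain ⟨k, hk⟩ := hx
              exact ⟨k, by rw [← hk]; exact hmc.symm.orderOf_pow⟩
            have hγ' : (γ : ℂ) = (p : ℂ) ^ d := by rw [hγ]; push_cast; rfl
            have hα' : (α : ℂ) = (p : ℂ) ^ s := by rw [hαs]; push_cast; rfl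
            have hl1 := lr_cn_height hM hxm hCm hb (B := B) (ψ := ψ) (hBF' χ hχB)
            rw [cn_orth (x ^ m) (χ : G → ℂ) (ψ : G → ℂ) hΨ₁ hΨ₂ hsp hα hγpos e1 e2c e3, h0m,
              zero_mul, zero_div, zero_add, hγ', ← hdd,
              mul_div_cancel₀ _ (pow_ne_zero _ hp0)] at hl1
            -- unit
            have hu := cn_height_zero_unit hM hxm hCm hind hd hψ hψ0
            rw [cn_orth (x ^ m) (ψ : G → ℂ) (ψ : G → ℂ) hΨ₁ hΨ₂ hsp hα hγpos e1 e2c e3, hγ', hα',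
              ← hdd] at hu
            have hgψ1 := gal_acG (C := C) hN (irr_isChar ψ.2) hxc hxN' hΨ₁.1
            have hgψ2 := gal_acG (C := C) hN (irr_isChar ψ.2) hxc hxN' hΨ₂.1
            have l1 : MemLocalRing M (ac C (x ^ m) (ψ : G → ℂ) Ψ₁) := gs_lr hN hgψ1 m
            have l2 : MemLocalRing M (ac C (x ^ m) (ψ : G → ℂ) Ψ₂) := gs_lr hN hgψ2 m
            have l1' : MemLocalRing M (conj (ac C (x ^ m) (ψ : G → ℂ) Ψ₁)) :=
              gs_lr hN (isGalSeq_conj hN hgψ1) m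
            have l2' : MemLocalRing M (conj (ac C (x ^ m) (ψ : G → ℂ) Ψ₂)) :=
              gs_lr hN (isGalSeq_conj hN hgψ2) m
            have hu2 : ¬ MemLocalIdeal M (conj (ac C (x ^ m) (ψ : G → ℂ) Ψ₂)) := by
              intro hli
              apply hu
              have e : (p : ℂ) ^ d * (ac C (x ^ m) (ψ : G → ℂ) Ψ₁ *
                  conj (ac C (x ^ m) (ψ : G → ℂ) Ψ₁) / (p : ℂ) ^ s +
                  ac C (x ^ m) (ψ : G → ℂ) Ψ₂ * conj (ac C (x ^ m) (ψ : G → ℂ) Ψ₂) /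
                    (p : ℂ) ^ d) =
                  (p : ℂ) ^ (d - s - 1) * (ac C (x ^ m) (ψ : G → ℂ) Ψ₁ *
                  conj (ac C (x ^ m) (ψ : G → ℂ) Ψ₁)) * (p : ℂ) +
                  ac C (x ^ m) (ψ : G → ℂ) Ψ₂ * conj (ac C (x ^ m) (ψ : G → ℂ) Ψ₂) := by
                have h7 : (p : ℂ) ^ d = (p : ℂ) ^ (d - s - 1) * (p : ℂ) ^ s * (p : ℂ) := by
                  rw [← pow_add, ← pow_succ]; congr 1; omega
                have h8 : (p : ℂ) ^ d ≠ 0 := pow_ne_zero _ hp0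
                have h9 : (p : ℂ) ^ s ≠ 0 := pow_ne_zero _ hp0
                rw [mul_add, mul_div_cancel₀ _ h8]
                congr 1
                rw [h7]
                field_simp
              rw [e]
              apply li_add
              · exact li_mul_left (lr_mul (lr_pow (lr_natCast M p) _) (lr_mul l1 l1')) (li_p hM)
              · exact li_mul_left l2 hli
            have h10 := lr_div (x := ac C (x ^ m) (χ : G → ℂ) Ψ₂ *
              conj (ac C (x ^ m) (ψ : G → ℂ) Ψ₂) / (p : ℂ) ^ blockHeight p B (χ : G → ℂ)) hl1 l2'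
              hu2
            have hne := ne_zero_of_not_li hu2
            have h11 := lr_mul h10 (lr_pow (lr_natCast M p)
              (blockHeight p B (χ : G → ℂ) - 1))
            have e : ac C (x ^ m) (χ : G → ℂ) Ψ₂ *
              conj (ac C (x ^ m) (ψ : G → ℂ) Ψ₂) / (p : ℂ) ^ blockHeight p B (χ : G → ℂ) /
              conj (ac C (x ^ m) (ψ : G → ℂ) Ψ₂) * (p : ℂ) ^
                (blockHeight p B (χ : G → ℂ) - 1) = ac C (x ^ m) (χ : G → ℂ) Ψ₂ / (p : ℂ) ^ 1 := by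
              obtain ⟨h, hh'⟩ : ∃ h, blockHeight p B (χ : G → ℂ) = h + 1 := ⟨_, (Nat.sub_add_cancel
                hh).symm⟩
              rw [hh', Nat.add_sub_cancel, pow_succ]
              have h12 : (p : ℂ) ^ h ≠ 0 := pow_ne_zero _ hp0
              field_simp
            rw [e] at h11
            exact h11
          · intro χ hχ h1
            obtain ⟨hχB, hχ0⟩ := Finset.mem_filter.mp hχ
            rw [not_not] at hχ0
            exact hnz χ hχB hχ0 h1
        rw [Finset.sum_const, nsmul_eq_mul] at c3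
        have hp4 : (4 : ℤ) ≤ (p : ℤ) ^ (2 * 1) := by
          have h1 : 2 ^ 2 ≤ p ^ 2 := Nat.pow_le_pow_left hp2 2
          exact_mod_cast h1
        have c4 : (Z.card : ℤ) * 4 ≤ γ := by
          have h1 : (Z.card : ℤ) * 4 ≤ (Z.card : ℤ) * (p : ℤ) ^ (2 * 1) := by
            apply mul_le_mul_of_nonneg_left hp4; positivity
          linarith
        rw [← hγ] at hαd ⊢
        have h0 : (0 : ℤ) ≤ (Z.card : ℤ) := by positivity
        rw [c2]
        linarith
      · push Not at hK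
        have c2 : (BF.card : ℤ) ≤ γ := card_ac_le0 hM hB hx hC hind hΨ₂ e3 BF
          (fun χ h => hBF' χ h) (fun χ h => hK χ h)
        rw [← hγ]; exact c2

theorem major_two (hM : IsPModular p M) {B : Set (IrrCharacter G)} (hB : IsPBlock M B) {x : G}
    (hx : ∃ k : ℕ, orderOf x = p ^ k) (hC : C = Subgroup.centralizer ({x} : Set G))
    (hind : IsInducedBlock M C b B) (hd : blockDefect p b = blockDefect p B)
    (hl : blockRank p b ≤ 2) : Nat.card B ≤ p ^ blockDefect p B := by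
  by_cases h2 : blockRank p b = 2
  · exact major_two_aux hM hB hx hC hind hd h2
  · have h1 : blockRank p b ≤ 1 := by omega
    have h3 := card_le_rank hM hB hx hC hind hd
    have h4 : (blockRank p b : ℝ) ≤ 1 := by exact_mod_cast h1
    have h5 : (0 : ℝ) ≤ (p : ℝ) ^ blockDefect p B := by positivity
    have h6 : (Nat.card B : ℝ) ≤ (p : ℝ) ^ blockDefect p B := by nlinarith
    exact_mod_cast h6

end Main

end Cfsg.Agent.H26
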