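import Mathlib
import Cfsg.Agent.H26.Av1
import Cfsg.Agent.H26.Gd5

set_option autoImplicit false

/-!
# Averaged contributions of major subsections of `2`-blocks
-/

namespace Cfsg.Agent.H26

open Cfsg Cfsg.Agent.H3 Cfsg.Agent.H11 Cfsg.Agent.H27 Finset
open scoped ComplexConjugate

universe u

section Cross

variable {G : Type u} [Group G] [Fintype G] {p : ℕ} [hp : Fact p.Prime] {M : Ideal AlgInt}
  {x : G} {C : Subgroup G} [Fintype C]

/-- Congruence of contributions in the first argument. -/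
theorem li_cn_cross (hM : IsPModular p M) (hx : ∃ k : ℕ, orderOf x = p ^ k)
    (hC : C = Subgroup.centralizer ({x} : Set G)) {b : Set (IrrCharacter C)}
    (hb : IsPBlock M b) {B : Set (IrrCharacter G)} (hB : IsPBlock M B) {χ ψ η : IrrCharacter G}
    (hχ : χ ∈ B) (hψ : ψ ∈ B) : ∃ v : ℂ, MemLocalRing M v ∧
    MemLocalIdeal M ((p : ℂ) ^ blockDefect p B * cn p C x b (χ : G → ℂ) (η : G → ℂ) /
      (p : ℂ) ^ blockHeight p B (χ : G → ℂ) -
      v * ((p : ℂ) ^ blockDefect p B * cn p C x b (ψ : G → ℂ) (η : G → ℂ) /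
      (p : ℂ) ^ blockHeight p B (ψ : G → ℂ))) := by
  have hpr := hM.2.1.isPrime
  have hp0 : (p : ℂ) ≠ 0 := by exact_mod_cast hM.1.ne_zero
  obtain ⟨Z, hZ, hZo⟩ := exists_zsec hM hx hC hb (irr_isChar η.2)
  have h1 := li_omega_sub hZ (irr_classFun χ.2) (irr_classFun ψ.2)
    (isPBlock_sameBlock hB hχ hψ)
  rw [hZo, hZo] at h1
  have h2 := lr_pPart_div_card hM (n := Nat.card G) Nat.card_pos.ne'
  obtain ⟨u, hu0, hu, hdeg⟩ := degree_eq hM hχ
  obtain ⟨u', hu0', hu', hdeg'⟩ := degree_eq hM hψ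
  obtain ⟨-, hle⟩ := fact_degree hM hχ
  have h4 : (Nat.card G : ℂ) ≠ 0 := card_ne_zeroC
  have hu1 : (u : ℂ) ≠ 0 := by exact_mod_cast hu0
  have hu1' : (u' : ℂ) ≠ 0 := by exact_mod_cast hu0'
  have h6 : (p : ℂ) ^ (Nat.card G).factorization p =
      (p : ℂ) ^ ((Nat.card G).factorization p - blockDefect p B) *
        (p : ℂ) ^ blockDefect p B := by
    rw [← pow_add]; congr 1; omega
  have h7 : (p : ℂ) ^ ((Nat.card G).factorization p - blockDefect p B) ≠ 0 :=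
    pow_ne_zero _ hp0
  refine ⟨(u : ℂ) / u', lr_div (lr_natCast M u) (lr_natCast M u')
    (fun h => hu' ((li_natCast_iff hM _).mp h)), ?_⟩
  have h3 := li_mul_right (li_mul_left h2 h1) (lr_natCast M u)
  have h5 : (p : ℂ) ^ (Nat.card G).factorization p / (Nat.card G : ℂ)
      * ((Nat.card G : ℂ) * cn p C x b (χ : G → ℂ) (η : G → ℂ) / (χ : G → ℂ) 1 -
        (Nat.card G : ℂ) * cn p C x b (ψ : G → ℂ) (η : G → ℂ) / (ψ : G → ℂ) 1) * (u : ℂ)
      = (p : ℂ) ^ blockDefect p B * cn p C x b (χ : G → ℂ) (η : G → ℂ) /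
      (p : ℂ) ^ blockHeight p B (χ : G → ℂ) -
      (u : ℂ) / u' * ((p : ℂ) ^ blockDefect p B * cn p C x b (ψ : G → ℂ) (η : G → ℂ) /
      (p : ℂ) ^ blockHeight p B (ψ : G → ℂ)) := by
    rw [(charDegree_spec χ.2).1, hdeg, (charDegree_spec ψ.2).1, hdeg', h6]
    push_cast
    have h8 : (p : ℂ) ^ blockHeight p B (χ : G → ℂ) ≠ 0 := pow_ne_zero _ hp0
    have h9 : (p : ℂ) ^ blockHeight p B (ψ : G → ℂ) ≠ 0 := pow_ne_zero _ hp0
    field_simp
  rwa [h5] at h3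

end Cross

section Two

variable {G : Type u} [Group G] [Fintype G] {M : Ideal AlgInt}
  {C : Subgroup G} [Fintype C] {b : Set (IrrCharacter C)}

instance fact_two' : Fact (Nat.Prime 2) := ⟨Nat.prime_two⟩

/-- The data of averaged contributions. -/
theorem exists_avg (hM : IsPModular 2 M) {B : Set (IrrCharacter G)} (hB : IsPBlock M B) {x : G}
    (hx : ∃ k : ℕ, orderOf x = 2 ^ k) (hC : C = Subgroup.centralizer ({x} : Set G))
    (hind : IsInducedBlock M C b B) (hd : blockDefect 2 b = blockDefect 2 B)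
    [Fintype (IrrCharacter G)] [DecidablePred (· ∈ B)] :
    ∃ k : IrrCharacter G → ℤ,
      (∀ χ ∈ B, 0 < k χ) ∧
      (∀ χ ∈ B, blockHeight 2 B (χ : G → ℂ) = 0 → ¬ (2 : ℤ) ∣ k χ) ∧
      (∀ χ ∈ B, blockHeight 2 B (χ : G → ℂ) ≠ 0 → (2 : ℤ) ∣ k χ) ∧
      (∀ χ ∈ B, 2 ^ blockHeight 2 B (χ : G → ℂ) * k χ ≤ 2 ^ blockDefect 2 B) ∧
      (∑ χ : IrrCharacter G with χ ∈ B, 2 ^ blockHeight 2 B (χ : G → ℂ) * k χ =
        2 ^ blockDefect 2 B * (blockRank 2 b : ℤ)) ∧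
      (∀ χ ∈ B, blockHeight 2 B (χ : G → ℂ) = 0 →
        ∑ ψ : IrrCharacter G with ψ ∈ B, (4 : ℤ) ^ blockHeight 2 B (ψ : G → ℂ) ≤
          2 ^ blockDefect 2 B * k χ) ∧
      (∀ χ ∈ B, blockHeight 2 B (χ : G → ℂ) = 0 → blockDefect 2 B ≠ 0 →
        ((univ.filter (fun ψ : IrrCharacter G => ψ ∈ B)).card : ℤ) ≤
          2 ^ blockDefect 2 B * (2 ^ blockDefect 2 B - k χ)) ∧
      (∀ χ ∈ B, blockHeight 2 B (χ : G → ℂ) ≠ 0 →
        2 ^ blockHeight 2 B (χ : G → ℂ) * k χ ≠ 2 ^ blockDefect 2 B) := by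
  classical
  have hpr := hM.2.1.isPrime
  obtain ⟨n, hn⟩ := hx
  have hx' : ∃ k : ℕ, orderOf x = 2 ^ k := ⟨n, hn⟩
  set N := 2 ^ (n + 1) with hNd
  have hN : N ≠ 0 := by positivity
  have hxN : x ^ N = 1 := by
    rw [hNd, pow_succ, pow_mul, ← hn, pow_orderOf_eq_one, one_pow]
  have h1N : 1 ∈ cop N := by
    rw [mem_cop]
    refine ⟨?_, Nat.coprime_one_left _⟩
    rw [hNd]; exact Nat.one_lt_two_pow (by omega)
  have hcard : (0 : ℝ) < ((cop N).card : ℝ) := by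
    exact_mod_cast Finset.card_pos.mpr ⟨1, h1N⟩
  have hcardC : ((cop N).card : ℂ) ≠ 0 := by
    exact_mod_cast (Finset.card_pos.mpr ⟨1, h1N⟩).ne'
  have hxC : x ∈ C := by rw [hC]; exact Subgroup.mem_centralizer_singleton_iff.mpr rfl
  set x' : C := ⟨x, hxC⟩ with hx'd
  have hxc : ∀ c, x' * c = c * x' := fun c => by
    have h : (c : G) ∈ Subgroup.centralizer ({x} : Set G) := hC ▸ c.2
    exact Subtype.ext (Subgroup.mem_centralizer_singleton_iff.mp h).symm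
  have hxN' : x' ^ N = 1 := Subtype.ext hxN
  have hmc : ∀ m ∈ cop N, m.Coprime (orderOf x) := fun m hm => by
    rw [hn]
    exact Nat.Coprime.coprime_dvd_right (pow_dvd_pow 2 (Nat.le_succ n)) (mem_cop.mp hm).2
  have hCm : ∀ m ∈ cop N, C = Subgroup.centralizer ({x ^ m} : Set G) := fun m hm => by
    rw [pow_cent_eq (hmc m hm), hC]
  have hxm : ∀ m ∈ cop N, ∃ k : ℕ, orderOf (x ^ m) = 2 ^ k := fun m hm => by
    exact ⟨n, by rw [← hn]; exact (hmc m hm).symm.orderOf_pow⟩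
  set d := blockDefect 2 B with hdd
  have h20 : ((2 : ℕ) : ℂ) ≠ 0 := by norm_num
  set a : IrrCharacter G → IrrCharacter G → ℕ → ℂ := fun χ ψ m =>
    ((2 : ℕ) : ℂ) ^ d * cn 2 C (x ^ m) b (χ : G → ℂ) (ψ : G → ℂ) with ha
  have hgal : ∀ χ ψ, IsGalSeq N (a χ ψ) := by
    intro χ ψ
    have := gal_cn hM hind.1 hN (irr_isChar χ.2) (irr_isChar ψ.2) hxc hxN'
    rw [hd] at this
    exact this
  have hconj : ∀ χ ψ m, conj (a χ ψ m) = a ψ χ m := by
    intro χ ψ m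
    simp only [ha]
    rw [map_mul, map_pow, Complex.conj_natCast, cn_conj]
  have hR : ∀ χ : IrrCharacter G, ∀ m, ∃ r : ℝ, 0 ≤ r ∧ a χ χ m = (r : ℂ) := by
    intro χ m
    obtain ⟨r, hr, hr'⟩ := cn_self_real (p := 2) (x ^ m) b (χ : G → ℂ)
    refine ⟨2 ^ d * r, by positivity, ?_⟩
    simp only [ha]
    rw [hr']; push_cast; rfl
  choose R hR0 hRa using hR
  have hlr : ∀ χ ∈ B, ∀ ψ : IrrCharacter G, ∀ m ∈ cop N,
      MemLocalRing M (a χ ψ m / ((2 : ℕ) : ℂ) ^ blockHeight 2 B (χ : G → ℂ)) := by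
    intro χ hχ ψ m hm
    exact lr_cn_height hM (hxm m hm) (hCm m hm) hind.1 (B := B) (ψ := ψ) hχ
  have hne : ∀ χ ∈ B, ∀ ψ ∈ B, blockHeight 2 B (ψ : G → ℂ) = 0 → a χ ψ 1 ≠ 0 := by
    intro χ hχ ψ hψ hψ0
    simp only [ha]
    rw [pow_one]
    exact mul_ne_zero (pow_ne_zero _ h20)
      (cn_height_zero_ne hM hx' hC hB hind hd hχ hψ hψ0)
  have hself : ∀ χ ∈ B, a χ χ 1 ≠ 0 := by
    intro χ hχ
    simp only [ha]
    rw [pow_one]
    exact mul_ne_zero (pow_ne_zero _ h20) (cn_self_ne_zero hM hx' hC hB hind hd hχ)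
  have hunit : ∀ χ ∈ B, blockHeight 2 B (χ : G → ℂ) = 0 → ¬ MemLocalIdeal M (a χ χ 1) := by
    intro χ hχ h0
    have := cn_height_zero_unit hM hx' hC hind hd hχ h0
    simp only [ha]
    rw [pow_one]
    exact this
  have hli : ∀ χ ∈ B, blockHeight 2 B (χ : G → ℂ) ≠ 0 →
      MemLocalIdeal M (a χ χ 1 / ((2 : ℕ) : ℂ) ^ blockHeight 2 B (χ : G → ℂ)) := by
    intro χ hχ h0
    obtain ⟨ψ₀, hψ₀, hψ0⟩ := exists_height_zero hM hB
    obtain ⟨v, hv, h1⟩ := li_cn_cross hM hx' hC hind.1 hB (η := χ) hχ hψ₀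
    rw [hψ0, pow_zero, div_one] at h1
    have h2 : IsIntegral ℤ (a χ ψ₀ 1 / ((2 : ℕ) : ℂ) ^ blockHeight 2 B (χ : G → ℂ)) :=
      IsGalSeq.integral_div hM (hgal χ ψ₀) hN _ (hlr χ hχ ψ₀)
    have h3 : IsIntegral ℤ (conj (a χ ψ₀ 1 / ((2 : ℕ) : ℂ) ^ blockHeight 2 B (χ : G → ℂ))) :=
      h2.map ((starRingEnd ℂ).toIntAlgHom)
    rw [map_div₀, hconj, map_pow, Complex.conj_natCast] at h3
    have h4 : MemLocalIdeal M (a ψ₀ χ 1) := by
      have h5 : a ψ₀ χ 1 = (((2 : ℕ) : ℂ) ^ (blockHeight 2 B (χ : G → ℂ) - 1) *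
          (a ψ₀ χ 1 / ((2 : ℕ) : ℂ) ^ blockHeight 2 B (χ : G → ℂ))) * ((2 : ℕ) : ℂ) := by
        obtain ⟨h, hh⟩ : ∃ h, blockHeight 2 B (χ : G → ℂ) = h + 1 :=
          ⟨_, (Nat.succ_pred_eq_of_ne_zero h0).symm⟩
        rw [hh, Nat.add_sub_cancel, pow_succ]
        field_simp
      rw [h5]
      exact li_mul_left (lr_mul (lr_pow (lr_natCast M 2) _) (lr_int h3)) (li_p hM)
    have h5 : a ψ₀ χ 1 = ((2 : ℕ) : ℂ) ^ blockDefect 2 B *
        cn 2 C x b (ψ₀ : G → ℂ) (χ : G → ℂ) := by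
      simp only [ha]; rw [pow_one]
    have h6 : a χ χ 1 = ((2 : ℕ) : ℂ) ^ blockDefect 2 B *
        cn 2 C x b (χ : G → ℂ) (χ : G → ℂ) := by
      simp only [ha]; rw [pow_one]
    rw [← h5, ← h6] at h1
    exact (li_congr h1).mpr (li_mul_left hv h4)
  -- the averages
  have hav : ∀ χ : IrrCharacter G, ∃ k : ℤ, χ ∈ B → (∑ m ∈ cop N, a χ χ m =
      ((cop N).card : ℂ) * ((2 : ℂ) ^ blockHeight 2 B (χ : G → ℂ) * k) ∧
      MemLocalIdeal M (a χ χ 1 / (2 : ℂ) ^ blockHeight 2 B (χ : G → ℂ) - k)) := by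
    intro χ
    by_cases hχ : χ ∈ B
    · obtain ⟨k, hk⟩ := avg_two hM (hgal χ χ) (hconj χ χ 1) (blockHeight 2 B (χ : G → ℂ))
        (fun m hm => by simpa using hlr χ hχ χ m hm)
      exact ⟨k, fun _ => hk⟩
    · exact ⟨0, fun h => absurd h hχ⟩
  choose k hk using hav
  have hkR : ∀ χ ∈ B, ∑ m ∈ cop N, R χ m =
      ((cop N).card : ℝ) * ((2 : ℝ) ^ blockHeight 2 B (χ : G → ℂ) * k χ) := by
    intro χ hχ
    have h1 := (hk χ hχ).1
    rw [Finset.sum_congr rfl (fun m _ => hRa χ m)] at h1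
    exact_mod_cast h1
  have hrow : ∀ χ : IrrCharacter G, ∀ m ∈ cop N,
      ∑ ψ : IrrCharacter G with ψ ∈ B, ‖a ψ χ m‖ ^ 2 = 2 ^ d * R χ m := by
    intro χ m hm
    have h1 := cn_mul hM hB (hxm m hm) (hCm m hm) hind (χ : G → ℂ) (χ : G → ℂ)
    have h2 : ((∑ ψ : IrrCharacter G with ψ ∈ B, ‖a ψ χ m‖ ^ 2 : ℝ) : ℂ) =
        ((2 ^ d * R χ m : ℝ) : ℂ) := by
      push_cast
      rw [← hRa]
      have h3 : ∀ ψ : IrrCharacter G, ((‖a ψ χ m‖ : ℂ)) ^ 2 = (2 : ℂ) ^ d * ((2 : ℂ) ^ d *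
          (cn 2 C (x ^ m) b (χ : G → ℂ) (ψ : G → ℂ) * cn 2 C (x ^ m) b (ψ : G → ℂ)
            (χ : G → ℂ))) := by
        intro ψ
        have h4 : ((‖a ψ χ m‖ : ℂ)) ^ 2 = a ψ χ m * conj (a ψ χ m) := by
          rw [Complex.mul_conj, Complex.normSq_eq_norm_sq]; push_cast; rfl
        rw [h4, hconj]
        simp only [ha]
        push_cast
        ring
      rw [Finset.sum_congr rfl (fun ψ _ => h3 ψ), ← Finset.mul_sum, ← Finset.mul_sum, h1]
      simp only [ha]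
      push_cast; rfl
    exact_mod_cast h2
  have hRle : ∀ χ ∈ B, ∀ m ∈ cop N, R χ m ≤ 2 ^ d := by
    intro χ hχ m hm
    have h1 := hrow χ m hm
    have h2 : ‖a χ χ m‖ ^ 2 ≤ ∑ ψ : IrrCharacter G with ψ ∈ B, ‖a ψ χ m‖ ^ 2 :=
      Finset.single_le_sum (f := fun ψ => ‖a ψ χ m‖ ^ 2) (fun ψ _ => by positivity)
        (Finset.mem_filter.mpr ⟨Finset.mem_univ _, hχ⟩)
    rw [h1, hRa, Complex.norm_real, Real.norm_eq_abs, sq_abs] at h2
    rcases eq_or_lt_of_le (hR0 χ m) with h3 | h3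
    · rw [← h3]; positivity
    · have h4 : R χ m * R χ m ≤ 2 ^ d * R χ m := by rw [← sq]; exact h2
      exact le_of_mul_le_mul_right h4 h3
  have hR1pos : ∀ χ ∈ B, 0 < R χ 1 := by
    intro χ hχ
    rcases eq_or_lt_of_le (hR0 χ 1) with h3 | h3
    · exfalso; apply hself χ hχ; rw [hRa, ← h3]; simp
    · exact h3
  have hkpos : ∀ χ ∈ B, 0 < k χ := by
    intro χ hχ
    have h1 : 0 < ∑ m ∈ cop N, R χ m :=
      Finset.sum_pos' (fun m _ => hR0 χ m) ⟨1, h1N, hR1pos χ hχ⟩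
    rw [hkR χ hχ] at h1
    have h2 : (0 : ℝ) < (2 : ℝ) ^ blockHeight 2 B (χ : G → ℂ) * k χ := by
      by_contra h; push Not at h; nlinarith
    have h3 : (0 : ℝ) < (2 : ℝ) ^ blockHeight 2 B (χ : G → ℂ) := by positivity
    have h4 : (0 : ℝ) < (k χ : ℝ) := by
      by_contra h; push Not at h; nlinarith
    exact_mod_cast h4
  have hbd : ∀ χ ∈ B, 2 ^ blockHeight 2 B (χ : G → ℂ) * k χ ≤ 2 ^ d := by
    intro χ hχ
    have h1 : ∑ m ∈ cop N, R χ m ≤ ∑ m ∈ cop N, (2 : ℝ) ^ d :=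
      Finset.sum_le_sum (hRle χ hχ)
    rw [hkR χ hχ, Finset.sum_const, nsmul_eq_mul] at h1
    have h2 := le_of_mul_le_mul_left h1 hcard
    exact_mod_cast h2
  refine ⟨k, hkpos, ?_, ?_, hbd, ?_, ?_, ?_, ?_⟩
  · intro χ hχ h0 h2
    have h1 := (hk χ hχ).2
    rw [h0, pow_zero, div_one] at h1
    exact hunit χ hχ h0 ((li_congr h1).mpr ((li_intCast_iff hM _).mpr (by exact_mod_cast h2)))
  · intro χ hχ h0
    have h1 := (hk χ hχ).2
    have h2 := hli χ hχ h0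
    have h3 : MemLocalIdeal M (k χ : ℂ) := by
      apply (li_congr h1).mp
      simpa using h2
    exact_mod_cast (li_intCast_iff hM _).mp h3
  · -- trace
    have h1 : ∀ m ∈ cop N, ∑ χ : IrrCharacter G with χ ∈ B, R χ m =
        2 ^ d * (blockRank 2 b : ℝ) := by
      intro m hm
      have h2 := cn_trace hM hB (hxm m hm) (hCm m hm) hind
      have h3 : ((∑ χ : IrrCharacter G with χ ∈ B, R χ m : ℝ) : ℂ) =
          ((2 ^ d * (blockRank 2 b : ℝ) : ℝ) : ℂ) := by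
        push_cast
        rw [← h2, Finset.mul_sum]
        apply Finset.sum_congr rfl
        intro χ _
        rw [← hRa]
        simp only [ha]
        push_cast; rfl
      exact_mod_cast h3
    have h2 : ∑ χ : IrrCharacter G with χ ∈ B, ∑ m ∈ cop N, R χ m =
        ((cop N).card : ℝ) * (2 ^ d * (blockRank 2 b : ℝ)) := by
      rw [Finset.sum_comm, Finset.sum_congr rfl h1, Finset.sum_const, nsmul_eq_mul]
    rw [Finset.sum_congr rfl (fun χ hχ => hkR χ (Finset.mem_filter.mp hχ).2),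
      ← Finset.mul_sum] at h2
    have h3 := mul_left_cancel₀ hcard.ne' h2
    exact_mod_cast h3
  · intro χ hχ h0
    have h1 : ∀ ψ ∈ univ.filter (fun ψ : IrrCharacter G => ψ ∈ B),
        ((cop N).card : ℝ) * (4 : ℝ) ^ blockHeight 2 B (ψ : G → ℂ) ≤
          ∑ m ∈ cop N, ‖a ψ χ m‖ ^ 2 := by
      intro ψ hψ
      have hψ' := (Finset.mem_filter.mp hψ).2
      have h2 := gal_avg hM hN (hgal ψ χ) (hne ψ hψ' χ hχ h0)
        (blockHeight 2 B (ψ : G → ℂ)) (hlr ψ hψ' χ)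
      rw [pow_mul] at h2
      norm_num at h2
      exact h2
    have h2 := Finset.sum_le_sum h1
    rw [Finset.sum_comm, Finset.sum_congr rfl (fun m hm => hrow χ m hm), ← Finset.mul_sum,
      ← Finset.mul_sum, hkR χ hχ, h0, pow_zero, one_mul, mul_left_comm] at h2
    have h3 := le_of_mul_le_mul_left h2 hcard
    exact_mod_cast h3
  · intro χ hχ h0 hd0
    set A : IrrCharacter G → ℕ → ℂ := fun ψ m =>
      if ψ = χ then (((2 ^ d : ℕ) : ℤ) : ℂ) + ((-1 : ℤ) : ℂ) * a χ χ m else a ψ χ m with hA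
    have hAgal : ∀ ψ, IsGalSeq N (A ψ) := by
      intro ψ
      by_cases h : ψ = χ
      · have : A ψ = fun m => (((2 ^ d : ℕ) : ℤ) : ℂ) + ((-1 : ℤ) : ℂ) * a χ χ m := by
          funext m; simp only [hA]; rw [if_pos h]
        rw [this]
        exact (IsGalSeq.intCast _).add ((IsGalSeq.intCast _).mul (hgal χ χ))
      · have : A ψ = a ψ χ := by
          funext m; simp only [hA]; rw [if_neg h]
        rw [this]
        exact hgal ψ χ
    have hA1 : ∀ ψ ∈ B, A ψ 1 ≠ 0 := by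
      intro ψ hψ
      by_cases h : ψ = χ
      · simp only [hA]
        rw [if_pos h]
        intro h1
        apply hunit χ hχ h0
        have h2 : a χ χ 1 = ((2 : ℕ) : ℂ) ^ (d - 1) * ((2 : ℕ) : ℂ) := by
          have h3 : a χ χ 1 = ((2 : ℕ) : ℂ) ^ d := by
            push_cast at h1 ⊢
            linear_combination -h1
          rw [h3, ← pow_succ, Nat.sub_add_cancel (Nat.pos_of_ne_zero hd0)]
        rw [h2]
        exact li_mul_left (lr_pow (lr_natCast M 2) _) (li_p hM)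
      · simp only [hA]
        rw [if_neg h]
        exact hne ψ hψ χ hχ h0
    have h1 : ∀ ψ ∈ univ.filter (fun ψ : IrrCharacter G => ψ ∈ B),
        ((cop N).card : ℝ) ≤ ∑ m ∈ cop N, ‖A ψ m‖ ^ 2 := fun ψ hψ =>
      gal_avg0 hN (hAgal ψ) (hA1 ψ (Finset.mem_filter.mp hψ).2)
    have h2 := Finset.sum_le_sum h1
    have h3 : ∀ m ∈ cop N, ∑ ψ : IrrCharacter G with ψ ∈ B, ‖A ψ m‖ ^ 2 =
        2 ^ d * (2 ^ d - R χ m) := by
      intro m hm
      have h4 : ∀ ψ : IrrCharacter G, ‖A ψ m‖ ^ 2 = ‖a ψ χ m‖ ^ 2 +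
          if ψ = χ then ((2 ^ d - R χ m) ^ 2 - R χ m ^ 2) else 0 := by
        intro ψ
        by_cases h : ψ = χ
        · simp only [hA]
          rw [if_pos h, if_pos h, h, hRa]
          have h5 : (((2 ^ d : ℕ) : ℤ) : ℂ) + ((-1 : ℤ) : ℂ) * (R χ m : ℂ) =
              ((2 ^ d - R χ m : ℝ) : ℂ) := by push_cast; ring
          rw [h5, Complex.norm_real, Complex.norm_real, Real.norm_eq_abs, Real.norm_eq_abs,
            sq_abs, sq_abs]
          ring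
        · simp only [hA]
          rw [if_neg h, if_neg h, add_zero]
      rw [Finset.sum_congr rfl (fun ψ _ => h4 ψ), Finset.sum_add_distrib, hrow χ m hm,
        Finset.sum_ite_eq', if_pos (Finset.mem_filter.mpr ⟨Finset.mem_univ _, hχ⟩)]
      ring
    rw [Finset.sum_comm, Finset.sum_congr rfl h3, Finset.sum_const, nsmul_eq_mul,
      ← Finset.mul_sum, Finset.sum_sub_distrib, hkR χ hχ, h0, pow_zero, one_mul,
      Finset.sum_const, nsmul_eq_mul, ← mul_sub, mul_left_comm, mul_comm] at h2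
    have h5 := le_of_mul_le_mul_left h2 hcard
    exact_mod_cast h5
  · intro χ hχ h0 heq
    obtain ⟨ψ₀, hψ₀, hψ0⟩ := exists_height_zero hM hB
    have hneq : ψ₀ ≠ χ := by
      rintro rfl; exact h0 hψ0
    -- all values are maximal
    have h1 : ∑ m ∈ cop N, ((2 : ℝ) ^ d - R χ m) = 0 := by
      rw [Finset.sum_sub_distrib, hkR χ hχ, Finset.sum_const, nsmul_eq_mul]
      have h2 : (2 : ℝ) ^ blockHeight 2 B (χ : G → ℂ) * k χ = 2 ^ d := by exact_mod_cast heq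
      rw [h2, sub_self]
    have h2 := (Finset.sum_eq_zero_iff_of_nonneg (fun m hm =>
      sub_nonneg.mpr (hRle χ hχ m hm))).mp h1 1 h1N
    have h3 := hrow χ 1 h1N
    have h4 : R χ 1 = 2 ^ d := by linarith
    have hne' : ψ₀ ≠ χ := hneq
    have h5 : ‖a χ χ 1‖ ^ 2 + ‖a ψ₀ χ 1‖ ^ 2 ≤
        ∑ ψ : IrrCharacter G with ψ ∈ B, ‖a ψ χ 1‖ ^ 2 := by
      rw [← Finset.sum_pair (f := fun ψ : IrrCharacter G => ‖a ψ χ 1‖ ^ 2) hneq.symm]
      apply Finset.sum_le_sum_of_subset_of_nonneg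
      · intro ψ hψ
        rw [Finset.mem_insert, Finset.mem_singleton] at hψ
        rcases hψ with rfl | rfl
        · exact Finset.mem_filter.mpr ⟨Finset.mem_univ _, hχ⟩
        · exact Finset.mem_filter.mpr ⟨Finset.mem_univ _, hψ₀⟩
      · intro ψ _ _; positivity
    rw [h3, hRa, h4, Complex.norm_real, Real.norm_eq_abs, sq_abs, ← sq] at h5
    have h6 : ‖a ψ₀ χ 1‖ ^ 2 ≤ 0 := by linarith
    have h7 : a ψ₀ χ 1 = 0 := by
      have : ‖a ψ₀ χ 1‖ = 0 := by nlinarith [norm_nonneg (a ψ₀ χ 1)]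
      exact norm_eq_zero.mp this
    have h8 : a χ ψ₀ 1 = 0 := by rw [← hconj, h7, map_zero]
    exact hne χ hχ ψ₀ hψ₀ hψ0 h8

end Two

end Cfsg.Agent.H26
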