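import Mathlib
import Cfsg.Agent.H26.Av2

set_option autoImplicit false

/-!
# Major subsections of `2`-blocks: final bounds
-/

namespace Cfsg.Agent.H26

open Cfsg Cfsg.Agent.H3 Cfsg.Agent.H11 Cfsg.Agent.H27 Finset
open scoped ComplexConjugate

universe u

variable {G : Type u} [Group G] [Fintype G] {M : Ideal AlgInt}
  {C : Subgroup G} [Fintype C] {b : Set (IrrCharacter C)}

theorem st4540 (hM : IsPModular 2 M) {B : Set (IrrCharacter G)} (hB : IsPBlock M B) {x : G}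
    (hx : ∃ k : ℕ, orderOf x = 2 ^ k) (hC : C = Subgroup.centralizer ({x} : Set G))
    (hind : IsInducedBlock M C b B) (hd : blockDefect 2 b = blockDefect 2 B)
    (hl : blockRank 2 b ≤ 3) :
    3 * Nat.card B ≤ 3 * Nat.card {χ : IrrCharacter G // χ ∈ B ∧
      blockHeight 2 B (χ : G → ℂ) = 0} + 2 * (∑ᶠ χ ∈ {χ : IrrCharacter G | χ ∈ B ∧
      1 ≤ blockHeight 2 B (χ : G → ℂ)}, 2 ^ blockHeight 2 B (χ : G → ℂ)) ∧
    3 * Nat.card {χ : IrrCharacter G // χ ∈ B ∧ blockHeight 2 B (χ : G → ℂ) = 0} +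
      2 * (∑ᶠ χ ∈ {χ : IrrCharacter G | χ ∈ B ∧ 1 ≤ blockHeight 2 B (χ : G → ℂ)},
      2 ^ blockHeight 2 B (χ : G → ℂ)) ≤ 3 * 2 ^ blockDefect 2 B := by
  classical
  have := Fintype.ofFinite (IrrCharacter G)
  obtain ⟨k, hk0, hkodd, hkev, hkbd, hktr, hkrow, -, -⟩ := exists_avg hM hB hx hC hind hd
  set BF : Finset (IrrCharacter G) := univ.filter (fun χ => χ ∈ B) with hBF
  set h : IrrCharacter G → ℕ := fun χ => blockHeight 2 B (χ : G → ℂ) with hh
  set Z := BF.filter (fun χ => h χ = 0) with hZ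
  set P := BF.filter (fun χ => ¬ h χ = 0) with hP
  have e1 : Nat.card B = BF.card := by
    rw [Nat.card_eq_fintype_card, Fintype.card_subtype]
  have e2 : Nat.card {χ : IrrCharacter G // χ ∈ B ∧ blockHeight 2 B (χ : G → ℂ) = 0} = Z.card := by
    rw [Nat.card_eq_fintype_card, Fintype.card_subtype, hZ, hBF, Finset.filter_filter]
  have e3 : ∑ᶠ χ ∈ {χ : IrrCharacter G | χ ∈ B ∧ 1 ≤ blockHeight 2 B (χ : G → ℂ)},
      2 ^ blockHeight 2 B (χ : G → ℂ) = ∑ χ ∈ P, 2 ^ h χ := by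
    rw [finsum_mem_irr]
    apply Finset.sum_congr
    · rw [hP, hBF, Finset.filter_filter]
      ext χ
      simp only [Finset.mem_filter, Set.mem_ofPred_eq, hh]
      constructor
      · rintro ⟨h1, h2, h3⟩; exact ⟨h1, h2, by omega⟩
      · rintro ⟨h1, h2, h3⟩; exact ⟨h1, h2, by omega⟩
    · intro χ _; rfl
  rw [e1, e2, e3]
  have hsplit : ∀ F : IrrCharacter G → ℤ, ∑ χ ∈ BF, F χ = ∑ χ ∈ Z, F χ + ∑ χ ∈ P, F χ :=
    fun F => (Finset.sum_filter_add_sum_filter_not BF _ F).symm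
  have hZB : ∀ χ ∈ Z, χ ∈ B ∧ h χ = 0 := fun χ hχ =>
    ⟨(Finset.mem_filter.mp (Finset.mem_filter.mp hχ).1).2, (Finset.mem_filter.mp hχ).2⟩
  have hPB : ∀ χ ∈ P, χ ∈ B ∧ h χ ≠ 0 := fun χ hχ =>
    ⟨(Finset.mem_filter.mp (Finset.mem_filter.mp hχ).1).2, (Finset.mem_filter.mp hχ).2⟩
  have hc : (BF.card : ℤ) = Z.card + P.card := by
    have := hsplit (fun _ => 1)
    simpa using this
  constructor
  · have h1 : ∀ χ ∈ P, (3 : ℤ) ≤ 2 * 2 ^ h χ := by
      intro χ hχ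
      obtain ⟨j, hj⟩ := Nat.exists_eq_succ_of_ne_zero (hPB χ hχ).2
      rw [hj, Nat.succ_eq_add_one, pow_succ]
      have : (1 : ℤ) ≤ 2 ^ j := one_le_pow₀ (by norm_num)
      linarith
    have h2 := Finset.sum_le_sum h1
    rw [Finset.sum_const, nsmul_eq_mul, ← Finset.mul_sum] at h2
    have h3 : (3 * BF.card : ℤ) ≤ 3 * Z.card + 2 * ∑ χ ∈ P, 2 ^ h χ := by linarith
    exact_mod_cast h3
  · have goal : (3 * Z.card + 2 * ∑ χ ∈ P, 2 ^ h χ : ℤ) ≤ 3 * 2 ^ blockDefect 2 B := by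
      by_cases hk1 : ∃ χ ∈ B, h χ = 0 ∧ k χ = 1
      · obtain ⟨χ, hχ, h0, hk1⟩ := hk1
        have h1 := hkrow χ hχ h0
        rw [hk1, mul_one] at h1
        have h2 := hsplit (fun ψ => (4 : ℤ) ^ h ψ)
        have h3 : ∑ ψ ∈ Z, (4 : ℤ) ^ h ψ = Z.card := by
          rw [Finset.sum_congr rfl (fun ψ hψ => by rw [(hZB ψ hψ).2, pow_zero])]; simp
        have h4 : ∑ χ ∈ P, (2 : ℤ) ^ h χ ≤ ∑ χ ∈ P, (4 : ℤ) ^ h χ := by
          apply Finset.sum_le_sum
          intro χ _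
          exact pow_le_pow_left₀ (by norm_num) (by norm_num) _
        have h5 : (0 : ℤ) ≤ ∑ χ ∈ P, (2 : ℤ) ^ h χ := Finset.sum_nonneg fun χ _ => by positivity
        have h6 : ∑ ψ ∈ BF, (4 : ℤ) ^ h ψ ≤ 2 ^ blockDefect 2 B := h1
        linarith
      · push Not at hk1
        have h1 : ∀ χ ∈ Z, (3 : ℤ) ≤ 2 ^ h χ * k χ := by
          intro χ hχ
          obtain ⟨hχB, h0⟩ := hZB χ hχ
          rw [h0, pow_zero, one_mul]
          have := hk0 χ hχB
          have := hkodd χ hχB h0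
          have := hk1 χ hχB h0
          omega
        have h2 : ∀ χ ∈ P, 2 * (2 : ℤ) ^ h χ ≤ 2 ^ h χ * k χ := by
          intro χ hχ
          obtain ⟨hχB, h0⟩ := hPB χ hχ
          have := hk0 χ hχB
          have := hkev χ hχB h0
          have h3 : (2 : ℤ) ≤ k χ := by omega
          have h4 : (0 : ℤ) < 2 ^ h χ := by positivity
          nlinarith
        have h3 := hsplit (fun χ => 2 ^ h χ * k χ)
        have h4 := Finset.sum_le_sum h1
        have h5 := Finset.sum_le_sum h2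
        rw [Finset.sum_const, nsmul_eq_mul] at h4
        rw [← Finset.mul_sum] at h5
        have h6 : ∑ χ ∈ BF, 2 ^ h χ * k χ = 2 ^ blockDefect 2 B * (blockRank 2 b : ℤ) := hktr
        have h7 : (blockRank 2 b : ℤ) ≤ 3 := by exact_mod_cast hl
        have h8 : (0 : ℤ) < 2 ^ blockDefect 2 B := by positivity
        nlinarith
    exact_mod_cast goal

theorem st4575 (hM : IsPModular 2 M) {B : Set (IrrCharacter G)} (hB : IsPBlock M B) {x : G}
    (hx : ∃ k : ℕ, orderOf x = 2 ^ k) (hC : C = Subgroup.centralizer ({x} : Set G))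
    (hind : IsInducedBlock M C b B) (hd : blockDefect 2 b = blockDefect 2 B)
    (hl : Nat.card B ≤ blockRank 2 b + 3) : Nat.card B ≤ 2 ^ blockDefect 2 B := by
  classical
  have := Fintype.ofFinite (IrrCharacter G)
  obtain ⟨k, hk0, hkodd, hkev, hkbd, hktr, hkrow, hkrow', hkne⟩ :=
    exists_avg hM hB hx hC hind hd
  set BF : Finset (IrrCharacter G) := univ.filter (fun χ => χ ∈ B) with hBF
  set h : IrrCharacter G → ℕ := fun χ => blockHeight 2 B (χ : G → ℂ) with hh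
  set d := blockDefect 2 B with hdd
  have e1 : Nat.card B = BF.card := by
    rw [Nat.card_eq_fintype_card, Fintype.card_subtype]
  rw [e1] at hl ⊢
  obtain ⟨χ₀, hχ₀, h0⟩ := exists_height_zero hM hB
  have hgoal : (BF.card : ℤ) ≤ 2 ^ d → BF.card ≤ 2 ^ d := fun h => by exact_mod_cast h
  apply hgoal
  by_cases hd0 : d = 0
  · have h1 := hkrow χ₀ hχ₀ h0
    have h2 := hkbd χ₀ hχ₀
    rw [h0, pow_zero, one_mul] at h2
    have h3 : (BF.card : ℤ) ≤ ∑ ψ ∈ BF, (4 : ℤ) ^ h ψ := by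
      have : ∑ ψ ∈ BF, (1 : ℤ) ≤ ∑ ψ ∈ BF, (4 : ℤ) ^ h ψ :=
        Finset.sum_le_sum fun ψ _ => one_le_pow₀ (by norm_num)
      simpa using this
    have h4 : ∑ ψ ∈ BF, (4 : ℤ) ^ h ψ ≤ 2 ^ d * k χ₀ := h1
    rw [hd0, pow_zero] at h4 h2 ⊢
    linarith
  · have hdpos : (2 : ℤ) ∣ 2 ^ d := dvd_pow_self 2 hd0
    by_cases hk1 : ∃ χ ∈ B, h χ = 0 ∧ (2 : ℤ) ^ d - k χ = 1
    · obtain ⟨χ, hχ, h0, hk1⟩ := hk1
      have h1 := hkrow' χ hχ h0 hd0
      rw [hk1, mul_one] at h1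
      exact h1
    · push Not at hk1
      have h1 : ∀ χ ∈ BF, (3 : ℤ) ≤ 2 ^ d - 2 ^ h χ * k χ := by
        intro χ hχ
        have hχB := (Finset.mem_filter.mp hχ).2
        by_cases h0 : h χ = 0
        · rw [h0, pow_zero, one_mul]
          have g1 := hkodd χ hχB h0
          have g2 := hk1 χ hχB h0
          have g3 := hkbd χ hχB
          have g4 : (2 : ℤ) ^ h χ * k χ ≤ 2 ^ d := g3
          rw [h0, pow_zero, one_mul] at g4
          omega
        · have g1 := hkev χ hχB h0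
          have g2 : (2 : ℤ) ^ h χ * k χ ≤ 2 ^ d := hkbd χ hχB
          have g3 : (2 : ℤ) ^ h χ * k χ ≠ 2 ^ d := hkne χ hχB h0
          have g4 := hk0 χ hχB
          obtain ⟨j, hj⟩ := g1
          have hj0 : 0 < j := by omega
          have hlt : h χ + 1 ≤ d := by
            by_contra hcon
            push Not at hcon
            have h5 : (2 : ℤ) ^ d ≤ 2 ^ h χ := pow_le_pow_right₀ (by norm_num) (by omega)
            rw [hj] at g2
            have h6 : (0 : ℤ) < 2 ^ h χ := by positivity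
            nlinarith
          obtain ⟨i, hi⟩ := Nat.exists_eq_add_of_le hlt
          have h5 : (2 : ℤ) ^ d = 2 ^ (h χ) * 2 * 2 ^ i := by
            rw [hi, pow_add, pow_succ]
          obtain ⟨i', hi'⟩ := Nat.exists_eq_succ_of_ne_zero h0
          have h6 : (2 : ℤ) ^ d - 2 ^ h χ * k χ = 4 * (2 ^ i' * (2 ^ i - j)) := by
            rw [h5, hj, hi', Nat.succ_eq_add_one, pow_succ]; ring
          rw [h6]
          have h7 : 0 < 4 * ((2 : ℤ) ^ i' * (2 ^ i - j)) := by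
            rw [← h6]; omega
          omega
      have h2 := Finset.sum_le_sum h1
      rw [Finset.sum_const, nsmul_eq_mul, Finset.sum_sub_distrib, Finset.sum_const,
        nsmul_eq_mul] at h2
      have h3 : ∑ χ ∈ BF, 2 ^ h χ * k χ = 2 ^ d * (blockRank 2 b : ℤ) := hktr
      rw [h3] at h2
      have h4 : (BF.card : ℤ) ≤ blockRank 2 b + 3 := by exact_mod_cast hl
      have h5 : (0 : ℤ) < 2 ^ d := by positivity
      nlinarith

end Cfsg.Agent.H26
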