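import Mathlib
import Cfsg.Agent.H26.Alpha
import Cfsg.Agent.H27.ClassAlg

set_option autoImplicit false

/-!
# Robinson's rank formula for the number of blocks with a given normal defect group
-/

namespace Cfsg.Agent.H26

open MonoidAlgebra MulAction Cfsg Cfsg.Agent.H11 Cfsg.Agent.H3
open scoped ComplexConjugate

universe u

section LinAlg

variable {F L ι : Type*} [Field F] [Field L] [Fintype ι] [DecidableEq ι]

theorem rank_map_field (f : F →+* L) (W : Matrix ι ι F) : (W.map f).rank = W.rank := by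
  classical
  obtain ⟨V, U, e, hV, hU, h⟩ := Matrix.exists_rank_normal_form W
  have hV' : IsUnit (V.map f) := by
    have := hV.map (f.mapMatrix (m := ι))
    exact this
  have hU' : IsUnit (U.map f) := by
    have := hU.map (f.mapMatrix (m := ι))
    exact this
  have h2 : V.map f * W.map f * U.map f =
      (Matrix.fromBlocks (1 : Matrix (Fin W.rank) (Fin W.rank) L) 0 0 0).submatrix e e := by
    rw [← Matrix.map_mul, ← Matrix.map_mul, h, ← Matrix.submatrix_map, Matrix.fromBlocks_map,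
      Matrix.map_one f f.map_zero f.map_one, Matrix.map_zero f f.map_zero,
      Matrix.map_zero f f.map_zero, Matrix.map_zero f f.map_zero]
  have h3 : (W.map f).rank = (V.map f * W.map f * U.map f).rank := by
    rw [Matrix.rank_mul_eq_left_of_isUnit_det _ _ ((Matrix.isUnit_iff_isUnit_det _).mp hU'),
      Matrix.rank_mul_eq_right_of_isUnit_det _ _ ((Matrix.isUnit_iff_isUnit_det _).mp hV')]
  rw [h3, h2, Matrix.rank_submatrix]
  have h4 : (Matrix.fromBlocks (1 : Matrix (Fin W.rank) (Fin W.rank) L) 0 0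
      (0 : Matrix (Fin (Fintype.card ι - W.rank)) (Fin (Fintype.card ι - W.rank)) L)) =
      Matrix.diagonal (Sum.elim (fun _ => 1) (fun _ => 0)) := by
    rw [← Matrix.diagonal_one, ← Matrix.diagonal_zero, Matrix.fromBlocks_diagonal]
  rw [h4, Matrix.rank_diagonal]
  have e1 : {i : Fin W.rank ⊕ Fin (Fintype.card ι - W.rank) //
      (Sum.elim (fun _ => (1 : L)) (fun _ => 0) : _ → L) i ≠ 0} ≃ Fin W.rank :=
    { toFun := fun i => match i with
        | ⟨Sum.inl j, _⟩ => j
        | ⟨Sum.inr j, h⟩ => absurd rfl h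
      invFun := fun j => ⟨Sum.inl j, by simp⟩
      left_inv := by
        rintro ⟨j | j, h⟩
        · rfl
        · exact absurd rfl h
      right_inv := fun j => rfl }
  rw [Fintype.card_congr e1, Fintype.card_fin]

theorem rank_eq_of_factor {β : Type*} [Fintype β] [DecidableEq β] {W : Matrix ι ι F} {c : F}
    (hc : c ≠ 0) {P : Matrix ι β F} {Q : Matrix β ι F} (hW : c • W = P * Q)
    {E' : Matrix β ι F} {E : Matrix ι β F} (hE' : E' * P = 1) {A : β → F} (hA : ∀ b, A b ≠ 0)
    (hE : Q * E = Matrix.diagonal A) : W.rank = Fintype.card β := by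
  have h1 : (c • W).rank = W.rank :=
    Matrix.rank_smul_of_mem_nonZeroDivisors W (mem_nonZeroDivisors_of_ne_zero hc)
  rw [← h1, hW]
  apply le_antisymm
  · exact (Matrix.rank_mul_le_left P Q).trans (Matrix.rank_le_card_width P)
  · have h2 : (E' * (P * Q) * E).rank ≤ (P * Q).rank :=
      (Matrix.rank_mul_le_left _ _).trans (Matrix.rank_mul_le_right _ _)
    have h3 : E' * (P * Q) * E = Matrix.diagonal A := by
      rw [← Matrix.mul_assoc, hE', Matrix.one_mul, hE]
    rw [h3] at h2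
    refine le_trans ?_ h2
    classical
    rw [Matrix.rank_diagonal]
    apply le_of_eq
    apply Fintype.card_congr
    exact (Equiv.subtypeUnivEquiv hA).symm

end LinAlg

section Cnt

variable {G : Type u} [Group G] [Fintype G] [Fintype (IrrCharacter G)]

/-- the number of pairs. -/
theorem card_pairs_S {S : Subgroup G} [Fintype S] {m : IrrCharacter G → ℕ}
    (hm : ∀ χ, (Nat.card S : ℂ) * (m χ : ℂ) = ∑ s : S, (χ : G → ℂ) (s : G)) (x y : G) :
    (Nat.card {yz : G × G // IsConj x yz.1 ∧ IsConj y yz.2 ∧ yz.2 * yz.1⁻¹ ∈ S} : ℂ) *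
      (S.index : ℂ) = ∑ χ : IrrCharacter G, (m χ : ℂ) * ((χ : G → ℂ) 1 *
        (centralChar (χ : G → ℂ) y * centralChar (χ : G → ℂ) x⁻¹)) := by
  have h1 : Nat.card {yz : G × G // IsConj x yz.1 ∧ IsConj y yz.2 ∧ yz.2 * yz.1⁻¹ ∈ S} =
      ∑ s : S, Nat.card {q : G × G // IsConj y q.1 ∧ IsConj x⁻¹ q.2 ∧ q.1 * q.2 = (s : G)} := by
    let g : {yz : G × G // IsConj x yz.1 ∧ IsConj y yz.2 ∧ yz.2 * yz.1⁻¹ ∈ S} → S :=
      fun q => ⟨q.1.2 * q.1.1⁻¹, q.2.2.2⟩
    rw [← Nat.card_congr (Equiv.sigmaFiberEquiv g), Nat.card_sigma]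
    apply Finset.sum_congr rfl
    intro s _
    apply Nat.card_congr
    exact
      { toFun := fun q => ⟨(q.1.1.2, q.1.1.1⁻¹), q.1.2.2.1, by
          obtain ⟨c, hc⟩ := isConj_iff.mp q.1.2.1
          exact isConj_iff.mpr ⟨c, by rw [← hc]; group⟩, congrArg Subtype.val q.2⟩
        invFun := fun r => ⟨⟨(r.1.2⁻¹, r.1.1), by
          obtain ⟨c, hc⟩ := isConj_iff.mp r.2.2.1
          exact isConj_iff.mpr ⟨c, by rw [← hc]; group⟩, r.2.1, by
            rw [inv_inv, r.2.2.2]; exact s.2⟩, by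
            apply Subtype.ext
            show r.1.1 * r.1.2⁻¹⁻¹ = s
            rw [inv_inv, r.2.2.2]⟩
        left_inv := by
          rintro ⟨⟨⟨a, b⟩, h⟩, h'⟩
          simp
        right_inv := by
          rintro ⟨⟨a, b⟩, h1, h2, h3⟩
          simp }
  have hG0 : (Nat.card G : ℂ) ≠ 0 := Nat.cast_ne_zero.mpr Nat.card_pos.ne'
  have h3 : (Nat.card G : ℂ) = (Nat.card S : ℂ) * (S.index : ℂ) := by
    rw [← Subgroup.card_mul_index S]; push_cast; rfl
  have hS0 : (Nat.card S : ℂ) ≠ 0 := Nat.cast_ne_zero.mpr Nat.card_pos.ne'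
  have hI0 : (S.index : ℂ) ≠ 0 := Nat.cast_ne_zero.mpr Subgroup.index_ne_zero_of_finite
  rw [h1, Nat.cast_sum]
  simp only [H27.card_pairs_eq]
  rw [← Finset.mul_sum, Finset.sum_comm]
  rw [mul_right_comm, h3, mul_inv, inv_mul_cancel_right₀ hI0, Finset.mul_sum]
  apply Finset.sum_congr rfl
  intro χ _
  rw [← Finset.mul_sum]
  have h4 : ∑ s : S, conj ((χ : G → ℂ) (s : G)) = (Nat.card S : ℂ) * (m χ : ℂ) := by
    rw [← map_sum, ← hm χ, map_mul, Complex.conj_natCast, Complex.conj_natCast]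
  rw [h4]
  field_simp

end Cnt

section Dual

variable {M : Ideal AlgInt} [hM : M.IsPrime] {G : Type u} [Group G] [Finite G] {p : ℕ}
  [hp : Fact p.Prime]

/-- inversion of conjugacy classes -/
def invCl (G : Type*) [Group G] : ConjClasses G → ConjClasses G :=
  Quotient.map (fun x => x⁻¹) (by
    intro a b h
    obtain ⟨c, hc⟩ := isConj_iff.mp h
    exact isConj_iff.mpr ⟨c, by rw [← hc]; group⟩)

theorem invCl_mk {G : Type*} [Group G] (x : G) :
    invCl G (ConjClasses.mk x) = ConjClasses.mk x⁻¹ := rfl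

theorem invCl_invCl {G : Type*} [Group G] (C : ConjClasses G) : invCl G (invCl G C) = C := by
  rw [← mk_rp C, invCl_mk, invCl_mk, inv_inv]

theorem coeff_EG_conj (B : Set (IrrCharacter G)) {x y : G} (h : IsConj x y) :
    (EG M B).coeff x = (EG M B).coeff y := by
  obtain ⟨c, hc⟩ := isConj_iff.mp h
  rw [← hc, (EG_isFx B ⊤).coeff (Subgroup.mem_top c)]

theorem lmB_conj (χ : IrrCharacter G) {x y : G} (h : IsConj x y) : lmB M χ x = lmB M χ y := by
  have hfin : Fintype G := Fintype.ofFinite G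
  unfold lmB
  rw [centralChar_conj (irr_classFun χ.2) h]

theorem lam_EG_inv (χ : IrrCharacter G) {B : Set (IrrCharacter G)} (hB : IsPBlock M B)
    [Fintype (ConjClasses G)] [Decidable (χ ∈ B)] :
    ∑ C : ConjClasses G, (EG M B).coeff (rp C)⁻¹ * lmB M χ (rp C)⁻¹ =
      if χ ∈ B then 1 else 0 := by
  rw [← lam_EG_eq χ hB]
  apply Fintype.sum_equiv ⟨invCl G, invCl G, invCl_invCl, invCl_invCl⟩
  intro C
  have h1 : IsConj (rp (invCl G C)) (rp C)⁻¹ := by
    apply rp_isConj
    conv_rhs => rw [← mk_rp C]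
    rw [invCl_mk]
  show _ = (EG M B).coeff (rp (invCl G C)) * lmB M χ (rp (invCl G C))
  rw [coeff_EG_conj B h1, lmB_conj χ h1]

theorem sylow_of_ne (hMp : IsPModular p M) {D : Subgroup G} [hDn : D.Normal]
    {B B' : Set (IrrCharacter G)} (hB : IsPBlock M B) (hB' : IsPBlock M B')
    (hD : IsDefectGroup p M B D) (hD' : IsDefectGroup p M B' D) {χ : IrrCharacter G}
    (hχ : χ ∈ B') {x : G} (h1 : (EG M B).coeff x ≠ 0) (h2 : lmB M χ x ≠ 0) :
    ¬ p ∣ orderOf x ∧ ∃ Q : Sylow p (Subgroup.centralizer ({x} : Set G)),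
      (Q : Subgroup (Subgroup.centralizer ({x} : Set G))).map
        (Subgroup.centralizer ({x} : Set G)).subtype = D := by
  have hch : CharP (KF M) p := charP_KF hMp
  have hfin : Fintype G := Fintype.ofFinite G
  refine ⟨coeff_EG_pregular hMp hB h1, ?_⟩
  let S : Sylow p (Subgroup.centralizer ({x} : Set G)) := default
  refine ⟨S, ?_⟩
  change um (S : Subgroup (Subgroup.centralizer ({x} : Set G))) = D
  have hRx : x ∈ cz (um (S : Subgroup (Subgroup.centralizer ({x} : Set G)))) := by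
    rw [← le_cz_iff]; exact um_le _
  have hRp : IsPGroup p (um (S : Subgroup (Subgroup.centralizer ({x} : Set G)))) :=
    (isPGroup_um (K := Subgroup.centralizer ({x} : Set G))
        (D := (S : Subgroup (Subgroup.centralizer ({x} : Set G))))).mpr S.isPGroup'
  have h3 : br (um (S : Subgroup (Subgroup.centralizer ({x} : Set G)))) (EG M B) ≠ 0 := by
    intro h3
    apply h1
    rw [← coeff_br_of_mem (EG M B) hRx, h3]
    rfl
  obtain ⟨g, -, hg⟩ := ((isDefectGroup_iff_EG hB).mp hD).2.2.2 _ le_top hRp h3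
  have h4 := defect_le_of_lmB_ne_zero hMp hB' hχ h2
  have h5 : Nat.card D ≤ Nat.card (cg (um (S : Subgroup (Subgroup.centralizer ({x} : Set G)))) g) := by
    rw [card_cg, card_um, S.card_eq_multiplicity, card_defect hMp hB' hD']
    exact Nat.pow_le_pow_right hp.out.pos h4
  have h6 := Subgroup.eq_of_le_of_card_ge hg h5
  have h7 : um (S : Subgroup (Subgroup.centralizer ({x} : Set G))) = cg D g⁻¹ := by
    rw [← h6, cg_inv_cg]
  rw [h7]
  exact cg_normal D g⁻¹

variable {D : Subgroup G} [hDn : D.Normal] {ι : Type*} [Fintype ι] [DecidableEq ι]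
  {K : ι → ConjClasses G} (hKinj : Function.Injective K)
  (hK : ∀ C : ConjClasses G, (∃ i, K i = C) ↔ ∃ x ∈ C.carrier, ¬ p ∣ orderOf x ∧
    ∃ Q : Sylow p (Subgroup.centralizer ({x} : Set G)),
      (Q : Subgroup (Subgroup.centralizer ({x} : Set G))).map
        (Subgroup.centralizer ({x} : Set G)).subtype = D)

include hKinj hK in
open Classical in
theorem dual_iota (hMp : IsPModular p M)
    {B B' : Set (IrrCharacter G)} (hB : IsPBlock M B) (hB' : IsPBlock M B')
    (hD : IsDefectGroup p M B D) (hD' : IsDefectGroup p M B' D) {χ : IrrCharacter G}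
    (hχ : χ ∈ B') :
    ∑ i : ι, (EG M B).coeff (rp (K i)) * lmB M χ (rp (K i)) = if B = B' then 1 else 0 := by
  have hfin : Fintype G := Fintype.ofFinite G
  have hfC : Fintype (ConjClasses G) := Fintype.ofFinite _
  have h1 := lam_EG_eq (M := M) χ hB
  have h2 : (χ ∈ B) ↔ B = B' := by
    constructor
    · intro h; rw [isPBlock_eq_blockOf hB h, isPBlock_eq_blockOf hB' hχ]
    · rintro rfl; exact hχ
  simp only [h2] at h1
  rw [← h1, ← Finset.sum_subset (Finset.subset_univ (Finset.univ.image K)),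
    Finset.sum_image (fun i _ j _ h => hKinj h)]
  intro C _ hC
  by_contra hne
  apply hC
  rw [Finset.mem_image]
  obtain ⟨i, hi⟩ := (hK C).mpr ⟨rp C, by rw [ConjClasses.mem_carrier_iff_mk_eq, mk_rp],
    sylow_of_ne hMp hB hB' hD hD' hχ (left_ne_zero_of_mul hne) (right_ne_zero_of_mul hne)⟩
  exact ⟨i, Finset.mem_univ _, hi⟩

theorem cent_inv_eq (x : G) : Subgroup.centralizer ({x⁻¹} : Set G) =
    Subgroup.centralizer ({x} : Set G) := by
  ext z
  rw [Subgroup.mem_centralizer_singleton_iff, Subgroup.mem_centralizer_singleton_iff]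
  constructor
  · intro h
    have := Commute.inv_right (show Commute z x⁻¹ from h)
    rw [inv_inv] at this
    exact this
  · intro h
    exact Commute.inv_right (show Commute z x from h)

include hKinj hK in
open Classical in
theorem dual_iota_inv (hMp : IsPModular p M)
    {B B' : Set (IrrCharacter G)} (hB : IsPBlock M B) (hB' : IsPBlock M B')
    (hD : IsDefectGroup p M B D) (hD' : IsDefectGroup p M B' D) {χ : IrrCharacter G}
    (hχ : χ ∈ B') :
    ∑ i : ι, (EG M B).coeff (rp (K i))⁻¹ * lmB M χ (rp (K i))⁻¹ = if B = B' then 1 else 0 := by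
  have hfin : Fintype G := Fintype.ofFinite G
  have hfC : Fintype (ConjClasses G) := Fintype.ofFinite _
  have h1 := lam_EG_inv (M := M) χ hB
  have h2 : (χ ∈ B) ↔ B = B' := by
    constructor
    · intro h; rw [isPBlock_eq_blockOf hB h, isPBlock_eq_blockOf hB' hχ]
    · rintro rfl; exact hχ
  simp only [h2] at h1
  rw [← h1, ← Finset.sum_subset (Finset.subset_univ (Finset.univ.image K)),
    Finset.sum_image (fun i _ j _ h => hKinj h)]
  intro C _ hC
  by_contra hne
  apply hC
  rw [Finset.mem_image]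
  have h3 := sylow_of_ne hMp hB hB' hD hD' hχ (left_ne_zero_of_mul hne)
    (right_ne_zero_of_mul hne)
  rw [orderOf_inv, cent_inv_eq] at h3
  obtain ⟨i, hi⟩ := (hK C).mpr ⟨rp C, by rw [ConjClasses.mem_carrier_iff_mk_eq, mk_rp], h3⟩
  exact ⟨i, Finset.mem_univ _, hi⟩

end Dual

section Main

variable {M : Ideal AlgInt} [hM : M.IsPrime] {G : Type u} [Group G] [Fintype G] {p : ℕ}
  [hp : Fact p.Prime] [Fintype (IrrCharacter G)]
  {D : Subgroup G} [hDn : D.Normal]

theorem lmB_eq_of_mem {B : Set (IrrCharacter G)} (hB : IsPBlock M B) {χ χ' : IrrCharacter G}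
    (hχ : χ ∈ B) (hχ' : χ' ∈ B) (x : G) : lmB M χ' x = lmB M χ x := by
  have h2 : SameBlock M (χ : G → ℂ) (χ' : G → ℂ) := by
    rw [isPBlock_eq_blockOf hB hχ] at hχ'
    exact hχ'
  exact ((rd_eq_iff (lr_centralChar χ.2 _) (lr_centralChar χ'.2 _)).mpr (h2 x)).symm

/-- a block covering a class with defect group the normal subgroup `D` has defect group `D`. -/
theorem isDefectGroup_of_lmB (hMp : IsPModular p M) (hDp : IsPGroup p D)
    {B : Set (IrrCharacter G)} (hB : IsPBlock M B) {χ : IrrCharacter G}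
    (hχ : χ ∈ B) {x : G} (h2 : lmB M χ x ≠ 0)
    (hx : (Nat.card (Subgroup.centralizer ({x} : Set G))).factorization p =
      (Nat.card D).factorization p) : IsDefectGroup p M B D := by
  have hch : CharP (KF M) p := charP_KF hMp
  obtain ⟨P, hP⟩ := exists_isDefectGroup hMp hB
  have hP' := (isDefectGroup_iff_EG hB).mp hP
  have h3 := defect_le_of_lmB_ne_zero hMp hB hχ h2
  have h4 : D ≤ P := hP'.normal_le (isBlk_EG hB) hDp le_top
    (fun g _ => mem_nz_normal (N := D) g)
  have h5 : Nat.card P ≤ Nat.card D := by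
    rw [card_defect hMp hB hP]
    obtain ⟨n, hn⟩ := IsPGroup.iff_card.mp hDp
    rw [hn] at hx ⊢
    rw [hp.out.factorization_pow, Finsupp.single_eq_same] at hx
    exact Nat.pow_le_pow_right hp.out.pos (h3.trans hx.le)
  rw [Subgroup.eq_of_le_of_card_ge h4 h5]
  exact hP

variable {ι : Type*} [Fintype ι] [DecidableEq ι]
  {K : ι → ConjClasses G} (hKinj : Function.Injective K)
  (hK : ∀ C : ConjClasses G, (∃ i, K i = C) ↔ ∃ x ∈ C.carrier, ¬ p ∣ orderOf x ∧
    ∃ Q : Sylow p (Subgroup.centralizer ({x} : Set G)),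
      (Q : Subgroup (Subgroup.centralizer ({x} : Set G))).map
        (Subgroup.centralizer ({x} : Set G)).subtype = D)

omit [Fintype G] [Fintype (IrrCharacter G)] hM in
include hK in
theorem rp_K [Finite G] (i : ι) : (Nat.card (Subgroup.centralizer ({rp (K i)} : Set G))).factorization p =
      (Nat.card D).factorization p ∧ ¬ p ∣ orderOf (rp (K i)) := by
  obtain ⟨x, hx, h1, Q, hQ⟩ := (hK (K i)).mp ⟨i, rfl⟩
  have h2 : IsConj (rp (K i)) x := rp_isConj (ConjClasses.mem_carrier_iff_mk_eq.mp hx)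
  refine ⟨?_, ?_⟩
  · rw [cent_card_conj h2, ← hQ, Subgroup.card_map_of_injective (Subgroup.subtype_injective _),
      Q.card_eq_multiplicity, hp.out.factorization_pow, Finsupp.single_eq_same]
  · obtain ⟨c, hc⟩ := isConj_iff.mp h2
    rw [← hc] at h1
    intro h3
    apply h1
    rw [← MulAut.conj_apply, MulEquiv.orderOf_eq]
    exact h3

/-- the number of pairs, divided -/
noncomputable def qq (p : ℕ) (D S : Subgroup G) (K : ι → ConjClasses G) (i j : ι) : ℕ :=
  Nat.card {yz : G × G // yz.1 ∈ (K i).carrier ∧ yz.2 ∈ (K j).carrier ∧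
    yz.2 * yz.1⁻¹ ∈ S} / p ^ ((Nat.card G).factorization p - (Nat.card D).factorization p)

include hK in
open Classical in
theorem qq_eq (hMp : IsPModular p M) (hDp : IsPGroup p D) {S : Subgroup G} [Fintype S]
    (hSi : ¬ p ∣ S.index) {m : IrrCharacter G → ℕ}
    (hm : ∀ χ, (Nat.card S : ℂ) * (m χ : ℂ) = ∑ s : S, (χ : G → ℂ) (s : G)) (i j : ι)
    [Fintype {B : Set (IrrCharacter G) // IsPBlock M B ∧ IsDefectGroup p M B D}]
    (c : {B : Set (IrrCharacter G) // IsPBlock M B ∧ IsDefectGroup p M B D} → IrrCharacter G)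
    (hc : ∀ B : {B : Set (IrrCharacter G) // IsPBlock M B ∧ IsDefectGroup p M B D},
      c B ∈ (B : Set (IrrCharacter G))) :
    (S.index : KF M) * (qq p D S K i j : KF M) =
      ∑ B : {B : Set (IrrCharacter G) // IsPBlock M B ∧ IsDefectGroup p M B D},
        lmB M (c B) (rp (K i))⁻¹ * ((AB p m D (B : Set (IrrCharacter G)) : KF M) *
          lmB M (c B) (rp (K j))) := by
  have hch : CharP (KF M) p := charP_KF hMp
  set r := D.index.factorization p with hr
  have hr2 : (Nat.card G).factorization p - (Nat.card D).factorization p = r := by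
    rw [← Subgroup.card_mul_index D, Nat.factorization_mul Nat.card_pos.ne'
      Subgroup.index_ne_zero_of_finite, Finsupp.add_apply]
    omega
  obtain ⟨hj1, hj2⟩ := rp_K hK j
  obtain ⟨hi1, hi2⟩ := rp_K hK i
  obtain ⟨k', hk'⟩ : p ^ r ∣ (Subgroup.centralizer ({rp (K j)} : Set G)).index := by
    rw [hr, ← index_eq_mul hj1]; exact Nat.ordProj_dvd _ _
  have hp0 : (p : ℂ) ^ r ≠ 0 := pow_ne_zero _ (Nat.cast_ne_zero.mpr hp.out.ne_zero)
  -- the formula for `ω`
  obtain ⟨ω, hω⟩ : ∃ ω : ℕ, ω = Nat.card {yz : G × G // yz.1 ∈ (K i).carrier ∧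
    yz.2 ∈ (K j).carrier ∧ yz.2 * yz.1⁻¹ ∈ S} := ⟨_, rfl⟩
  have hω1 : (ω : ℂ) * (S.index : ℂ) = ∑ χ : IrrCharacter G, (m χ : ℂ) * ((χ : G → ℂ) 1 *
      (centralChar (χ : G → ℂ) (rp (K j)) * centralChar (χ : G → ℂ) (rp (K i))⁻¹)) := by
    rw [← card_pairs_S hm, hω]
    congr 2
    apply Nat.card_congr
    apply Equiv.subtypeEquivRight
    intro yz
    rw [ConjClasses.mem_carrier_iff_mk_eq, ConjClasses.mem_carrier_iff_mk_eq]
    have e1 : ∀ (C : ConjClasses G) (x : G), ConjClasses.mk x = C ↔ IsConj (rp C) x := by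
      intro C x
      constructor
      · exact rp_isConj
      · intro h
        rw [← mk_rp C, ConjClasses.mk_eq_mk_iff_isConj]
        exact h.symm
    rw [e1, e1]
  have hω2 : (ω : ℂ) * (S.index : ℂ) = (p : ℂ) ^ r * ∑ χ : IrrCharacter G, (m χ : ℂ) *
      ((k' : ℂ) * (χ : G → ℂ) (rp (K j)) * centralChar (χ : G → ℂ) (rp (K i))⁻¹) := by
    rw [hω1, Finset.mul_sum]
    apply Finset.sum_congr rfl
    intro χ _
    rw [← mul_assoc ((χ : G → ℂ) 1), ← index_mul_eq, hk']
    push_cast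
    ring
  have hint : ∀ χ : IrrCharacter G, IsIntegral ℤ ((m χ : ℂ) *
      ((k' : ℂ) * (χ : G → ℂ) (rp (K j)) * centralChar (χ : G → ℂ) (rp (K i))⁻¹)) := by
    intro χ
    exact (isIntegral_natCast (m χ)).mul
      (((isIntegral_natCast k').mul (char_isIntegral (irr_isChar χ.2) _)).mul
        (centralChar_isIntegral χ.2 _))
  have hdvd : p ^ r ∣ ω := by
    have h1 : (p ^ r : ℕ) ∣ ω * S.index := by
      apply nat_dvd_of_isIntegral (pow_pos hp.out.pos _).ne'
      push_cast
      rw [hω2, mul_div_cancel_left₀ _ hp0]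
      exact IsIntegral.sum _ (fun χ _ => hint χ)
    exact (Nat.Coprime.pow_left r ((Nat.Prime.coprime_iff_not_dvd hp.out).mpr hSi)).dvd_of_dvd_mul_right h1
  obtain ⟨q, hq⟩ := hdvd
  have hqq : qq p D S K i j = q := by
    unfold qq
    rw [← hω, hr2, hq, Nat.mul_div_cancel_left _ (pow_pos hp.out.pos _)]
  have hq2 : ((S.index * q : ℕ) : ℂ) = ∑ χ : IrrCharacter G, (m χ : ℂ) *
      ((k' : ℂ) * (χ : G → ℂ) (rp (K j)) * centralChar (χ : G → ℂ) (rp (K i))⁻¹) := by
    apply mul_left_cancel₀ hp0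
    rw [← hω2, hq]
    push_cast
    ring
  have hlr : ∀ χ : IrrCharacter G, MemLocalRing M ((m χ : ℂ) *
      ((k' : ℂ) * (χ : G → ℂ) (rp (K j)) * centralChar (χ : G → ℂ) (rp (K i))⁻¹)) :=
    fun χ => lr_of_isIntegral hM.ne_top (hint χ)
  rw [hqq, ← Nat.cast_mul, ← rd_natCast (M := M), hq2, rd_sum _ _ (fun χ _ => hlr χ)]
  -- split into blocks
  have hsplit : ∀ χ : IrrCharacter G, rd M ((m χ : ℂ) *
      ((k' : ℂ) * (χ : G → ℂ) (rp (K j)) * centralChar (χ : G → ℂ) (rp (K i))⁻¹)) =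
      ∑ B : {B : Set (IrrCharacter G) // IsPBlock M B ∧ IsDefectGroup p M B D},
        if χ ∈ (B : Set (IrrCharacter G)) then rd M ((m χ : ℂ) *
      ((k' : ℂ) * (χ : G → ℂ) (rp (K j)) * centralChar (χ : G → ℂ) (rp (K i))⁻¹)) else 0 := by
    intro χ
    by_cases h0 : lmB M χ (rp (K i))⁻¹ = 0
    · have h1 : rd M ((m χ : ℂ) *
          ((k' : ℂ) * (χ : G → ℂ) (rp (K j)) * centralChar (χ : G → ℂ) (rp (K i))⁻¹)) = 0 := by
        rw [← mul_assoc, rd_mul (lr_of_isIntegral hM.ne_top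
          ((isIntegral_natCast (m χ)).mul ((isIntegral_natCast k').mul
            (char_isIntegral (irr_isChar χ.2) _)))) (lr_centralChar χ.2 _)]
        have : rd M (centralChar (χ : G → ℂ) (rp (K i))⁻¹) = 0 := h0
        rw [this, mul_zero]
      rw [h1]
      simp
    · have hB : IsPBlock M (blockOf M (χ : G → ℂ)) := ⟨χ, rfl⟩
      have hχB : χ ∈ blockOf M (χ : G → ℂ) := mem_blockOf_self χ
      have hBD := isDefectGroup_of_lmB hMp hDp hB hχB h0 (by rw [cent_inv_eq]; exact hi1)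
      rw [Finset.sum_eq_single ⟨blockOf M (χ : G → ℂ), hB, hBD⟩]
      · rw [if_pos hχB]
      · intro B' _ hne
        rw [if_neg]
        intro h
        apply hne
        apply Subtype.ext
        exact isPBlock_eq_blockOf B'.2.1 h
      · intro h; exact absurd (Finset.mem_univ _) h
  rw [Finset.sum_congr rfl (fun χ _ => hsplit χ), Finset.sum_comm]
  apply Finset.sum_congr rfl
  intro B _
  rw [← Finset.sum_filter, ← rd_sum _ _ (fun χ _ => hlr χ)]
  have h5 : ∑ χ ∈ Finset.univ.filter (· ∈ (B : Set (IrrCharacter G))), (m χ : ℂ) *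
      ((k' : ℂ) * (χ : G → ℂ) (rp (K j)) * centralChar (χ : G → ℂ) (rp (K i))⁻¹) =
      ∑ χ ∈ Finset.univ.filter (· ∈ (B : Set (IrrCharacter G))),
        ((m χ * (charDegree (χ : G → ℂ) / p ^ D.index.factorization p) : ℕ) : ℂ) *
          (centralChar (χ : G → ℂ) (rp (K j)) * centralChar (χ : G → ℂ) (rp (K i))⁻¹) := by
    apply Finset.sum_congr rfl
    intro χ hχ
    rw [Finset.mem_filter] at hχ
    have h6 := index_mul_eq χ (rp (K j))
    have h7 := deg_eq_mul hMp B.2.1 B.2.2 hχ.2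
    rw [hk', (charDegree_spec χ.2).1, h7] at h6
    push_cast at h6
    rw [mul_assoc, mul_assoc] at h6
    have h8 := mul_left_cancel₀ hp0 h6
    rw [h8]
    push_cast
    ring
  rw [h5, rd_sum_AB hMp B.2.1 B.2.2 m _ (lmB M (c B) (rp (K j)) * lmB M (c B) (rp (K i))⁻¹)]
  · ring
  · intro χ _
    exact lr_mul (lr_centralChar χ.2 _) (lr_centralChar χ.2 _)
  · intro χ hχ
    rw [rd_mul (lr_centralChar χ.2 _) (lr_centralChar χ.2 _)]
    have e1 := lmB_eq_of_mem (M := M) B.2.1 (hc B) hχ (rp (K j))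
    have e2 := lmB_eq_of_mem (M := M) B.2.1 (hc B) hχ (rp (K i))⁻¹
    unfold lmB at e1 e2 ⊢
    rw [e1, e2]

end Main

end Cfsg.Agent.H26
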