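import Mathlib
import Cfsg.Agent.H26.Robin

set_option autoImplicit false

/-!
# Robinson's rank formula: statement
-/

namespace Cfsg.Agent.H26

open MonoidAlgebra MulAction Cfsg Cfsg.Agent.H11 Cfsg.Agent.H3
open scoped ComplexConjugate

universe u

theorem st4443 {G : Type u} [Group G] [Finite G] (p : ℕ) [Fact p.Prime] (M : Ideal AlgInt)
    (hM : IsPModular p M) (D : Subgroup G) [D.Normal] (hD : IsPGroup p D) (S : Sylow p G)
    {ι : Type*} [Fintype ι] [DecidableEq ι] (K : ι → ConjClasses G)
    (hKinj : Function.Injective K)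
    (hK : ∀ C : ConjClasses G, (∃ i, K i = C) ↔ ∃ x ∈ C.carrier, ¬ p ∣ orderOf x ∧
      ∃ Q : Sylow p (Subgroup.centralizer ({x} : Set G)),
        (Q : Subgroup (Subgroup.centralizer ({x} : Set G))).map
          (Subgroup.centralizer ({x} : Set G)).subtype = D) :
    Nat.card {B : Set (IrrCharacter G) // IsPBlock M B ∧ IsDefectGroup p M B D} =
      (Matrix.of fun i j : ι => ((Nat.card {yz : G × G // yz.1 ∈ (K i).carrier ∧
        yz.2 ∈ (K j).carrier ∧ yz.2 * yz.1⁻¹ ∈ (S : Subgroup G)} /
        p ^ ((Nat.card G).factorization p - (Nat.card D).factorization p) : ℕ) : ZMod p)).rank := by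
  classical
  have hpr : M.IsPrime := hM.2.1.isPrime
  have hch : CharP (KF M) p := charP_KF hM
  have hfG : Fintype G := Fintype.ofFinite G
  have hfI : Fintype (IrrCharacter G) := Fintype.ofFinite _
  have hfB : Fintype {B : Set (IrrCharacter G) // IsPBlock M B ∧ IsDefectGroup p M B D} :=
    Fintype.ofFinite _
  have hfS : Fintype (S : Subgroup G) := Fintype.ofFinite _
  obtain ⟨m, hm⟩ := exists_mS (G := G) (S : Subgroup G)
  have hex : ∀ B : {B : Set (IrrCharacter G) // IsPBlock M B ∧ IsDefectGroup p M B D},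
      ∃ χ : IrrCharacter G, χ ∈ (B : Set (IrrCharacter G)) := fun B => exists_mem_block B.2.1
  choose c hc using hex
  set W : Matrix ι ι (ZMod p) := Matrix.of fun i j : ι => ((qq p D (S : Subgroup G) K i j : ℕ) : ZMod p)
    with hW
  have hrank : (W.map (ZMod.castHom (dvd_refl p) (KF M))).rank = W.rank :=
    rank_map_field _ W
  have hSi : ¬ p ∣ (S : Subgroup G).index := S.not_dvd_index
  have hS0 : ((S : Subgroup G).index : KF M) ≠ 0 := by
    intro h; exact hSi ((CharP.cast_eq_zero_iff (KF M) p _).mp h)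
  have key : (W.map (ZMod.castHom (dvd_refl p) (KF M))).rank =
      Fintype.card {B : Set (IrrCharacter G) // IsPBlock M B ∧ IsDefectGroup p M B D} := by
    apply rank_eq_of_factor (c := ((S : Subgroup G).index : KF M)) hS0
      (P := Matrix.of fun i B => lmB M (c B) (rp (K i))⁻¹)
      (Q := Matrix.of fun B j => (AB p m D (B : Set (IrrCharacter G)) : KF M) *
        lmB M (c B) (rp (K j)))
      (E' := Matrix.of fun B i => (EG M (B : Set (IrrCharacter G))).coeff (rp (K i))⁻¹)
      (E := Matrix.of fun i B => (EG M (B : Set (IrrCharacter G))).coeff (rp (K i)))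
      (A := fun B => (AB p m D (B : Set (IrrCharacter G)) : KF M))
    · ext i j
      rw [Matrix.smul_apply, Matrix.mul_apply, Matrix.map_apply, hW, Matrix.of_apply, map_natCast,
        smul_eq_mul, qq_eq hK hM hD hSi hm i j c hc]
      rfl
    · ext B B'
      rw [Matrix.mul_apply, Matrix.one_apply]
      simp only [Matrix.of_apply]
      rw [dual_iota_inv hKinj hK hM B.2.1 B'.2.1 B.2.2 B'.2.2 (hc B')]
      simp only [Subtype.ext_iff]
    · intro B h
      exact not_dvd_AB hM B.2.1 B.2.2 S.2 hSi hm ((CharP.cast_eq_zero_iff (KF M) p _).mp h)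
    · ext B B'
      rw [Matrix.mul_apply, Matrix.diagonal_apply]
      simp only [Matrix.of_apply]
      have h1 := dual_iota hKinj hK hM B'.2.1 B.2.1 B'.2.2 B.2.2 (hc B)
      rw [← Finset.sum_congr rfl (g := fun i => _) (fun i _ => rfl)]
      have h2 : ∑ i : ι, (AB p m D (B : Set (IrrCharacter G)) : KF M) * lmB M (c B) (rp (K i)) *
          (EG M (B' : Set (IrrCharacter G))).coeff (rp (K i)) =
          (AB p m D (B : Set (IrrCharacter G)) : KF M) *
          ∑ i : ι, (EG M (B' : Set (IrrCharacter G))).coeff (rp (K i)) *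
            lmB M (c B) (rp (K i)) := by
        rw [Finset.mul_sum]
        apply Finset.sum_congr rfl
        intro i _
        ring
      rw [h2, h1]
      by_cases hBB : B = B'
      · rw [if_pos hBB, if_pos (by rw [hBB]), mul_one]
      · rw [if_neg hBB, if_neg (fun h => hBB (Subtype.ext h.symm)), mul_zero]
  rw [Nat.card_eq_fintype_card, ← key, hrank]
  rfl

end Cfsg.Agent.H26
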