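import Mathlib
import Cfsg.Agent.H26.Robin2

set_option autoImplicit false

/-!
# Blocks with Sylow defect groups
-/

namespace Cfsg.Agent.H26

open MonoidAlgebra MulAction Cfsg Cfsg.Agent.H11 Cfsg.Agent.H3
open scoped ComplexConjugate

universe u

/-- First main theorem, counting form -/
theorem fm_card {G : Type u} [Group G] [Finite G] {p : ℕ} [Fact p.Prime] {M : Ideal AlgInt}
    [hM : M.IsPrime] (hMp : IsPModular p M) (D : Subgroup G) :
    Nat.card {B : Set (IrrCharacter G) // IsPBlock M B ∧ IsDefectGroup p M B D} =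
      Nat.card {b : Set (IrrCharacter (nz D)) // IsPBlock M b ∧
        IsDefectGroup p M b (D.subgroupOf (nz D))} := by
  have hch : CharP (KF M) p := charP_KF hMp
  have hfG : Fintype G := Fintype.ofFinite G
  have hDN : D ≤ nz D := Subgroup.le_normalizer
  have hum : (D.subgroupOf (nz D)).map (nz D).subtype = D := um_subgroupOf hDN
  have hex : ∀ B : {B : Set (IrrCharacter G) // IsPBlock M B ∧ IsDefectGroup p M B D},
      ∃ b : {b : Set (IrrCharacter (nz D)) // IsPBlock M b ∧
        IsDefectGroup p M b (D.subgroupOf (nz D))},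
        EH M (nz D) (b : Set (IrrCharacter (nz D))) = br D (EG M (B : Set (IrrCharacter G))) := by
    intro B
    have h1 := (isDefectGroup_iff_EG B.2.1).mp B.2.2
    obtain ⟨b, hb, hb2⟩ := exists_EH (FM.isBlk_br (isBlk_EG B.2.1) le_top h1)
    refine ⟨⟨b, hb, ?_⟩, hb2⟩
    rw [isDefectGroup_iff_EH' hb, hum, hb2]
    exact FM.isDef_br le_top h1
  choose f hf using hex
  apply Nat.card_congr (Equiv.ofBijective f ⟨?_, ?_⟩)
  · intro B B' h
    have h1 := (isDefectGroup_iff_EG B.2.1).mp B.2.2
    apply Subtype.ext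
    apply EG_injective B.2.1 B'.2.1
    apply FM.injective h1.2.1 le_top (isBlk_EG B.2.1) (isBlk_EG B'.2.1) h1.2.2.1
    rw [← hf B, ← hf B', h]
  · intro b
    have h1 := (isDefectGroup_iff_EH' b.2.1).mp b.2.2
    rw [hum] at h1
    obtain ⟨E, hE, hDE, hbr⟩ := FM.surjective (H := ⊤) le_top (isBlk_EH b.2.1) h1
    obtain ⟨B, hB, rfl⟩ := exists_EG hE
    refine ⟨⟨B, hB, (isDefectGroup_iff_EG hB).mpr hDE⟩, ?_⟩
    apply Subtype.ext
    apply EH_injective (f _).2.1 b.2.1
    rw [hf]
    exact hbr

/-- blocks of a group with a normal Sylow subgroup -/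
theorem card_blocks_normal_sylow {N : Type u} [Group N] [Finite N] {p : ℕ} [hp : Fact p.Prime]
    {M : Ideal AlgInt} (hMp : IsPModular p M) (D : Subgroup N) [hDn : D.Normal]
    (hD : IsPGroup p D) (hDi : ¬ p ∣ D.index) :
    Nat.card {B : Set (IrrCharacter N) // IsPBlock M B ∧ IsDefectGroup p M B D} =
      Nat.card {C : ConjClasses N // ∀ n : N, ConjClasses.mk n = C → ¬ p ∣ orderOf n ∧
        n ∈ Subgroup.centralizer (D : Set N)} := by
  classical
  have hfC : Fintype (ConjClasses N) := Fintype.ofFinite _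
  have hfι : Fintype {C : ConjClasses N // ∀ n : N, ConjClasses.mk n = C → ¬ p ∣ orderOf n ∧
        n ∈ Subgroup.centralizer (D : Set N)} := Fintype.ofFinite _
  let S : Sylow p N := hD.toSylow hDi
  have hSD : (S : Subgroup N) = D := rfl
  have hv : (Nat.card N).factorization p - (Nat.card D).factorization p = 0 := by
    rw [← Subgroup.card_mul_index D, Nat.factorization_mul Nat.card_pos.ne'
      Subgroup.index_ne_zero_of_finite, Finsupp.add_apply,
      Nat.factorization_eq_zero_of_not_dvd hDi]
    omega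
  have hmain := st4443 p M hMp D hD S
    (fun i : {C : ConjClasses N // ∀ n : N, ConjClasses.mk n = C → ¬ p ∣ orderOf n ∧
        n ∈ Subgroup.centralizer (D : Set N)} => (i : ConjClasses N)) Subtype.val_injective (by
      intro C
      constructor
      · rintro ⟨i, rfl⟩
        obtain ⟨h1, h2⟩ := i.2 (rp (i : ConjClasses N)) (mk_rp _)
        refine ⟨rp (i : ConjClasses N), by rw [ConjClasses.mem_carrier_iff_mk_eq, mk_rp], h1, ?_⟩
        have hle : D ≤ Subgroup.centralizer ({rp (i : ConjClasses N)} : Set N) := by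
          intro d hd
          rw [Subgroup.mem_centralizer_singleton_iff]
          exact Subgroup.mem_centralizer_iff.mp h2 d hd
        have hDp' : IsPGroup p (D.subgroupOf (Subgroup.centralizer
            ({rp (i : ConjClasses N)} : Set N))) :=
          hD.comap_of_injective _ (Subgroup.subtype_injective _)
        have hidx : ¬ p ∣ (D.subgroupOf (Subgroup.centralizer
            ({rp (i : ConjClasses N)} : Set N))).index := by
          intro h
          exact hDi (h.trans (Subgroup.relIndex_dvd_index_of_le hle))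
        refine ⟨hDp'.toSylow hidx, ?_⟩
        exact um_subgroupOf hle
      · rintro ⟨x, hx, h1, Q, hQ⟩
        refine ⟨⟨C, ?_⟩, rfl⟩
        intro n hn
        have h2 : IsConj x n := by
          rw [← ConjClasses.mk_eq_mk_iff_isConj, hn, ConjClasses.mem_carrier_iff_mk_eq.mp hx]
        obtain ⟨c, hc⟩ := isConj_iff.mp h2
        have hDx : D ≤ Subgroup.centralizer ({x} : Set N) := by
          rw [← hQ]; exact Subgroup.map_subtype_le _
        refine ⟨?_, ?_⟩
        · rw [← hc, ← MulAut.conj_apply, MulEquiv.orderOf_eq]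
          exact h1
        · rw [Subgroup.mem_centralizer_iff]
          intro d hd
          have h3 := hDx (hDn.conj_mem d hd c⁻¹)
          rw [Subgroup.mem_centralizer_singleton_iff] at h3
          rw [← hc]
          calc d * (c * x * c⁻¹) = c * (c⁻¹ * d * c⁻¹⁻¹ * x) * c⁻¹ := by group
            _ = c * (x * (c⁻¹ * d * c⁻¹⁻¹)) * c⁻¹ := by rw [h3]
            _ = _ := by group)
  rw [hmain, hv, pow_zero]
  have hzero : ∀ i j : {C : ConjClasses N // ∀ n : N, ConjClasses.mk n = C → ¬ p ∣ orderOf n ∧
        n ∈ Subgroup.centralizer (D : Set N)}, ∀ yz : N × N,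
      yz.1 ∈ (i : ConjClasses N).carrier ∧ yz.2 ∈ (j : ConjClasses N).carrier ∧
        yz.2 * yz.1⁻¹ ∈ (S : Subgroup N) → yz.2 = yz.1 := by
    intro i j yz ⟨h1, h2, h3⟩
    rw [hSD] at h3
    obtain ⟨e1, e2⟩ := i.2 yz.1 (ConjClasses.mem_carrier_iff_mk_eq.mp h1)
    obtain ⟨e3, e4⟩ := j.2 yz.2 (ConjClasses.mem_carrier_iff_mk_eq.mp h2)
    have hcomm : Commute (yz.2 * yz.1⁻¹) yz.1 := Subgroup.mem_centralizer_iff.mp e2 _ h3
    have hcomm2 : Commute (yz.2 * yz.1⁻¹) yz.2 := Subgroup.mem_centralizer_iff.mp e4 _ h3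
    -- the order of `yz.2 * yz.1⁻¹` is a power of `p` and divides `|yz.1| |yz.2|`
    have hc3 : Commute yz.2 yz.1⁻¹ := by
      have h5 : yz.1⁻¹ = yz.2⁻¹ * (yz.2 * yz.1⁻¹) := by group
      rw [h5]
      exact (Commute.refl yz.2).inv_right.mul_right hcomm2.symm
    have h6 : orderOf (yz.2 * yz.1⁻¹) ∣ orderOf yz.2 * orderOf yz.1⁻¹ :=
      hc3.orderOf_mul_dvd_mul_orderOf
    rw [orderOf_inv] at h6
    obtain ⟨k, hk⟩ := IsPGroup.iff_orderOf.mp hD ⟨yz.2 * yz.1⁻¹, h3⟩
    rw [← Subgroup.orderOf_coe] at hk
    change orderOf (yz.2 * yz.1⁻¹) = p ^ k at hk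
    rw [hk] at h6
    cases k with
    | zero =>
      rw [pow_zero, orderOf_eq_one_iff] at hk
      exact mul_inv_eq_one.mp hk
    | succ k =>
      exfalso
      have h7 : p ∣ orderOf yz.2 * orderOf yz.1 := (dvd_pow_self p (Nat.succ_ne_zero k)).trans h6
      rcases hp.out.dvd_mul.mp h7 with h8 | h8
      · exact e3 h8
      · exact e1 h8
  have hdiag : (Matrix.of fun i j : {C : ConjClasses N // ∀ n : N, ConjClasses.mk n = C →
      ¬ p ∣ orderOf n ∧ n ∈ Subgroup.centralizer (D : Set N)} =>
      ((Nat.card {yz : N × N // yz.1 ∈ (i : ConjClasses N).carrier ∧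
        yz.2 ∈ (j : ConjClasses N).carrier ∧ yz.2 * yz.1⁻¹ ∈ (S : Subgroup N)} / 1 : ℕ) :
        ZMod p)) = Matrix.diagonal (fun i : {C : ConjClasses N // ∀ n : N,
          ConjClasses.mk n = C → ¬ p ∣ orderOf n ∧ n ∈ Subgroup.centralizer (D : Set N)} =>
          ((Nat.card (i : ConjClasses N).carrier : ℕ) : ZMod p)) := by
    ext i j
    rw [Matrix.of_apply, Matrix.diagonal_apply, Nat.div_one]
    by_cases hij : i = j
    · subst hij
      rw [if_pos rfl]
      congr 1
      apply Nat.card_congr
      exact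
        { toFun := fun q => ⟨q.1.1, q.2.1⟩
          invFun := fun x => ⟨(x, x), x.2, x.2, by
            show (x : N) * (x : N)⁻¹ ∈ (S : Subgroup N)
            rw [mul_inv_cancel]; exact one_mem _⟩
          left_inv := by
            rintro ⟨⟨a, b⟩, h⟩
            have h2 := hzero i i _ h
            apply Subtype.ext
            simp only at h2 ⊢
            rw [h2]
          right_inv := fun x => rfl }
    · rw [if_neg hij]
      have h2 : IsEmpty {yz : N × N // yz.1 ∈ (i : ConjClasses N).carrier ∧
        yz.2 ∈ (j : ConjClasses N).carrier ∧ yz.2 * yz.1⁻¹ ∈ (S : Subgroup N)} := by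
        constructor
        rintro ⟨yz, h⟩
        apply hij
        have h3 := hzero i j _ h
        apply Subtype.ext
        rw [← ConjClasses.mem_carrier_iff_mk_eq.mp h.1, ← ConjClasses.mem_carrier_iff_mk_eq.mp h.2.1,
          h3]
      rw [Nat.card_of_isEmpty, Nat.cast_zero]
  rw [hdiag, Matrix.rank_diagonal, Nat.card_eq_fintype_card]
  apply Fintype.card_congr
  apply Equiv.subtypeUnivEquiv
  intro i h
  rw [ZMod.natCast_eq_zero_iff] at h
  apply hDi
  refine h.trans ?_
  obtain ⟨h1, h2⟩ := i.2 (rp (i : ConjClasses N)) (mk_rp _)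
  have hle : D ≤ Subgroup.centralizer ({rp (i : ConjClasses N)} : Set N) := by
    intro d hd
    rw [Subgroup.mem_centralizer_singleton_iff]
    exact Subgroup.mem_centralizer_iff.mp h2 d hd
  have h3 : Nat.card (i : ConjClasses N).carrier =
      (Subgroup.centralizer ({rp (i : ConjClasses N)} : Set N)).index := by
    have h4 := card_isConj_mul_card_centralizer (rp (i : ConjClasses N))
    have h5 : Nat.card (i : ConjClasses N).carrier =
        Nat.card {x // IsConj (rp (i : ConjClasses N)) x} := by
      apply Nat.card_congr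
      apply Equiv.subtypeEquivRight
      intro x
      show x ∈ (i : ConjClasses N).carrier ↔ _
      rw [ConjClasses.mem_carrier_iff_mk_eq]
      constructor
      · exact rp_isConj
      · intro h
        rw [← mk_rp (i : ConjClasses N), ConjClasses.mk_eq_mk_iff_isConj]
        exact h.symm
    rw [h5]
    rw [← Subgroup.index_mul_card (Subgroup.centralizer ({rp (i : ConjClasses N)} : Set N))] at h4
    exact Nat.eq_of_mul_eq_mul_right Nat.card_pos h4
  rw [h3]
  exact Subgroup.index_dvd_of_le hle

theorem st0953 {G : Type u} [Group G] [Finite G] (p : ℕ) [Fact p.Prime] (M : Ideal AlgInt)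
    (hM : IsPModular p M) (P : Sylow p G) :
    Nat.card {B : Set (IrrCharacter G) // IsPBlock M B ∧
      IsDefectGroup p M B (P : Subgroup G)} =
    Nat.card {C : ConjClasses (Subgroup.normalizer ((P : Subgroup G) : Set G)) //
      ∀ n : Subgroup.normalizer ((P : Subgroup G) : Set G), ConjClasses.mk n = C →
        ¬ p ∣ orderOf n ∧ (n : G) ∈ Subgroup.centralizer ((P : Subgroup G) : Set G)} := by
  have hpr : M.IsPrime := hM.2.1.isPrime
  rw [fm_card hM]
  have hle : (P : Subgroup G) ≤ nz (P : Subgroup G) := Subgroup.le_normalizer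
  have hn : ((P : Subgroup G).subgroupOf (nz (P : Subgroup G))).Normal :=
    Subgroup.normal_in_normalizer
  rw [card_blocks_normal_sylow hM ((P : Subgroup G).subgroupOf (nz (P : Subgroup G)))
    (P.2.comap_of_injective _ (Subgroup.subtype_injective _)) (fun h =>
      P.not_dvd_index (h.trans (Subgroup.relIndex_dvd_index_of_le hle)))]
  apply Nat.card_congr
  apply Equiv.subtypeEquivRight
  intro C
  apply forall_congr'
  intro n
  apply imp_congr_right
  intro _
  apply and_congr_right
  intro _
  rw [Subgroup.mem_centralizer_iff, Subgroup.mem_centralizer_iff]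
  constructor
  · intro h x hx
    have h2 := h ⟨x, hle hx⟩ (by rw [SetLike.mem_coe, Subgroup.mem_subgroupOf]; exact hx)
    exact congrArg Subtype.val h2
  · intro h x hx
    apply Subtype.ext
    exact h (x : G) (by rw [SetLike.mem_coe, Subgroup.mem_subgroupOf] at hx; exact hx)

end Cfsg.Agent.H26
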