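import Mathlib
import Cfsg.Agent.H26.InfBlk3

set_option autoImplicit false

/-!
# Defect groups and blocks of factor groups, statements
-/

namespace Cfsg.Agent.H26

open MonoidAlgebra MulAction Cfsg Cfsg.Agent.H11 Cfsg.Agent.H3
open scoped ComplexConjugate

universe u

section Gen

variable {G : Type u} [Group G] [Finite G] {p : ℕ} [hp : Fact p.Prime] {M : Ideal AlgInt}

theorem exists_conj_mem_cz (hMp : IsPModular p M) [hM : M.IsPrime] {B : Set (IrrCharacter G)}
    (hB : IsPBlock M B) {χ : IrrCharacter G} (hχ : χ ∈ B) {D : Subgroup G}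
    (hD : IsDefectGroup p M B D) {x : G} (h : lmB M χ x ≠ 0) :
    ∃ y, IsConj x y ∧ y ∈ cz D := by
  have hch : CharP (KF M) p := charP_KF hMp
  have hfin : Fintype G := Fintype.ofFinite G
  have hD' := (isDefectGroup_iff_EG hB).mp hD
  have h1 := Eb_eq_pid (M := M) (Subgroup.topEquiv.symm : G ≃* (⊤ : Subgroup G)) hB hχ
  have h2 : EG M B = ((pid (lam (M := M) (Subgroup.topEquiv.symm : G ≃* (⊤ : Subgroup G)) χ) :
      Zc (KF M) (⊤ : Subgroup G)) : MonoidAlgebra (KF M) G) := congrArg Subtype.val h1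
  rw [h2] at hD'
  rw [← lmB_eq] at h
  have h3 := br_ne_zero_of_algHom hD'.2.1 le_top _ hD'.2.2.1 _ h
  obtain ⟨y, hy⟩ : ∃ y, (br D (cls (KF M) (⊤ : Subgroup G) x)).coeff y ≠ 0 := by
    by_contra h4
    push Not at h4
    apply h3
    ext y
    exact h4 y
  have hyD : y ∈ cz D := by
    by_contra h4
    exact hy (coeff_br_of_notMem _ h4)
  rw [coeff_br_of_mem _ hyD, coeff_cls] at hy
  refine ⟨y, ?_, hyD⟩
  by_contra h4
  apply hy
  rw [if_neg]
  rintro ⟨g, -, hg⟩
  exact h4 (isConj_iff.mpr ⟨g, hg⟩)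

theorem exists_cg_le_of_coeff (hMp : IsPModular p M) [hM : M.IsPrime]
    {B : Set (IrrCharacter G)}
    (hB : IsPBlock M B) {D : Subgroup G}
    (hD : IsDefectGroup p M B D) {x : G} (h : (EG M B).coeff x ≠ 0) {R : Subgroup G}
    (hR : IsPGroup p R) (hRx : R ≤ Subgroup.centralizer ({x} : Set G)) :
    ∃ g, cg R g ≤ D := by
  have hch : CharP (KF M) p := charP_KF hMp
  have hfin : Fintype G := Fintype.ofFinite G
  have hxR : x ∈ cz R := le_cz_iff.mp hRx
  have h3 : br R (EG M B) ≠ 0 := by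
    intro h3
    apply h
    rw [← coeff_br_of_mem (EG M B) hxR, h3]
    rfl
  obtain ⟨g, -, hg⟩ := ((isDefectGroup_iff_EG hB).mp hD).2.2.2 R le_top hR h3
  exact ⟨g, hg⟩

end Gen

theorem st4433 {G : Type u} [Group G] [Finite G] (p : ℕ) [Fact p.Prime] (M : Ideal AlgInt)
    (hM : IsPModular p M) (N : Subgroup G) [N.Normal] (Bbar : Set (IrrCharacter (G ⧸ N)))
    (hBbar : IsPBlock M Bbar) (B : Set (IrrCharacter G)) (hB : IsPBlock M B)
    (hsub : ∀ χ ∈ Bbar, ∀ ψ : IrrCharacter G,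
      (ψ : G → ℂ) = (χ : G ⧸ N → ℂ) ∘ QuotientGroup.mk → ψ ∈ B)
    (Dbar : Subgroup (G ⧸ N)) (hDbar : IsDefectGroup p M Bbar Dbar) :
    ∃ P : Subgroup G, IsDefectGroup p M B P ∧ Dbar ≤ P.map (QuotientGroup.mk' N) := by
  classical
  have hp : p.Prime := Fact.out
  have hpr : M.IsPrime := hM.2.1.isPrime
  have hch : CharP (KF M) p := charP_KF hM
  have hfG : Fintype G := Fintype.ofFinite _
  have hfQ : Fintype (G ⧸ N) := Fintype.ofFinite _
  have hfC : Fintype (ConjClasses G) := Fintype.ofFinite _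
  obtain ⟨χ, hχ⟩ := exists_mem_block hBbar
  have hχB : infl N χ ∈ B := hsub χ hχ _ rfl
  obtain ⟨P₀, hP₀⟩ := exists_isDefectGroup hM hB
  have h1 := lam_EG_eq (M := M) (infl N χ) hB
  rw [if_pos hχB] at h1
  obtain ⟨C, -, hC⟩ := Finset.exists_ne_zero_of_sum_ne_zero (h1.trans_ne one_ne_zero)
  obtain ⟨x, hx⟩ : ∃ x, x = rp C := ⟨_, rfl⟩
  rw [← hx] at hC
  have hc1 := left_ne_zero_of_mul hC
  have hc2 := right_ne_zero_of_mul hC
  -- the central character
  obtain ⟨T, hT⟩ : ∃ T, T = Subgroup.centralizer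
        ({(QuotientGroup.mk x : G ⧸ N)} : Set (G ⧸ N)) := ⟨_, rfl⟩
  have h2 : lmB M (infl N χ) x =
      ((Subgroup.centralizer ({x} : Set G)).relIndex (T.comap (QuotientGroup.mk' N)) : KF M) *
        lmB M χ (QuotientGroup.mk x) := by
    unfold lmB
    rw [centralChar_infl', rd_mul (lr_natCast M _) (lr_centralChar χ.2 _), rd_natCast, hT]
  rw [h2] at hc2
  have h3 : ¬ p ∣ (Subgroup.centralizer ({x} : Set G)).relIndex
      (T.comap (QuotientGroup.mk' N)) := by
    intro h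
    exact left_ne_zero_of_mul hc2 ((CharP.cast_eq_zero_iff (KF M) p _).mpr h)
  have h4 := right_ne_zero_of_mul hc2
  have hle : Subgroup.centralizer ({x} : Set G) ≤ T.comap (QuotientGroup.mk' N) := by
    intro z hz
    rw [Subgroup.mem_centralizer_singleton_iff] at hz
    rw [hT, Subgroup.mem_comap, Subgroup.mem_centralizer_singleton_iff]
    show (QuotientGroup.mk z : G ⧸ N) * QuotientGroup.mk x = QuotientGroup.mk x * QuotientGroup.mk z
    rw [← QuotientGroup.mk_mul, ← QuotientGroup.mk_mul, hz]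
  -- a Sylow subgroup of the centralizer
  let S : Sylow p (Subgroup.centralizer ({x} : Set G)) := default
  obtain ⟨R, hRdef⟩ : ∃ R, R = um (S : Subgroup (Subgroup.centralizer ({x} : Set G))) := ⟨_, rfl⟩
  have hRle : R ≤ Subgroup.centralizer ({x} : Set G) := by rw [hRdef]; exact um_le _
  have hRp : IsPGroup p R := by
    rw [hRdef]
    exact (isPGroup_um (K := Subgroup.centralizer ({x} : Set G))
        (D := (S : Subgroup (Subgroup.centralizer ({x} : Set G))))).mpr S.isPGroup'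
  have hRidx : ¬ p ∣ R.relIndex (Subgroup.centralizer ({x} : Set G)) := by
    have : R.subgroupOf (Subgroup.centralizer ({x} : Set G)) = S := by
      rw [hRdef]; exact Subgroup.comap_map_eq_self_of_injective (Subgroup.subtype_injective _) _
    rw [Subgroup.relIndex, this]
    exact S.not_dvd_index
  obtain ⟨g, hg⟩ := exists_cg_le_of_coeff hM hB hP₀ hc1 hRp hRle
  obtain ⟨y, hy, hyD⟩ := exists_conj_mem_cz hM hBbar hχ hDbar h4
  obtain ⟨s, hs⟩ := isConj_iff.mp hy
  -- a conjugate of `Dbar` centralizes `x̄`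
  have hD1 : cg Dbar s⁻¹ ≤ T := by
    intro t ht
    rw [mem_cg, inv_inv] at ht
    have h5 := Subgroup.mem_centralizer_iff.mp hyD _ ht
    rw [← hs] at h5
    rw [hT, Subgroup.mem_centralizer_singleton_iff]
    calc t * QuotientGroup.mk x = s⁻¹ * (s * t * s⁻¹ * (s * QuotientGroup.mk x * s⁻¹)) * s := by group
      _ = s⁻¹ * (s * QuotientGroup.mk x * s⁻¹ * (s * t * s⁻¹)) * s := by rw [h5]
      _ = _ := by group
  have hDp : IsPGroup p Dbar := ((isDefectGroup_iff_EG hBbar).mp hDbar).2.1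
  have hRT : R.map (QuotientGroup.mk' N) ≤ T := by
    rw [Subgroup.map_le_iff_le_comap]; exact hRle.trans hle
  have hRidx2 : ¬ p ∣ (R.map (QuotientGroup.mk' N)).relIndex T := by
    have h5 : (R.map (QuotientGroup.mk' N)).relIndex T =
        ((R.map (QuotientGroup.mk' N)).comap (QuotientGroup.mk' N)).relIndex
          (T.comap (QuotientGroup.mk' N)) := by
      rw [Subgroup.relIndex_comap, Subgroup.map_comap_eq_self_of_surjective
        (QuotientGroup.mk'_surjective N)]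
    rw [h5]
    intro h
    have h6 : ((R.map (QuotientGroup.mk' N)).comap (QuotientGroup.mk' N)).relIndex
          (T.comap (QuotientGroup.mk' N)) ∣ R.relIndex (T.comap (QuotientGroup.mk' N)) :=
      Subgroup.relIndex_dvd_of_le_left _ (Subgroup.le_comap_map _ _)
    have h7 := Subgroup.relIndex_mul_relIndex R _ _ hRle hle
    have h8 := h.trans (h6.trans (dvd_of_eq h7.symm))
    rcases hp.dvd_mul.mp h8 with h9 | h9
    · exact hRidx h9
    · exact h3 h9
  obtain ⟨w, -, hw⟩ := exists_cg_le hRT (hRp.map _) hRidx2 hD1 (IsPGroup.cg' hDp s⁻¹)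
  rw [cg_cg] at hw
  -- `Dbar ≤ cg R̄ (w s⁻¹)⁻¹`
  have hw2 : Dbar ≤ cg (R.map (QuotientGroup.mk' N)) (w * s⁻¹)⁻¹ := cg_le_iff.mp hw
  obtain ⟨v, hv⟩ := QuotientGroup.mk_surjective (w * s⁻¹)⁻¹
  rw [← hv, ← cg_map_mk] at hw2
  refine ⟨cg P₀ (v * g⁻¹), isDefectGroup_cg hM hB hP₀ _, hw2.trans (Subgroup.map_mono ?_)⟩
  rw [← cg_cg]
  apply cg_mono
  rw [cg_le_iff] at hg
  exact hg

theorem st4434 {G : Type u} [Group G] [Finite G] (p : ℕ) [Fact p.Prime] (M : Ideal AlgInt)
    (hM : IsPModular p M) (N : Subgroup G) [N.Normal] (hN : IsPGroup p N)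
    (B : Set (IrrCharacter G)) (hB : IsPBlock M B) :
    ∃ Bbar : Set (IrrCharacter (G ⧸ N)), IsPBlock M Bbar ∧
      (∀ χ ∈ Bbar, ∀ ψ : IrrCharacter G,
        (ψ : G → ℂ) = (χ : G ⧸ N → ℂ) ∘ QuotientGroup.mk → ψ ∈ B) ∧
      ∀ Dbar : Subgroup (G ⧸ N), IsDefectGroup p M Bbar Dbar ↔
        ∃ P : Subgroup G, IsDefectGroup p M B P ∧ Dbar = P.map (QuotientGroup.mk' N) := by
  classical
  have hp : p.Prime := Fact.out
  have hpr : M.IsPrime := hM.2.1.isPrime
  have hch : CharP (KF M) p := charP_KF hM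
  have hfG : Fintype G := Fintype.ofFinite _
  have hfQ : Fintype (G ⧸ N) := Fintype.ofFinite _
  have hfN : Fintype N := Fintype.ofFinite _
  obtain ⟨D₀, hD₀⟩ := exists_isDefectGroup hM hB
  have hD₀' := hD₀
  obtain ⟨g₀, ⟨hg1, hg2, hg3⟩, S, hS⟩ := hD₀
  have hreg : ¬ p ∣ orderOf g₀ := by
    intro h
    apply hg2
    rw [blockCoeff_eq_zero hM hB g₀ h, ← rd_eq_zero_iff (lr_zero M), rd_zero]
  have hND : N ≤ D₀ := ((isDefectGroup_iff_EG hB).mp hD₀').normal_le (isBlk_EG hB) hN le_top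
    (fun g _ => mem_nz_normal (N := N) g)
  have hDC : D₀ ≤ Subgroup.centralizer ({g₀} : Set G) := by
    rw [hS]; exact Subgroup.map_subtype_le _
  have hg₀N : g₀ ∈ Subgroup.centralizer (N : Set G) := le_cz_iff.mp (hND.trans hDC)
  -- the coefficient
  have hU : ∀ χ ∈ {ψ : IrrCharacter (G ⧸ N) | infl N ψ ∈ B}, ∀ ψ : IrrCharacter (G ⧸ N),
      SameBlock M (χ : G ⧸ N → ℂ) (ψ : G ⧸ N → ℂ) → ψ ∈ {ψ | infl N ψ ∈ B} := by
    intro χ hχ ψ h
    have h1 := sameBlock_infl hpr h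
    show infl N ψ ∈ B
    rw [isPBlock_eq_blockOf hB hχ]
    exact h1
  have hsum : ∑ u : N, blockCoeff B (g₀ * u) = blockCoeff B g₀ := by
    rw [Finset.sum_eq_single (1 : N)]
    · rw [OneMemClass.coe_one, mul_one]
    · intro u _ hu
      apply blockCoeff_eq_zero hM hB
      by_contra h
      apply hu
      apply Subtype.ext
      have hc : Commute (u : G) g₀ := Subgroup.mem_centralizer_iff.mp hg₀N _ u.2
      apply eq_one_of_comm_reg (p := p) (x := g₀) _ hc hreg
      · rw [hc.eq]; exact h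
      · obtain ⟨k, hk⟩ := IsPGroup.iff_orderOf.mp hN u
        rw [← Subgroup.orderOf_coe] at hk
        exact ⟨k, hk⟩
    · intro h; exact absurd (Finset.mem_univ _) h
  rw [sum_coset_blockCoeff] at hsum
  obtain ⟨Bbar, hBbar, hBU, hcoef⟩ := exists_block_coeff hU (by rw [hsum]; exact hg2)
  have hclass : IsDefectClass M Bbar (QuotientGroup.mk g₀ : G ⧸ N) := by
    refine ⟨lr_blockCoeff hBbar _, hcoef, ?_⟩
    intro χ hχ
    rw [← centralChar_infl hN χ hreg hg₀N]
    exact hg3 _ (hBU hχ)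
  have hmap := cent_map_eq hN hreg hg₀N
  have hdef : IsDefectGroup p M Bbar (D₀.map (QuotientGroup.mk' N)) := by
    refine ⟨_, hclass, ?_⟩
    have hle : D₀.map (QuotientGroup.mk' N) ≤
        Subgroup.centralizer ({(QuotientGroup.mk g₀ : G ⧸ N)} : Set (G ⧸ N)) := by
      rw [← hmap]; exact Subgroup.map_mono hDC
    have hDp : IsPGroup p D₀ := ((isDefectGroup_iff_EG hB).mp hD₀').2.1
    have hp1 : IsPGroup p ((D₀.map (QuotientGroup.mk' N)).subgroupOf
        (Subgroup.centralizer ({(QuotientGroup.mk g₀ : G ⧸ N)} : Set (G ⧸ N)))) :=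
      (hDp.map _).comap_of_injective _ (Subgroup.subtype_injective _)
    have hidx : ¬ p ∣ ((D₀.map (QuotientGroup.mk' N)).subgroupOf
        (Subgroup.centralizer ({(QuotientGroup.mk g₀ : G ⧸ N)} : Set (G ⧸ N)))).index := by
      change ¬ p ∣ (D₀.map (QuotientGroup.mk' N)).relIndex
        (Subgroup.centralizer ({(QuotientGroup.mk g₀ : G ⧸ N)} : Set (G ⧸ N)))
      rw [← hmap]
      have h5 : (D₀.map (QuotientGroup.mk' N)).relIndex
          ((Subgroup.centralizer ({g₀} : Set G)).map (QuotientGroup.mk' N)) ∣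
          D₀.relIndex (Subgroup.centralizer ({g₀} : Set G)) := by
        rw [Subgroup.relIndex_map_map, QuotientGroup.ker_mk', sup_eq_left.mpr hND,
          sup_eq_left.mpr (hND.trans hDC)]
      intro h
      have h6 := h.trans h5
      have h7 : D₀.subgroupOf (Subgroup.centralizer ({g₀} : Set G)) = S := by
        rw [hS]; exact Subgroup.comap_map_eq_self_of_injective (Subgroup.subtype_injective _) _
      rw [Subgroup.relIndex, h7] at h6
      exact S.not_dvd_index h6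
    exact ⟨hp1.toSylow hidx, (um_subgroupOf hle).symm⟩
  refine ⟨Bbar, hBbar, ?_, ?_⟩
  · intro χ hχ ψ hψ
    have h1 : ψ = infl N χ := Subtype.ext hψ
    rw [h1]
    exact hBU hχ
  · intro Dbar
    constructor
    · intro h
      obtain ⟨t, ht⟩ := isDefectGroup_conj2 hM hBbar hdef h
      obtain ⟨v, rfl⟩ := QuotientGroup.mk_surjective t
      refine ⟨cg D₀ v, isDefectGroup_cg hM hB hD₀' v, ?_⟩
      rw [cg_map_mk, ht]
    · rintro ⟨P, hP, rfl⟩
      obtain ⟨v, rfl⟩ := isDefectGroup_conj2 hM hB hD₀' hP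
      rw [cg_map_mk]
      exact isDefectGroup_cg hM hBbar hdef _

end Cfsg.Agent.H26
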