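import Mathlib
import Cfsg.Agent.H23.MaxClass3
import Cfsg.Agent.H2.Frat

set_option autoImplicit false
set_option maxHeartbeats 800000
set_option linter.style.haveILetI false

/-!
# Abelianisations of order `p ^ 2`
-/

namespace Cfsg.Agent.H26

open Subgroup

section Q

variable {Q : Type*} [Group Q] [Finite Q] {p : ℕ} [hp : Fact p.Prime]

/-- Centralizers are at least as large as the abelianisation. -/
theorem index_commutator_le_card_centralizer (y : Q) :
    (commutator Q).index ≤ Nat.card (Subgroup.centralizer ({y} : Set Q)) := by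
  have h1 : (Subgroup.centralizer ({y} : Set Q)).index ≤ Nat.card (commutator Q) := by
    let f : Q → commutator Q := fun g => ⟨g * y * g⁻¹ * y⁻¹,
      Subgroup.commutator_mem_commutator (Subgroup.mem_top g) (Subgroup.mem_top y)⟩
    have hf : ∀ a b : Q, f a = f b → (a : Q ⧸ Subgroup.centralizer ({y} : Set Q)) = b := by
      intro a b hab
      have h2 : a * y * a⁻¹ * y⁻¹ = b * y * b⁻¹ * y⁻¹ := congrArg Subtype.val hab
      have h3 : a * y * a⁻¹ = b * y * b⁻¹ := mul_right_cancel h2
      rw [QuotientGroup.eq, Subgroup.mem_centralizer_singleton_iff]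
      calc a⁻¹ * b * y = a⁻¹ * (b * y * b⁻¹) * b := by group
        _ = a⁻¹ * (a * y * a⁻¹) * b := by rw [h3]
        _ = y * (a⁻¹ * b) := by group
    have h4 : Function.Injective (fun q : Q ⧸ Subgroup.centralizer ({y} : Set Q) => f q.out) := by
      intro q r hqr
      have := hf _ _ hqr
      rwa [QuotientGroup.out_eq', QuotientGroup.out_eq'] at this
    exact Nat.card_le_card_of_injective _ h4
  have h2 := Subgroup.index_mul_card (commutator Q)
  have h3 := Subgroup.index_mul_card (Subgroup.centralizer ({y} : Set Q))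
  have h4 : (commutator Q).index * Nat.card (commutator Q) ≤
      Nat.card (Subgroup.centralizer ({y} : Set Q)) * Nat.card (commutator Q) := by
    rw [h2, ← h3, mul_comm (Nat.card _) (Nat.card (commutator Q))]
    exact Nat.mul_le_mul_right _ h1
  exact Nat.le_of_mul_le_mul_right h4 Nat.card_pos

theorem commutator_eq_bot_of_index_le (hQ : IsPGroup p Q) (h : (commutator Q).index ≤ p) :
    commutator Q = ⊥ := by
  have hc := H23.isCyclic_of_index_commutator_le hQ h
  rw [commutator_eq_bot_iff_center_eq_top, eq_top_iff]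
  intro a _
  rw [Subgroup.mem_center_iff]
  intro b
  obtain ⟨g, hg⟩ := hc.exists_generator
  obtain ⟨i, rfl⟩ := Subgroup.mem_zpowers_iff.mp (hg a)
  obtain ⟨j, rfl⟩ := Subgroup.mem_zpowers_iff.mp (hg b)
  rw [← zpow_add, ← zpow_add, add_comm]

/-- A `p`-group of order at least `p ^ 2` has abelianisation of order at least `p ^ 2`. -/
theorem sq_le_index_commutator (hQ : IsPGroup p Q) (h : p ^ 2 ∣ Nat.card Q) :
    p ^ 2 ∣ (commutator Q).index := by
  obtain ⟨k, hk⟩ := hQ.index (commutator Q)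
  rw [hk]
  apply pow_dvd_pow
  by_contra hcon
  have h1 : (commutator Q).index ≤ p := by
    rw [hk]
    calc p ^ k ≤ p ^ 1 := Nat.pow_le_pow_right hp.out.pos (by omega)
      _ = p := pow_one p
  have h2 := commutator_eq_bot_of_index_le hQ h1
  rw [h2, Subgroup.index_bot] at h1
  have h3 := Nat.le_of_dvd Nat.card_pos h
  have h4 : p < p ^ 2 := by
    nlinarith [hp.out.one_lt]
  omega

/-- Normal subgroups not inside the derived subgroup. -/
theorem commutator_le_of_index_sq (hQ : IsPGroup p Q) (h : (commutator Q).index = p ^ 2)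
    (N : Subgroup Q) [hN : N.Normal] (hn : ¬ N ≤ commutator Q) :
    commutator Q ≤ N ∧ (N.index = 1 ∨ N.index = p) := by
  have h1 : (commutator Q ⊔ N).index ∣ p ^ 2 := by
    rw [← h]
    exact Subgroup.index_dvd_of_le le_sup_left
  have h2 : (commutator Q ⊔ N).index ≠ p ^ 2 := by
    intro h3
    apply hn
    have h4 : commutator Q ⊔ N = commutator Q := by
      symm
      apply Subgroup.eq_of_le_of_card_ge le_sup_left
      have h5 := Subgroup.index_mul_card (commutator Q ⊔ N)
      have h6 := Subgroup.index_mul_card (commutator Q)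
      rw [h3, ← h6, h] at h5
      exact (Nat.eq_of_mul_eq_mul_left (pow_pos hp.out.pos 2) h5).le
    rw [← h4]
    exact le_sup_right
  obtain ⟨k, hk, hk2⟩ := (Nat.dvd_prime_pow hp.out).mp h1
  have hk1 : k ≤ 1 := by
    by_contra hcon
    apply h2
    have : k = 2 := by omega
    rw [hk2, this]
  have h3 : (commutator (Q ⧸ N)).index = (commutator Q ⊔ N).index := by
    have h4 : (commutator Q ⊔ N) = (commutator (Q ⧸ N)).comap (QuotientGroup.mk' N) := by
      have h5 : commutator (Q ⧸ N) = (commutator Q).map (QuotientGroup.mk' N) := by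
        rw [_root_.commutator_def, _root_.commutator_def, Subgroup.map_commutator,
          Subgroup.map_top_of_surjective _ (QuotientGroup.mk'_surjective N)]
      rw [h5, Subgroup.comap_map_eq, QuotientGroup.ker_mk']
    rw [h4, Subgroup.index_comap_of_surjective _ (QuotientGroup.mk'_surjective N)]
  have h4 : (commutator (Q ⧸ N)).index ≤ p := by
    rw [h3, hk2]
    calc p ^ k ≤ p ^ 1 := Nat.pow_le_pow_right hp.out.pos hk1
      _ = p := pow_one p
  have h5 := commutator_eq_bot_of_index_le (hQ.to_quotient N) h4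
  have h6 : commutator Q ≤ N := by
    have h7 : (commutator Q).map (QuotientGroup.mk' N) ≤ ⊥ := by
      rw [← h5, _root_.commutator_def, _root_.commutator_def, Subgroup.map_commutator,
        Subgroup.map_top_of_surjective _ (QuotientGroup.mk'_surjective N)]
    rw [Subgroup.map_le_iff_le_comap, MonoidHom.comap_bot, QuotientGroup.ker_mk'] at h7
    exact h7
  refine ⟨h6, ?_⟩
  rw [sup_eq_right.mpr h6] at hk2
  rw [hk2]
  rcases Nat.eq_zero_or_pos k with h7 | h7
  · left; rw [h7, pow_zero]
  · right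
    have : k = 1 := by omega
    rw [this, pow_one]

/-- Centralizers outside an abelian subgroup of index `p`. -/
theorem card_centralizer_of_abelian_index (h : (commutator Q).index = p ^ 2)
    (A : Subgroup Q) [hA : A.Normal] (hab : ∀ a ∈ A, ∀ b ∈ A, a * b = b * a) (hi : A.index = p)
    {y : Q} (hy : y ∉ A) : Nat.card (Subgroup.centralizer ({y} : Set Q)) = p ^ 2 := by
  classical
  have hAc : IsCyclic (Q ⧸ A) := isCyclic_of_prime_card (p := p) hi
  let f : A →* Q :=
    { toFun := fun a => (a : Q) * (y * (a : Q)⁻¹ * y⁻¹)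
      map_one' := by simp
      map_mul' := by
        intro a b
        have h1 : y * (a : Q)⁻¹ * y⁻¹ ∈ A := hA.conj_mem _ (A.inv_mem a.2) y
        have h2 := hab _ h1 _ b.2
        have h3 : y * (b : Q)⁻¹ * y⁻¹ ∈ A := hA.conj_mem _ (A.inv_mem b.2) y
        have h4 := hab _ h1 _ h3
        calc ((a * b : A) : Q) * (y * ((a * b : A) : Q)⁻¹ * y⁻¹)
            = a * b * ((y * (b : Q)⁻¹ * y⁻¹) * (y * (a : Q)⁻¹ * y⁻¹)) := by
              push_cast; group
          _ = a * b * ((y * (a : Q)⁻¹ * y⁻¹) * (y * (b : Q)⁻¹ * y⁻¹)) := by rw [h4]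
          _ = a * (b * (y * (a : Q)⁻¹ * y⁻¹)) * (y * (b : Q)⁻¹ * y⁻¹) := by group
          _ = a * ((y * (a : Q)⁻¹ * y⁻¹) * b) * (y * (b : Q)⁻¹ * y⁻¹) := by rw [h2]
          _ = a * (y * (a : Q)⁻¹ * y⁻¹) * (b * (y * (b : Q)⁻¹ * y⁻¹)) := by group }
  have hf : ∀ a : A, f a = (a : Q) * (y * (a : Q)⁻¹ * y⁻¹) := fun _ => rfl
  have hrA : f.range ≤ A := by
    rintro _ ⟨a, rfl⟩
    exact A.mul_mem a.2 (hA.conj_mem _ (A.inv_mem a.2) y)
  -- generation
  have hgen : ∀ q : Q, ∃ a ∈ A, ∃ i : ℤ, q = a * y ^ i := by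
    intro q
    have h1 : Subgroup.zpowers (y : Q ⧸ A) = ⊤ := by
      have hp' : (Nat.card (Q ⧸ A)).Prime := by
        have : Nat.card (Q ⧸ A) = p := hi
        rw [this]; exact hp.out
      haveI := Fact.mk hp'
      apply zpowers_eq_top_of_prime_card (p := Nat.card (Q ⧸ A)) rfl
      intro h2
      exact hy ((QuotientGroup.eq_one_iff y).mp h2)
    have h2 : (q : Q ⧸ A) ∈ Subgroup.zpowers (y : Q ⧸ A) := by rw [h1]; trivial
    obtain ⟨i, hi2⟩ := Subgroup.mem_zpowers_iff.mp h2
    refine ⟨q * (y ^ i)⁻¹, ?_, i, by group⟩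
    rw [← QuotientGroup.eq_one_iff]
    rw [QuotientGroup.mk_mul, QuotientGroup.mk_inv, QuotientGroup.mk_zpow, hi2, mul_inv_cancel]
  have hrn : f.range.Normal := by
    constructor
    rintro _ ⟨a, rfl⟩ q
    obtain ⟨b, hb, i, rfl⟩ := hgen q
    have h1 : y ^ i * f a * (y ^ i)⁻¹ = f ⟨y ^ i * a * (y ^ i)⁻¹, hA.conj_mem _ a.2 _⟩ := by
      rw [hf, hf]
      have h2 : y * (y ^ i) = y ^ i * y := (Commute.self_zpow y i).eq
      calc y ^ i * ((a : Q) * (y * (a : Q)⁻¹ * y⁻¹)) * (y ^ i)⁻¹
          = y ^ i * (a : Q) * (y ^ i)⁻¹ * ((y ^ i * y) * (a : Q)⁻¹ * (y ^ i * y)⁻¹) := by group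
        _ = y ^ i * (a : Q) * (y ^ i)⁻¹ * ((y * y ^ i) * (a : Q)⁻¹ * (y * y ^ i)⁻¹) := by rw [h2]
        _ = _ := by group
    have h3 : b * y ^ i * f a * (b * y ^ i)⁻¹ = y ^ i * f a * (y ^ i)⁻¹ := by
      have h4 : y ^ i * f a * (y ^ i)⁻¹ ∈ A := hA.conj_mem _ (hrA ⟨a, rfl⟩) _
      have h5 := hab _ hb _ h4
      calc b * y ^ i * f a * (b * y ^ i)⁻¹ = b * (y ^ i * f a * (y ^ i)⁻¹) * b⁻¹ := by group
        _ = (y ^ i * f a * (y ^ i)⁻¹) * b * b⁻¹ := by rw [h5]
        _ = _ := by group
    rw [h3, h1]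
    exact ⟨_, rfl⟩
  -- the derived subgroup
  have hcomm : commutator Q ≤ f.range := by
    rw [_root_.commutator_def, Subgroup.commutator_le]
    intro q _ r _
    obtain ⟨a, ha, i, rfl⟩ := hgen q
    obtain ⟨b, hb, j, rfl⟩ := hgen r
    rw [← QuotientGroup.eq_one_iff]
    have key : ∀ c ∈ A, Commute (c : Q ⧸ f.range) (y : Q ⧸ f.range) := by
      intro c hc
      have h1 : ((f ⟨c, hc⟩ : Q) : Q ⧸ f.range) = 1 := (QuotientGroup.eq_one_iff _).mpr ⟨_, rfl⟩
      rw [hf] at h1
      push_cast at h1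
      have h2 : (c : Q ⧸ f.range) * ((y : Q ⧸ f.range) * (c : Q ⧸ f.range)⁻¹ *
          (y : Q ⧸ f.range)⁻¹) = 1 := h1
      have h3 : (c : Q ⧸ f.range) * (y : Q ⧸ f.range) * ((c : Q ⧸ f.range)⁻¹ *
          (y : Q ⧸ f.range)⁻¹) = 1 := by rw [← h2]; group
      have h4 := eq_inv_of_mul_eq_one_left h3
      change (c : Q ⧸ f.range) * (y : Q ⧸ f.range) = (y : Q ⧸ f.range) * (c : Q ⧸ f.range)
      rw [h4]
      group
    have hca := (key a ha).zpow_right j
    have hcb := (key b hb).zpow_right i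
    have hcab : Commute (a : Q ⧸ f.range) (b : Q ⧸ f.range) := by
      change (a : Q ⧸ f.range) * b = b * a
      rw [← QuotientGroup.mk_mul, ← QuotientGroup.mk_mul, hab a ha b hb]
    have h5 : Commute ((a : Q ⧸ f.range) * (y : Q ⧸ f.range) ^ i)
        ((b : Q ⧸ f.range) * (y : Q ⧸ f.range) ^ j) := by
      apply Commute.mul_left
      · exact Commute.mul_right hcab hca
      · exact Commute.mul_right hcb.symm (Commute.zpow_zpow_self _ _ _)
    have h6 := commutatorElement_eq_one_iff_commute.mpr h5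
    rw [← h6]
    rfl
  -- orders
  have hker : Nat.card f.ker ≤ p := by
    have h1 : A.index * Nat.card A = Nat.card Q := A.index_mul_card
    have h2 : (commutator Q).index * Nat.card (commutator Q) = Nat.card Q :=
      Subgroup.index_mul_card _
    have h3 : Nat.card (commutator Q) ≤ Nat.card f.range :=
      Nat.le_of_dvd Nat.card_pos (Subgroup.card_dvd_of_le hcomm)
    have h4 : Nat.card f.range * Nat.card f.ker = Nat.card A := by
      rw [← Subgroup.index_ker, mul_comm]
      exact Subgroup.card_mul_index _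
    rw [hi, ← h4] at h1
    rw [h, ← h1] at h2
    have hc0 : 0 < Nat.card (commutator Q) := Nat.card_pos
    have h5 : p * (Nat.card f.range * Nat.card f.ker) ≤ p * (Nat.card f.range * p) := by
      rw [← h2]
      calc p ^ 2 * Nat.card (commutator Q) = p * (Nat.card (commutator Q) * p) := by ring
        _ ≤ p * (Nat.card f.range * p) :=
          Nat.mul_le_mul_left _ (Nat.mul_le_mul_right _ h3)
    have h6 := Nat.le_of_mul_le_mul_left h5 hp.out.pos
    exact Nat.le_of_mul_le_mul_left h6 Nat.card_pos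
  apply le_antisymm
  · set C := Subgroup.centralizer ({y} : Set Q) with hC
    have h1 : Nat.card (C ⊓ A : Subgroup Q) ≤ Nat.card f.ker := by
      let g : (C ⊓ A : Subgroup Q) → f.ker := fun c => ⟨⟨c, c.2.2⟩, by
        rw [MonoidHom.mem_ker, hf]
        have h2 : (c : Q) * y = y * c := Subgroup.mem_centralizer_singleton_iff.mp c.2.1
        calc (c : Q) * (y * (c : Q)⁻¹ * y⁻¹) = (c : Q) * y * (c : Q)⁻¹ * y⁻¹ := by group
          _ = 1 := by rw [h2]; group⟩
      apply Nat.card_le_card_of_injective g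
      intro a b hab'
      have : (a : Q) = b := congrArg (fun z : f.ker => ((z : A) : Q)) hab'
      exact Subtype.ext this
    have h2 : A.relIndex C ≤ p := by
      rw [← hi]
      exact Nat.le_of_dvd (by rw [hi]; exact hp.out.pos) (Subgroup.relIndex_dvd_index_of_normal A C)
    have h3 : Nat.card (C ⊓ A : Subgroup Q) * A.relIndex C = Nat.card C := by
      have e1 := Subgroup.relIndex_mul_index (inf_le_left : C ⊓ A ≤ C)
      rw [Subgroup.inf_relIndex_left] at e1
      have e2 := Subgroup.card_mul_index (C ⊓ A)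
      have e3 := Subgroup.card_mul_index C
      rw [← e1, ← e3, ← mul_assoc] at e2
      exact Nat.eq_of_mul_eq_mul_right (Nat.pos_of_ne_zero Subgroup.index_ne_zero_of_finite) e2
    rw [← h3, sq]
    exact Nat.mul_le_mul (h1.trans hker) h2
  · rw [← h]
    exact index_commutator_le_card_centralizer y

end Q

end Cfsg.Agent.H26
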