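import Mathlib
import Cfsg.Agent.H26.Ks1

set_option autoImplicit false
set_option maxHeartbeats 800000
set_option linter.style.haveILetI false

/-!
# A norm argument
-/

namespace Cfsg.Agent.H26

open Subgroup
open scoped commutatorElement

section Q

variable {Q : Type*} [Group Q] [Finite Q] {p : ℕ} [hp : Fact p.Prime]

omit [Finite Q] in
theorem gen_of_index (A : Subgroup Q) [hA : A.Normal] (hi : A.index = p) {y : Q} (hy : y ∉ A)
    (q : Q) : ∃ a ∈ A, ∃ i : ℤ, q = a * y ^ i := by
  have h1 : Subgroup.zpowers (y : Q ⧸ A) = ⊤ := by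
    have hp' : (Nat.card (Q ⧸ A)).Prime := by
      have : Nat.card (Q ⧸ A) = p := hi
      rw [this]; exact hp.out
    haveI := Fact.mk hp'
    apply zpowers_eq_top_of_prime_card (p := Nat.card (Q ⧸ A)) rfl
    intro h2
    exact hy ((QuotientGroup.eq_one_iff y).mp h2)
  have h2 : (q : Q ⧸ A) ∈ Subgroup.zpowers (y : Q ⧸ A) := by rw [h1]; trivial
  obtain ⟨i, hi2⟩ := Subgroup.mem_zpowers_iff.mp h2
  refine ⟨q * (y ^ i)⁻¹, ?_, i, by group⟩
  rw [← QuotientGroup.eq_one_iff]
  rw [QuotientGroup.mk_mul, QuotientGroup.mk_inv, QuotientGroup.mk_zpow, hi2, mul_inv_cancel]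

/-- The norm argument. -/
theorem norm_arg (hQ : IsPGroup p Q) (h : (commutator Q).index = p ^ 2)
    (A : Subgroup Q) [hA : A.Normal] (hi : A.index = p) {x : Q} (hx : x ∉ A)
    (κ : Subgroup A) [hκ : κ.Normal]
    (hs : ∀ a : A, ∃ s : A, a * s⁻¹ ∈ κ ∧ ∀ i : ℕ, 0 < i → i < p →
      MulAut.conjNormal (x ^ i) s ∈ κ) (a b : A) : a * b * a⁻¹ * b⁻¹ ∈ κ := by
  classical
  let lam : A →* Abelianization (A ⧸ κ) := Abelianization.of.comp (QuotientGroup.mk' κ)
  have hlamκ : ∀ a ∈ κ, lam a = 1 := by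
    intro a ha
    have : QuotientGroup.mk' κ a = 1 := (QuotientGroup.eq_one_iff a).mpr ha
    simp only [lam, MonoidHom.comp_apply, this, map_one]
  have hlams : Function.Surjective lam := by
    intro e
    obtain ⟨u, rfl⟩ := QuotientGroup.mk_surjective e
    obtain ⟨a, rfl⟩ := QuotientGroup.mk_surjective u
    exact ⟨a, rfl⟩
  let Φ : A →* Abelianization (A ⧸ κ) :=
    ∏ i ∈ Finset.range p, lam.comp ((MulAut.conjNormal (x ^ i) : MulAut A).toMonoidHom)
  have hΦ : ∀ a, Φ a = ∏ i ∈ Finset.range p, lam (MulAut.conjNormal (x ^ i) a) := by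
    intro a
    simp only [Φ, MonoidHom.finset_prod_apply]
    rfl
  have hxp : x ^ p ∈ A := by
    rw [← hi]; exact Subgroup.pow_index_mem A x
  have hlamconj : ∀ c a : A, lam (c * a * c⁻¹) = lam a := by
    intro c a
    rw [map_mul, map_mul, map_inv, mul_comm (lam c), mul_inv_cancel_right]
  have hconjA : ∀ (c : A) (a : A), MulAut.conjNormal (c : Q) a = c * a * c⁻¹ := by
    intro c a
    apply Subtype.ext
    rw [MulAut.conjNormal_apply]
    rfl
  have hΦx : ∀ a, Φ (MulAut.conjNormal x a) = Φ a := by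
    intro a
    rw [hΦ, hΦ]
    have h1 : ∀ i, lam (MulAut.conjNormal (x ^ i) (MulAut.conjNormal x a)) =
        lam (MulAut.conjNormal (x ^ (i + 1)) a) := by
      intro i
      rw [pow_succ, map_mul, MulAut.mul_apply]
    rw [Finset.prod_congr rfl fun i _ => h1 i]
    have h2 := Finset.prod_range_succ (fun i => lam (MulAut.conjNormal (x ^ i) a)) p
    have h3 := Finset.prod_range_succ' (fun i => lam (MulAut.conjNormal (x ^ i) a)) p
    rw [h3] at h2
    have h4 : lam (MulAut.conjNormal (x ^ p) a) = lam (MulAut.conjNormal (x ^ 0) a) := by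
      rw [show x ^ p = ((⟨x ^ p, hxp⟩ : A) : Q) from rfl, hconjA, hlamconj, pow_zero, map_one,
        MulAut.one_apply]
    rw [h4] at h2
    exact mul_right_cancel h2
  have hΦA : ∀ c a : A, Φ (MulAut.conjNormal (c : Q) a) = Φ a := by
    intro c a
    rw [hconjA, map_mul, map_mul, map_inv, mul_comm (Φ c), mul_inv_cancel_right]
  -- surjectivity
  have hΦs : Function.Surjective Φ := by
    intro e
    obtain ⟨a, rfl⟩ := hlams e
    obtain ⟨s, hs1, hs2⟩ := hs a
    refine ⟨s, ?_⟩
    have h1 : lam a = lam s := by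
      have := hlamκ _ hs1
      rw [map_mul, map_inv] at this
      exact mul_inv_eq_one.mp this
    rw [h1, hΦ, Finset.prod_eq_single_of_mem 0 (Finset.mem_range.mpr hp.out.pos)]
    · rw [pow_zero, map_one, MulAut.one_apply]
    · intro i hi1 hi2
      exact hlamκ _ (hs2 i (Nat.pos_of_ne_zero hi2) (Finset.mem_range.mp hi1))
  -- the kernel
  set K : Subgroup Q := Φ.ker.map A.subtype with hK
  have hmem : ∀ a : A, (a : Q) ∈ K ↔ Φ a = 1 := by
    intro a
    rw [hK, Subgroup.mem_map]
    constructor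
    · rintro ⟨c, hc, hca⟩
      have : c = a := Subtype.ext hca
      rw [← this]
      exact hc
    · intro h1
      exact ⟨a, h1, rfl⟩
  have hgen := gen_of_index A hi hx
  have hΦz : ∀ (i : ℤ) (a : A), Φ (MulAut.conjNormal (x ^ i) a) = Φ a := by
    intro i
    induction i using Int.induction_on with
    | zero => intro a; rw [zpow_zero, map_one, MulAut.one_apply]
    | succ i ih =>
      intro a
      rw [zpow_add_one, map_mul, MulAut.mul_apply, ih, hΦx]
    | pred i ih =>
      intro a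
      have h1 := ih (MulAut.conjNormal x⁻¹ a)
      rw [zpow_sub_one, map_mul, MulAut.mul_apply, h1]
      have h2 := hΦx (MulAut.conjNormal x⁻¹ a)
      rw [← MulAut.mul_apply, ← map_mul, mul_inv_cancel, map_one, MulAut.one_apply] at h2
      exact h2.symm
  have hΦq : ∀ (q : Q) (a : A), Φ (MulAut.conjNormal q a) = Φ a := by
    intro q a
    obtain ⟨c, hc, i, rfl⟩ := hgen q
    rw [map_mul, MulAut.mul_apply]
    have := hΦA ⟨c, hc⟩ (MulAut.conjNormal (x ^ i) a)
    rw [hΦz] at this
    exact this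
  have hKn : K.Normal := by
    constructor
    intro k hk q
    obtain ⟨c, hc, rfl⟩ := hk
    have h1 : q * (A.subtype c) * q⁻¹ = ((MulAut.conjNormal q c : A) : Q) := by
      rw [MulAut.conjNormal_apply]; rfl
    rw [h1, hmem, hΦq]
    exact hc
  have hcomm : commutator Q ≤ K := by
    rw [_root_.commutator_def, Subgroup.commutator_le]
    intro q _ r _
    obtain ⟨a, ha, i, rfl⟩ := hgen q
    obtain ⟨b, hb, j, rfl⟩ := hgen r
    rw [← QuotientGroup.eq_one_iff]
    have key : ∀ c ∈ A, ∀ q : Q, Commute (c : Q ⧸ K) (q : Q ⧸ K) := by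
      intro c hc q
      have h1 : (q * c * q⁻¹ * c⁻¹ : Q) ∈ K := by
        have h2 : q * c * q⁻¹ * c⁻¹ =
            ((MulAut.conjNormal q (⟨c, hc⟩ : A) * (⟨c, hc⟩ : A)⁻¹ : A) : Q) := by
          push_cast
          rw [MulAut.conjNormal_apply]
        rw [h2, hmem, map_mul, map_inv, hΦq, mul_inv_cancel]
      have h3 := (QuotientGroup.eq_one_iff _).mpr h1
      rw [QuotientGroup.mk_mul, QuotientGroup.mk_mul, QuotientGroup.mk_mul, QuotientGroup.mk_inv,
        QuotientGroup.mk_inv, mul_inv_eq_one, mul_inv_eq_iff_eq_mul] at h3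
      exact h3.symm
    have h5 : Commute ((a : Q ⧸ K) * (x : Q ⧸ K) ^ i) ((b : Q ⧸ K) * (x : Q ⧸ K) ^ j) := by
      apply Commute.mul_left
      · exact Commute.mul_right (key a ha b) ((key a ha x).zpow_right j)
      · exact Commute.mul_right ((key b hb x).zpow_right i).symm (Commute.zpow_zpow_self _ _ _)
    have h6 := commutatorElement_eq_one_iff_commute.mpr h5
    rw [← h6]
    rfl
  -- orders
  have hE : Nat.card (Abelianization (A ⧸ κ)) ≤ p := by
    have h1 : K.index = A.index * Nat.card (Abelianization (A ⧸ κ)) := by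
      have h2 : Φ.ker.index = Nat.card (Abelianization (A ⧸ κ)) := by
        rw [Subgroup.index_ker, MonoidHom.range_eq_top.mpr hΦs, Subgroup.card_top]
      rw [← h2, hK, Subgroup.index_map_subtype, mul_comm]
    have h3 : K.index ∣ p ^ 2 := by
      rw [← h]
      exact Subgroup.index_dvd_of_le hcomm
    rw [h1, hi, sq] at h3
    exact Nat.le_of_dvd hp.out.pos (Nat.dvd_of_mul_dvd_mul_left hp.out.pos h3)
  have hĀ : IsPGroup p (A ⧸ κ) := (hQ.to_subgroup A).to_quotient κ
  have h7 : commutator (A ⧸ κ) = ⊥ := commutator_eq_bot_of_index_le hĀ hE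
  rw [← QuotientGroup.eq_one_iff]
  have h8 : ⁅(a : A ⧸ κ), (b : A ⧸ κ)⁆ ∈ commutator (A ⧸ κ) :=
    Subgroup.commutator_mem_commutator (Subgroup.mem_top _) (Subgroup.mem_top _)
  rw [h7, Subgroup.mem_bot] at h8
  exact h8

end Q

end Cfsg.Agent.H26
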