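import Mathlib
import Cfsg.Agent.H2.Conj
import Cfsg.Agent.H2.Frat
import Cfsg.Agent.H1.Cores

set_option autoImplicit false
set_option maxHeartbeats 800000
set_option linter.style.haveILetI false

/-!
# Tate's theorem for subgroups normalised by a Sylow subgroup
-/

namespace Cfsg.Agent.H26

open Subgroup Cfsg
open scoped commutatorElement

section Q

variable {G : Type*} [Group G] [Finite G] {p : ℕ} [hp : Fact p.Prime]

theorem ks_complement {X : Type*} [Group X] [Finite X] (h : HasNormalPComplement p X) :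
    (Nat.card (pPrimeCore p X)).Coprime p ∧ ∃ n, (pPrimeCore p X).index = p ^ n := by
  obtain ⟨T, K, hK, hc⟩ := h
  have h1 : Nat.card K * Nat.card T = Nat.card X := hc.card_mul
  have h2 : Nat.card T * (T : Subgroup X).index = Nat.card X := (T : Subgroup X).card_mul_index
  have h3 : Nat.card K = (T : Subgroup X).index := by
    rw [mul_comm, ← h2] at h1
    exact Nat.eq_of_mul_eq_mul_left Nat.card_pos h1
  have h4 : (Nat.card K).Coprime p := by
    rw [h3]
    exact ((hp.out.coprime_iff_not_dvd).mpr T.not_dvd_index).symm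
  refine ⟨H1.pPrimeCore_coprime p X, ?_⟩
  have h5 : K ≤ pPrimeCore p X := H1.le_pPrimeCore hK h4
  have h6 : K.index = Nat.card T := by
    have h7 := K.card_mul_index
    rw [← h1] at h7
    exact Nat.eq_of_mul_eq_mul_left Nat.card_pos h7
  obtain ⟨m, hm⟩ := IsPGroup.iff_card.mp T.isPGroup'
  have h8 : (pPrimeCore p X).index ∣ p ^ m := by
    rw [← hm, ← h6]
    exact Subgroup.index_dvd_of_le h5
  obtain ⟨k, -, hk⟩ := (Nat.dvd_prime_pow hp.out).mp h8
  exact ⟨k, hk⟩

/-- Tate's theorem for a subgroup normalised by a Sylow subgroup. -/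
theorem ks_tate (P : Sylow p G) (R : Subgroup G)
    (hR : (P : Subgroup G) ≤ Subgroup.normalizer (R : Set G))
    (h : R ⊓ (P : Subgroup G) ≤ ⁅(P : Subgroup G), (P : Subgroup G)⁆) :
    ∃ K : Subgroup G, K ≤ R ∧ (K.subgroupOf R).Characteristic ∧ (Nat.card K).Coprime p ∧
      ∃ n, (K.subgroupOf R).index = p ^ n := by
  set H : Subgroup G := (P : Subgroup G) ⊔ R with hH
  have hPH : (P : Subgroup G) ≤ H := le_sup_left
  have hRH : R ≤ H := le_sup_right
  have hn : (R.subgroupOf H).Normal :=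
    (Subgroup.normal_subgroupOf_iff_le_normalizer hRH).mpr (sup_le hR Subgroup.le_normalizer)
  let PH : Sylow p H := P.subtype hPH
  have hPHc : (PH : Subgroup H) = (P : Subgroup G).subgroupOf H := rfl
  have h1 : R.subgroupOf H ⊓ (PH : Subgroup H) ≤ (frattini PH).map (PH : Subgroup H).subtype := by
    intro x hx
    have h2 : (x : G) ∈ ⁅(P : Subgroup G), (P : Subgroup G)⁆ := h ⟨hx.1, hx.2⟩
    have h3 : (⁅(PH : Subgroup H), (PH : Subgroup H)⁆).map H.subtype =
        ⁅(P : Subgroup G), (P : Subgroup G)⁆ := by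
      rw [Subgroup.map_commutator, hPHc, Subgroup.subgroupOf_map_subtype, inf_eq_left.mpr hPH]
    rw [← h3] at h2
    obtain ⟨y, hy, hyx⟩ := h2
    have h4 : y = x := Subtype.ext hyx
    rw [h4, SetLike.mem_coe, ← Subgroup.map_subtype_commutator] at hy
    exact Subgroup.map_mono (H2.commutator_le_frattini PH.isPGroup') hy
  have h2 := H2.hasNormalPComplement_of_inf_le_frattini PH (R.subgroupOf H) h1
  obtain ⟨h3, n, h4⟩ := ks_complement h2
  let e : R.subgroupOf H ≃* R := Subgroup.subgroupOfEquivOfLe hRH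
  let K0 : Subgroup R := (pPrimeCore p (R.subgroupOf H)).map e.toMonoidHom
  refine ⟨K0.map R.subtype, Subgroup.map_subtype_le _, ?_, ?_, n, ?_⟩
  · have h5 : (K0.map R.subtype).subgroupOf R = K0 := by
      rw [Subgroup.subgroupOf, Subgroup.comap_map_eq_self_of_injective R.subtype_injective]
    rw [h5]
    constructor
    intro φ
    have h6 := (H1.pPrimeCore_characteristic (G := R.subgroupOf H) p).fixed
      ((e.trans φ).trans e.symm)
    ext x
    rw [Subgroup.mem_comap]
    have h7 : ∀ y : R, y ∈ K0 ↔ e.symm y ∈ pPrimeCore p (R.subgroupOf H) := by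
      intro y
      constructor
      · rintro ⟨z, hz, rfl⟩
        change e.symm (e z) ∈ _
        rw [e.symm_apply_apply]
        exact hz
      · intro hy
        exact ⟨e.symm y, hy, e.apply_symm_apply y⟩
    have h8 : e.symm (φ (e (e.symm x))) ∈ pPrimeCore p (R.subgroupOf H) ↔
        e.symm x ∈ pPrimeCore p (R.subgroupOf H) := SetLike.ext_iff.mp h6 (e.symm x)
    rw [e.apply_symm_apply] at h8
    rw [h7, h7]
    exact h8
  · rw [Nat.card_congr (K0.equivMapOfInjective R.subtype R.subtype_injective).symm.toEquiv,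
      Nat.card_congr ((pPrimeCore p (R.subgroupOf H)).equivMapOfInjective e.toMonoidHom
        e.injective).symm.toEquiv]
    exact h3
  · have h5 : (K0.map R.subtype).subgroupOf R = K0 := by
      rw [Subgroup.subgroupOf, Subgroup.comap_map_eq_self_of_injective R.subtype_injective]
    rw [h5]
    have h6 : K0.index = (pPrimeCore p (R.subgroupOf H)).index := by
      exact Subgroup.index_map_equiv _ e
    rw [h6, h4]

/-- Elements of a Sylow subgroup of a direct product. -/
theorem ks_decomp {X : Type*} [Group X] [Finite X] (T : Sylow p X) (M K : Subgroup X)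
    [hM : M.Normal] [hK : K.Normal] (h1 : M ⊓ K = ⊥) (h2 : M ⊔ K = ⊤) {a : X} (ha : a ∈ T) :
    ∃ s ∈ M, s ∈ T ∧ ∃ k ∈ K, k ∈ T ∧ a = s * k := by
  classical
  have hcard : ∀ L : Subgroup X, L.Normal → Nat.card ((T : Subgroup X) ⊓ L : Subgroup X) =
      p ^ (Nat.card L).factorization p := by
    intro L hL
    have e1 : ¬ p ∣ (T : Subgroup X).relIndex L := H2.not_dvd_relIndex_of_normal T L
    have e2 : Nat.card ((T : Subgroup X) ⊓ L : Subgroup X) * (T : Subgroup X).relIndex L =
        Nat.card L := by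
      have f1 := Subgroup.relIndex_mul_index (inf_le_right : (T : Subgroup X) ⊓ L ≤ L)
      rw [Subgroup.inf_relIndex_right] at f1
      have f2 := Subgroup.card_mul_index ((T : Subgroup X) ⊓ L)
      have f3 := Subgroup.card_mul_index L
      rw [← f1, ← f3, ← mul_assoc] at f2
      exact Nat.eq_of_mul_eq_mul_right (Nat.pos_of_ne_zero Subgroup.index_ne_zero_of_finite) f2
    obtain ⟨m, hm⟩ := IsPGroup.iff_card.mp
      (T.isPGroup'.to_le (inf_le_left : (T : Subgroup X) ⊓ L ≤ T))
    have e3 : (Nat.card L).factorization p = m := by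
      rw [← e2, Nat.factorization_mul Nat.card_pos.ne' (by
        intro h; rw [h] at e1; exact e1 (dvd_zero _)), Finsupp.add_apply, hm,
        hp.out.factorization_pow, Finsupp.single_eq_same, Nat.factorization_eq_zero_of_not_dvd e1,
        add_zero]
    rw [hm, e3]
  let f : (((T : Subgroup X) ⊓ M : Subgroup X) × ((T : Subgroup X) ⊓ K : Subgroup X)) → T :=
    fun x => ⟨(x.1 : X) * x.2, (T : Subgroup X).mul_mem x.1.2.1 x.2.2.1⟩
  have hf : Function.Injective f := by
    intro x y hxy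
    have e1 : (x.1 : X) * x.2 = y.1 * y.2 := congrArg Subtype.val hxy
    have e2 : (y.1 : X)⁻¹ * x.1 = y.2 * (x.2 : X)⁻¹ := by
      rw [inv_mul_eq_iff_eq_mul, ← mul_assoc, ← e1, mul_inv_cancel_right]
    have e3 : (y.1 : X)⁻¹ * x.1 ∈ M ⊓ K := by
      refine ⟨M.mul_mem (M.inv_mem y.1.2.2) x.1.2.2, ?_⟩
      rw [e2]
      exact K.mul_mem y.2.2.2 (K.inv_mem x.2.2.2)
    rw [h1, Subgroup.mem_bot] at e3
    have e4 : (x.1 : X) = y.1 := (inv_mul_eq_one.mp e3).symm
    rw [e3] at e2
    have e5 : (y.2 : X) = x.2 := (mul_inv_eq_one.mp e2.symm)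
    exact Prod.ext (Subtype.ext e4) (Subtype.ext e5.symm)
  have hcf : Nat.card (((T : Subgroup X) ⊓ M : Subgroup X) × ((T : Subgroup X) ⊓ K : Subgroup X)) =
      Nat.card T := by
    rw [Nat.card_prod, hcard M hM, hcard K hK, T.card_eq_multiplicity, ← pow_add]
    congr 1
    have e1 : Nat.card X = Nat.card M * Nat.card K := by
      have hc : M.IsComplement' K := by
        apply Subgroup.isComplement'_of_disjoint_and_mul_eq_univ (disjoint_iff.mpr h1)
        rw [← Subgroup.mul_normal, h2]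
        rfl
      exact hc.card_mul.symm
    rw [e1, Nat.factorization_mul Nat.card_pos.ne' Nat.card_pos.ne', Finsupp.add_apply]
  have hs : Function.Surjective f :=
    ((Nat.bijective_iff_injective_and_card f).mpr ⟨hf, hcf⟩).2
  obtain ⟨x, hx⟩ := hs ⟨a, ha⟩
  exact ⟨x.1, x.1.2.2, x.1.2.1, x.2, x.2.2.2, x.2.2.1, (congrArg Subtype.val hx).symm⟩

omit hp in
/-- Conjugates of a minimal normal subgroup of `N`. -/
theorem ks_conj {N S : Subgroup G} [hN : N.Normal] (hSN : S ≤ N)
    (hSn : ∀ n ∈ N, ∀ s ∈ S, n * s * n⁻¹ ∈ S)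
    (hmin : ∀ T : Subgroup G, T ≤ S → T ≠ ⊥ → (∀ n ∈ N, ∀ s ∈ T, n * s * n⁻¹ ∈ T) → T = S)
    (g : G) : (∀ s ∈ S, g * s * g⁻¹ ∈ S) ∨
      ∀ s ∈ S, ∀ t ∈ S, s * (g * t * g⁻¹) = (g * t * g⁻¹) * s := by
  classical
  set Sg : Subgroup G := S.map (MulAut.conj g).toMonoidHom with hSg
  have hmem : ∀ t ∈ S, g * t * g⁻¹ ∈ Sg := fun t ht => ⟨t, ht, rfl⟩
  have hSgn : ∀ n ∈ N, ∀ s ∈ Sg, n * s * n⁻¹ ∈ Sg := by
    rintro n hn _ ⟨s, hs, rfl⟩
    have h1 : g⁻¹ * n * g ∈ N := by
      have := hN.conj_mem n hn g⁻¹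
      rwa [inv_inv] at this
    have h2 := hmem _ (hSn _ h1 s hs)
    have h3 : n * (MulAut.conj g).toMonoidHom s * n⁻¹ =
        g * (g⁻¹ * n * g * s * (g⁻¹ * n * g)⁻¹) * g⁻¹ := by
      change n * (g * s * g⁻¹) * n⁻¹ = _
      group
    rw [h3]
    exact h2
  by_cases hT : S ⊓ Sg = ⊥
  · right
    intro s hs t ht
    have h1 : s * (g * t * g⁻¹) * s⁻¹ * (g * t * g⁻¹)⁻¹ ∈ S ⊓ Sg := by
      constructor
      · have h2 : g * t * g⁻¹ ∈ N := hN.conj_mem _ (hSN ht) g
        have h3 := hSn _ h2 s⁻¹ (S.inv_mem hs)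
        have h4 : s * (g * t * g⁻¹) * s⁻¹ * (g * t * g⁻¹)⁻¹ =
            s * ((g * t * g⁻¹) * s⁻¹ * (g * t * g⁻¹)⁻¹) := by group
        rw [h4]
        exact S.mul_mem hs h3
      · exact Sg.mul_mem (hSgn s (hSN hs) _ (hmem t ht)) (Sg.inv_mem (hmem t ht))
    rw [hT, Subgroup.mem_bot] at h1
    have h2 := mul_inv_eq_one.mp h1
    exact mul_inv_eq_iff_eq_mul.mp h2
  · left
    have h1 := hmin (S ⊓ Sg) inf_le_left hT (fun n hn s hs => ⟨hSn n hn s hs.1, hSgn n hn s hs.2⟩)
    have h2 : S ≤ Sg := by rw [← h1]; exact inf_le_right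
    have h3 : S = Sg := by
      apply Subgroup.eq_of_le_of_card_ge h2
      rw [hSg, Nat.card_congr (S.equivMapOfInjective _ (MulAut.conj g).injective).symm.toEquiv]
    intro s hs
    rw [h3]
    exact hmem s hs

end Q

end Cfsg.Agent.H26
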