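import Mathlib
import Cfsg.Agent.H26.Ks2
import Cfsg.Agent.H26.Ks3
import Cfsg.Agent.H25.Fitting

set_option autoImplicit false
set_option maxHeartbeats 800000
set_option linter.style.haveILetI false

/-!
# The non-abelian minimal normal subgroup
-/

namespace Cfsg.Agent.H26

open Subgroup Cfsg
open scoped commutatorElement

section Q

variable {G : Type*} [Group G] [Finite G] {p : ℕ} [hp : Fact p.Prime]

theorem ks_rel (P : Sylow p G) (N : Subgroup G) :
    N.subgroupOf (P : Subgroup G) ≤ commutator P ↔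
      N ⊓ (P : Subgroup G) ≤ ⁅(P : Subgroup G), (P : Subgroup G)⁆ := by
  rw [← Subgroup.map_subtype_commutator]
  constructor
  · rintro h x ⟨hx1, hx2⟩
    exact ⟨⟨x, hx2⟩, h hx1, rfl⟩
  · intro h x hx
    obtain ⟨y, hy, hyx⟩ := h ⟨hx, x.2⟩
    have : y = x := Subtype.ext hyx
    rw [← this]
    exact hy

/-- Tate's theorem inside a minimal normal subgroup. -/
theorem ks_tate2 (P : Sylow p G) (hcore : pPrimeCore p G = ⊥) {N : Subgroup G} [hN : N.Normal]
    (hab : ∀ Z : Subgroup G, Z ≤ N → (∀ n ∈ N, ∀ z ∈ Z, n * z * n⁻¹ ∈ Z) →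
      (∀ a ∈ Z, ∀ b ∈ Z, a * b = b * a) → Z = ⊥)
    {R : Subgroup G} (hRN : R ≤ N) (hR0 : R ≠ ⊥) (hRn : ∀ n ∈ N, ∀ r ∈ R, n * r * n⁻¹ ∈ R)
    (hRP : ∀ n ∈ (P : Subgroup G), ∀ r ∈ R, n * r * n⁻¹ ∈ R) :
    ¬ R ⊓ (P : Subgroup G) ≤ ⁅(P : Subgroup G), (P : Subgroup G)⁆ := by
  intro h
  have hPn : (P : Subgroup G) ≤ Subgroup.normalizer (R : Set G) := by
    intro x hx
    rw [Subgroup.mem_normalizer_iff]
    intro r
    constructor
    · exact hRP x hx r
    · intro h1
      have h2 := hRP x⁻¹ ((P : Subgroup G).inv_mem hx) _ h1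
      have h3 : x⁻¹ * (x * r * x⁻¹) * x⁻¹⁻¹ = r := by group
      rwa [h3] at h2
  obtain ⟨K, hKR, hKc, hKp, n, hn⟩ := ks_tate P R hPn h
  -- K is normalised by N
  have hRnN : (R.subgroupOf N).Normal := by
    constructor
    intro r hr n
    exact hRn n n.2 r hr
  have hchar : ∀ (L : Subgroup G), L ≤ R → (L.subgroupOf R).Characteristic →
      ∀ n ∈ N, ∀ z ∈ L, n * z * n⁻¹ ∈ L := by
    intro L hLR hL n hn z hz
    let φ : R ≃* R :=
      { toFun := fun r => ⟨n * r * n⁻¹, hRn n hn r r.2⟩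
        invFun := fun r => ⟨n⁻¹ * r * n, by
          have := hRn n⁻¹ (N.inv_mem hn) r r.2
          rwa [inv_inv] at this⟩
        left_inv := fun r => Subtype.ext (by change n⁻¹ * (n * r * n⁻¹) * n = r; group)
        right_inv := fun r => Subtype.ext (by change n * (n⁻¹ * r * n) * n⁻¹ = r; group)
        map_mul' := fun r s => Subtype.ext (by
          change n * (r * s) * n⁻¹ = (n * r * n⁻¹) * (n * s * n⁻¹); group) }
    have h1 := SetLike.ext_iff.mp (hL.fixed φ) ⟨z, hLR hz⟩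
    exact h1.mpr hz
  have hK1 : K = ⊥ := by
    have h1 : (K.subgroupOf N).Normal := by
      constructor
      intro r hr n
      exact hchar K hKR hKc n n.2 r hr
    have h2 : K.subgroupOf N ≤ pPrimeCore p N := by
      apply H1.le_pPrimeCore h1
      rw [Nat.card_congr (Subgroup.subgroupOfEquivOfLe (hKR.trans hRN)).toEquiv]
      exact hKp
    have h3 : (pPrimeCore p N).map N.subtype ≤ pPrimeCore p G := by
      apply H1.le_pPrimeCore inferInstance
      rw [Nat.card_congr ((pPrimeCore p N).equivMapOfInjective N.subtype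
        N.subtype_injective).symm.toEquiv]
      exact H1.pPrimeCore_coprime p N
    rw [hcore] at h3
    rw [eq_bot_iff]
    intro k hk
    exact h3 ⟨⟨k, hRN (hKR hk)⟩, h2 hk, rfl⟩
  -- R is a p-group
  have hRp : IsPGroup p R := by
    apply IsPGroup.of_card (n := n)
    rw [← hn, hK1, Subgroup.bot_subgroupOf, Subgroup.index_bot]
  have hRnt : Nontrivial R := (Subgroup.nontrivial_iff_ne_bot R).mpr hR0
  have hZ : Nontrivial (Subgroup.center R) := hRp.center_nontrivial
  have hZ0 : (Subgroup.center R).map R.subtype = ⊥ := by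
    apply hab _ ((Subgroup.map_subtype_le _).trans hRN)
    · apply hchar _ (Subgroup.map_subtype_le _)
      have h5 : ((Subgroup.center R).map R.subtype).subgroupOf R = Subgroup.center R := by
        rw [Subgroup.subgroupOf, Subgroup.comap_map_eq_self_of_injective R.subtype_injective]
      rw [h5]
      infer_instance
    · rintro _ ⟨a, ha, rfl⟩ _ ⟨b, hb, rfl⟩
      exact congrArg Subtype.val ((Subgroup.mem_center_iff.mp ha b).symm)
  rw [Subgroup.map_eq_bot_iff_of_injective _ R.subtype_injective] at hZ0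
  exact ((Subgroup.nontrivial_iff_ne_bot _).mp hZ) hZ0

/-- The intersection of the Sylow subgroup with a non-abelian minimal normal subgroup. -/
theorem ks_core (P : Sylow p G) (hcore : pPrimeCore p G = ⊥)
    (hidx : (commutator P).index = p ^ 2) (N : Subgroup G) [hN : N.Normal] (hN0 : N ≠ ⊥)
    (hminN : ∀ K : Subgroup G, K.Normal → K ≠ ⊥ → K ≤ N → K = N)
    (hCN : Subgroup.centralizer (N : Set G) = ⊥) (hns : ¬ IsSimpleGroup N) :
    ∀ a ∈ (P : Subgroup G), a ∈ N → ∀ b ∈ (P : Subgroup G), b ∈ N → a * b = b * a := by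
  classical
  have hcen : ∀ z ∈ N, (∀ n ∈ N, n * z = z * n) → z = 1 := by
    intro z _ h
    have : z ∈ Subgroup.centralizer (N : Set G) := by
      rw [Subgroup.mem_centralizer_iff]
      exact h
    rwa [hCN, Subgroup.mem_bot] at this
  have hab : ∀ Z : Subgroup G, Z ≤ N → (∀ n ∈ N, ∀ z ∈ Z, n * z * n⁻¹ ∈ Z) →
      (∀ a ∈ Z, ∀ b ∈ Z, a * b = b * a) → Z = ⊥ := by
    intro Z hZN hZn hZc
    have h1 : (Z.subgroupOf N).Normal := by
      constructor
      intro r hr n
      exact hZn n n.2 r hr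
    have h2 : Group.IsNilpotent (Z.subgroupOf N) := by
      have : IsMulCommutative (Z.subgroupOf N) :=
        ⟨⟨fun a b => Subtype.ext (Subtype.ext (hZc _ a.2 _ b.2))⟩⟩
      letI : CommGroup (Z.subgroupOf N) := { mul_comm := this.is_comm.comm }
      exact CommGroup.isNilpotent
    have h3 : Z.subgroupOf N ≤ fittingSubgroup N := le_sSup ⟨h1, h2⟩
    have h4 : ((fittingSubgroup N).map N.subtype).Normal := inferInstance
    by_contra hZ
    have h5 : (fittingSubgroup N).map N.subtype ≠ ⊥ := by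
      intro h6
      apply hZ
      rw [eq_bot_iff, ← h6]
      intro z hz
      exact ⟨⟨z, hZN hz⟩, h3 hz, rfl⟩
    have h6 := hminN _ h4 h5 (Subgroup.map_subtype_le _)
    have h7 : fittingSubgroup N = ⊤ := by
      rw [eq_top_iff]
      intro n _
      have h8 : (n : G) ∈ (fittingSubgroup N).map N.subtype := by rw [h6]; exact n.2
      obtain ⟨m, hm, hmn⟩ := h8
      have : m = n := Subtype.ext hmn
      rwa [← this]
    have h8 : Group.IsNilpotent (fittingSubgroup N) := H25.fitting_nilpotent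
    have h9 : Group.IsNilpotent N := by
      rw [h7] at h8
      exact Group.nilpotent_of_mulEquiv Subgroup.topEquiv
    have hNt : Nontrivial N := (Subgroup.nontrivial_iff_ne_bot N).mpr hN0
    have h10 : Nontrivial (Subgroup.center N) :=
      (Subgroup.nontrivial_iff_ne_bot _).mpr (Group.IsNilpotent.center_ne_bot N)
    obtain ⟨z, hz⟩ := exists_ne (1 : Subgroup.center N)
    apply hz
    have h11 := hcen z z.1.2 (fun n hn =>
      congrArg Subtype.val (Subgroup.mem_center_iff.mp z.2 ⟨n, hn⟩))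
    exact Subtype.ext (Subtype.ext h11)
  -- a minimal normal subgroup of N
  obtain ⟨S, ⟨hSN, hS0, hSn⟩, hSm⟩ := (Set.toFinite {T : Subgroup G | T ≤ N ∧ T ≠ ⊥ ∧
    ∀ n ∈ N, ∀ s ∈ T, n * s * n⁻¹ ∈ T}).exists_minimal
      ⟨N, le_rfl, hN0, fun n hn s hs => hN.conj_mem s hs n⟩
  have hmin : ∀ T : Subgroup G, T ≤ S → T ≠ ⊥ → (∀ n ∈ N, ∀ s ∈ T, n * s * n⁻¹ ∈ T) → T = S := by
    intro T hT hT0 hTn
    exact le_antisymm hT (hSm ⟨hT.trans hSN, hT0, hTn⟩ hT)
  have hSne : S ≠ N := by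
    intro hSN'
    apply hns
    have hNt : Nontrivial N := (Subgroup.nontrivial_iff_ne_bot N).mpr hN0
    refine ⟨fun K hK => ?_⟩
    by_cases hK0 : K = ⊥
    · exact Or.inl hK0
    · right
      have h1 : K.map N.subtype = S := by
        apply hmin
        · rw [hSN']; exact Subgroup.map_subtype_le _
        · intro h2
          exact hK0 ((Subgroup.map_eq_bot_iff_of_injective _ N.subtype_injective).mp h2)
        · rintro n hn _ ⟨k, hk, rfl⟩
          exact ⟨⟨n, hn⟩ * k * ⟨n, hn⟩⁻¹, hK.conj_mem k hk ⟨n, hn⟩, rfl⟩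
      rw [eq_top_iff]
      intro n _
      have h2 : (n : G) ∈ K.map N.subtype := by rw [h1, hSN']; exact n.2
      obtain ⟨m, hm, hmn⟩ := h2
      have : m = n := Subtype.ext hmn
      rwa [← this]
  have hconj := ks_conj hSN hSn hmin
  -- Decomposition
  set CS : Subgroup G := Subgroup.centralizer (S : Set G) with hCS
  have hCSn : ∀ n ∈ N, ∀ c ∈ CS, n * c * n⁻¹ ∈ CS := by
    intro n hn c hc
    rw [hCS, Subgroup.mem_centralizer_iff]
    intro s hs
    have h1 : n⁻¹ * s * n ∈ S := by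
      have := hSn n⁻¹ (N.inv_mem hn) s hs
      rwa [inv_inv] at this
    have h2 : (n⁻¹ * s * n) * c = c * (n⁻¹ * s * n) := Subgroup.mem_centralizer_iff.mp hc _ h1
    calc s * (n * c * n⁻¹) = n * ((n⁻¹ * s * n) * c) * n⁻¹ := by group
      _ = n * (c * (n⁻¹ * s * n)) * n⁻¹ := by rw [h2]
      _ = n * c * n⁻¹ * s := by group
  have hSZ : S ⊓ CS = ⊥ := by
    apply hab _ (inf_le_left.trans hSN)
    · intro n hn z hz
      exact ⟨hSn n hn z hz.1, hCSn n hn z hz.2⟩
    · intro a ha b hb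
      exact Subgroup.mem_centralizer_iff.mp hb.2 a ha.1
  have hdec : N ≤ S ⊔ (CS ⊓ N) := by
    have h1 : Subgroup.normalClosure (S : Set G) = N := by
      apply hminN _ Subgroup.normalClosure_normal
      · intro h2
        apply hS0
        rw [eq_bot_iff, ← h2]
        exact Subgroup.subset_normalClosure
      · exact Subgroup.normalClosure_le_normal hSN
    have h9 : Subgroup.normalClosure (S : Set G) ≤ S ⊔ (CS ⊓ N) := by
      rw [Subgroup.normalClosure, Subgroup.closure_le]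
      intro y hy
      obtain ⟨s, hs, hsy⟩ := Group.mem_conjugatesOfSet_iff.mp hy
      obtain ⟨g, rfl⟩ := isConj_iff.mp hsy
      rcases hconj g with h2 | h2
      · exact Subgroup.mem_sup_left (h2 s hs)
      · apply Subgroup.mem_sup_right
        refine Subgroup.mem_inf.mpr ⟨?_, hN.conj_mem s (hSN hs) g⟩
        rw [hCS, Subgroup.mem_centralizer_iff]
        intro t ht
        exact h2 t ht s hs
    rw [h1] at h9
    exact h9
  -- the P-closure of S
  let R : Subgroup G := Subgroup.closure {y | ∃ q ∈ (P : Subgroup G), ∃ s ∈ S, y = q * s * q⁻¹}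
  have hSR : S ≤ R := fun s hs => Subgroup.subset_closure
    ⟨1, (P : Subgroup G).one_mem, s, hs, by group⟩
  have hRN : R ≤ N := by
    rw [Subgroup.closure_le]
    rintro _ ⟨q, _, s, hs, rfl⟩
    exact hN.conj_mem s (hSN hs) q
  have hRgen : ∀ g : G, (∀ q ∈ (P : Subgroup G), ∀ s ∈ S, g * (q * s * q⁻¹) * g⁻¹ ∈ R) →
      ∀ r ∈ R, g * r * g⁻¹ ∈ R := by
    intro g hg r hr
    have h1 : R ≤ R.comap (MulAut.conj g).toMonoidHom := by
      rw [Subgroup.closure_le]
      rintro _ ⟨q, hq, s, hs, rfl⟩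
      exact hg q hq s hs
    exact h1 hr
  have hRn : ∀ n ∈ N, ∀ r ∈ R, n * r * n⁻¹ ∈ R := by
    intro n hn
    apply hRgen
    intro q hq s hs
    have h1 : q⁻¹ * n * q ∈ N := by
      have := hN.conj_mem n hn q⁻¹
      rwa [inv_inv] at this
    have h2 : n * (q * s * q⁻¹) * n⁻¹ = q * ((q⁻¹ * n * q) * s * (q⁻¹ * n * q)⁻¹) * q⁻¹ := by group
    rw [h2]
    exact Subgroup.subset_closure ⟨q, hq, _, hSn _ h1 s hs, rfl⟩
  have hRP : ∀ n ∈ (P : Subgroup G), ∀ r ∈ R, n * r * n⁻¹ ∈ R := by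
    intro n hn
    apply hRgen
    intro q hq s hs
    have h2 : n * (q * s * q⁻¹) * n⁻¹ = (n * q) * s * (n * q)⁻¹ := by group
    rw [h2]
    exact Subgroup.subset_closure ⟨n * q, (P : Subgroup G).mul_mem hn hq, s, hs, rfl⟩
  have hR0 : R ≠ ⊥ := by
    intro h
    apply hS0
    rw [eq_bot_iff, ← h]
    exact hSR
  -- the derived subgroup
  have hkey : ∀ L : Subgroup G, L ≤ N → L ≠ ⊥ → (∀ n ∈ N, ∀ r ∈ L, n * r * n⁻¹ ∈ L) →
      (∀ n ∈ (P : Subgroup G), ∀ r ∈ L, n * r * n⁻¹ ∈ L) →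
      commutator P ≤ L.subgroupOf (P : Subgroup G) ∧
        ((L.subgroupOf (P : Subgroup G)).index = 1 ∨ (L.subgroupOf (P : Subgroup G)).index = p) := by
    intro L h1 h2 h3 h4
    have hLn : (L.subgroupOf (P : Subgroup G)).Normal := by
      constructor
      intro r hr n
      exact h4 n n.2 r hr
    apply commutator_le_of_index_sq P.isPGroup' hidx
    rw [ks_rel]
    exact ks_tate2 P hcore hab h1 h2 h3 h4
  by_cases hP' : commutator P = ⊥
  · intro a ha _ b hb _
    have h1 : (⁅(⟨a, ha⟩ : P), (⟨b, hb⟩ : P)⁆) ∈ commutator P :=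
      Subgroup.commutator_mem_commutator (Subgroup.mem_top _) (Subgroup.mem_top _)
    rw [hP', Subgroup.mem_bot, commutatorElement_eq_one_iff_mul_comm] at h1
    exact congrArg Subtype.val h1
  -- the centralizer of R in N is trivial
  set C : Subgroup G := N ⊓ Subgroup.centralizer (R : Set G) with hC
  have hCn' : ∀ g : G, (∀ r ∈ R, g⁻¹ * r * g ∈ R) → ∀ c ∈ C, g * c * g⁻¹ ∈ C := by
    intro g hg c hc
    refine Subgroup.mem_inf.mpr ⟨hN.conj_mem c hc.1 g, ?_⟩
    rw [Subgroup.mem_centralizer_iff]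
    intro r hr
    have h2 : (g⁻¹ * r * g) * c = c * (g⁻¹ * r * g) :=
      Subgroup.mem_centralizer_iff.mp hc.2 _ (hg r hr)
    calc r * (g * c * g⁻¹) = g * ((g⁻¹ * r * g) * c) * g⁻¹ := by group
      _ = g * (c * (g⁻¹ * r * g)) * g⁻¹ := by rw [h2]
      _ = g * c * g⁻¹ * r := by group
  have hCn : ∀ n ∈ N, ∀ c ∈ C, n * c * n⁻¹ ∈ C := by
    intro n hn
    apply hCn'
    intro r hr
    have := hRn n⁻¹ (N.inv_mem hn) r hr
    rwa [inv_inv] at this
  have hCP : ∀ n ∈ (P : Subgroup G), ∀ c ∈ C, n * c * n⁻¹ ∈ C := by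
    intro n hn
    apply hCn'
    intro r hr
    have := hRP n⁻¹ ((P : Subgroup G).inv_mem hn) r hr
    rwa [inv_inv] at this
  have hRC : R ⊓ C = ⊥ := by
    apply hab _ (inf_le_left.trans hRN)
    · intro n hn z hz
      exact ⟨hRn n hn z hz.1, hCn n hn z hz.2⟩
    · intro a ha b hb
      exact Subgroup.mem_centralizer_iff.mp hb.2.2 a ha.1
  have hC0 : C = ⊥ := by
    by_contra hC0
    apply hP'
    rw [eq_bot_iff]
    intro x hx
    have h1 := (hkey R hRN hR0 hRn hRP).1 hx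
    have h2 := (hkey C inf_le_left hC0 hCn hCP).1 hx
    have h3 : (x : G) ∈ R ⊓ C := ⟨h1, h2⟩
    rw [hRC, Subgroup.mem_bot] at h3
    exact Subtype.ext h3
  -- an element moving S
  obtain ⟨x, hxP, hxS⟩ : ∃ x ∈ (P : Subgroup G), ¬ ∀ s ∈ S, x * s * x⁻¹ ∈ S := by
    by_contra hcon
    push Not at hcon
    have h1 : R ≤ S := by
      rw [Subgroup.closure_le]
      rintro _ ⟨q, hq, s, hs, rfl⟩
      exact hcon q hq s hs
    have h2 : R = S := le_antisymm h1 hSR
    apply hSne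
    apply le_antisymm hSN
    refine hdec.trans (sup_le le_rfl ?_)
    have h3 : CS ⊓ N ≤ C := by
      rintro c ⟨hc1, hc2⟩
      refine ⟨hc2, ?_⟩
      rw [h2]
      exact hc1
    rw [hC0] at h3
    exact h3.trans bot_le
  have hxN : x ∉ N := fun h => hxS (hSn x h)
  have hAn0 : (N.subgroupOf (P : Subgroup G)).Normal := inferInstance
  set A : Subgroup P := N.subgroupOf (P : Subgroup G) with hA
  have hAi : A.index = p := by
    rcases (hkey N le_rfl hN0 (fun n hn s hs => hN.conj_mem s hs n)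
      (fun n _ s hs => hN.conj_mem s hs n)).2 with h1 | h1
    · exfalso
      have h2 : A = ⊤ := Subgroup.index_eq_one.mp h1
      have h3 : (⟨x, hxP⟩ : P) ∈ A := by rw [h2]; trivial
      exact hxN h3
    · exact h1
  have hxA : (⟨x, hxP⟩ : P) ∉ A := hxN
  have hxp : x ^ p ∈ N := by
    have h1 := Subgroup.pow_index_mem A (⟨x, hxP⟩ : P)
    rw [hAi] at h1
    exact h1
  let NS : Subgroup G := Subgroup.normalizer (S : Set G)
  have hNSmem : ∀ g : G, (∀ s ∈ S, g * s * g⁻¹ ∈ S) ↔ g ∈ NS := by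
    intro g
    constructor
    · intro h
      have h1 : S.map (MulAut.conj g).toMonoidHom = S := by
        apply Subgroup.eq_of_le_of_card_ge
        · rintro _ ⟨s, hs, rfl⟩
          exact h s hs
        · rw [Nat.card_congr (S.equivMapOfInjective _ (MulAut.conj g).injective).symm.toEquiv]
      rw [Subgroup.mem_normalizer_iff]
      intro t
      constructor
      · exact h t
      · intro ht
        rw [← SetLike.mem_coe, ← h1] at ht
        obtain ⟨s, hs, hst⟩ := ht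
        have : g * s * g⁻¹ = g * t * g⁻¹ := hst
        have h2 : s = t := by simpa using this
        rw [← h2]
        exact hs
    · intro h s hs
      exact (Subgroup.mem_normalizer_iff.mp h s).mp hs
  have hpow : ∀ i : ℕ, 0 < i → i < p → ∀ s ∈ S, ∀ t ∈ S,
      s * (x ^ i * t * (x ^ i)⁻¹) = (x ^ i * t * (x ^ i)⁻¹) * s := by
    intro i hi0 hip
    rcases hconj (x ^ i) with h1 | h1
    · exfalso
      apply hxS
      rw [hNSmem]
      have h2 : x ^ i ∈ NS := (hNSmem _).mp h1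
      have h3 : x ^ p ∈ NS := (hNSmem _).mp (hSn _ hxp)
      have hco : Nat.Coprime i p := by
        rw [Nat.coprime_comm]
        exact (hp.out.coprime_iff_not_dvd).mpr (Nat.not_dvd_of_pos_of_lt hi0 hip)
      have h4 : x = (x ^ i) ^ (Nat.gcdA i p) * (x ^ p) ^ (Nat.gcdB i p) := by
        rw [← zpow_natCast x i, ← zpow_natCast x p, ← zpow_mul, ← zpow_mul, ← zpow_add,
          ← Nat.gcd_eq_gcd_ab, hco.gcd_eq_one, Nat.cast_one, zpow_one]
      rw [h4]
      exact NS.mul_mem (NS.zpow_mem h2 _) (NS.zpow_mem h3 _)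
    · exact h1
  -- the norm argument
  let κ : Subgroup A := (CS.comap ((P : Subgroup G).subtype.comp A.subtype))
  have hκm : ∀ a : A, a ∈ κ ↔ ((a : P) : G) ∈ CS := fun _ => Iff.rfl
  have hκn : κ.Normal := by
    constructor
    intro r hr n
    rw [hκm] at hr ⊢
    exact hCSn _ n.2 _ hr
  have hnorm : ∀ a b : A, a * b * a⁻¹ * b⁻¹ ∈ κ := by
    apply norm_arg P.isPGroup' hidx A hAi hxA κ
    intro a
    obtain ⟨T, hT⟩ := H2.exists_sylow_of_normal P N
    have hMn : (S.subgroupOf N).Normal := ⟨fun r hr n => hSn n n.2 r hr⟩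
    have hKn : (CS.subgroupOf N).Normal := ⟨fun r hr n => hCSn n n.2 r hr⟩
    have e1 : S.subgroupOf N ⊓ CS.subgroupOf N = ⊥ := by
      rw [eq_bot_iff]
      rintro y ⟨hy1, hy2⟩
      have h3 : (y : G) ∈ S ⊓ CS := ⟨hy1, hy2⟩
      rw [hSZ, Subgroup.mem_bot] at h3
      exact Subtype.ext h3
    have e2 : S.subgroupOf N ⊔ CS.subgroupOf N = ⊤ := by
      rw [eq_top_iff]
      intro y _
      have h3 := hdec y.2
      have h4 : S ⊔ (CS ⊓ N) ≤ (S.subgroupOf N ⊔ CS.subgroupOf N).map N.subtype := by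
        rw [Subgroup.map_sup, Subgroup.subgroupOf_map_subtype, Subgroup.subgroupOf_map_subtype,
          inf_eq_left.mpr hSN]
      obtain ⟨z, hz, hzy⟩ := h4 h3
      have : z = y := Subtype.ext hzy
      rwa [← this]
    have haT : (⟨((a : P) : G), a.2⟩ : N) ∈ T := by
      change _ ∈ (T : Subgroup N)
      rw [hT]
      exact a.1.2
    obtain ⟨s, hs1, hs2, k, hk1, hk2, hak⟩ := ks_decomp T (S.subgroupOf N) (CS.subgroupOf N) e1 e2 haT
    have hsP : (s : G) ∈ (P : Subgroup G) := by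
      have h3 : s ∈ (T : Subgroup N) := hs2
      rw [hT] at h3
      exact h3
    have hak' : ((a : P) : G) = s * k := congrArg Subtype.val hak
    refine ⟨⟨⟨s, hsP⟩, s.2⟩, ?_, ?_⟩
    · rw [hκm]
      change ((a : P) : G) * (s : G)⁻¹ ∈ CS
      rw [hak']
      exact hCSn s s.2 k hk1
    · intro i hi0 hip
      rw [hκm]
      have h3 : ((MulAut.conjNormal ((⟨x, hxP⟩ : P) ^ i) (⟨⟨s, hsP⟩, s.2⟩ : A) : A) : P) =
          (⟨x, hxP⟩ : P) ^ i * ⟨s, hsP⟩ * ((⟨x, hxP⟩ : P) ^ i)⁻¹ := MulAut.conjNormal_apply _ _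
      rw [h3]
      change x ^ i * (s : G) * (x ^ i)⁻¹ ∈ CS
      rw [hCS, Subgroup.mem_centralizer_iff]
      intro t ht
      exact hpow i hi0 hip t ht s hs1
  -- conclusion
  intro a haP haN b hbP hbN
  have h1 : ∀ q ∈ (P : Subgroup G), ∀ s ∈ S,
      (q * s * q⁻¹) * (a * b * a⁻¹ * b⁻¹) = (a * b * a⁻¹ * b⁻¹) * (q * s * q⁻¹) := by
    intro q hq s hs
    have hq' : q⁻¹ ∈ (P : Subgroup G) := (P : Subgroup G).inv_mem hq
    have ha1 : q⁻¹ * a * q ∈ (P : Subgroup G) :=
      (P : Subgroup G).mul_mem ((P : Subgroup G).mul_mem hq' haP) hq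
    have hb1 : q⁻¹ * b * q ∈ (P : Subgroup G) :=
      (P : Subgroup G).mul_mem ((P : Subgroup G).mul_mem hq' hbP) hq
    have ha2 : q⁻¹ * a * q ∈ N := by
      have := hN.conj_mem a haN q⁻¹
      rwa [inv_inv] at this
    have hb2 : q⁻¹ * b * q ∈ N := by
      have := hN.conj_mem b hbN q⁻¹
      rwa [inv_inv] at this
    have h2 := hnorm ⟨⟨_, ha1⟩, ha2⟩ ⟨⟨_, hb1⟩, hb2⟩
    rw [hκm] at h2
    have h3 : (q⁻¹ * a * q) * (q⁻¹ * b * q) * (q⁻¹ * a * q)⁻¹ * (q⁻¹ * b * q)⁻¹ ∈ CS := h2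
    have h4 := Subgroup.mem_centralizer_iff.mp h3 s hs
    have h5 : (q⁻¹ * a * q) * (q⁻¹ * b * q) * (q⁻¹ * a * q)⁻¹ * (q⁻¹ * b * q)⁻¹ =
        q⁻¹ * (a * b * a⁻¹ * b⁻¹) * q := by group
    rw [h5] at h4
    calc (q * s * q⁻¹) * (a * b * a⁻¹ * b⁻¹) =
        q * (s * (q⁻¹ * (a * b * a⁻¹ * b⁻¹) * q)) * q⁻¹ := by group
      _ = q * ((q⁻¹ * (a * b * a⁻¹ * b⁻¹) * q) * s) * q⁻¹ := by rw [h4]
      _ = _ := by group
  have h2 : a * b * a⁻¹ * b⁻¹ ∈ C := by
    refine Subgroup.mem_inf.mpr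
      ⟨N.mul_mem (N.mul_mem (N.mul_mem haN hbN) (N.inv_mem haN)) (N.inv_mem hbN), ?_⟩
    have h3 : R ≤ Subgroup.centralizer ({a * b * a⁻¹ * b⁻¹} : Set G) := by
      rw [Subgroup.closure_le]
      rintro _ ⟨q, hq, s, hs, rfl⟩
      rw [SetLike.mem_coe, Subgroup.mem_centralizer_singleton_iff]
      exact h1 q hq s hs
    rw [Subgroup.mem_centralizer_iff]
    intro r hr
    exact Subgroup.mem_centralizer_singleton_iff.mp (h3 hr)
  rw [hC0, Subgroup.mem_bot] at h2
  have h3 := mul_inv_eq_one.mp h2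
  exact mul_inv_eq_iff_eq_mul.mp h3

end Q

end Cfsg.Agent.H26
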