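import Mathlib
import Cfsg.Agent.H26.Ks4
import Cfsg.Agent.H11.FB1

set_option autoImplicit false
set_option maxHeartbeats 800000
set_option linter.style.haveILetI false

/-!
# Abelianisations of order `p ^ 2` and centralizers of `p`-elements
-/

namespace Cfsg.Agent.H26

open Subgroup Cfsg
open scoped commutatorElement

section Q

variable {G : Type*} [Group G] [Finite G] {p : ℕ} [hp : Fact p.Prime]

/-- Every `p`-element has a fully centralized conjugate. -/
theorem ks_full (P : Sylow p G) {x : G} (hx : ∃ k : ℕ, orderOf x = p ^ k) :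
    ∃ g : G, ∃ hy : g * x * g⁻¹ ∈ (P : Subgroup G),
      Nat.card (Subgroup.centralizer ({(⟨g * x * g⁻¹, hy⟩ : P)} : Set P)) =
        p ^ (Nat.card (Subgroup.centralizer ({x} : Set G))).factorization p := by
  classical
  set C := Subgroup.centralizer ({x} : Set G) with hC
  obtain ⟨X⟩ : Nonempty (Sylow p C) := inferInstance
  have hxC : x ∈ C := Subgroup.mem_centralizer_singleton_iff.mpr rfl
  -- x lies in X
  have hxX : (⟨x, hxC⟩ : C) ∈ X := by
    have h1 : IsPGroup p (Subgroup.zpowers (⟨x, hxC⟩ : C)) := by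
      obtain ⟨k, hk⟩ := hx
      apply IsPGroup.of_card (n := k)
      rw [Nat.card_zpowers, ← hk, Subgroup.orderOf_mk]
    have h2 : (Subgroup.zpowers (⟨x, hxC⟩ : C)).Normal := by
      constructor
      intro n hn c
      have h3 : n ∈ Subgroup.center C := by
        obtain ⟨i, rfl⟩ := Subgroup.mem_zpowers_iff.mp hn
        apply Subgroup.zpow_mem
        rw [Subgroup.mem_center_iff]
        intro c
        exact Subtype.ext (Subgroup.mem_centralizer_singleton_iff.mp c.2)
      rw [Subgroup.mem_center_iff.mp h3 c, mul_inv_cancel_right]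
      exact hn
    obtain ⟨Y, hY⟩ := h1.exists_le_sylow
    obtain ⟨c, hc⟩ := MulAction.exists_smul_eq C Y X
    have h3 : (⟨x, hxC⟩ : C) ∈ Y := hY (Subgroup.mem_zpowers _)
    have h4 := Subgroup.smul_mem_pointwise_smul _ (MulAut.conj c) (Y : Subgroup C) h3
    have h5 : MulAut.conj c • (⟨x, hxC⟩ : C) = ⟨x, hxC⟩ := by
      change c * ⟨x, hxC⟩ * c⁻¹ = _
      apply Subtype.ext
      change (c : G) * x * (c : G)⁻¹ = x
      rw [Subgroup.mem_centralizer_singleton_iff.mp c.2, mul_inv_cancel_right]
    rw [h5] at h4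
    rw [← hc]
    exact h4
  -- move into P
  have hXp : IsPGroup p ((X : Subgroup C).map C.subtype) := X.isPGroup'.map _
  obtain ⟨Y, hY⟩ := hXp.exists_le_sylow
  obtain ⟨g, hg⟩ := MulAction.exists_smul_eq G Y P
  have hmov : ∀ y ∈ Y, g * y * g⁻¹ ∈ (P : Subgroup G) := by
    intro y hy
    have h4 := Subgroup.smul_mem_pointwise_smul _ (MulAut.conj g) (Y : Subgroup G) hy
    rw [← hg]
    exact h4
  have hy : g * x * g⁻¹ ∈ (P : Subgroup G) := hmov x (hY ⟨⟨x, hxC⟩, hxX, rfl⟩)
  refine ⟨g, hy, ?_⟩
  set D := Subgroup.centralizer ({(⟨g * x * g⁻¹, hy⟩ : P)} : Set P) with hD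
  have hXc : Nat.card X = p ^ (Nat.card C).factorization p := X.card_eq_multiplicity
  rw [← hXc]
  apply le_antisymm
  · -- D embeds as a p-subgroup of C
    let f : D → C := fun d => ⟨g⁻¹ * (d : P) * g, by
      rw [hC, Subgroup.mem_centralizer_singleton_iff]
      have h1 : ((d : P) : G) * (g * x * g⁻¹) = (g * x * g⁻¹) * (d : P) :=
        congrArg Subtype.val (Subgroup.mem_centralizer_singleton_iff.mp d.2)
      calc g⁻¹ * ((d : P) : G) * g * x = g⁻¹ * (((d : P) : G) * (g * x * g⁻¹)) * g := by group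
        _ = g⁻¹ * ((g * x * g⁻¹) * (d : P)) * g := by rw [h1]
        _ = x * (g⁻¹ * ((d : P) : G) * g) := by group⟩
    let F : D →* C :=
      { toFun := f
        map_one' := Subtype.ext (by simp [f])
        map_mul' := fun a b => Subtype.ext (by
          change g⁻¹ * (((a : P) : G) * (b : P)) * g = (g⁻¹ * (a : P) * g) * (g⁻¹ * (b : P) * g)
          group) }
    have hF : Function.Injective F := by
      intro a b hab
      have h1 : g⁻¹ * ((a : P) : G) * g = g⁻¹ * ((b : P) : G) * g := congrArg Subtype.val hab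
      have h2 : ((a : P) : G) = (b : P) := by simpa using h1
      exact Subtype.ext (Subtype.ext h2)
    have h1 : IsPGroup p F.range := by
      have h2 : IsPGroup p D := P.isPGroup'.to_subgroup _
      exact h2.of_surjective F.rangeRestrict F.rangeRestrict_surjective
    obtain ⟨Z, hZ⟩ := h1.exists_le_sylow
    have h2 : Nat.card Z = Nat.card X := Nat.card_congr (Sylow.equiv Z X).toEquiv
    rw [← h2, Nat.card_congr (MonoidHom.ofInjective hF).toEquiv]
    exact Nat.le_of_dvd Nat.card_pos (Subgroup.card_dvd_of_le hZ)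
  · let f : X → D := fun c => ⟨⟨g * (c : C) * g⁻¹, hmov _ (hY ⟨c, c.2, rfl⟩)⟩, by
      rw [hD, Subgroup.mem_centralizer_singleton_iff]
      apply Subtype.ext
      change g * ((c : C) : G) * g⁻¹ * (g * x * g⁻¹) = (g * x * g⁻¹) * (g * ((c : C) : G) * g⁻¹)
      have h1 : ((c : C) : G) * x = x * (c : C) :=
        Subgroup.mem_centralizer_singleton_iff.mp (c : C).2
      calc g * ((c : C) : G) * g⁻¹ * (g * x * g⁻¹) = g * (((c : C) : G) * x) * g⁻¹ := by group
        _ = g * (x * (c : C)) * g⁻¹ := by rw [h1]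
        _ = _ := by group⟩
    apply Nat.card_le_card_of_injective f
    intro a b hab
    have h1 : g * ((a : C) : G) * g⁻¹ = g * ((b : C) : G) * g⁻¹ :=
      congrArg (fun z : D => ((z : P) : G)) hab
    have h2 : ((a : C) : G) = (b : C) := by simpa using h1
    exact Subtype.ext (Subtype.ext h2)

theorem ks_relIndex (P : Sylow p G) :
    (⁅(P : Subgroup G), (P : Subgroup G)⁆).relIndex (P : Subgroup G) = (commutator P).index := by
  rw [← Subgroup.map_subtype_commutator, Subgroup.relIndex, Subgroup.subgroupOf,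
    Subgroup.comap_map_eq_self_of_injective (P : Subgroup G).subtype_injective]

/-- The criterion. -/
theorem ks_crit (P : Sylow p G) (hidx : (commutator P).index = p ^ 2) (N : Subgroup G)
    [hN : N.Normal]
    (hab : ∀ a ∈ (P : Subgroup G), a ∈ N → ∀ b ∈ (P : Subgroup G), b ∈ N → a * b = b * a)
    (hi : (N.subgroupOf (P : Subgroup G)).index = 1 ∨ (N.subgroupOf (P : Subgroup G)).index = p) :
    ∃ x : G, (∃ k : ℕ, orderOf x = p ^ k) ∧
      (Nat.card (Subgroup.centralizer ({x} : Set G))).factorization p = 2 := by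
  rcases hi with hi | hi
  · -- P is abelian of order p ^ 2
    refine ⟨1, ⟨0, by rw [orderOf_one, pow_zero]⟩, ?_⟩
    have h1 : N.subgroupOf (P : Subgroup G) = ⊤ := Subgroup.index_eq_one.mp hi
    have h2 : commutator P = ⊥ := by
      rw [_root_.commutator_def, Subgroup.commutator_eq_bot_iff_le_centralizer]
      intro a _
      rw [Subgroup.mem_centralizer_iff]
      intro b _
      have ha : a ∈ N.subgroupOf (P : Subgroup G) := by rw [h1]; trivial
      have hb : b ∈ N.subgroupOf (P : Subgroup G) := by rw [h1]; trivial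
      exact Subtype.ext (hab _ b.2 hb _ a.2 ha)
    rw [h2, Subgroup.index_bot] at hidx
    have h3 : Subgroup.centralizer ({1} : Set G) = ⊤ := by
      rw [eq_top_iff]
      intro a _
      rw [Subgroup.mem_centralizer_singleton_iff, mul_one, one_mul]
    have h4 := P.card_eq_multiplicity
    rw [hidx] at h4
    rw [h3, Subgroup.card_top]
    exact (Nat.pow_right_injective hp.out.two_le h4).symm
  · have hAn : (N.subgroupOf (P : Subgroup G)).Normal := inferInstance
    obtain ⟨x, hx⟩ : ∃ x : P, x ∉ N.subgroupOf (P : Subgroup G) := by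
      by_contra hcon
      push Not at hcon
      have h1 : N.subgroupOf (P : Subgroup G) = ⊤ := eq_top_iff.mpr fun a _ => hcon a
      rw [h1, Subgroup.index_top] at hi
      exact hp.out.one_lt.ne hi
    have hxo : ∃ k : ℕ, orderOf (x : G) = p ^ k := by
      obtain ⟨k, hk⟩ := (IsPGroup.iff_orderOf.mp P.isPGroup') x
      exact ⟨k, by rw [← hk, Subgroup.orderOf_coe]⟩
    refine ⟨x, hxo, ?_⟩
    obtain ⟨g, hy, hcard⟩ := ks_full P hxo
    have h1 : (⟨g * (x : G) * g⁻¹, hy⟩ : P) ∉ N.subgroupOf (P : Subgroup G) := by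
      intro h
      have h2 : g * (x : G) * g⁻¹ ∈ N := h
      apply hx
      have h3 := hN.conj_mem _ h2 g⁻¹
      have h4 : g⁻¹ * (g * (x : G) * g⁻¹) * g⁻¹⁻¹ = x := by group
      rw [h4] at h3
      exact h3
    have h2 := card_centralizer_of_abelian_index hidx (N.subgroupOf (P : Subgroup G))
      (fun a ha b hb => Subtype.ext (hab _ a.2 ha _ b.2 hb)) hi h1
    rw [h2] at hcard
    exact (Nat.pow_right_injective hp.out.two_le hcard).symm

end Q

theorem st4587 {G : Type*} [Group G] [Finite G] (p : ℕ) [Fact p.Prime] (P : Sylow p G)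
    (hbig : p ^ 2 ∣ Nat.card G) (hcore : Cfsg.pPrimeCore p G = ⊥)
    (hcore' : (⁅(P : Subgroup G), (P : Subgroup G)⁆).normalCore = ⊥)
    (hnas : ¬ ∃ S : Subgroup G, S.Normal ∧ IsSimpleGroup S ∧ ¬ IsMulCommutative S ∧
      Subgroup.centralizer (S : Set G) = ⊥) :
    (⁅(P : Subgroup G), (P : Subgroup G)⁆).relIndex (P : Subgroup G) = p ^ 2 ↔
      ∃ x : G, (∃ k : ℕ, orderOf x = p ^ k) ∧
        (Nat.card (Subgroup.centralizer ({x} : Set G))).factorization p = 2 := by
  have hp : Fact p.Prime := inferInstance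
  rw [ks_relIndex]
  constructor
  · intro hidx
    -- the general position of normal subgroups
    have hkey : ∀ L : Subgroup G, L.Normal → L ≠ ⊥ →
        commutator P ≤ L.subgroupOf (P : Subgroup G) ∧
        ((L.subgroupOf (P : Subgroup G)).index = 1 ∨
          (L.subgroupOf (P : Subgroup G)).index = p) := by
      intro L hL hL0
      have hLn : (L.subgroupOf (P : Subgroup G)).Normal := inferInstance
      apply commutator_le_of_index_sq P.isPGroup' hidx
      rw [ks_rel]
      intro h
      obtain ⟨K, hKL, hKc, hKp, n, hn⟩ := ks_tate P L (by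
        rw [Subgroup.normalizer_eq_top_iff.mpr hL]; exact le_top) h
      have hKn : K.Normal := by
        have h1 : ((K.subgroupOf L).map L.subtype).Normal := inferInstance
        rwa [Subgroup.subgroupOf_map_subtype, inf_eq_left.mpr hKL] at h1
      have hK1 : K = ⊥ := by
        rw [eq_bot_iff, ← hcore]
        exact H1.le_pPrimeCore hKn hKp
      have hLp : IsPGroup p L := by
        apply IsPGroup.of_card (n := n)
        rw [← hn, hK1, Subgroup.bot_subgroupOf, Subgroup.index_bot]
      have hLP : L ≤ (P : Subgroup G) := by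
        obtain ⟨Y, hY⟩ := hLp.exists_le_sylow
        obtain ⟨g, hg⟩ := MulAction.exists_smul_eq G Y P
        intro l hl
        have h1 : g⁻¹ * l * g⁻¹⁻¹ ∈ (Y : Subgroup G) := hY (hL.conj_mem l hl g⁻¹)
        have h4 := Subgroup.smul_mem_pointwise_smul _ (MulAut.conj g) (Y : Subgroup G) h1
        rw [← hg]
        have h5 : MulAut.conj g • (g⁻¹ * l * g⁻¹⁻¹) = l := by
          change g * (g⁻¹ * l * g⁻¹⁻¹) * g⁻¹ = l
          group
        rw [h5] at h4
        exact h4
      apply hL0
      rw [eq_bot_iff, ← hcore']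
      rw [Subgroup.normal_le_normalCore]
      intro l hl
      exact h ⟨hl, hLP hl⟩
    have hGnt : Nontrivial G := by
      rw [← Finite.one_lt_card_iff_nontrivial]
      have h1 := Nat.le_of_dvd Nat.card_pos hbig
      have h2 : 1 < p ^ 2 := Nat.one_lt_pow two_ne_zero hp.out.one_lt
      omega
    -- a minimal normal subgroup
    obtain ⟨N, ⟨hN, hN0⟩, hNm⟩ := (Set.toFinite {T : Subgroup G | T.Normal ∧ T ≠ ⊥}).exists_minimal
      ⟨⊤, inferInstance, top_ne_bot⟩
    have hminN : ∀ K : Subgroup G, K.Normal → K ≠ ⊥ → K ≤ N → K = N := by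
      intro K hK hK0 hKN
      exact le_antisymm hKN (hNm ⟨hK, hK0⟩ hKN)
    obtain ⟨hN1, hN2⟩ := hkey N hN hN0
    apply ks_crit P hidx N _ hN2
    by_cases hCN : Subgroup.centralizer (N : Set G) = ⊥
    · apply ks_core P hcore hidx N hN0 hminN hCN
      intro hs
      apply hnas
      refine ⟨N, hN, hs, ?_, hCN⟩
      intro hc
      apply hN0
      rw [eq_bot_iff, ← hCN]
      intro n hn
      rw [Subgroup.mem_centralizer_iff]
      intro m hm
      exact congrArg Subtype.val (hc.is_comm.comm (⟨m, hm⟩ : N) ⟨n, hn⟩)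
    · have hCn : (Subgroup.centralizer (N : Set G)).Normal := inferInstance
      by_cases hZ : N ⊓ Subgroup.centralizer (N : Set G) = ⊥
      · -- the derived subgroup is trivial
        have h1 := (hkey _ hCn hCN).1
        have h2 : commutator P = ⊥ := by
          rw [eq_bot_iff]
          intro x hx
          have h3 : (x : G) ∈ N ⊓ Subgroup.centralizer (N : Set G) := ⟨hN1 hx, h1 hx⟩
          rw [hZ, Subgroup.mem_bot] at h3
          exact Subtype.ext h3
        intro a ha _ b hb _
        have h3 : (⁅(⟨a, ha⟩ : P), (⟨b, hb⟩ : P)⁆) ∈ commutator P :=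
          Subgroup.commutator_mem_commutator (Subgroup.mem_top _) (Subgroup.mem_top _)
        rw [h2, Subgroup.mem_bot, commutatorElement_eq_one_iff_mul_comm] at h3
        exact congrArg Subtype.val h3
      · have h1 := hminN _ inferInstance hZ inf_le_left
        have h2 : N ≤ Subgroup.centralizer (N : Set G) := by
          rw [← inf_eq_left]; exact h1
        intro a _ ha b _ hb
        exact (Subgroup.mem_centralizer_iff.mp (h2 hb) a ha)
  · rintro ⟨x, hx, hc⟩
    obtain ⟨g, hy, hcard⟩ := ks_full P hx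
    rw [hc] at hcard
    have h1 : (commutator P).index ≤ p ^ 2 :=
      (index_commutator_le_card_centralizer (⟨g * x * g⁻¹, hy⟩ : P)).trans (le_of_eq hcard)
    have h2 : p ^ 2 ∣ Nat.card P := by
      rw [P.card_eq_multiplicity]
      apply pow_dvd_pow
      exact (hp.out.pow_dvd_iff_le_factorization Nat.card_pos.ne').mp hbig
    have h3 := sq_le_index_commutator P.isPGroup' h2
    exact le_antisymm h1 (Nat.le_of_dvd (Nat.pos_of_ne_zero Subgroup.index_ne_zero_of_finite) h3)

end Cfsg.Agent.H26
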