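import Mathlib
import Cfsg.Agent.H26.MajSub3
import Cfsg.Agent.H26.Small

set_option autoImplicit false

/-!
# Blocks with `k(B) - l(B) = 1`
-/

namespace Cfsg.Agent.H26

open Cfsg Cfsg.Agent.H3 Cfsg.Agent.H11 Finset

universe u

section Orb

variable {G : Type u} [Group G] [Fintype G] {p : ℕ} [hp : Fact p.Prime] {M : Ideal AlgInt}

open Classical in
/-- The conjugates of a subsection. -/
noncomputable def sorb {M : Ideal AlgInt} [M.IsPrime] (x : G) (f : MonoidAlgebra (KF M) G) :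
    Finset (G × MonoidAlgebra (KF M) G) :=
  univ.image (fun g : G => (g * x * g⁻¹, cj g f))

theorem card_sorb [M.IsPrime] {x : G} {f : MonoidAlgebra (KF M) G}
    (hf : IsBlk (cz (Subgroup.zpowers x)) f) :
    (sorb x f).card * Nat.card (cz (Subgroup.zpowers x)) = Nat.card G := by
  classical
  have h1 := Finset.card_eq_sum_card_image (fun g : G => (g * x * g⁻¹, cj g f))
    (univ : Finset G)
  have h2 : ∀ ω ∈ sorb x f, (univ.filter (fun g : G => (g * x * g⁻¹, cj g f) = ω)).card =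
      Nat.card (cz (Subgroup.zpowers x)) := by
    intro ω hω
    obtain ⟨g0, -, rfl⟩ := Finset.mem_image.mp hω
    rw [Nat.card_eq_fintype_card, Fintype.card_subtype]
    symm
    apply Finset.card_bij (fun c _ => g0 * c)
    · intro c hc
      have hc' := (Finset.mem_filter.mp hc).2
      refine Finset.mem_filter.mpr ⟨Finset.mem_univ _, ?_⟩
      rw [Prod.mk.injEq]
      constructor
      · have := mem_cz_zpowers.mp hc'
        calc g0 * c * x * (g0 * c)⁻¹ = g0 * (c * x) * c⁻¹ * g0⁻¹ := by group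
          _ = _ := by rw [this]; group
      · rw [cj_mul_apply, hf.isFx c hc']
    · intro a _ b _ h; exact mul_left_cancel h
    · intro g hg
      have hg' := (Finset.mem_filter.mp hg).2
      rw [Prod.mk.injEq] at hg'
      refine ⟨g0⁻¹ * g, Finset.mem_filter.mpr ⟨Finset.mem_univ _, ?_⟩, by group⟩
      rw [mem_cz_zpowers]
      have h3 : x = g0⁻¹ * (g * x * g⁻¹) * g0 := by rw [hg'.1]; group
      calc g0⁻¹ * g * x = g0⁻¹ * (g * x * g⁻¹) * g0 * (g0⁻¹ * g) := by group
        _ = _ := by rw [← h3]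
  rw [Finset.card_univ, ← Nat.card_eq_fintype_card] at h1
  rw [h1]
  change (sorb x f).card * _ = ∑ ω ∈ sorb x f, _
  rw [Finset.sum_congr rfl h2, Finset.sum_const, smul_eq_mul]

theorem one_orbit (hM : IsPModular p M) [M.IsPrime] [CharP (KF M) p]
    {B : Set (IrrCharacter G)} (hB : IsPBlock M B) (hk : Nat.card B = blockRank p B + 1) :
    (∃ x f, x ≠ 1 ∧ (∃ j : ℕ, orderOf x = p ^ j) ∧ InB p (EG M B) (Subgroup.zpowers x) f) ∧
    ∀ x f, x ≠ 1 → (∃ j : ℕ, orderOf x = p ^ j) → InB p (EG M B) (Subgroup.zpowers x) f →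
      rk p (cz (Subgroup.zpowers x)) f = 1 ∧
      ∀ y g, y ≠ 1 → (∃ j : ℕ, orderOf y = p ^ j) → InB p (EG M B) (Subgroup.zpowers y) g →
        ∃ h : G, y = h * x * h⁻¹ ∧ g = cj h f := by
  classical
  obtain ⟨Ω, hΩ1, hΩ2⟩ := exists_Om (p := p) hB
  have htot := total_rk hM hB hΩ2
  have h1 : ((1 : G), EG M B) ∈ Ω := by
    rw [hΩ1]
    refine ⟨⟨0, by rw [orderOf_one, pow_zero]⟩, ?_⟩
    rw [Subgroup.zpowers_one_eq_bot]
    refine ⟨isBlk_EG hB, isBrP_bot.mpr (isBlk_EG hB), ?_⟩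
    rw [br_bot, (isBlk_EG hB).idem]
  have huniq : ∀ ω ∈ Ω, ω.1 = 1 → ω = ((1 : G), EG M B) := by
    rintro ⟨x, f⟩ hω hx
    change x = 1 at hx
    subst hx
    obtain ⟨-, h2⟩ := (hΩ1 _ _).mp hω
    rw [Subgroup.zpowers_one_eq_bot] at h2
    obtain ⟨-, h3, h4⟩ := h2
    have h5 := isBrP_bot.mp h3
    rw [br_bot] at h4
    have h6 : EG M B = f := by
      by_contra hne
      apply h5.ne_zero
      rw [← h4]
      exact (isBlk_EG hB).mul_of_ne h5 hne
    rw [h6]
  let w : G × MonoidAlgebra (KF M) G → ℕ := fun ω =>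
    Nat.card (cz (Subgroup.zpowers ω.1)) * rk p (cz (Subgroup.zpowers ω.1)) ω.2
  have hw1 : w ((1 : G), EG M B) = Nat.card G * blockRank p B := by
    change Nat.card (cz (Subgroup.zpowers (1 : G))) * rk p (cz (Subgroup.zpowers (1 : G)))
      (EG M B) = _
    rw [Subgroup.zpowers_one_eq_bot, rk_bot hM hB, cz_bot, Subgroup.card_top]
  have htot' : ∑ ω ∈ Ω, w ω = Nat.card G * Nat.card B := by
    exact_mod_cast htot
  have hrest : ∑ ω ∈ Ω.erase ((1 : G), EG M B), w ω = Nat.card G := by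
    rw [← Finset.add_sum_erase _ _ h1, hw1, hk, mul_add, mul_one] at htot'
    exact Nat.add_left_cancel htot'
  have horb : ∀ x f, x ≠ 1 → (x, f) ∈ Ω → sorb x f ⊆ Ω.erase ((1 : G), EG M B) ∧
      ∑ ω ∈ sorb x f, w ω = Nat.card G * rk p (cz (Subgroup.zpowers x)) f := by
    intro x f hx hxf
    obtain ⟨hx1, hx2⟩ := (hΩ1 _ _).mp hxf
    constructor
    · intro ω hω
      obtain ⟨g, -, rfl⟩ := Finset.mem_image.mp hω
      rw [Finset.mem_erase]
      constructor
      · intro h
        rw [Prod.mk.injEq] at h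
        apply hx
        have : x = g⁻¹ * (g * x * g⁻¹) * g := by group
        rw [this, h.1]; group
      · rw [hΩ1]
        refine ⟨isPEl_conj hx1 g, ?_⟩
        have := hx2.cj g
        change InB p (EG M B) (cg (Subgroup.zpowers x) g) (cj g f) at this
        rwa [cg_zpowers] at this
    · have h2 : ∀ ω ∈ sorb x f, w ω = Nat.card (cz (Subgroup.zpowers x)) *
          rk p (cz (Subgroup.zpowers x)) f := by
        intro ω hω
        obtain ⟨g, -, rfl⟩ := Finset.mem_image.mp hω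
        change Nat.card (cz (Subgroup.zpowers (g * x * g⁻¹))) *
          rk p (cz (Subgroup.zpowers (g * x * g⁻¹))) (cj g f) = _
        rw [← cg_zpowers, ← cg_cz, card_cg, rk_cj hM hx2.2.1.2]
      rw [Finset.sum_congr rfl h2, Finset.sum_const, smul_eq_mul, ← mul_assoc,
        card_sorb hx2.2.1.2]
  have hGpos : 0 < Nat.card G := Nat.card_pos
  refine ⟨?_, ?_⟩
  · by_contra hcon
    push Not at hcon
    have hemp : Ω.erase ((1 : G), EG M B) = ∅ := by
      rw [Finset.eq_empty_iff_forall_notMem]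
      intro ω hω
      obtain ⟨h2, h3⟩ := Finset.mem_erase.mp hω
      by_cases hx : ω.1 = 1
      · exact h2 (huniq ω h3 hx)
      · obtain ⟨h4, h5⟩ := (hΩ1 ω.1 ω.2).mp h3
        exact hcon ω.1 ω.2 hx h4 h5
    rw [hemp, Finset.sum_empty] at hrest
    omega
  · intro x f hx hx1 hx2
    have hxf : (x, f) ∈ Ω := (hΩ1 _ _).mpr ⟨hx1, hx2⟩
    obtain ⟨hsub, hsum⟩ := horb x f hx hxf
    have hrpos := rk_pos hM hx2.2.1.2
    have hle : Nat.card G * rk p (cz (Subgroup.zpowers x)) f ≤ Nat.card G := by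
      rw [← hsum]
      calc ∑ ω ∈ sorb x f, w ω ≤ ∑ ω ∈ Ω.erase ((1 : G), EG M B), w ω :=
            Finset.sum_le_sum_of_subset hsub
        _ = _ := hrest
    have hr1 : rk p (cz (Subgroup.zpowers x)) f = 1 := by
      apply le_antisymm _ hrpos
      by_contra hcon
      push Not at hcon
      have : Nat.card G * 2 ≤ Nat.card G * rk p (cz (Subgroup.zpowers x)) f :=
        Nat.mul_le_mul_left _ hcon
      omega
    refine ⟨hr1, ?_⟩
    intro y g hy hy1 hy2
    have hyg : (y, g) ∈ Ω := (hΩ1 _ _).mpr ⟨hy1, hy2⟩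
    have hmem : (y, g) ∈ sorb x f := by
      by_contra hcon
      have hyE : (y, g) ∈ Ω.erase ((1 : G), EG M B) := by
        rw [Finset.mem_erase]
        refine ⟨?_, hyg⟩
        intro h
        rw [Prod.mk.injEq] at h
        exact hy h.1
      have hlt : ∑ ω ∈ sorb x f, w ω < ∑ ω ∈ Ω.erase ((1 : G), EG M B), w ω := by
        apply Finset.sum_lt_sum_of_subset hsub hyE hcon
        · exact Nat.mul_pos Nat.card_pos (rk_pos hM hy2.2.1.2)
        · intro _ _ _; exact Nat.zero_le _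
      rw [hsum, hr1, mul_one, hrest] at hlt
      exact lt_irrefl _ hlt
    obtain ⟨h, -, hh⟩ := Finset.mem_image.mp hmem
    rw [Prod.mk.injEq] at hh
    exact ⟨h, hh.1.symm, hh.2.symm⟩

end Orb

end Cfsg.Agent.H26
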