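import Mathlib
import Cfsg.Agent.H26.OneSub
import Cfsg.Agent.H11.Third2
import Cfsg.Prelude.Def_Transfer

set_option autoImplicit false

/-!
# Principal blocks with `k(B) - l(B) = 1`
-/

namespace Cfsg.Agent.H26

open Cfsg Cfsg.Agent.H3 Cfsg.Agent.H11 Finset

universe u

section Grp

variable {G : Type u} [Group G] [Finite G] {p : ℕ} [hp : Fact p.Prime]

/-- All elements of `P` have order dividing `p` if they are conjugate. -/
theorem pow_p_of_transitive (P : Subgroup G) (hP : IsPGroup p P)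
    (h1 : ∀ x ∈ P, ∀ y ∈ P, x ≠ 1 → y ≠ 1 → IsConj x y) : ∀ a ∈ P, a ^ p = 1 := by
  intro a ha
  by_cases ha1 : a = 1
  · rw [ha1, one_pow]
  obtain ⟨j, hj⟩ := (IsPGroup.iff_orderOf.mp hP) ⟨a, ha⟩
  rw [Subgroup.orderOf_mk] at hj
  have hj0 : j ≠ 0 := by
    rintro rfl
    rw [pow_zero, orderOf_eq_one_iff] at hj
    exact ha1 hj
  obtain ⟨i, rfl⟩ := Nat.exists_eq_succ_of_ne_zero hj0
  have hb : orderOf (a ^ p ^ i) = p := by
    rw [orderOf_pow_of_dvd (pow_ne_zero _ hp.out.ne_zero) (by rw [hj]; exact pow_dvd_pow _ (Nat.le_succ i)),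
      hj, Nat.succ_eq_add_one, pow_succ]
    exact Nat.mul_div_cancel_left _ (pow_pos hp.out.pos _)
  have hb1 : a ^ p ^ i ≠ 1 := by
    intro h
    rw [h, orderOf_one] at hb
    exact hp.out.one_lt.ne hb
  obtain ⟨c, hc⟩ := isConj_iff.mp (h1 a ha _ (P.pow_mem ha _) ha1 hb1)
  have h2 : orderOf a = p := by
    rw [← hb, ← hc]
    exact (orderOf_injective (MulAut.conj c).toMonoidHom (MulAut.conj c).injective a).symm
  rw [← h2]; exact pow_orderOf_eq_one a

theorem elab_of_transitive (P : Sylow p G)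
    (h1 : ∀ x y : G, x ≠ 1 → y ≠ 1 → (∃ j : ℕ, orderOf x = p ^ j) → (∃ j : ℕ, orderOf y = p ^ j) →
      IsConj x y)
    (h2 : ∀ x : G, x ≠ 1 → (∃ j : ℕ, orderOf x = p ^ j) → ∃ K : Subgroup G,
      K ≤ cz (Subgroup.zpowers x) ∧ (∀ c ∈ cz (Subgroup.zpowers x), ∀ y ∈ K, c * y * c⁻¹ ∈ K) ∧
      ¬ p ∣ Nat.card K ∧ ∀ s ∈ cz (Subgroup.zpowers x), ¬ p ∣ orderOf s → s ∈ K) :
    IsElementaryAbelian p (P : Subgroup G) := by
  classical
  have hpel : ∀ x ∈ (P : Subgroup G), ∃ j : ℕ, orderOf x = p ^ j := by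
    intro x hx
    obtain ⟨j, hj⟩ := (IsPGroup.iff_orderOf.mp P.2) ⟨x, hx⟩
    exact ⟨j, by rw [← hj, Subgroup.orderOf_mk]⟩
  have hexp := pow_p_of_transitive (p := p) (P : Subgroup G) P.2
    (fun x hx y hy hx1 hy1 => h1 x y hx1 hy1 (hpel x hx) (hpel y hy))
  refine ⟨?_, hexp⟩
  -- trivial intersection with p'-subgroups
  have hcop : ∀ K : Subgroup G, ¬ p ∣ Nat.card K → ∀ x ∈ K, (∃ j : ℕ, orderOf x = p ^ j) →
      x = 1 := by
    intro K hK x hx ⟨j, hj⟩
    have h3 : orderOf x ∣ Nat.card K := by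
      have := orderOf_dvd_natCard (⟨x, hx⟩ : K)
      rwa [Subgroup.orderOf_mk] at this
    rcases Nat.eq_zero_or_pos j with h0 | h0
    · rw [h0, pow_zero] at hj; exact orderOf_eq_one_iff.mp hj
    · exact absurd ((dvd_pow_self p h0.ne').trans (hj ▸ h3)) hK
  by_cases hP1 : (P : Subgroup G) = ⊥
  · refine ⟨⟨fun a b => ?_⟩⟩
    have hall : ∀ y ∈ (P : Subgroup G), y = 1 := by
      intro y hy; rw [hP1] at hy; exact Subgroup.mem_bot.mp hy
    have ha : (a : G) = 1 := hall a a.2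
    have hb : (b : G) = 1 := hall b b.2
    apply Subtype.ext
    rw [Subgroup.coe_mul, Subgroup.coe_mul, ha, hb]
  by_cases hp2 : p = 2
  · subst hp2
    refine ⟨⟨fun a b => ?_⟩⟩
    have hsq : ∀ a ∈ (P : Subgroup G), a⁻¹ = a := by
      intro a ha
      have := hexp a ha
      rw [sq] at this
      exact inv_eq_of_mul_eq_one_left this
    apply Subtype.ext
    rw [Subgroup.coe_mul, Subgroup.coe_mul]
    have h3 := hsq _ (P.mul_mem a.2 b.2)
    rw [mul_inv_rev, hsq _ a.2, hsq _ b.2] at h3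
    exact h3.symm
  -- a central element
  have hnt : Nontrivial P := (Subgroup.nontrivial_iff_ne_bot (P : Subgroup G)).mpr hP1
  have hcn : Nontrivial (Subgroup.center P) := IsPGroup.center_nontrivial P.2
  obtain ⟨z0, hz0⟩ := exists_ne (1 : Subgroup.center P)
  set z : G := ((z0 : P) : G) with hz
  have hzP : z ∈ (P : Subgroup G) := (z0 : P).2
  have hz1 : z ≠ 1 := fun h => hz0 (Subtype.ext (Subtype.ext h))
  have hzc : ∀ x ∈ (P : Subgroup G), x * z = z * x := by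
    intro x hx
    have := Subgroup.mem_center_iff.mp z0.2 ⟨x, hx⟩
    exact congrArg Subtype.val this
  have hzinv1 : z⁻¹ ≠ 1 := fun h => hz1 (inv_eq_one.mp h)
  obtain ⟨c, hc⟩ := isConj_iff.mp (h1 z z⁻¹ hz1 hzinv1 (hpel z hzP)
    (hpel _ (Subgroup.inv_mem _ hzP)))
  have hzcP : z ∈ Subgroup.centralizer ((P : Subgroup G) : Set G) := by
    rw [Subgroup.mem_centralizer_iff]
    exact fun x hx => hzc x hx
  obtain ⟨n, hn, hnz⟩ := P.conj_eq_normalizer_conj_of_mem_centralizer z c⁻¹ hzcP (by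
    rw [inv_inv, hc]; exact Subgroup.inv_mem _ hzcP)
  rw [inv_inv, hc] at hnz
  -- the `2`-part of `n`
  have hord : orderOf n ≠ 0 := (orderOf_pos n).ne'
  obtain ⟨k, m, hm, hkm⟩ := Nat.exists_eq_two_pow_mul_odd hord
  set t := (n⁻¹) ^ m with ht
  have hcomm : ∀ i : ℕ, Odd i → (n⁻¹) ^ i * z * ((n⁻¹) ^ i)⁻¹ = z⁻¹ := by
    have h3 : n⁻¹ * z * (n⁻¹)⁻¹ = z⁻¹ := by rw [inv_inv]; exact hnz.symm
    have h4 : n⁻¹ * z⁻¹ * (n⁻¹)⁻¹ = z := by
      have : n⁻¹ * z⁻¹ * (n⁻¹)⁻¹ = (n⁻¹ * z * (n⁻¹)⁻¹)⁻¹ := by group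
      rw [this, h3, inv_inv]
    have h5 : ∀ j : ℕ, (n⁻¹) ^ (2 * j) * z * ((n⁻¹) ^ (2 * j))⁻¹ = z := by
      intro j
      induction j with
      | zero => simp
      | succ j ih =>
        have : (n⁻¹) ^ (2 * (j + 1)) * z * ((n⁻¹) ^ (2 * (j + 1)))⁻¹ =
            n⁻¹ * (n⁻¹ * ((n⁻¹) ^ (2 * j) * z * ((n⁻¹) ^ (2 * j))⁻¹) * (n⁻¹)⁻¹) * (n⁻¹)⁻¹ := by
          rw [show 2 * (j + 1) = 2 * j + 1 + 1 by ring, pow_succ', pow_succ']; group
        rw [this, ih, h3, h4]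
    intro i hi
    obtain ⟨j, rfl⟩ := hi
    have : (n⁻¹) ^ (2 * j + 1) * z * ((n⁻¹) ^ (2 * j + 1))⁻¹ =
        n⁻¹ * ((n⁻¹) ^ (2 * j) * z * ((n⁻¹) ^ (2 * j))⁻¹) * (n⁻¹)⁻¹ := by
      rw [pow_succ']; group
    rw [this, h5, h3]
  have htz : t * z * t⁻¹ = z⁻¹ := hcomm m hm
  have htN : t ∈ Subgroup.normalizer ((P : Subgroup G) : Set G) :=
    Subgroup.pow_mem _ (Subgroup.inv_mem _ hn) m
  have htord : ∃ j : ℕ, orderOf t = 2 ^ j := by
    have h3 : t ^ (2 ^ k) = 1 := by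
      rw [ht, ← pow_mul, mul_comm m, ← hkm, inv_pow, pow_orderOf_eq_one, inv_one]
    obtain ⟨j, -, hj⟩ := (Nat.dvd_prime_pow Nat.prime_two).mp (orderOf_dvd_of_pow_eq_one h3)
    exact ⟨j, hj⟩
  have htreg : ∀ i : ℕ, ¬ p ∣ orderOf (t ^ i) := by
    intro i hd
    obtain ⟨j, hj⟩ := htord
    have h3 : p ∣ 2 ^ j := hj ▸ hd.trans (orderOf_pow_dvd i)
    have h4 := (Nat.prime_dvd_prime_iff_eq hp.out Nat.prime_two).mp
      (hp.out.dvd_of_dvd_pow h3)
    exact hp2 h4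
  have hconjP : ∀ x ∈ (P : Subgroup G), t * x * t⁻¹ ∈ (P : Subgroup G) := fun x hx =>
    (Subgroup.mem_normalizer_iff.mp htN x).mp hx
  -- `t ^ 2` centralizes `P`
  have hzC : ∀ g, g ∈ cz (Subgroup.zpowers z) ↔ g * z = z * g := fun g => mem_cz_zpowers
  have htinv : t * z⁻¹ * t⁻¹ = z := by
    have : t * z⁻¹ * t⁻¹ = (t * z * t⁻¹)⁻¹ := by group
    rw [this, htz, inv_inv]
  have ht2 : t ^ 2 ∈ cz (Subgroup.zpowers z) := by
    rw [hzC]
    have : t ^ 2 * z * (t ^ 2)⁻¹ = z := by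
      calc t ^ 2 * z * (t ^ 2)⁻¹ = t * (t * z * t⁻¹) * t⁻¹ := by rw [sq]; group
        _ = z := by rw [htz, htinv]
    exact mul_inv_eq_iff_eq_mul.mp this
  have hinvol : ∀ x ∈ (P : Subgroup G), t * (t * x * t⁻¹) * t⁻¹ = x := by
    intro x hx
    obtain ⟨K, hK1, hK2, hK3, hK4⟩ := h2 z hz1 (hpel z hzP)
    have h3 : t ^ 2 ∈ K := hK4 _ ht2 (htreg 2)
    have hxC : x ∈ cz (Subgroup.zpowers z) := (hzC x).mpr (hzc x hx)
    have h4 : x * (t ^ 2)⁻¹ * x⁻¹ ∈ K := hK2 x hxC _ (K.inv_mem h3)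
    have h5 : t ^ 2 * (x * (t ^ 2)⁻¹ * x⁻¹) ∈ K := K.mul_mem h3 h4
    have h6 : t ^ 2 * (x * (t ^ 2)⁻¹ * x⁻¹) = (t * (t * x * t⁻¹) * t⁻¹) * x⁻¹ := by
      rw [sq]; group
    rw [h6] at h5
    have h7 : (t * (t * x * t⁻¹) * t⁻¹) * x⁻¹ ∈ (P : Subgroup G) :=
      Subgroup.mul_mem _ (hconjP _ (hconjP x hx)) (Subgroup.inv_mem _ hx)
    have h8 := hcop K hK3 _ h5 (hpel _ h7)
    exact mul_inv_eq_one.mp h8
  let φ : (P : Subgroup G) →* (P : Subgroup G) :=
    { toFun := fun x => ⟨t * x * t⁻¹, hconjP x x.2⟩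
      map_one' := Subtype.ext (by simp)
      map_mul' := fun x y => Subtype.ext (by
        change t * ((x : G) * y) * t⁻¹ = (t * x * t⁻¹) * (t * y * t⁻¹)
        group) }
  have hφ2 : Function.Involutive φ := fun x => Subtype.ext (hinvol x x.2)
  have hφf : MonoidHom.FixedPointFree φ := by
    intro x hx
    by_contra hx1
    have hx' : t * (x : G) * t⁻¹ = x := congrArg Subtype.val hx
    have hx1' : (x : G) ≠ 1 := fun h => hx1 (Subtype.ext h)
    obtain ⟨K, hK1, hK2, hK3, hK4⟩ := h2 x hx1' (hpel x x.2)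
    have htC : t ∈ cz (Subgroup.zpowers (x : G)) := by
      rw [mem_cz_zpowers]; exact mul_inv_eq_iff_eq_mul.mp hx'
    have htK : t ∈ K := hK4 t htC (by simpa using htreg 1)
    have hzC' : z ∈ cz (Subgroup.zpowers (x : G)) := by
      rw [mem_cz_zpowers]; exact (hzc x x.2).symm
    have h3 : z * t * z⁻¹ * t⁻¹ ∈ K := K.mul_mem (hK2 z hzC' t htK) (K.inv_mem htK)
    have h4 : z * t * z⁻¹ * t⁻¹ = z * z := by
      calc z * t * z⁻¹ * t⁻¹ = z * (t * z⁻¹ * t⁻¹) := by group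
        _ = z * z := by rw [htinv]
    rw [h4] at h3
    have h5 := hcop K hK3 _ h3 (hpel _ (Subgroup.mul_mem _ hzP hzP))
    have h6 : orderOf z ∣ 2 := orderOf_dvd_of_pow_eq_one (by rw [sq]; exact h5)
    obtain ⟨j, hj⟩ := hpel z hzP
    rcases Nat.eq_zero_or_pos j with h0 | h0
    · rw [h0, pow_zero, orderOf_eq_one_iff] at hj; exact hz1 hj
    · have h7 : p ∣ 2 := (dvd_pow_self p h0.ne').trans (hj ▸ h6)
      exact hp2 ((Nat.prime_dvd_prime_iff_eq hp.out Nat.prime_two).mp h7)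
  exact ⟨⟨fun a b => hφf.commute_all_of_involutive hφ2 a b⟩⟩

end Grp

section Prin

variable {G : Type u} [Group G] [Fintype G] {p : ℕ} [hp : Fact p.Prime] {M : Ideal AlgInt}

/-- A principal block of rank one: regular elements lie in a normal `p'`-subgroup. -/
theorem exists_compl_of_rank_one (hM : IsPModular p M)
    (h1 : blockRank p (principalBlock M G) = 1) :
    ∃ K : Subgroup G, K.Normal ∧ ¬ p ∣ Nat.card K ∧ ∀ s : G, ¬ p ∣ orderOf s → s ∈ K := by
  classical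
  have := pmod_isPrime hM
  have htriv : (⟨fun _ => 1, isIrr_one⟩ : IrrCharacter G) ∈ principalBlock M G :=
    fun g => sameBlock_refl _ g
  obtain ⟨K, hKn, hKe, hKp, -, -⟩ := blockKer_spec hM
    (principalBlock_isPBlock (M := M) (G := G)) htriv
  refine ⟨K, hKn, hKp, ?_⟩
  intro s hs
  have : s ∈ (K : Set G) := by
    rw [hKe]
    intro χ hχ
    -- the regular part is a multiple of the trivial one
    set V := Submodule.span ℂ ((fun χ : IrrCharacter G => pRegularPart p (χ : G → ℂ)) ''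
      principalBlock M G) with hV
    have hv1 : pRegularPart p (fun _ : G => (1 : ℂ)) ∈ V :=
      Submodule.subset_span ⟨_, htriv, rfl⟩
    have hv2 : pRegularPart p (χ : G → ℂ) ∈ V := Submodule.subset_span ⟨χ, hχ, rfl⟩
    have hr : Module.finrank ℂ V = 1 := h1
    have hreg1 : ¬ p ∣ orderOf (1 : G) := by
      rw [orderOf_one]; exact hp.out.one_lt.ne' ∘ Nat.dvd_one.mp
    have hne : (⟨_, hv1⟩ : V) ≠ 0 := by
      intro h
      have h2 := congrFun (congrArg Subtype.val h) 1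
      change pRegularPart p (fun _ : G => (1 : ℂ)) 1 = 0 at h2
      rw [pr_reg hreg1] at h2
      exact one_ne_zero h2
    obtain ⟨c, hc⟩ := (finrank_eq_one_iff_of_nonzero' _ hne).mp hr ⟨_, hv2⟩
    have h3 : ∀ g, c * pRegularPart p (fun _ : G => (1 : ℂ)) g = pRegularPart p (χ : G → ℂ) g :=
      fun g => congrFun (congrArg Subtype.val hc) g
    have h4 := h3 s
    have h5 := h3 1
    rw [pr_reg hs, pr_reg hs] at h4
    rw [pr_reg hreg1, pr_reg hreg1] at h5
    rw [← h4, ← h5]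
  exact this

theorem st4606_principal (hM : IsPModular p M) (D : Subgroup G)
    (hD : IsDefectGroup p M (principalBlock M G) D)
    (hk : Nat.card (principalBlock M G) = blockRank p (principalBlock M G) + 1) :
    IsElementaryAbelian p D := by
  classical
  have := pmod_isPrime hM
  have := charP_KF hM
  have hB : IsPBlock M (principalBlock M G) := principalBlock_isPBlock
  have htriv : (⟨fun _ => 1, isIrr_one⟩ : IrrCharacter G) ∈ principalBlock M G :=
    fun g => sameBlock_refl _ g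
  obtain ⟨-, hone⟩ := one_orbit hM hB hk
  -- the principal subsections
  have hsub : ∀ x : G, (∃ j : ℕ, orderOf x = p ^ j) →
      InB p (EG M (principalBlock M G)) (Subgroup.zpowers x)
        (EH M (cz (Subgroup.zpowers x)) (principalBlock M (cz (Subgroup.zpowers x)))) := by
    intro x hx
    have hpg := isPGroup_zpowers hx
    have hbp : IsPBlock M (principalBlock M (cz (Subgroup.zpowers x))) := principalBlock_isPBlock
    have hind : IsInducedBlock M (cz (Subgroup.zpowers x))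
        (principalBlock M (cz (Subgroup.zpowers x))) (principalBlock M G) := by
      have hcent := cent_zpowers x
      have h3 : InducedBlockDefined M (cz (Subgroup.zpowers x))
          (principalBlock M (cz (Subgroup.zpowers x))) := by
        rw [← hcent]
        exact inducedBlockDefined_centralizer hM hx principalBlock_isPBlock
      obtain ⟨B', hB'⟩ := h3
      have := (third_main hM hB').mpr rfl
      rw [← this]; exact hB'
    exact ((isInducedBlock_cz_iff (p := p) hpg).mp hind).2.2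
  have hc1 : ∀ x y : G, x ≠ 1 → y ≠ 1 → (∃ j : ℕ, orderOf x = p ^ j) →
      (∃ j : ℕ, orderOf y = p ^ j) → IsConj x y := by
    intro x y hx hy hxp hyp
    obtain ⟨h, h2, -⟩ := (hone x _ hx hxp (hsub x hxp)).2 y _ hy hyp (hsub y hyp)
    exact isConj_iff.mpr ⟨h, h2.symm⟩
  have hc2 : ∀ x : G, x ≠ 1 → (∃ j : ℕ, orderOf x = p ^ j) → ∃ K : Subgroup G,
      K ≤ cz (Subgroup.zpowers x) ∧ (∀ c ∈ cz (Subgroup.zpowers x), ∀ y ∈ K, c * y * c⁻¹ ∈ K) ∧
      ¬ p ∣ Nat.card K ∧ ∀ s ∈ cz (Subgroup.zpowers x), ¬ p ∣ orderOf s → s ∈ K := by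
    intro x hx hxp
    have := Fintype.ofFinite (cz (Subgroup.zpowers x))
    have h2 := (hone x _ hx hxp (hsub x hxp)).1
    rw [rk_EH principalBlock_isPBlock] at h2
    obtain ⟨K, hKn, hKp, hK⟩ := exists_compl_of_rank_one hM h2
    refine ⟨K.map (cz (Subgroup.zpowers x)).subtype, ?_, ?_, ?_, ?_⟩
    · rintro _ ⟨y, -, rfl⟩; exact y.2
    · rintro c hc _ ⟨y, hy, rfl⟩
      exact ⟨⟨c, hc⟩ * y * ⟨c, hc⟩⁻¹, hKn.conj_mem y hy ⟨c, hc⟩, rfl⟩
    · rwa [Subgroup.card_map_of_injective (Subgroup.subtype_injective _)]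
    · intro s hs hsr
      exact ⟨⟨s, hs⟩, hK _ (by rwa [Subgroup.orderOf_mk]), rfl⟩
  -- `D` is a Sylow subgroup
  have hcardD : Nat.card D = p ^ (Nat.card G).factorization p := by
    rw [card_defect hM hB hD]
    congr 1
    obtain ⟨h3, h4⟩ := fact_degree hM htriv
    have h5 : charDegree ((⟨fun _ => 1, isIrr_one⟩ : IrrCharacter G) : G → ℂ) = 1 := by
      have h6 := (charDegree_spec isIrr_one (G := G)).1
      change (1 : ℂ) = _ at h6
      exact_mod_cast h6.symm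
    rw [h5, Nat.factorization_one, Finsupp.coe_zero, Pi.zero_apply] at h3
    omega
  have hS := elab_of_transitive (Sylow.ofCard D hcardD) hc1 hc2
  exact hS

end Prin

end Cfsg.Agent.H26
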