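import Mathlib
import Cfsg.Agent.H26.OneSub2
import Cfsg.Agent.H26.Cover9
import Cfsg.Agent.H26.OpCon4

set_option autoImplicit false

/-!
# Fong-Reynolds correspondence: bijectivity and ranks
-/

namespace Cfsg.Agent.H26

open MonoidAlgebra MulAction Cfsg Cfsg.Agent.H11 Cfsg.Agent.H3

universe u

section Cliff

variable {G : Type u} [Group G] [Fintype G]

/-- injectivity of induction over a character with small inertia group -/
theorem ind_inj_of_inertia_le {N T : Subgroup G} (hN : N.Normal) (hNT : N ≤ T) [Fintype N]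
    [Fintype T] {θ : IrrCharacter N} (hI : inertia hN (θ : N → ℂ) ≤ T) {ψ ψ' : IrrCharacter T}
    (hψ : classInner (fun n : N => (ψ : T → ℂ) ⟨(n : G), hNT n.2⟩) (θ : N → ℂ) ≠ 0)
    (hψ' : classInner (fun n : N => (ψ' : T → ℂ) ⟨(n : G), hNT n.2⟩) (θ : N → ℂ) ≠ 0)
    {χ : IrrCharacter G} (h1 : indFun T (ψ : T → ℂ) = (χ : G → ℂ))
    (h2 : indFun T (ψ' : T → ℂ) = (χ : G → ℂ)) : ψ = ψ' := by
  classical
  by_contra hne
  have := Fintype.ofFinite (N.subgroupOf T)
  have hN' : (N.subgroupOf T).Normal := hN.subgroupOf T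
  have hχξ : ∀ ξ : IrrCharacter T, indFun T (ξ : T → ℂ) = (χ : G → ℂ) →
      classInner (fun t : T => (χ : G → ℂ) t) (ξ : T → ℂ) ≠ 0 := by
    intro ξ hξ
    apply classInner_ne_zero_symm
    rw [← frobenius_reciprocity T _ (irr_classFun χ.2), hξ, classInner_self_of_irr χ.2]
    exact one_ne_zero
  -- multiplicities
  have hnat : ∀ ρ : T → ℂ, IsCharacter T ρ → ∃ m : ℕ,
      classInner (fun n : N => ρ ⟨(n : G), hNT n.2⟩) (θ : N → ℂ) = m := by
    intro ρ hρ
    obtain ⟨m, hm⟩ := classInner_char_nat (isChar_restrict (N.subgroupOf T) hρ)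
      (irr_isChar (irrMap (subE hNT) θ).2)
    exact ⟨m, by rw [← classInner_sub hNT ρ θ]; exact hm⟩
  have hrest := isChar_restrict T (irr_isChar χ.2)
  have hρ := isChar_sub_irr hrest ψ.2 (hχξ ψ h1)
  have hρψ' : classInner ((fun t : T => (χ : G → ℂ) t) - (ψ : T → ℂ)) (ψ' : T → ℂ) ≠ 0 := by
    rw [classInner_sub_left, classInner_of_irr_ne ψ.2 ψ'.2 (fun h => hne (Subtype.ext h)), sub_zero]
    exact hχξ ψ' h2
  have hρ' := isChar_sub_irr hρ ψ'.2 hρψ'
  obtain ⟨e, he⟩ := hnat _ (irr_isChar ψ.2)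
  obtain ⟨e', he'⟩ := hnat _ (irr_isChar ψ'.2)
  obtain ⟨m, hm⟩ := hnat _ hρ'
  have hsum : classInner (fun n : N => (χ : G → ℂ) n) (θ : N → ℂ) = ((e + (e' + m) : ℕ) : ℂ) := by
    have h3 : (fun n : N => (χ : G → ℂ) n) =
        (fun n : N => (ψ : T → ℂ) ⟨(n : G), hNT n.2⟩) +
        ((fun n : N => (ψ' : T → ℂ) ⟨(n : G), hNT n.2⟩) +
        (fun n : N => (((fun t : T => (χ : G → ℂ) t) - (ψ : T → ℂ)) - (ψ' : T → ℂ))
          ⟨(n : G), hNT n.2⟩)) := by
      funext n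
      simp only [Pi.add_apply, Pi.sub_apply]
      ring
    rw [h3, classInner_add_left, classInner_add_left, he, he', hm]
    push_cast
    ring
  have he0 : e ≠ 0 := by
    rintro rfl
    exact hψ (by rw [he, Nat.cast_zero])
  have he0' : e' ≠ 0 := by
    rintro rfl
    exact hψ' (by rw [he', Nat.cast_zero])
  have hχN : classInner (fun n : N => (χ : G → ℂ) n) (θ : N → ℂ) ≠ 0 := by
    rw [hsum]
    exact_mod_cast (by omega : e + (e' + m) ≠ 0)
  have hsub := classInner_sub hNT (ψ : T → ℂ) θ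
  have hd1 := clifford_degree hN χ.2 θ.2 hχN
  have hd2 := clifford_degree hN' ψ.2 (irrMap (subE hNT) θ).2 (by rw [hsub]; exact hψ)
  rw [hsub, he] at hd2
  rw [hsum] at hd1
  have hθ1 : (irrMap (subE hNT) θ : N.subgroupOf T → ℂ) 1 = (θ : N → ℂ) 1 := by
    have := irrMap_apply' (subE hNT) θ 1
    rw [map_one] at this
    exact this
  rw [hθ1] at hd2
  -- index of the inertia group
  have hin : inertia hN' (irrMap (subE hNT) θ : N.subgroupOf T → ℂ) =
      (inertia hN (θ : N → ℂ)).subgroupOf T := by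
    ext t
    rw [Subgroup.mem_subgroupOf, mem_inertia', mem_inertia']
    have key : ∀ n : N, (irrMap (subE hNT) θ : N.subgroupOf T → ℂ)
        ⟨t * (subE hNT n : N.subgroupOf T) * t⁻¹, hN'.conj_mem _ (subE hNT n).2 t⟩ =
        (θ : N → ℂ) ⟨(t : G) * n * (t : G)⁻¹, hN.conj_mem n n.2 t⟩ := by
      intro n
      have h5 : (⟨t * (subE hNT n : N.subgroupOf T) * t⁻¹, hN'.conj_mem _ (subE hNT n).2 t⟩ :
          N.subgroupOf T) = subE hNT ⟨(t : G) * n * (t : G)⁻¹, hN.conj_mem n n.2 t⟩ := by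
        refine Subtype.ext (Eq.trans ?_ (subE_coe hNT _).symm)
        apply Subtype.ext
        change (t : G) * (((subE hNT n : N.subgroupOf T) : T) : G) * (t : G)⁻¹ =
          (t : G) * n * (t : G)⁻¹
        rw [subE_coe]
      rw [h5, irrMap_apply']
    constructor
    · intro h n
      rw [← key n]
      have := h (subE hNT n)
      rw [this, irrMap_apply']
    · intro h n
      obtain ⟨n', rfl⟩ := (subE hNT).surjective n
      rw [key n', h n', irrMap_apply']
  rw [hin] at hd2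
  have hidx : ((inertia hN (θ : N → ℂ)).subgroupOf T).index * T.index =
      (inertia hN (θ : N → ℂ)).index := Subgroup.relIndex_mul_index hI
  obtain ⟨dχ, -⟩ := charDegree_spec χ.2
  obtain ⟨dψ, dψ0⟩ := charDegree_spec ψ.2
  obtain ⟨dθ, dθ0⟩ := charDegree_spec θ.2
  have hone : (charDegree (χ : G → ℂ) : ℂ) = ((T.index * charDegree (ψ : T → ℂ) : ℕ) : ℂ) := by
    rw [← dχ, ← h1, indFun_one_apply, dψ]
    push_cast
    rfl
  rw [dχ, dθ, hone] at hd1
  rw [dψ, dθ] at hd2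
  have hd1' : T.index * charDegree (ψ : T → ℂ) = (e + (e' + m)) *
      (inertia hN (θ : N → ℂ)).index * charDegree (θ : N → ℂ) := by exact_mod_cast hd1
  have hd2' : charDegree (ψ : T → ℂ) = e * ((inertia hN (θ : N → ℂ)).subgroupOf T).index *
      charDegree (θ : N → ℂ) := by exact_mod_cast hd2
  rw [hd2', ← hidx] at hd1'
  set a := ((inertia hN (θ : N → ℂ)).subgroupOf T).index with ha
  set c := charDegree (θ : N → ℂ) with hc
  have hapos : 0 < a := Nat.pos_of_ne_zero Subgroup.index_ne_zero_of_finite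
  have hTpos : 0 < T.index := Nat.pos_of_ne_zero Subgroup.index_ne_zero_of_finite
  have h6 : T.index * (e * a * c) = e * (a * T.index * c) := by ring
  have h7 : (e + (e' + m)) * (a * T.index) * c = (e + (e' + m)) * (a * T.index * c) := by ring
  rw [h6, h7] at hd1'
  have hpos : 0 < a * T.index * c := Nat.mul_pos (Nat.mul_pos hapos hTpos) (Nat.pos_of_ne_zero dθ0)
  have := Nat.eq_of_mul_eq_mul_right hpos hd1'
  omega

end Cliff

section FRB

variable {M : Ideal AlgInt} [hM : M.IsPrime] {G : Type u} [Group G] [Fintype G]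
  {N : Subgroup G} [hN : N.Normal]
variable {b : Set (IrrCharacter N)} {B' : Set (IrrCharacter (stab ⊤ (EH M N b)))}

theorem FR_inj [hfT : Fintype (stab ⊤ (EH M N b))] (hb : IsPBlock M b) (hB' : IsPBlock M B')
    (hne : EH M (stab ⊤ (EH M N b)) B' * EH M N b ≠ 0)
    {ψ ψ' : IrrCharacter (stab ⊤ (EH M N b))} (hψ : ψ ∈ B') (hψ' : ψ' ∈ B')
    {χ : IrrCharacter G} (h1 : indFun (stab ⊤ (EH M N b)) (ψ : _ → ℂ) = (χ : G → ℂ))
    (h2 : indFun (stab ⊤ (EH M N b)) (ψ' : _ → ℂ) = (χ : G → ℂ)) : ψ = ψ' := by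
  classical
  have := Fintype.ofFinite N
  have hbe := isBlk_EH hb
  have hE' := isBlk_EH hB'
  have hNT : N ≤ stab ⊤ (EH M N b) := le_stab_top hbe
  have hn : (N.subgroupOf (stab ⊤ (EH M N b))).Normal := hN.subgroupOf _
  have hfin : Fintype (N.subgroupOf (stab ⊤ (EH M N b))) := Fintype.ofFinite _
  have hex : ∀ ψ : IrrCharacter (stab ⊤ (EH M N b)), ψ ∈ B' → ∃ θ ∈ b,
      classInner (fun n : N => (ψ : stab ⊤ (EH M N b) → ℂ) ⟨(n : G), hNT n.2⟩) (θ : N → ℂ) ≠ 0 := by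
    intro ψ hψ
    obtain ⟨θ', hθ'⟩ := exists_constituent_restrict (N := N.subgroupOf (stab ⊤ (EH M N b))) ψ
    obtain ⟨θ, rfl⟩ := (irrMap (subE hNT)).surjective θ'
    rw [classInner_sub hNT] at hθ'
    exact ⟨θ, mem_of_inner_sub hNT hn hB' hb (e_mul_E' hbe hE' hne).2 hψ hθ', hθ'⟩
  obtain ⟨θ, hθb, hθ⟩ := hex ψ hψ
  obtain ⟨θ', hθb', hθ'⟩ := hex ψ' hψ'
  -- both are constituents of χ
  have hχ : ∀ (ξ : IrrCharacter (stab ⊤ (EH M N b))) (η : IrrCharacter N),
      indFun (stab ⊤ (EH M N b)) (ξ : _ → ℂ) = (χ : G → ℂ) →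
      classInner (fun n : N => (ξ : stab ⊤ (EH M N b) → ℂ) ⟨(n : G), hNT n.2⟩) (η : N → ℂ) ≠ 0 →
      classInner (fun n : N => (χ : G → ℂ) n) (η : N → ℂ) ≠ 0 := by
    intro ξ η hξ hη
    have hc : classInner (fun t : stab ⊤ (EH M N b) => (χ : G → ℂ) t) (ξ : _ → ℂ) ≠ 0 := by
      apply classInner_ne_zero_symm
      rw [← frobenius_reciprocity _ _ (irr_classFun χ.2), hξ, classInner_self_of_irr χ.2]
      exact one_ne_zero
    have hρ := isChar_sub_irr (isChar_restrict (stab ⊤ (EH M N b)) (irr_isChar χ.2)) ξ.2 hc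
    have hnat : ∀ ρ : stab ⊤ (EH M N b) → ℂ, IsCharacter (stab ⊤ (EH M N b)) ρ → ∃ m : ℕ,
        classInner (fun n : N => ρ ⟨(n : G), hNT n.2⟩) (η : N → ℂ) = m := by
      intro ρ hρ
      obtain ⟨m, hm⟩ := classInner_char_nat (isChar_restrict (N.subgroupOf _) hρ)
        (irr_isChar (irrMap (subE hNT) η).2)
      exact ⟨m, by rw [← classInner_sub hNT ρ η]; exact hm⟩
    obtain ⟨e, he⟩ := hnat _ (irr_isChar ξ.2)
    obtain ⟨m, hm⟩ := hnat _ hρ
    have h3 : (fun n : N => (χ : G → ℂ) n) =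
        (fun n : N => (ξ : stab ⊤ (EH M N b) → ℂ) ⟨(n : G), hNT n.2⟩) +
        (fun n : N => ((fun t : stab ⊤ (EH M N b) => (χ : G → ℂ) t) -
          (ξ : stab ⊤ (EH M N b) → ℂ)) ⟨(n : G), hNT n.2⟩) := by
      funext n
      simp only [Pi.add_apply, Pi.sub_apply]
      ring
    rw [h3, classInner_add_left, he, hm]
    have he0 : e ≠ 0 := by
      rintro rfl
      exact hη (by rw [he, Nat.cast_zero])
    exact_mod_cast (by omega : e + m ≠ 0)
  have hχθ := hχ ψ θ h1 hθ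
  have hχθ' := hχ ψ' θ' h2 hθ'
  obtain ⟨x, hx⟩ := clifford_inner hN χ.2 θ'.2 hχθ' θ.2 hχθ
  -- `cj x θ' = θ`
  have hxx : ∀ n : N, (θ : N → ℂ) n = (θ' : N → ℂ) ⟨x * n * x⁻¹, hN.conj_mem n n.2 x⟩ := by
    intro n; rw [← hx]; rfl
  have hxT : x ∈ stab ⊤ (EH M N b) := by
    have h5 := eq_irrMap_of_conj hxx
    rw [h5, irrMap_mem_iff hb hθb'] at hθb
    have h6 := congrArg (H26.cj x) hθb
    rw [cj_cj_inv] at h6
    exact mem_stab_top.mpr h6.symm
  -- move `ψ'` over `θ`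
  have hψ'θ : classInner (fun n : N => (ψ' : stab ⊤ (EH M N b) → ℂ) ⟨(n : G), hNT n.2⟩)
      (θ : N → ℂ) ≠ 0 := by
    have h7 : classInner (fun n : N => (ψ' : stab ⊤ (EH M N b) → ℂ) ⟨(n : G), hNT n.2⟩)
        (θ : N → ℂ) = classInner (fun n : N => (ψ' : stab ⊤ (EH M N b) → ℂ) ⟨(n : G), hNT n.2⟩)
        (θ' : N → ℂ) := by
      have h8 := inner_conj (N := N.subgroupOf (stab ⊤ (EH M N b))) ψ'
        (irrMap (subE hNT) θ') (irrMap (subE hNT) θ) ⟨x, hxT⟩ (by
          intro n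
          obtain ⟨n', rfl⟩ := (subE hNT).surjective n
          rw [irrMap_apply', hxx n']
          have h9 : (⟨(⟨x, hxT⟩ : stab ⊤ (EH M N b)) * (subE hNT n' : N.subgroupOf _) *
              (⟨x, hxT⟩ : stab ⊤ (EH M N b))⁻¹, hn.conj_mem _ (subE hNT n').2 _⟩ :
              N.subgroupOf (stab ⊤ (EH M N b))) =
              subE hNT ⟨x * n' * x⁻¹, hN.conj_mem n' n'.2 x⟩ := by
            refine Subtype.ext (Eq.trans ?_ (subE_coe hNT _).symm)
            apply Subtype.ext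
            change x * (((subE hNT n' : N.subgroupOf (stab ⊤ (EH M N b))) :
              stab ⊤ (EH M N b)) : G) * x⁻¹ = x * n' * x⁻¹
            rw [subE_coe]
          rw [h9, irrMap_apply'])
      rw [classInner_sub hNT, classInner_sub hNT] at h8
      exact h8
    rw [h7]; exact hθ'
  exact ind_inj_of_inertia_le hN hNT (inertia_le_stab hb hθb) hθ hψ'θ h1 h2

/-- the Fong-Reynolds correspondence is bijective -/
theorem FR_card (hb : IsPBlock M b) (hB' : IsPBlock M B')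
    (hne : EH M (stab ⊤ (EH M N b)) B' * EH M N b ≠ 0)
    {B : Set (IrrCharacter G)} (hB : IsPBlock M B)
    (hE : EG M B = osum ⊤ (EH M (stab ⊤ (EH M N b)) B')) : Nat.card B = Nat.card B' := by
  classical
  have hfT : Fintype (stab ⊤ (EH M N b)) := Fintype.ofFinite _
  have hind : IsInducedBlock M (stab ⊤ (EH M N b)) B' B := by
    obtain ⟨B₀, hB₀, hE₀, hind₀, -⟩ := FR_block hb hB' hne
    have : B = B₀ := EG_injective hB hB₀ (by rw [hE, hE₀])
    rw [this]; exact hind₀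
  have hirr : ∀ ψ : B', ∃ χ : B, ((χ : IrrCharacter G) : G → ℂ) =
      indFun (stab ⊤ (EH M N b)) ((ψ : IrrCharacter (stab ⊤ (EH M N b))) : _ → ℂ) := by
    intro ψ
    obtain ⟨χ, hχ⟩ := exists_over (stab ⊤ (EH M N b)) (ψ : IrrCharacter (stab ⊤ (EH M N b)))
    have h1 := FR_ind hb hB' hne ψ.2 (χ := χ) (by convert hχ)
    exact ⟨⟨χ, ind_mem_of_induced hind ψ.2 h1.symm⟩, h1.symm⟩
  choose F hF using hirr
  symm
  apply Nat.card_congr
  apply Equiv.ofBijective F
  constructor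
  · intro ψ ψ' h
    apply Subtype.ext
    refine FR_inj hb hB' hne ψ.2 ψ'.2 (χ := (F ψ : IrrCharacter G)) (hF ψ).symm ?_
    rw [h]; exact (hF ψ').symm
  · intro χ
    obtain ⟨ψ, hψ, hχ⟩ := FR_surj hb hB' hne hB hE χ.2
    refine ⟨⟨ψ, hψ⟩, ?_⟩
    apply Subtype.ext
    apply Subtype.ext
    rw [hF, hχ]

omit hM hN in
theorem indFun_regular {p : ℕ} [Fact p.Prime] (T : Subgroup G) (θ : T → ℂ) :
    indFun T (pRegularPart p θ) = pRegularPart p (indFun T θ) := by
  classical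
  have hord : ∀ g x : G, orderOf (x⁻¹ * g * x) = orderOf g := by
    intro g x
    have := orderOf_conj' g x⁻¹
    rwa [inv_inv] at this
  funext g
  by_cases hg : p ∣ orderOf g
  · rw [pr_sing hg]
    unfold indFun
    rw [Finset.sum_eq_zero, mul_zero]
    intro x _
    by_cases h : x⁻¹ * g * x ∈ T
    · rw [extendByZero_mem T _ h]
      apply pr_sing
      rw [Subgroup.orderOf_mk, hord]
      exact hg
    · exact extendByZero_not_mem T _ h
  · rw [pr_reg hg]
    unfold indFun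
    congr 1
    apply Finset.sum_congr rfl
    intro x _
    by_cases h : x⁻¹ * g * x ∈ T
    · rw [extendByZero_mem T _ h, extendByZero_mem T _ h]
      apply pr_reg
      rw [Subgroup.orderOf_mk, hord]
      exact hg
    · rw [extendByZero_not_mem T _ h, extendByZero_not_mem T _ h]

/-- Induction as a linear map. -/
noncomputable def indL {G : Type u} [Group G] [Fintype G] (T : Subgroup G) :
    (T → ℂ) →ₗ[ℂ] (G → ℂ) where
  toFun := indFun T
  map_add' := indFun_add T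
  map_smul' := indFun_smul T

theorem FR_rank_le {p : ℕ} [Fact p.Prime] (hb : IsPBlock M b) (hB' : IsPBlock M B')
    (hne : EH M (stab ⊤ (EH M N b)) B' * EH M N b ≠ 0)
    {B : Set (IrrCharacter G)} (hB : IsPBlock M B)
    (hE : EG M B = osum ⊤ (EH M (stab ⊤ (EH M N b)) B')) : blockRank p B ≤ blockRank p B' := by
  classical
  unfold blockRank
  have h1 : Submodule.span ℂ ((fun χ : IrrCharacter G => pRegularPart p (χ : G → ℂ)) '' B) ≤
      (Submodule.span ℂ ((fun χ : IrrCharacter (stab ⊤ (EH M N b)) =>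
        pRegularPart p (χ : stab ⊤ (EH M N b) → ℂ)) '' B')).map
        (indL (stab ⊤ (EH M N b))) := by
    rw [Submodule.span_le]
    rintro _ ⟨χ, hχ, rfl⟩
    obtain ⟨ψ, hψ, h2⟩ := FR_surj hb hB' hne hB hE hχ
    refine ⟨pRegularPart p (ψ : stab ⊤ (EH M N b) → ℂ), Submodule.subset_span ⟨ψ, hψ, rfl⟩, ?_⟩
    change indFun _ (pRegularPart p (ψ : stab ⊤ (EH M N b) → ℂ)) = pRegularPart p (χ : G → ℂ)
    rw [indFun_regular, h2]
  exact (Submodule.finrank_mono h1).trans (Submodule.finrank_map_le _ _)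

end FRB

end Cfsg.Agent.H26
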