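import Mathlib
import Cfsg.Agent.H26.OneSub3
import Cfsg.Agent.H23.PSolvable
import Cfsg.Agent.S4733

set_option autoImplicit false

/-!
# Blocks with `k(B) - l(B) = 1` in `p`-solvable groups
-/

namespace Cfsg.Agent.H26

open MonoidAlgebra MulAction Cfsg Cfsg.Agent.H11 Cfsg.Agent.H3

universe u

section Grp

variable {G : Type u} [Group G] [Finite G] {p : ℕ} [hp : Fact p.Prime]

theorem elab_bot : IsElementaryAbelian p (⊥ : Subgroup G) := by
  refine ⟨⟨⟨fun a b => ?_⟩⟩, ?_⟩
  · apply Subtype.ext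
    rw [Subgroup.coe_mul, Subgroup.coe_mul, Subgroup.mem_bot.mp a.2, Subgroup.mem_bot.mp b.2]
  · intro a ha
    rw [Subgroup.mem_bot.mp ha, one_pow]

omit [Finite G] hp in
theorem elab_map {G' : Type*} [Group G'] {D : Subgroup G} (h : IsElementaryAbelian p D)
    (f : G →* G') : IsElementaryAbelian p (D.map f) := by
  refine ⟨⟨⟨?_⟩⟩, ?_⟩
  · rintro ⟨_, a, ha, rfl⟩ ⟨_, b, hb, rfl⟩
    apply Subtype.ext
    change f a * f b = f b * f a
    have := h.1.is_comm.comm ⟨a, ha⟩ ⟨b, hb⟩
    have h2 : a * b = b * a := congrArg Subtype.val this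
    rw [← map_mul, h2, map_mul]
  · rintro _ ⟨a, ha, rfl⟩
    rw [← map_pow, h.2 a ha, map_one]

/-- All nontrivial `p`-elements are conjugate and the group has a good normal series. -/
theorem elab_of_series (P : Sylow p G)
    (h1 : ∀ x y : G, x ≠ 1 → y ≠ 1 → (∃ j : ℕ, orderOf x = p ^ j) → (∃ j : ℕ, orderOf y = p ^ j) →
      IsConj x y)
    {K L : Subgroup G} (hK : K.Normal) (hL : L.Normal) (hKL : K ≤ L) (hcop : ¬ p ∣ Nat.card K)
    (hpow : ∃ j : ℕ, K.relIndex L = p ^ j) (hPL : (P : Subgroup G) ≤ L) :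
    IsElementaryAbelian p (P : Subgroup G) := by
  classical
  have hpel : ∀ a ∈ (P : Subgroup G), ∃ j : ℕ, orderOf a = p ^ j := by
    intro a ha
    obtain ⟨j, hj⟩ := (IsPGroup.iff_orderOf.mp P.2) ⟨a, ha⟩
    exact ⟨j, by rw [← hj, Subgroup.orderOf_mk]⟩
  refine ⟨?_, pow_p_of_transitive (p := p) (P : Subgroup G) P.2
    (fun x hx y hy hx1 hy1 => h1 x y hx1 hy1 (hpel x hx) (hpel y hy))⟩
  -- `K ⊔ P = L`
  have hsup : K ⊔ (P : Subgroup G) = L := by
    apply le_antisymm (sup_le hKL hPL)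
    rw [← Subgroup.relIndex_eq_one]
    have h2 : (K ⊔ (P : Subgroup G)).relIndex L ∣ K.relIndex L :=
      Subgroup.relIndex_dvd_of_le_left L le_sup_left
    have h3 : (K ⊔ (P : Subgroup G)).relIndex L ∣ (P : Subgroup G).relIndex L :=
      Subgroup.relIndex_dvd_of_le_left L le_sup_right
    have h4 : (P : Subgroup G).relIndex L ∣ (P : Subgroup G).index :=
      ⟨_, (Subgroup.relIndex_mul_index hPL).symm⟩
    obtain ⟨j, hj⟩ := hpow
    rw [hj] at h2
    obtain ⟨i, -, hi⟩ := (Nat.dvd_prime_pow hp.out).mp h2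
    have hi0 : i = 0 := by
      by_contra hne
      have : p ∣ (P : Subgroup G).index := ((hi ▸ dvd_pow_self p hne).trans h3).trans h4
      exact P.not_dvd_index this
    rw [hi, hi0, pow_zero]
  -- Frattini
  have hfr : Subgroup.normalizer ((P : Subgroup G) : Set G) ⊔ K = ⊤ := by
    have h2 := P.normalizer_sup_eq_top' hPL
    rw [eq_top_iff, ← h2, ← hsup]
    apply sup_le le_sup_left
    apply sup_le le_sup_right
    exact (Subgroup.le_normalizer (H := (P : Subgroup G))).trans le_sup_left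
  have hKP : ∀ x ∈ K, x ∈ (P : Subgroup G) → x = 1 := by
    intro x hxK hxP
    obtain ⟨j, hj⟩ := hpel x hxP
    have h3 : orderOf x ∣ Nat.card K := by
      have := orderOf_dvd_natCard (⟨x, hxK⟩ : K)
      rwa [Subgroup.orderOf_mk] at this
    rcases Nat.eq_zero_or_pos j with h0 | h0
    · rw [h0, pow_zero] at hj; exact orderOf_eq_one_iff.mp hj
    · exact absurd ((dvd_pow_self p h0.ne').trans (hj ▸ h3)) hcop
  -- transitivity of the normalizer
  have htr : ∀ x ∈ (P : Subgroup G), ∀ y ∈ (P : Subgroup G), x ≠ 1 → y ≠ 1 →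
      ∃ h ∈ Subgroup.normalizer ((P : Subgroup G) : Set G), y = h * x * h⁻¹ := by
    intro x hx y hy hx1 hy1
    obtain ⟨g, hg⟩ := isConj_iff.mp (h1 x y hx1 hy1 (hpel x hx) (hpel y hy))
    have hgt : g ∈ Subgroup.normalizer ((P : Subgroup G) : Set G) ⊔ K := by
      rw [hfr]; trivial
    rw [sup_comm] at hgt
    obtain ⟨n, hn, h, hh, rfl⟩ := Subgroup.mem_sup_of_normal_left.mp hgt
    refine ⟨h, hh, ?_⟩
    have hx' : h * x * h⁻¹ ∈ (P : Subgroup G) := (Subgroup.mem_normalizer_iff.mp hh x).mp hx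
    have h5 : y = n * (h * x * h⁻¹) * n⁻¹ := by rw [← hg]; group
    have h6 : y * (h * x * h⁻¹)⁻¹ ∈ K := by
      rw [h5]
      have : n * (h * x * h⁻¹) * n⁻¹ * (h * x * h⁻¹)⁻¹ =
          n * ((h * x * h⁻¹) * n⁻¹ * (h * x * h⁻¹)⁻¹) := by group
      rw [this]
      exact K.mul_mem hn (hK.conj_mem _ (K.inv_mem hn) _)
    have h7 := hKP _ h6 (Subgroup.mul_mem _ hy (Subgroup.inv_mem _ hx'))
    exact mul_inv_eq_one.mp h7
  by_cases hP1 : (P : Subgroup G) = ⊥
  · rw [hP1]; exact (elab_bot (p := p)).1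
  have hnt : Nontrivial P := (Subgroup.nontrivial_iff_ne_bot (P : Subgroup G)).mpr hP1
  have hcn : Nontrivial (Subgroup.center P) := IsPGroup.center_nontrivial P.2
  obtain ⟨z0, hz0⟩ := exists_ne (1 : Subgroup.center P)
  set z : G := ((z0 : P) : G) with hz
  have hzP : z ∈ (P : Subgroup G) := (z0 : P).2
  have hz1 : z ≠ 1 := fun h => hz0 (Subtype.ext (Subtype.ext h))
  have hzc : ∀ x ∈ (P : Subgroup G), x * z = z * x := by
    intro x hx
    have := Subgroup.mem_center_iff.mp z0.2 ⟨x, hx⟩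
    exact congrArg Subtype.val this
  refine ⟨⟨fun a b => ?_⟩⟩
  apply Subtype.ext
  change (a : G) * b = b * a
  by_cases ha1 : (a : G) = 1
  · rw [ha1, one_mul, mul_one]
  obtain ⟨h, hh, ha⟩ := htr z hzP a a.2 hz1 ha1
  have hb : h⁻¹ * (b : G) * h ∈ (P : Subgroup G) := by
    have := (Subgroup.mem_normalizer_iff.mp (Subgroup.inv_mem _ hh) (b : G)).mp b.2
    rwa [inv_inv] at this
  have h8 := hzc _ hb
  rw [ha]
  calc h * z * h⁻¹ * (b : G) = h * (z * (h⁻¹ * b * h)) * h⁻¹ := by group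
    _ = h * ((h⁻¹ * b * h) * z) * h⁻¹ := by rw [h8]
    _ = b * (h * z * h⁻¹) := by group

end Grp

section Main

variable {p : ℕ} [hp : Fact p.Prime] {M : Ideal AlgInt}

theorem elab_of_CL {G : Type u} [Group G] [Fintype G] (hM : IsPModular p M) [M.IsPrime]
    [CharP (KF M) p] {K L : Subgroup G} (h : CL p K L) {e : MonoidAlgebra (KF M) G}
    (he : IsBlk K e) (hfx : IsFx ⊤ e) {B : Set (IrrCharacter G)} (hB : IsPBlock M B)
    (hE : EG M B = e) (hk : Nat.card B = blockRank p B + 1) {D : Subgroup G}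
    (hD : IsDefectGroup p M B D) : IsElementaryAbelian p D := by
  classical
  obtain ⟨-, hone⟩ := one_orbit hM hB hk
  have hsub : ∀ x : G, (∃ j : ℕ, orderOf x = p ^ j) →
      InB p (EG M B) (Subgroup.zpowers x) (br (Subgroup.zpowers x) e) := by
    intro x hx
    have hpg := isPGroup_zpowers hx
    refine ⟨isBlk_EG hB, ⟨hpg, isBlk_br_of_CL hM h he hfx hpg⟩, ?_⟩
    rw [hE]
    exact (isBlk_br_of_CL hM h he hfx hpg).idem
  have hc1 : ∀ x y : G, x ≠ 1 → y ≠ 1 → (∃ j : ℕ, orderOf x = p ^ j) →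
      (∃ j : ℕ, orderOf y = p ^ j) → IsConj x y := by
    intro x y hx hy hxp hyp
    obtain ⟨h, h2, -⟩ := (hone x _ hx hxp (hsub x hxp)).2 y _ hy hyp (hsub y hyp)
    exact isConj_iff.mpr ⟨h, h2.symm⟩
  have hD' : IsDef p ⊤ e D := by rwa [isDefectGroup_iff_EG hB, hE] at hD
  have hidx := isDef_top_index hM h he hfx hD'
  have hDp : IsPGroup p D := hD'.2.1
  let P : Sylow p G := hDp.toSylow hidx
  have hPD : (P : Subgroup G) = D := rfl
  have hK := h.nK
  have hL := h.nL
  rw [← hPD]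
  by_cases hLK : L = K
  · -- `K` contains all `p`-regular elements
    have hreg : ∀ x : G, ¬ p ∣ orderOf x → x ∈ K := by
      intro x hx
      apply h.con x hx
      intro l hl
      rw [hLK] at hl
      exact K.mul_mem (hK.conj_mem _ hl x) (K.inv_mem hl)
    have hpg : IsPGroup p (G ⧸ K) := by
      intro q
      obtain ⟨g, rfl⟩ := QuotientGroup.mk_surjective q
      obtain ⟨a, m, hm, ham⟩ := Nat.exists_eq_pow_mul_and_not_dvd (orderOf_pos g).ne' p
        hp.out.ne_one
      refine ⟨a, ?_⟩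
      rw [← QuotientGroup.mk_pow, QuotientGroup.eq_one_iff]
      apply hreg
      intro hd
      apply hm
      have h3 : orderOf (g ^ p ^ a) ∣ m := orderOf_dvd_of_pow_eq_one (by
        rw [← pow_mul, ← ham, pow_orderOf_eq_one])
      exact hd.trans h3
    obtain ⟨j, hj⟩ := IsPGroup.iff_card.mp hpg
    exact elab_of_series P hc1 hK inferInstance (le_top : K ≤ ⊤) h.cop
      ⟨j, by rw [Subgroup.relIndex_top_right]; exact hj⟩ le_top
  · obtain ⟨j, hj⟩ := h.pow
    have hj0 : j ≠ 0 := by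
      rintro rfl
      rw [pow_zero, Subgroup.relIndex_eq_one] at hj
      exact hLK (le_antisymm hj h.le)
    have hdvd : p ∣ Nat.card L :=
      (hj ▸ dvd_pow_self p hj0 : p ∣ K.relIndex L).trans (Subgroup.relIndex_dvd_card K L)
    obtain ⟨x, hx⟩ := exists_prime_orderOf_dvd_card' (G := L) p hdvd
    have hx' : orderOf (x : G) = p := by rw [← hx]; exact Subgroup.orderOf_coe x
    have hx1 : (x : G) ≠ 1 := by
      intro h0
      rw [h0, orderOf_one] at hx'
      exact hp.out.one_lt.ne hx'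
    apply elab_of_series P hc1 hK hL h.le h.cop h.pow
    intro y hy
    by_cases hy1 : y = 1
    · rw [hy1]; exact L.one_mem
    obtain ⟨i, hi⟩ := (IsPGroup.iff_orderOf.mp P.2) ⟨y, hy⟩
    rw [Subgroup.orderOf_mk] at hi
    obtain ⟨g, hg⟩ := isConj_iff.mp (hc1 x y hx1 hy1 ⟨1, by rw [hx', pow_one]⟩ ⟨i, hi⟩)
    rw [← hg]
    exact hL.conj_mem _ x.2 g

theorem st4606_pSolvable (hM : IsPModular p M) : ∀ (n : ℕ) (G : Type u) [Group G] [Finite G],
    Nat.card G = n → IsPSolvable p G → ∀ B : Set (IrrCharacter G), IsPBlock M B →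
    ∀ D : Subgroup G, IsDefectGroup p M B D → Nat.card B = blockRank p B + 1 →
    IsElementaryAbelian p D := by
  intro n
  induction n using Nat.strong_induction_on with
  | _ n ih =>
  intro G _ _ hn hsolv B hB D hD hk
  classical
  have := Fintype.ofFinite G
  have hpr := pmod_isPrime hM
  have hch := charP_KF hM
  set N := pPrimeCore p G with hNdef
  have hCL := CL_of_pSolvable hsolv
  have hNn : N.Normal := hCL.nK
  obtain ⟨b, hb, hne⟩ := exists_blk_mul_ne_zero (N := N) (isBlk_EG hB).ne_zero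
  have he := isBlk_EH hb
  by_cases hst : stab ⊤ (EH M N b) = ⊤
  · have hfx : IsFx ⊤ (EH M N b) := fun g _ => mem_stab_top.mp (by rw [hst]; trivial)
    have htop := isBlk_top_of_CL hM hCL he hfx
    have hE : EG M B = EH M N b := by
      by_contra h0
      exact hne ((isBlk_EG hB).mul_of_ne htop h0)
    exact elab_of_CL hM hCL he hfx hB hE hk hD
  · obtain ⟨E', hE', hne', hosum⟩ := exists_FR he (isBlk_EG hB) hne
    obtain ⟨B', hB', rfl⟩ := exists_EH hE'
    have hcard := FR_card hb hB' hne' hB hosum.symm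
    have hrank := FR_rank_le (p := p) hb hB' hne' hB hosum.symm
    obtain ⟨hle, -, hiff⟩ := S4733.result p M hM B' hB'
    obtain ⟨D', hD'⟩ := exists_isDefectGroup hM hB'
    have hD'' : IsDefectGroup p M B (D'.map (stab ⊤ (EH M N b)).subtype) := by
      rw [isDefectGroup_iff_EG hB, ← hosum]
      exact isDef_FR he hE' hne' ((isDefectGroup_iff_EH' hB').mp hD')
    have hel : IsElementaryAbelian p D' := by
      by_cases heq : Nat.card B' = blockRank p B'
      · have h0 := hiff.mpr heq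
        have h1 := card_defect hM hB' hD'
        rw [h0, pow_zero] at h1
        rw [Subgroup.card_eq_one.mp h1]
        exact elab_bot
      · apply ih (Nat.card (stab ⊤ (EH M N b))) _ (stab ⊤ (EH M N b)) rfl
          (H23.isPSolvable_subgroup _ hsolv) B' hB' D' hD' (by omega)
        rw [← hn]
        exact lt_of_le_of_ne (Nat.card_le_card_of_injective _ (Subgroup.subtype_injective _))
          (fun h => hst (Subgroup.eq_top_of_card_eq _ h))
    obtain ⟨g, hg⟩ := defect_conj hM hB hD'' hD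
    rw [hg]
    exact elab_map (elab_map hel _) _

end Main

theorem st4606 {G : Type u} [Group G] [Finite G] (p : ℕ) [Fact p.Prime] (M : Ideal AlgInt)
    (hM : IsPModular p M) (B : Set (IrrCharacter G)) (hB : IsPBlock M B) (D : Subgroup G)
    (hD : IsDefectGroup p M B D) (hk : Nat.card B = blockRank p B + 1)
    (hB0 : B = principalBlock M G ∨ IsPSolvable p G) : IsElementaryAbelian p D := by
  have := Fintype.ofFinite G
  rcases hB0 with rfl | h
  · exact st4606_principal hM D hD hk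
  · exact st4606_pSolvable hM _ G rfl h B hB D hD hk

end Cfsg.Agent.H26
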