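import Mathlib
import Cfsg.Agent.H26.Gd3
import Cfsg.Agent.H26.InfBlk
import Cfsg.Agent.H3.BrauerE
import Cfsg.Agent.H27.Kernel

set_option autoImplicit false

/-!
# Lifting virtual projectives from a central quotient
-/

namespace Cfsg.Agent.H26

open Cfsg Cfsg.Agent.H3 Cfsg.Agent.H11 Cfsg.Agent.H27 Finset
open scoped ComplexConjugate

universe u

section Part

variable {C : Type u} [Group C] {p : ℕ} [hp : Fact p.Prime]

/-- the exponent of the `p`-regular part -/
theorem exists_part_exp (p : ℕ) [hp : Fact p.Prime] {n : ℕ} (hn : n ≠ 0) :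
    ∃ k : ℕ, p ^ n.factorization p ∣ k ∧ k ≡ 1 [MOD n / p ^ n.factorization p] := by
  have hc : Nat.Coprime (p ^ n.factorization p) (n / p ^ n.factorization p) :=
    Nat.Coprime.pow_left _ (Nat.coprime_ordCompl hp.out hn)
  obtain ⟨k, hk1, hk2⟩ := Nat.chineseRemainder hc 0 1
  exact ⟨k, (Nat.modEq_zero_iff_dvd.mp hk1), hk2⟩

/-- `k` is an exponent for the `p`-regular part. -/
def IsPE (p : ℕ) (C : Type u) [Group C] (k : ℕ) : Prop :=
  p ^ (Nat.card C).factorization p ∣ k ∧ k ≡ 1 [MOD Nat.card C / p ^ (Nat.card C).factorization p]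

theorem exists_isPE (p : ℕ) [hp : Fact p.Prime] (C : Type u) [Group C] [Finite C] :
    ∃ k, IsPE p C k := exists_part_exp p Nat.card_pos.ne'

variable [Fintype C] {k : ℕ}

theorem IsPE.pow_p (hk : IsPE p C k) {x : C} (hx : ∃ j : ℕ, orderOf x = p ^ j) : x ^ k = 1 := by
  obtain ⟨j, hj⟩ := hx
  apply orderOf_dvd_iff_pow_eq_one.mp
  refine dvd_trans ?_ hk.1
  rw [hj]
  apply pow_dvd_pow
  have h1 : p ^ j ∣ Nat.card C := hj ▸ orderOf_dvd_natCard x
  exact (hp.out.pow_dvd_iff_le_factorization Nat.card_pos.ne').mp h1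

omit hp in
theorem IsPE.pow_reg' [hp : Fact p.Prime] (hk : IsPE p C k) {x : C} (hx : ¬ p ∣ orderOf x) :
    x ^ k = x := by
  have h1 : k ≡ 1 [MOD orderOf x] := by
    refine hk.2.of_dvd ?_
    have h2 := orderOf_dvd_natCard x
    have h3 := Nat.ordCompl_dvd_ordCompl_of_dvd h2 p
    rwa [Nat.factorization_eq_zero_of_not_dvd hx, pow_zero, Nat.div_one] at h3
  conv_rhs => rw [← pow_one x]
  exact pow_eq_pow_iff_modEq.mpr h1

theorem IsPE.reg (hk : IsPE p C k) (x : C) : ¬ p ∣ orderOf (x ^ k) := by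
  intro h
  have h1 : (x ^ k) ^ (Nat.card C / p ^ (Nat.card C).factorization p) = 1 := by
    rw [← pow_mul]
    apply orderOf_dvd_iff_pow_eq_one.mp
    refine (orderOf_dvd_natCard x).trans ?_
    have h2 := Nat.mul_dvd_mul_right hk.1 (Nat.card C / p ^ (Nat.card C).factorization p)
    rwa [Nat.ordProj_mul_ordCompl_eq_self] at h2
  have h2 := h.trans (orderOf_dvd_of_pow_eq_one h1)
  exact Nat.not_dvd_ordCompl hp.out Nat.card_pos.ne' h2

theorem isGen_part (hk : IsPE p C k) {χ : C → ℂ} (hχ : IsCharacter C χ) :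
    IsGeneralizedCharacter C (fun g => χ (g ^ k)) := by
  apply brauer_char
  · intro g h
    have h1 : (h * g * h⁻¹) ^ k = h * g ^ k * h⁻¹ := conj_pow
    simp only [h1]
    exact (isGen_classFun (isGen_of_char hχ)) _ _
  · intro E q hq hE
    have hcE : Nat.card E ≠ 0 := Nat.card_pos.ne'
    obtain ⟨P, Q, hP, hQ, hPQ, hcomm⟩ := elementary_split hq hE
      (a := p ^ (Nat.card E).factorization p) (b := Nat.card E / p ^ (Nat.card E).factorization p)
      (Nat.ordProj_mul_ordCompl_eq_self _ _).symm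
      (Nat.Coprime.pow_left _ (Nat.coprime_ordCompl hp.out hcE))
    have hdvd : Nat.card E ∣ Nat.card C := Subgroup.card_subgroup_dvd_card E
    have hx : ∀ x ∈ P, x ^ k = 1 := by
      intro x hx
      apply pow_card_eq_one_of_mem hx
      rw [hP]
      exact (pow_dvd_pow _ ((Nat.factorization_le_iff_dvd hcE Nat.card_pos.ne').mpr hdvd p)).trans
        hk.1
    have hy : ∀ y ∈ Q, y ^ k = y := by
      intro y hy
      have h1 : k ≡ 1 [MOD orderOf y] := by
        refine hk.2.of_dvd ?_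
        have h2 := orderOf_dvd_card_of_mem hy
        rw [hQ] at h2
        exact h2.trans (Nat.ordCompl_dvd_ordCompl_of_dvd hdvd p)
      conv_rhs => rw [← pow_one y]
      exact pow_eq_pow_iff_modEq.mpr h1
    let π : E →* E :=
      { toFun := fun e => e ^ k
        map_one' := one_pow k
        map_mul' := by
          intro e e'
          obtain ⟨x, hx1, y, hy1, rfl⟩ := split_exists hPQ hcomm e
          obtain ⟨x', hx1', y', hy1', rfl⟩ := split_exists hPQ hcomm e'
          have h1 : x * y * (x' * y') = (x * x') * (y * y') := by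
            rw [mul_assoc, mul_assoc, ← mul_assoc y, ← mul_assoc x', hcomm x' hx1' y hy1]
          rw [h1, split_pow hcomm (mul_mem hx1 hx1') (mul_mem hy1 hy1'),
            split_pow hcomm hx1 hy1, split_pow hcomm hx1' hy1', hx _ (mul_mem hx1 hx1'),
            hy _ (mul_mem hy1 hy1'), hx _ hx1, hx _ hx1', hy _ hy1, hy _ hy1', one_mul, one_mul,
            one_mul] }
    have h2 := isChar_comp hχ (E.subtype.comp π)
    have h3 : (fun e : E => χ ((e : C) ^ k)) = fun e => χ ((E.subtype.comp π) e) := by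
      funext e
      rfl
    rw [h3]
    exact isGen_of_char h2

end Part

section Quot

variable {C : Type u} [Group C] [Fintype C] {p : ℕ} [hp : Fact p.Prime] {Z : Subgroup C}
  [hZn : Z.Normal]

/-- a regular lift -/
noncomputable def rl (k : ℕ) (t : C ⧸ Z) : C := (Quotient.out t) ^ k

variable {k : ℕ}

theorem rl_mk_of (hk : IsPE p C k) (hZ : Z ≤ Subgroup.center C) (hZp : IsPGroup p Z) (y : C) :
    rl k (QuotientGroup.mk y : C ⧸ Z) = y ^ k := by
  unfold rl
  obtain ⟨z, hz⟩ := QuotientGroup.mk_out_eq_mul Z y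
  have hz' : (Quotient.out (QuotientGroup.mk y : C ⧸ Z) : C) = y * z := hz
  rw [hz']
  have hc : Commute y (z : C) := (Subgroup.mem_center_iff.mp (hZ z.2) y)
  rw [hc.mul_pow]
  have h1 : (z : C) ^ k = 1 := by
    obtain ⟨j, hj⟩ := IsPGroup.iff_orderOf.mp hZp z
    exact hk.pow_p ⟨j, by rw [← hj, Subgroup.orderOf_coe]⟩
  rw [h1, mul_one]

theorem rl_mk (hk : IsPE p C k) (hZ : Z ≤ Subgroup.center C) (hZp : IsPGroup p Z) {y : C}
    (hy : ¬ p ∣ orderOf y) : rl k (QuotientGroup.mk y : C ⧸ Z) = y := by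
  rw [rl_mk_of hk hZ hZp, hk.pow_reg' hy]

theorem mk_rl (hk : IsPE p C k) {t : C ⧸ Z} (ht : ¬ p ∣ orderOf t) :
    (QuotientGroup.mk (rl k t) : C ⧸ Z) = t := by
  unfold rl
  have h1 : (QuotientGroup.mk ((Quotient.out t) ^ k) : C ⧸ Z) =
      (QuotientGroup.mk (Quotient.out t) : C ⧸ Z) ^ k := rfl
  rw [h1, QuotientGroup.out_eq' t]
  have h2 : k ≡ 1 [MOD orderOf t] := by
    refine hk.2.of_dvd ?_
    have h2 : orderOf t ∣ Nat.card C :=
      (orderOf_dvd_natCard t).trans (Subgroup.card_quotient_dvd_card Z)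
    have h3 := Nat.ordCompl_dvd_ordCompl_of_dvd h2 p
    rwa [Nat.factorization_eq_zero_of_not_dvd ht, pow_zero, Nat.div_one] at h3
  conv_rhs => rw [← pow_one t]
  exact pow_eq_pow_iff_modEq.mpr h2

theorem sum_reg_quot [Fintype (C ⧸ Z)] (hZ : Z ≤ Subgroup.center C) (hZp : IsPGroup p Z)
    (h : C ⧸ Z → ℂ) (hh : ∀ t, p ∣ orderOf t → h t = 0) :
    ∑ y : C, (if p ∣ orderOf y then 0 else h (QuotientGroup.mk y)) = ∑ t : C ⧸ Z, h t := by
  classical
  obtain ⟨k, hk⟩ := exists_isPE p C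
  have h1 : ∑ t : C ⧸ Z, h t = ∑ t : C ⧸ Z with ¬ p ∣ orderOf t, h t := by
    rw [Finset.sum_filter]
    apply Finset.sum_congr rfl
    intro t _
    by_cases ht : p ∣ orderOf t
    · rw [hh t ht]; simp
    · rw [if_pos ht]
  have h2 : ∑ y : C, (if p ∣ orderOf y then 0 else h (QuotientGroup.mk y)) =
      ∑ y : C with ¬ p ∣ orderOf y, h (QuotientGroup.mk y) := by
    rw [Finset.sum_filter]
    apply Finset.sum_congr rfl
    intro y _
    by_cases hy : p ∣ orderOf y
    · simp [hy]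
    · simp [hy]
  rw [h1, h2]
  refine Finset.sum_bij (fun y _ => (QuotientGroup.mk y : C ⧸ Z)) ?_ ?_ ?_ ?_
  · intro y hy
    rw [Finset.mem_filter] at hy ⊢
    exact ⟨Finset.mem_univ _, reg_map hy.2⟩
  · intro y hy y' hy' he
    rw [Finset.mem_filter] at hy hy'
    have h3 := congrArg (rl k) he
    rwa [rl_mk hk hZ hZp hy.2, rl_mk hk hZ hZp hy'.2] at h3
  · intro t ht
    rw [Finset.mem_filter] at ht
    exact ⟨rl k t, Finset.mem_filter.mpr ⟨Finset.mem_univ _, hk.reg _⟩, mk_rl hk ht.2⟩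
  · intro y _; rfl

/-- the lift of a function vanishing off the regular elements -/
noncomputable def lf (p : ℕ) (Z : Subgroup C) [Z.Normal] (Ψ : C ⧸ Z → ℂ) : C → ℂ := fun y =>
  if p ∣ orderOf y then 0 else (Nat.card Z : ℂ) * Ψ (QuotientGroup.mk y)

/-- descent -/
noncomputable def dn (k : ℕ) (Z : Subgroup C) [Z.Normal] (F : C → ℂ) : C ⧸ Z → ℂ :=
  fun t => F (rl k t)

theorem card_eqC [Fintype (C ⧸ Z)] : (Nat.card C : ℂ) = Nat.card (C ⧸ Z) * Nat.card Z := by
  rw [Subgroup.card_eq_card_quotient_mul_card_subgroup Z]; push_cast; rfl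

theorem inner_lf [Fintype (C ⧸ Z)] (hk : IsPE p C k) (hZ : Z ≤ Subgroup.center C)
    (hZp : IsPGroup p Z) (F : C → ℂ) {Ψ : C ⧸ Z → ℂ} (hΨ : ∀ t, p ∣ orderOf t → Ψ t = 0) :
    classInner F (lf p Z Ψ) = classInner (dn k Z F) Ψ := by
  unfold classInner
  have h1 := sum_reg_quot hZ hZp (fun t => dn k Z F t * conj (Ψ t)) (fun t ht => by
    simp only [hΨ t ht, map_zero, mul_zero])
  rw [← h1]
  have h2 : ∀ y : C, F y * conj (lf p Z Ψ y) = (Nat.card Z : ℂ) *
      (if p ∣ orderOf y then 0 else dn k Z F (QuotientGroup.mk y) *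
        conj (Ψ (QuotientGroup.mk y))) := by
    intro y
    unfold lf
    by_cases hy : p ∣ orderOf y
    · rw [if_pos hy, if_pos hy]; simp
    · rw [if_neg hy, if_neg hy]
      unfold dn
      rw [rl_mk hk hZ hZp hy, map_mul, Complex.conj_natCast]; ring
  rw [Finset.sum_congr rfl (fun y _ => h2 y), ← Finset.mul_sum, ← mul_assoc]
  congr 1
  rw [card_eqC (Z := Z)]
  have h3 : (Nat.card Z : ℂ) ≠ 0 := by exact_mod_cast Nat.card_pos.ne'
  have h4 : (Nat.card (C ⧸ Z) : ℂ) ≠ 0 := by exact_mod_cast Nat.card_pos.ne'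
  field_simp

theorem dn_lf (hk : IsPE p C k) (Ψ : C ⧸ Z → ℂ) {t : C ⧸ Z} (ht : ¬ p ∣ orderOf t) :
    dn k Z (lf p Z Ψ) t = Nat.card Z * Ψ t := by
  unfold dn lf
  rw [if_neg (show ¬ p ∣ orderOf (rl k t) from hk.reg _), mk_rl hk ht]

theorem norm_lf [Fintype (C ⧸ Z)] (hk : IsPE p C k) (hZ : Z ≤ Subgroup.center C)
    (hZp : IsPGroup p Z) (Ψ' : C ⧸ Z → ℂ) {Ψ : C ⧸ Z → ℂ}
    (hΨ : ∀ t, p ∣ orderOf t → Ψ t = 0) :
    classInner (lf p Z Ψ') (lf p Z Ψ) = Nat.card Z * classInner Ψ' Ψ := by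
  rw [inner_lf hk hZ hZp _ hΨ, ← classInner_smul_left]
  unfold classInner
  congr 1
  apply Finset.sum_congr rfl
  intro t _
  by_cases ht : p ∣ orderOf t
  · rw [hΨ t ht]; simp
  · rw [dn_lf hk _ ht]; rfl

theorem inner_infl [Fintype (C ⧸ Z)] (hk : IsPE p C k) (hZ : Z ≤ Subgroup.center C)
    (hZp : IsPGroup p Z) (F : C → ℂ) (hF : ∀ y, p ∣ orderOf y → F y = 0)
    (η : IrrCharacter (C ⧸ Z)) :
    (Nat.card Z : ℂ) * classInner F (infl Z η : C → ℂ) =
      classInner (pRegularPart p (dn k Z F)) (η : C ⧸ Z → ℂ) := by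
  have h1 : (Nat.card Z : ℂ) * classInner F (infl Z η : C → ℂ) =
      classInner F (lf p Z (pRegularPart p (η : C ⧸ Z → ℂ))) := by
    unfold classInner
    rw [mul_left_comm]
    congr 1
    rw [Finset.mul_sum]
    apply Finset.sum_congr rfl
    intro y _
    by_cases hy : p ∣ orderOf y
    · rw [hF y hy]; ring
    · unfold lf
      rw [if_neg hy, pr_reg (reg_map hy), map_mul, Complex.conj_natCast, infl_apply]; ring
  rw [h1, inner_lf hk hZ hZp F (fun t ht => pr_sing ht), ← classInner_pr_comm]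

theorem dn_classFun (hk : IsPE p C k) (hZ : Z ≤ Subgroup.center C)
    (hZp : IsPGroup p Z) {F : C → ℂ} (hF : IsClassFunction C F) :
    IsClassFunction (C ⧸ Z) (dn k Z F) := by
  intro s t
  obtain ⟨g, rfl⟩ := QuotientGroup.mk_surjective s
  obtain ⟨h, rfl⟩ := QuotientGroup.mk_surjective t
  unfold dn
  have e1 : (QuotientGroup.mk h * QuotientGroup.mk g * (QuotientGroup.mk h)⁻¹ : C ⧸ Z) =
    QuotientGroup.mk (h * g * h⁻¹) := rfl
  rw [e1, rl_mk_of hk hZ hZp, rl_mk_of hk hZ hZp, conj_pow]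
  exact hF _ _

theorem isGen_dn [Fintype (C ⧸ Z)] (hk : IsPE p C k) (hZ : Z ≤ Subgroup.center C)
    (hZp : IsPGroup p Z) {χ : C → ℂ} (hχ : IsCharacter C χ) :
    IsGeneralizedCharacter (C ⧸ Z) (dn k Z χ) := by
  rw [isGen_iff]
  refine ⟨dn_classFun hk hZ hZp (isGen_classFun (isGen_of_char hχ)), ?_⟩
  intro η
  have h1 := isGen_part hk hχ
  have h2 := (isGen_iff.mp h1).2 (infl Z η)
  obtain ⟨n, hn⟩ := h2
  refine ⟨n, ?_⟩
  rw [← hn]
  have h3 : (fun g => χ (g ^ k)) = fun g => dn k Z χ (QuotientGroup.mk' Z g) := by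
    funext g
    unfold dn
    change _ = χ (rl k (QuotientGroup.mk g : C ⧸ Z))
    rw [rl_mk_of hk hZ hZp]
  rw [h3]
  exact (classInner_comp_surjective (QuotientGroup.mk' Z) (QuotientGroup.mk'_surjective Z) _ _).symm

variable {M : Ideal AlgInt}

theorem infl_one_principal [hM : M.IsPrime] (hMp : IsPModular p M) (hZ : Z ≤ Subgroup.center C)
    (hZp : IsPGroup p Z) (η : IrrCharacter (C ⧸ Z)) :
    infl Z η ∈ principalBlock M C ↔ η ∈ principalBlock M (C ⧸ Z) := by
  have hC : ∃ k : ℕ, (Subgroup.centralizer (Z : Set C)).index = p ^ k := by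
    refine ⟨0, ?_⟩
    rw [pow_zero, Subgroup.index_eq_one, Subgroup.centralizer_eq_top_iff_subset]
    exact hZ
  have h1 := sameBlock_infl_iff hMp hZp hC ⟨fun _ => (1 : ℂ), isIrr_one⟩ η
  constructor
  · intro h
    exact h1.mpr h
  · intro h
    exact h1.mp h

theorem isPr_lf [Fintype (C ⧸ Z)] (hM : IsPModular p M) (hZ : Z ≤ Subgroup.center C)
    (hZp : IsPGroup p Z) {Ψ : C ⧸ Z → ℂ} (hΨ : IsPr p (principalBlock M (C ⧸ Z)) Ψ) :
    IsPr p (principalBlock M C) (lf p Z Ψ) := by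
  classical
  have hpr := hM.2.1.isPrime
  have := Fintype.ofFinite (IrrCharacter (C ⧸ Z))
  obtain ⟨k, hk⟩ := exists_isPE p C
  have hcl : IsClassFunction C (lf p Z Ψ) := by
    intro g h
    have h1 : orderOf (h * g * h⁻¹) = orderOf g := by
      have := MulEquiv.orderOf_eq (MulAut.conj h) g
      rwa [MulAut.conj_apply] at this
    unfold lf
    rw [h1]
    split_ifs
    · rfl
    · congr 1
      exact (isGen_classFun hΨ.1) (QuotientGroup.mk g) (QuotientGroup.mk h)
  refine ⟨isGen_iff.mpr ⟨hcl, ?_⟩, ?_, ?_⟩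
  · intro ξ
    obtain ⟨n, hn⟩ := classInner_gen_int (isGen_dn hk hZ hZp (irr_isChar ξ.2)) hΨ.1
    refine ⟨n, ?_⟩
    rw [← classInner_conj_symm, inner_lf hk hZ hZp _ hΨ.2.1, hn, map_intCast]
  · intro g hg
    unfold lf
    rw [if_pos hg]
  · intro ξ hξ
    have h1 : lf p Z Ψ = fun y => ∑ η : IrrCharacter (C ⧸ Z) with η ∈ principalBlock M (C ⧸ Z),
        ((Nat.card Z : ℂ) * classInner Ψ (η : C ⧸ Z → ℂ)) *
          pRegularPart p (infl Z η : C → ℂ) y := by
      funext y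
      unfold lf
      by_cases hy : p ∣ orderOf y
      · rw [if_pos hy]
        simp only [pr_sing hy, mul_zero, Finset.sum_const_zero]
      · rw [if_neg hy]
        have h2 := congrFun hΨ.eq_sum (QuotientGroup.mk y)
        rw [h2, Finset.sum_apply, Finset.mul_sum]
        apply Finset.sum_congr rfl
        intro η _
        rw [pr_reg hy, infl_apply, Pi.smul_apply, smul_eq_mul]; ring
    have h3 : lf p Z Ψ = ∑ η : IrrCharacter (C ⧸ Z) with η ∈ principalBlock M (C ⧸ Z),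
        ((Nat.card Z : ℂ) * classInner Ψ (η : C ⧸ Z → ℂ)) •
          pRegularPart p (infl Z η : C → ℂ) := by
      rw [h1]; funext y; rw [Finset.sum_apply]; rfl
    rw [h3, classInner_sum_left]
    apply Finset.sum_eq_zero
    intro η hη
    have hη' := (infl_one_principal hM hZ hZp η).mpr (Finset.mem_filter.mp hη).2
    rw [classInner_smul_left]
    have h4 := mm_eq_zero (p := p) hM (χ := infl Z η) (ψ := ξ) (fun hs => hξ (by
      have h5 : principalBlock M C = blockOf M (infl Z η : C → ℂ) :=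
        isPBlock_eq_blockOf principalBlock_isPBlock hη'
      rw [h5]; exact hs))
    unfold mm at h4
    rw [h4, mul_zero]

end Quot

end Cfsg.Agent.H26
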