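import Mathlib
import Cfsg.Agent.H26.PB1
import Cfsg.Agent.H26.Princ
import Cfsg.Agent.H4.KleinSylow
import Cfsg.Agent.H11.Third3
import Cfsg.Agent.L.DO12

set_option autoImplicit false

/-!
# Projective forms in the principal block of a group with Sylow subgroup of order `p`
-/

namespace Cfsg.Agent.H26

open Cfsg Cfsg.Agent.H3 Cfsg.Agent.H11 Cfsg.Agent.H27 Cfsg.Agent.LD Finset
open scoped ComplexConjugate

universe u

section Forms

variable {H : Type u} [Group H] [Fintype H] {p : ℕ} [hp : Fact p.Prime] {M : Ideal AlgInt}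

omit [Fintype H] hp in
theorem conj_intC (n : ℤ) : conj (n : ℂ) = n := map_intCast _ n

theorem sing_conj {P : Subgroup H} (h : Loc p P) {t : H} (ht : p ∣ orderOf t) :
    ∃ x ∈ P, x ≠ 1 ∧ ∃ s : cz P, ¬ p ∣ orderOf s ∧ IsConj t (x * s) := by
  obtain ⟨a, b, hab, hcomm, ⟨k, hk⟩, hb, -, -⟩ := exists_isPPart_full hp.out t
  have ha : a ^ p ^ k = 1 := by rw [← hk]; exact pow_orderOf_eq_one a
  obtain ⟨x, hx, hax⟩ := Cfsg.Agent.H4.exists_conj_mem_sylow h.syl ha
  have hxP : x ∈ P := hx
  obtain ⟨g, hg⟩ := isConj_iff.mp hax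
  have hx1 : x ≠ 1 := by
    rintro rfl
    have h1 : a = 1 := by
      have h2 := congrArg (fun y => g⁻¹ * y * g) hg
      simpa [mul_assoc] using h2
    rw [h1, one_mul] at hab
    rw [hab] at hb
    exact hb ht
  have hs : g * b * g⁻¹ ∈ cz P := by
    rw [h.cz_eq hxP hx1, Subgroup.mem_centralizer_singleton_iff, ← hg]
    have h3 : a * b = b * a := hcomm
    calc g * b * g⁻¹ * (g * a * g⁻¹) = g * (b * a) * g⁻¹ := by group
      _ = g * (a * b) * g⁻¹ := by rw [h3]
      _ = g * a * g⁻¹ * (g * b * g⁻¹) := by group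
  refine ⟨x, hxP, hx1, ⟨g * b * g⁻¹, hs⟩, ?_, ?_⟩
  · rw [Subgroup.orderOf_mk, orderOf_conj']
    exact hb
  · rw [isConj_iff]
    refine ⟨g, ?_⟩
    change g * t * g⁻¹ = x * (g * b * g⁻¹)
    rw [← hg, ← hab]; group

/-- The forms attached to the principal block. -/
theorem exists_forms_cyc {P : Subgroup H} (h : Loc p P) (hM : IsPModular p M) :
    ∃ (X : Finset (IrrCharacter H)) (g : Option X → H → ℂ) (f : ℕ),
      0 < X.card ∧ X.card + f ≤ p ∧
      (∀ i, IsPr p (principalBlock M H) (g i)) ∧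
      (∀ F : H → ℂ, IsClassFunction H F → (∀ t, p ∣ orderOf t → F t = 0) →
        (∀ η : IrrCharacter H, η ∉ principalBlock M H → classInner F (η : H → ℂ) = 0) →
        (∀ i j, classInner F (g i) = classInner F (g j)) → F = 0) ∧
      (∀ i j, ∃ n : ℤ, classInner (g i - g j) (g i - g j) = n ∧
        (i = j → n = 0) ∧ (i ≠ j → (i = none ∨ j = none) → n = 1 + f) ∧
        (i ≠ j → i ≠ none → j ≠ none → n = 2)) := by
  classical
  have := Fintype.ofFinite (IrrCharacter H)
  let _ : Fintype (cz P) := Fintype.ofFinite _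
  have := Fintype.ofFinite (IrrCharacter (cz P))
  have hpr := hM.2.1.isPrime
  have hB : IsPBlock M (principalBlock M H) := principalBlock_isPBlock
  have hBP : IsDefectGroup p M (principalBlock M H) P :=
    (st4652 p M hM P).mpr ⟨h.syl, rfl⟩
  obtain ⟨θ, hTh, hval, hThs, hst⟩ := principal_Th h hM hBP
  obtain ⟨k0, hg, f, Y, c, s, D⟩ := h.exists_dat hM hB hBP hTh
  obtain ⟨hfpos, hepos⟩ := h.fpos hM hB hTh D.exc
  set e := (cz P).relIndex (stT P θ) with he
  set B := principalBlock M H with hBdef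
  set X : Finset (IrrCharacter H) := univ.filter (fun χ => χ ∈ B ∧ χ ∉ Y) with hX
  set YF : Finset (IrrCharacter H) := univ.filter (fun χ => χ ∈ Y) with hYF
  have hXc : X.card = e := by
    rw [he, ← D.cardX, Nat.card_eq_fintype_card, Fintype.card_subtype]
    congr 1
  have hYc : YF.card = f := by
    rw [← D.exc.card, Nat.card_eq_fintype_card, Fintype.card_subtype]
  have hs2 : s * s = 1 := by rcases D.s1 with h1 | h1 <;> rw [h1] <;> norm_num
  have hc2 : ∀ χ ∈ B, χ ∉ Y → c χ * c χ = 1 := by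
    intro χ h1 h2
    rcases D.c1 χ h1 h2 with h3 | h3 <;> rw [h3] <;> norm_num
  -- values on singular elements
  have hvX : ∀ χ ∈ B, ∀ x ∈ P, x ≠ 1 → ∀ y : cz P, ¬ p ∣ orderOf y →
      (χ : H → ℂ) (x * y) = dd M x (χ : H → ℂ) θ := by
    intro χ hχ x hx hx1 y hy
    have h1 := h.translate hM hB hχ hx hx1 (s := y) hy
    have h2 : (Finset.univ.filter fun η : IrrCharacter (cz P) => η ∈ Th M P B) = {θ} := by
      ext η
      simp [hThs]
    rw [h2, Finset.sum_singleton, hval, mul_one] at h1
    exact h1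
  set gs : H → ℂ := (s : ℂ) • ∑ ψ ∈ YF, (ψ : H → ℂ) with hgs
  set gx : IrrCharacter H → H → ℂ := fun χ => (c χ : ℂ) • (χ : H → ℂ) - gs with hgx
  have hgsY : ∀ η : IrrCharacter H, classInner gs (η : H → ℂ) = if η ∈ Y then (s : ℂ) else 0 := by
    intro η
    rw [hgs, classInner_smul_left, classInner_sum_left]
    have h1 : ∀ ψ ∈ YF, classInner (ψ : H → ℂ) (η : H → ℂ) = if ψ = η then 1 else 0 := by
      intro ψ _
      by_cases h2 : ψ = η
      · rw [if_pos h2, h2, classInner_self_of_irr η.2]
      · rw [if_neg h2, classInner_of_irr_ne ψ.2 η.2 (fun h3 => h2 (Subtype.ext h3))]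
    rw [Finset.sum_congr rfl h1, Finset.sum_ite_eq']
    by_cases h3 : η ∈ Y
    · rw [if_pos (Finset.mem_filter.mpr ⟨Finset.mem_univ _, h3⟩), if_pos h3, mul_one]
    · rw [if_neg (fun h4 => h3 (Finset.mem_filter.mp h4).2), if_neg h3, mul_zero]
  have hgxI : ∀ χ η : IrrCharacter H, classInner (gx χ) (η : H → ℂ) =
      (if χ = η then (c χ : ℂ) else 0) - if η ∈ Y then (s : ℂ) else 0 := by
    intro χ η
    rw [hgx]
    change classInner ((c χ : ℂ) • (χ : H → ℂ) - gs) (η : H → ℂ) = _
    rw [classInner_sub_left, hgsY, classInner_smul_left]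
    by_cases h2 : χ = η
    · rw [if_pos h2, h2, classInner_self_of_irr η.2, mul_one]
    · rw [if_neg h2, classInner_of_irr_ne χ.2 η.2 (fun h3 => h2 (Subtype.ext h3)), mul_zero]
  have hgsgen : IsGeneralizedCharacter H gs := by
    rw [hgs]
    exact isGen_intCast_smul s (isGen_sum _ _ fun ψ _ => isGen_of_irr ψ.2)
  have hgxgen : ∀ χ, IsGeneralizedCharacter H (gx χ) := fun χ =>
    isGen_sub (isGen_intCast_smul _ (isGen_of_irr χ.2)) hgsgen
  have hgxpr : ∀ χ ∈ X, IsPr p B (gx χ) := by
    intro χ hχ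
    obtain ⟨-, hχB, hχY⟩ := Finset.mem_filter.mp hχ
    refine ⟨hgxgen χ, ?_, ?_⟩
    · intro t ht
      obtain ⟨x, hx, hx1, y, hy, hconj⟩ := sing_conj h ht
      have h1 : gx χ t = gx χ (x * y) :=
        classFun_isConj (isGen_classFun (hgxgen χ)) hconj
      rw [h1, hgx, hgs]
      simp only [Pi.sub_apply, Pi.smul_apply, Finset.sum_apply, smul_eq_mul]
      rw [hvX χ hχB x hx hx1 y hy, D.hc χ hχB hχY x hx hx1]
      have h2 : ∑ ψ ∈ YF, (ψ : H → ℂ) (x * y) = (s : ℂ) := by
        rw [← D.hs x hx hx1, finsum_mem_irr]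
        apply Finset.sum_congr (by rw [hYF])
        intro ψ hψ
        exact hvX ψ (D.exc.sub (Finset.mem_filter.mp hψ).2) x hx hx1 y hy
      rw [h2, ← Int.cast_mul, ← Int.cast_mul, hc2 χ hχB hχY, hs2, sub_self]
    · intro η hη
      rw [hgxI, if_neg (show ¬ χ = η from fun h1 => hη (h1 ▸ hχB)),
        if_neg (fun h1 => hη (D.exc.sub h1)), sub_zero]
  -- the family
  refine ⟨X, fun i => i.elim 0 (fun χ => gx χ.1), f, by rw [hXc]; exact hepos, ?_, ?_, ?_, ?_⟩
  · rw [hXc]
    have h1 := D.exc.fmul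
    have h2 := hp.out.two_le
    have h3 : 1 ≤ e := hepos
    have h4 : 1 ≤ f := hfpos
    have h5 : e * f = p - 1 := h1
    have h6 : e + f ≤ e * f + 1 := by nlinarith
    omega
  · intro i
    cases i with
    | none => exact IsPr.zero
    | some χ => exact hgxpr χ.1 χ.2
  · intro F hF hF0 hFB hFg
    -- all inner products with the block vanish
    have hFX : ∀ χ ∈ X, classInner F (gx χ) = 0 := by
      intro χ hχ
      have h1 := hFg (some ⟨χ, hχ⟩) none
      change classInner F (gx χ) = classInner F 0 at h1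
      rw [h1, classInner_zero_right]
    obtain ⟨ψ₀, hψ₀⟩ : ∃ ψ₀, ψ₀ ∈ YF := by
      rw [← Finset.Nonempty, ← Finset.card_pos, hYc]; exact hfpos
    have hψ₀Y : ψ₀ ∈ Y := (Finset.mem_filter.mp hψ₀).2
    have hreg : ∀ (a b : H → ℂ), (∀ t, ¬ p ∣ orderOf t → a t = b t) →
        classInner F a = classInner F b := by
      intro a b hab
      unfold classInner
      congr 1
      apply Finset.sum_congr rfl
      intro t _
      by_cases ht : p ∣ orderOf t
      · rw [hF0 t ht, zero_mul, zero_mul]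
      · rw [hab t ht]
    have hAY : ∀ ψ ∈ YF, classInner F (ψ : H → ℂ) = classInner F (ψ₀ : H → ℂ) := by
      intro ψ hψ
      exact hreg _ _ (fun t ht => D.yreg ψ (Finset.mem_filter.mp hψ).2 ψ₀ hψ₀Y t ht)
    have hrel : ∑ χ ∈ X, (c χ : ℂ) * classInner F (χ : H → ℂ) +
        (s : ℂ) * classInner F (ψ₀ : H → ℂ) = 0 := by
      have h1 : classInner F (∑ χ ∈ X, (c χ : ℂ) • (χ : H → ℂ) + (s : ℂ) • (ψ₀ : H → ℂ)) =
          classInner F 0 := by
        apply hreg
        intro t ht
        have h2 := D.rel t ht ψ₀ hψ₀Y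
        rw [finsum_mem_irr] at h2
        rw [Pi.add_apply, Finset.sum_apply, Pi.smul_apply, Pi.zero_apply, smul_eq_mul, ← h2]
        congr 1
      rw [classInner_zero_right, classInner_add_right, classInner_sum_right,
        classInner_smul_right, conj_intC] at h1
      rw [← h1]
      congr 1
      apply Finset.sum_congr rfl
      intro χ _
      rw [classInner_smul_right, conj_intC]
    have hgsF : classInner F gs = (s : ℂ) * f * classInner F (ψ₀ : H → ℂ) := by
      rw [hgs, classInner_smul_right, classInner_sum_right, Finset.sum_congr rfl hAY,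
        Finset.sum_const, hYc, nsmul_eq_mul, conj_intC]
      ring
    have hXF : ∀ χ ∈ X, (c χ : ℂ) * classInner F (χ : H → ℂ) =
        (s : ℂ) * f * classInner F (ψ₀ : H → ℂ) := by
      intro χ hχ
      have h1 := hFX χ hχ
      rw [hgx] at h1
      change classInner F ((c χ : ℂ) • (χ : H → ℂ) - gs) = 0 at h1
      rw [classInner_sub_right, classInner_smul_right, conj_intC, hgsF] at h1
      linear_combination h1
    have hs0 : (s : ℂ) ≠ 0 := by
      rcases D.s1 with h1 | h1 <;> rw [h1] <;> norm_num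
    have hψ0 : classInner F (ψ₀ : H → ℂ) = 0 := by
      rw [Finset.sum_congr rfl hXF, Finset.sum_const, hXc, nsmul_eq_mul] at hrel
      have h1 : ((s : ℂ) * ((e * f + 1 : ℕ) : ℂ)) * classInner F (ψ₀ : H → ℂ) = 0 := by
        push_cast
        linear_combination hrel
      rcases mul_eq_zero.mp h1 with h2 | h2
      · exfalso
        rcases mul_eq_zero.mp h2 with h3 | h3
        · exact hs0 h3
        · have : (e * f + 1 : ℕ) ≠ 0 := by omega
          exact this (by exact_mod_cast h3)
      · exact h2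
    apply classFun_ext_inner hF classFun_zero
    intro η
    rw [classInner_zero_left]
    by_cases hηB : η ∈ B
    · by_cases hηY : η ∈ Y
      · rw [hAY η (Finset.mem_filter.mpr ⟨Finset.mem_univ _, hηY⟩), hψ0]
      · have h1 := hXF η (Finset.mem_filter.mpr ⟨Finset.mem_univ _, hηB, hηY⟩)
        rw [hψ0, mul_zero] at h1
        rcases mul_eq_zero.mp h1 with h2 | h2
        · exfalso
          rcases D.c1 η hηB hηY with h3 | h3 <;> rw [h3] at h2 <;> norm_num at h2
        · exact h2
    · exact hFB η hηB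
  · -- norms
    have hgsgs : classInner gs gs = (f : ℂ) := by
      conv_lhs => rw [hgs, classInner_smul_left, classInner_sum_left]
      have h1 : ∀ ψ ∈ YF, classInner (ψ : H → ℂ) gs = (s : ℂ) := by
        intro ψ hψ
        rw [← classInner_conj_symm, hgsY, if_pos (Finset.mem_filter.mp hψ).2]
        exact conj_intC s
      rw [← hgs, Finset.sum_congr rfl h1, Finset.sum_const, hYc, nsmul_eq_mul]
      have h2 : (s : ℂ) * s = 1 := by exact_mod_cast hs2
      linear_combination (f : ℂ) * h2
    have hgxgx : ∀ χ ∈ X, classInner (gx χ) (gx χ) = ((1 + f : ℤ) : ℂ) := by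
      intro χ hχ
      obtain ⟨-, hχB, hχY⟩ := Finset.mem_filter.mp hχ
      have h1 : classInner (gx χ) (gx χ) = classInner (gx χ) ((c χ : ℂ) • (χ : H → ℂ)) -
          classInner (gx χ) gs := by
        conv_lhs => rw [show gx χ = (c χ : ℂ) • (χ : H → ℂ) - gs from rfl]
        rw [classInner_sub_right]
      have h2 : classInner (gx χ) gs = -(f : ℂ) := by
        have h3 : gx χ = (c χ : ℂ) • (χ : H → ℂ) - gs := rfl
        rw [h3, classInner_sub_left, hgsgs, classInner_smul_left, ← classInner_conj_symm, hgsY,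
          if_neg hχY, map_zero, mul_zero, zero_sub]
      rw [h1, h2, classInner_smul_right, hgxI, if_pos rfl, if_neg hχY, conj_intC]
      have h3 : (c χ : ℂ) * c χ = 1 := by exact_mod_cast hc2 χ hχB hχY
      push_cast
      linear_combination h3
    have hdiff : ∀ χ ∈ X, ∀ χ' ∈ X, χ ≠ χ' → classInner (gx χ - gx χ') (gx χ - gx χ') =
        ((2 : ℤ) : ℂ) := by
      intro χ hχ χ' hχ' hne
      obtain ⟨-, hχB, hχY⟩ := Finset.mem_filter.mp hχ
      obtain ⟨-, hχB', hχY'⟩ := Finset.mem_filter.mp hχ'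
      have h1 : gx χ - gx χ' = (c χ : ℂ) • (χ : H → ℂ) - (c χ' : ℂ) • (χ' : H → ℂ) := by
        rw [show gx χ = (c χ : ℂ) • (χ : H → ℂ) - gs from rfl,
          show gx χ' = (c χ' : ℂ) • (χ' : H → ℂ) - gs from rfl]
        abel
      rw [h1]
      simp only [classInner_sub_left, classInner_sub_right, classInner_smul_left,
        classInner_smul_right, classInner_self_of_irr χ.2, classInner_self_of_irr χ'.2,
        conj_intC, classInner_of_irr_ne χ.2 χ'.2 (fun h3 => hne (Subtype.ext h3)),
        classInner_of_irr_ne χ'.2 χ.2 (fun h3 => hne (Subtype.ext h3.symm))]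
      have h3 : (c χ : ℂ) * c χ = 1 := by exact_mod_cast hc2 χ hχB hχY
      have h4 : (c χ' : ℂ) * c χ' = 1 := by exact_mod_cast hc2 χ' hχB' hχY'
      push_cast
      linear_combination h3 + h4
    intro i j
    cases i with
    | none =>
      cases j with
      | none => exact ⟨0, by simp [classInner_zero_left], by simp, by simp, by simp⟩
      | some χ =>
        refine ⟨1 + f, ?_, by simp, by simp, by simp⟩
        change classInner (0 - gx χ.1) (0 - gx χ.1) = _
        rw [zero_sub, classInner_neg_left, classInner_neg_right, neg_neg]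
        exact hgxgx χ.1 χ.2
    | some χ =>
      cases j with
      | none =>
        refine ⟨1 + f, ?_, by simp, by simp, by simp⟩
        change classInner (gx χ.1 - 0) (gx χ.1 - 0) = _
        rw [sub_zero]
        exact hgxgx χ.1 χ.2
      | some χ' =>
        by_cases hne : χ = χ'
        · subst hne
          refine ⟨0, ?_, by simp, by simp, by simp⟩
          change classInner (gx χ.1 - gx χ.1) (gx χ.1 - gx χ.1) = _
          rw [sub_self, classInner_zero_left]; simp
        · refine ⟨2, ?_, by simp [hne], by simp, by simp⟩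
          change classInner (gx χ.1 - gx χ'.1) (gx χ.1 - gx χ'.1) = _
          exact hdiff χ.1 χ.2 χ'.1 χ'.2 (fun h1 => hne (Subtype.ext h1))

end Forms

end Cfsg.Agent.H26
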