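import Mathlib
import Cfsg.Agent.H26.PB2

set_option autoImplicit false

/-!
# Characters of degree prime to `p` in the principal block
-/

namespace Cfsg.Agent.H26

open Cfsg Cfsg.Agent.H3 Cfsg.Agent.H11 Cfsg.Agent.H27 Cfsg.Agent.LD Finset
open scoped ComplexConjugate

universe u

theorem pairs_ne {ι : Type*} [Fintype ι] (a : ι → ℂ) (h : ¬ ∀ i j, a i = a j)
    [∀ i j, Decidable (a i ≠ a j)] :
    2 * ((Fintype.card ι : ℤ) - 1) ≤ ∑ i, ∑ j, if a i ≠ a j then (1 : ℤ) else 0 := by
  classical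
  push Not at h
  obtain ⟨i₀, j₀, hij⟩ := h
  set u : ι → ℤ := fun i => if a i = a i₀ then 1 else 0 with hu
  set v : ι → ℤ := fun i => if a i = a i₀ then 0 else 1 with hv
  have h1 : ∀ i j, u i * v j + v i * u j ≤ if a i ≠ a j then (1 : ℤ) else 0 := by
    intro i j
    by_cases hi : a i = a i₀
    · by_cases hj : a j = a i₀
      · simp [hu, hv, hi, hj]
      · have : a i ≠ a j := fun h => hj (h ▸ hi)
        rw [if_pos this]
        simp only [hu, hv, hi, hj, if_true, if_false]; norm_num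
    · by_cases hj : a j = a i₀
      · have : a i ≠ a j := fun h => hi (h.trans hj)
        rw [if_pos this]
        simp only [hu, hv, hi, hj, if_true, if_false]; norm_num
      · simp only [hu, hv, hi, hj, if_false, zero_mul, mul_zero, add_zero]
        split_ifs <;> norm_num
  have h2 : ∑ i, ∑ j, (u i * v j + v i * u j) ≤ ∑ i, ∑ j, if a i ≠ a j then (1 : ℤ) else 0 :=
    Finset.sum_le_sum fun i _ => Finset.sum_le_sum fun j _ => h1 i j
  have h3 : ∑ i, ∑ j, (u i * v j + v i * u j) = 2 * ((∑ i, u i) * ∑ j, v j) := by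
    have e1 : ∑ i, ∑ j, u i * v j = (∑ i, u i) * ∑ j, v j := (Finset.sum_mul_sum _ _ _ _).symm
    have e2 : ∑ i, ∑ j, v i * u j = (∑ i, v i) * ∑ j, u j := (Finset.sum_mul_sum _ _ _ _).symm
    simp only [Finset.sum_add_distrib]
    rw [e1, e2]; ring
  have h4 : ∑ i, u i + ∑ i, v i = Fintype.card ι := by
    rw [← Finset.sum_add_distrib]
    have : ∀ i ∈ (univ : Finset ι), u i + v i = 1 := by
      intro i _
      by_cases hi : a i = a i₀ <;> simp [hu, hv, hi]
    rw [Finset.sum_congr rfl this]; simp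
  have h5 : 1 ≤ ∑ i, u i := by
    have : u i₀ ≤ ∑ i, u i := Finset.single_le_sum (f := u) (fun i _ => by
      by_cases hi : a i = a i₀ <;> simp [hu, hi]) (Finset.mem_univ i₀)
    simpa [hu] using this
  have h6 : 1 ≤ ∑ i, v i := by
    have : v j₀ ≤ ∑ i, v i := Finset.single_le_sum (f := v) (fun i _ => by
      by_cases hi : a i = a i₀ <;> simp [hv, hi]) (Finset.mem_univ j₀)
    have hj : v j₀ = 1 := by simp only [hv]; rw [if_neg (fun h => hij h.symm)]
    omega
  nlinarith

section Core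

variable {G : Type u} [Group G] [Fintype G] {p : ℕ} [hp : Fact p.Prime] {M : Ideal AlgInt}

theorem princ_induced (hM : IsPModular p M) {x : G} (hx : ∃ k : ℕ, orderOf x = p ^ k) :
    IsInducedBlock M (Subgroup.centralizer ({x} : Set G))
      (principalBlock M (Subgroup.centralizer ({x} : Set G))) (principalBlock M G) := by
  classical
  have hpr := hM.2.1.isPrime
  have := Fintype.ofFinite (Subgroup.centralizer ({x} : Set G))
  obtain ⟨B, hB⟩ := inducedBlockDefined_centralizer hM hx
    (b := principalBlock M (Subgroup.centralizer ({x} : Set G))) principalBlock_isPBlock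
  have := (third_main hM hB).mpr rfl
  rwa [this] at hB

theorem princ_translate (hM : IsPModular p M) {x : G} (hx : ∃ k : ℕ, orderOf x = p ^ k)
    {C : Subgroup G} (hC : C = Subgroup.centralizer ({x} : Set G)) {χ : IrrCharacter G}
    (hχ : χ ∈ principalBlock M G) :
    (χ : G → ℂ) x = ct C x (principalBlock M C) (χ : G → ℂ) 1 := by
  subst hC
  have h3 : ¬ p ∣ orderOf (1 : Subgroup.centralizer ({x} : Set G)) := by
    rw [orderOf_one]; exact hp.out.one_lt.ne' ∘ Nat.dvd_one.mp
  have h4 := principal_translate hM hx (irr_classFun χ.2) 1 h3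
  have h5 : blockPart (principalBlock M G) (χ : G → ℂ)
      (x * ((1 : Subgroup.centralizer ({x} : Set G)) : G)) = (χ : G → ℂ) x := by
    rw [blockPart_irr, if_pos hχ]; simp
  rw [h5] at h4
  exact h4

theorem princ_core (hM : IsPModular p M) {x : G} (hx : ∃ k : ℕ, orderOf x = p ^ k)
    {C : Subgroup G} [Fintype C] (hC : C = Subgroup.centralizer ({x} : Set G))
    {Z : Subgroup C} [Z.Normal] (hZ : Z ≤ Subgroup.center C) (hZp : IsPGroup p Z)
    [Fintype (C ⧸ Z)] {ι : Type u} [Fintype ι] (g : ι → (C ⧸ Z) → ℂ)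
    (hg : ∀ i, IsPr p (principalBlock M (C ⧸ Z)) (g i))
    (hF : ∀ F : (C ⧸ Z) → ℂ, IsClassFunction (C ⧸ Z) F →
      (∀ t, p ∣ orderOf t → F t = 0) →
      (∀ η : IrrCharacter (C ⧸ Z), η ∉ principalBlock M (C ⧸ Z) →
        classInner F (η : (C ⧸ Z) → ℂ) = 0) →
      (∀ i j, classInner F (g i) = classInner F (g j)) → F = 0)
    (n : ι → ι → ℤ) (hn : ∀ i j, classInner (g i - g j) (g i - g j) = n i j) (N : ℤ)
    (hι : 1 < Fintype.card ι)
    (hN : ∑ i, ∑ j, n i j ≤ 2 * ((Fintype.card ι : ℤ) - 1) * N) :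
    (Nat.card {χ : IrrCharacter G // χ ∈ principalBlock M G ∧
      ¬ p ∣ charDegree (χ : G → ℂ)} : ℤ) ≤ Nat.card Z * N := by
  classical
  have := Fintype.ofFinite (IrrCharacter G)
  have hpr := hM.2.1.isPrime
  set b := principalBlock M C with hb
  set B := principalBlock M G with hBdef
  have hB : IsPBlock M B := principalBlock_isPBlock
  have hind : IsInducedBlock M C b B := by
    rw [hb]; subst hC; exact princ_induced hM hx
  obtain ⟨k, hk⟩ := exists_isPE p C
  set S : Finset (IrrCharacter G) := univ.filter (fun χ => χ ∈ B ∧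
    ¬ p ∣ charDegree (χ : G → ℂ)) with hS
  have hSc : Nat.card {χ : IrrCharacter G // χ ∈ B ∧ ¬ p ∣ charDegree (χ : G → ℂ)} = S.card := by
    rw [Nat.card_eq_fintype_card, Fintype.card_subtype]
  rw [hSc]
  set a : IrrCharacter G → ι → ℂ := fun χ i => ac C x (χ : G → ℂ) (lf p Z (g i)) with ha
  have hlf : ∀ i, IsPr p b (lf p Z (g i)) := fun i => isPr_lf hM hZ hZp (hg i)
  have hlfsub : ∀ i j, lf p Z (g i) - lf p Z (g j) = lf p Z (g i - g j) := by
    intro i j
    funext y
    rw [Pi.sub_apply]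
    unfold lf
    by_cases hy : p ∣ orderOf y
    · rw [if_pos hy, if_pos hy, if_pos hy, sub_zero]
    · rw [if_neg hy, if_neg hy, if_neg hy, Pi.sub_apply]; ring
  have hacsub : ∀ χ : IrrCharacter G, ∀ i j, ac C x (χ : G → ℂ) (lf p Z (g i) - lf p Z (g j)) =
      a χ i - a χ j := by
    intro χ i j
    simp only [ha]
    unfold ac
    rw [classInner_sub_right]
  -- upper bound
  have hup : ∀ i j, ∑ χ ∈ S, (if a χ i ≠ a χ j then (1 : ℤ) else 0) ≤ Nat.card Z * n i j := by
    intro i j
    have h1 : classInner (lf p Z (g i) - lf p Z (g j)) (lf p Z (g i) - lf p Z (g j)) =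
        ((Nat.card Z * n i j : ℤ) : ℂ) := by
      rw [hlfsub, norm_lf hk hZ hZp _ (fun t ht => by
        rw [Pi.sub_apply, (hg i).2.1 t ht, (hg j).2.1 t ht, sub_zero]), hn]
      push_cast; rfl
    have h2 := card_ac_le0 hM hB hx hC hind ((hlf i).sub (hlf j)) h1
      (S.filter (fun χ : IrrCharacter G => a χ i ≠ a χ j))
      (fun χ h => (Finset.mem_filter.mp (Finset.mem_filter.mp h).1).2.1)
      (fun χ h => by
        rw [hacsub]
        exact sub_ne_zero.mpr (Finset.mem_filter.mp h).2)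
    rw [Finset.card_filter] at h2
    push_cast at h2
    exact h2
  -- lower bound
  have hlow : ∀ χ ∈ S, 2 * ((Fintype.card ι : ℤ) - 1) ≤
      ∑ i, ∑ j, if a χ i ≠ a χ j then (1 : ℤ) else 0 := by
    intro χ hχ
    obtain ⟨-, hχB, hχd⟩ := Finset.mem_filter.mp hχ
    apply pairs_ne
    intro hall
    set f : C → ℂ := pRegularPart p (ct C x b (χ : G → ℂ)) with hf
    have hfsing : ∀ y, p ∣ orderOf y → f y = 0 := fun y hy => pr_sing hy
    have hfcl : IsClassFunction C f := by
      intro y z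
      have h1 : orderOf (z * y * z⁻¹) = orderOf y := orderOf_conj' _ _
      by_cases hy : p ∣ orderOf y
      · rw [hfsing y hy, hfsing _ (h1 ▸ hy)]
      · rw [hf, pr_reg hy, pr_reg (h1 ▸ hy)]
        exact ct_classFun x (χ : G → ℂ) _ _
    have hF1 := hF (pRegularPart p (dn k Z f)) ?_ (fun t ht => pr_sing ht) ?_ ?_
    · have h1 : f 1 = 0 := by
        have h2 := congrFun hF1 (QuotientGroup.mk 1)
        have h3 : ¬ p ∣ orderOf (1 : C) := by rw [orderOf_one]; exact hp.out.one_lt.ne' ∘ Nat.dvd_one.mp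
        rw [pr_reg (reg_map h3)] at h2
        unfold dn at h2
        rwa [rl_mk hk hZ hZp h3] at h2
      have h3 : ¬ p ∣ orderOf (1 : C) := by rw [orderOf_one]; exact hp.out.one_lt.ne' ∘ Nat.dvd_one.mp
      rw [hf, pr_reg h3] at h1
      have h6 : (χ : G → ℂ) x = 0 := (princ_translate hM hx hC hχB).trans h1
      -- congruence
      have h7 := li_char_mul_sub hM (irr_isChar χ.2) (Commute.one_right x) hx
      rw [mul_one, h6, zero_sub] at h7
      have h8 := li_neg h7
      rw [neg_neg, (charDegree_spec χ.2).1] at h8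
      exact hχd ((li_natCast_iff hM _).mp h8)
    · intro s t
      have h1 : orderOf (t * s * t⁻¹) = orderOf s := orderOf_conj' _ _
      by_cases hs : p ∣ orderOf s
      · rw [pr_sing hs, pr_sing (h1 ▸ hs)]
      · rw [pr_reg hs, pr_reg (h1 ▸ hs)]
        exact dn_classFun hk hZ hZp hfcl _ _
    · intro η hη
      rw [← inner_infl hk hZ hZp f hfsing η]
      have h1 : classInner f (infl Z η : C → ℂ) = 0 := by
        have h2 : infl Z η ∉ b := fun h => hη ((infl_one_principal hM hZ hZp η).mp h)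
        have := Fintype.ofFinite (IrrCharacter C)
        rw [hf, ct_eq_sum, pr_sum, classInner_sum_left]
        apply Finset.sum_eq_zero
        intro θ hθ
        have hθ' := (Finset.mem_filter.mp hθ).2
        rw [pr_smul, classInner_smul_left]
        have h4 := mm_eq_zero (p := p) hM (χ := θ) (ψ := infl Z η) (fun hs => h2 (by
          have h5 : b = blockOf M (θ : C → ℂ) :=
            isPBlock_eq_blockOf principalBlock_isPBlock hθ'
          rw [h5]; exact hs))
        unfold mm at h4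
        rw [h4, mul_zero]
      rw [h1, mul_zero]
    · intro i j
      have h1 : ∀ i, classInner (pRegularPart p (dn k Z f)) (g i) = a χ i := by
        intro i
        have h2 : classInner (pRegularPart p (dn k Z f)) (g i) = classInner (dn k Z f) (g i) := by
          rw [classInner_pr_comm, (hg i).reg]
        rw [h2, ← inner_lf hk hZ hZp f (hg i).2.1, hf, ← ac_ct x (χ : G → ℂ) (hlf i)]
      rw [h1, h1]
      exact hall i j
  have h1 : (S.card : ℤ) * (2 * ((Fintype.card ι : ℤ) - 1)) ≤
      ∑ i, ∑ j, (Nat.card Z * n i j : ℤ) := by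
    calc (S.card : ℤ) * (2 * ((Fintype.card ι : ℤ) - 1))
        = ∑ χ ∈ S, (2 * ((Fintype.card ι : ℤ) - 1)) := by
          rw [Finset.sum_const, nsmul_eq_mul]
      _ ≤ ∑ χ ∈ S, ∑ i, ∑ j, (if a χ i ≠ a χ j then (1 : ℤ) else 0) := Finset.sum_le_sum hlow
      _ = ∑ i, ∑ j, ∑ χ ∈ S, (if a χ i ≠ a χ j then (1 : ℤ) else 0) := by
          rw [Finset.sum_comm]
          apply Finset.sum_congr rfl
          intro i _
          rw [Finset.sum_comm]
      _ ≤ _ := Finset.sum_le_sum fun i _ => Finset.sum_le_sum fun j _ => hup i j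
  have h2 : ∑ i, ∑ j, (Nat.card Z * n i j : ℤ) = Nat.card Z * ∑ i, ∑ j, n i j := by
    rw [Finset.mul_sum]
    apply Finset.sum_congr rfl
    intro i _
    rw [Finset.mul_sum]
  rw [h2] at h1
  have h3 : (0 : ℤ) ≤ Nat.card Z := by positivity
  have h4 : (Nat.card Z : ℤ) * ∑ i, ∑ j, n i j ≤
      Nat.card Z * (2 * ((Fintype.card ι : ℤ) - 1) * N) := mul_le_mul_of_nonneg_left hN h3
  have h5 : (0 : ℤ) < 2 * ((Fintype.card ι : ℤ) - 1) := by omega
  have h6 : (2 * ((Fintype.card ι : ℤ) - 1)) * (S.card : ℤ) ≤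
      (2 * ((Fintype.card ι : ℤ) - 1)) * (Nat.card Z * N) := by linarith
  exact le_of_mul_le_mul_left h6 h5

end Core

end Cfsg.Agent.H26
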