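import Mathlib
import Cfsg.Agent.H26.PB3

set_option autoImplicit false

/-!
# Characters of degree prime to `p` in the principal block, II
-/

namespace Cfsg.Agent.H26

open Cfsg Cfsg.Agent.H3 Cfsg.Agent.H11 Cfsg.Agent.H27 Cfsg.Agent.LD Finset
open scoped ComplexConjugate

universe u

section PF

variable {G : Type u} [Group G] [Fintype G] {p : ℕ} [hp : Fact p.Prime] {M : Ideal AlgInt}

/-- the forms in a group of order prime to `p` -/
theorem forms_coprime {H : Type u} [Group H] [Fintype H] (hM : IsPModular p M)
    (hH : ¬ p ∣ Nat.card H) :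
    (∀ i : Option PUnit.{u+1}, IsPr p (principalBlock M H)
      (i.elim (0 : H → ℂ) (fun _ => fun _ => (1 : ℂ)))) ∧
    (∀ F : H → ℂ, IsClassFunction H F → (∀ t, p ∣ orderOf t → F t = 0) →
      (∀ η : IrrCharacter H, η ∉ principalBlock M H → classInner F (η : H → ℂ) = 0) →
      (∀ i j : Option PUnit.{u+1}, classInner F (i.elim (0 : H → ℂ) (fun _ => fun _ => (1 : ℂ))) =
        classInner F (j.elim (0 : H → ℂ) (fun _ => fun _ => (1 : ℂ)))) → F = 0) := by
  classical
  have hpr := hM.2.1.isPrime
  have hreg : ∀ t : H, ¬ p ∣ orderOf t := fun t ht => hH (ht.trans (orderOf_dvd_natCard t))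
  have hker : ∀ η ∈ principalBlock M H, η = trv H := by
    intro η hη
    have h1 := mem_principal_trivial hM (N := (⊤ : Subgroup H)) (by
      rw [Subgroup.card_top]; exact hH) hη
    -- constant character
    have h2 : (η : H → ℂ) = fun _ => (η : H → ℂ) 1 := funext fun g => h1 g (Subgroup.mem_top g)
    have h3 := classInner_self_of_irr η.2
    have h4 : (η : H → ℂ) 1 * conj ((η : H → ℂ) 1) = 1 := by
      rw [← h3]
      conv_rhs => rw [h2]
      unfold classInner
      rw [Finset.sum_const, Finset.card_univ, nsmul_eq_mul, ← Nat.card_eq_fintype_card,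
        inv_mul_cancel_left₀ card_ne_zeroC]
    obtain ⟨hd1, -⟩ := charDegree_spec η.2
    rw [hd1, Complex.conj_natCast] at h4
    have h5 : charDegree (η : H → ℂ) * charDegree (η : H → ℂ) = 1 := by exact_mod_cast h4
    have h6 : charDegree (η : H → ℂ) = 1 := Nat.eq_one_of_mul_eq_one_left h5
    apply Subtype.ext
    rw [h2, hd1, h6]
    funext g
    change ((1 : ℕ) : ℂ) = 1
    simp
  have h1 : IsPr p (principalBlock M H) (fun _ => (1 : ℂ)) := by
    refine ⟨isGen_one, fun g hg => absurd hg (hreg g), ?_⟩
    intro η hη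
    have h2 : trv H ∈ principalBlock M H := trv_mem _
    exact classInner_of_irr_ne (trv H).2 η.2 (fun h3 => hη (by
      have : trv H = η := Subtype.ext h3
      rwa [← this]))
  refine ⟨?_, ?_⟩
  · intro i
    cases i with
    | none => exact IsPr.zero
    | some _ => exact h1
  · intro F hF _ hFB hFg
    apply classFun_ext_inner hF classFun_zero
    intro η
    rw [classInner_zero_left]
    by_cases hη : η ∈ principalBlock M H
    · have h2 := hFg (some ⟨⟩) none
      change classInner F (fun _ => (1 : ℂ)) = classInner F 0 at h2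
      rw [classInner_zero_right] at h2
      rw [hker η hη]
      exact h2
    · exact hFB η hη

theorem princ_bound (hM : IsPModular p M) {x : G} {k : ℕ} (hx : orderOf x = p ^ k)
    (hC : (Nat.card (Subgroup.centralizer ({x} : Set G))).factorization p ≤ k + 1) :
    Nat.card {χ : IrrCharacter G // χ ∈ principalBlock M G ∧ ¬ p ∣ charDegree (χ : G → ℂ)} ≤
      p ^ (Nat.card (Subgroup.centralizer ({x} : Set G))).factorization p := by
  classical
  obtain ⟨C, hCe⟩ : ∃ C, C = Subgroup.centralizer ({x} : Set G) := ⟨_, rfl⟩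
  rw [← hCe] at hC ⊢
  have := Fintype.ofFinite C
  have hpr := hM.2.1.isPrime
  have hxC : x ∈ C := by rw [hCe]; exact Subgroup.mem_centralizer_singleton_iff.mpr rfl
  set x' : C := ⟨x, hxC⟩ with hx'
  have hxc : ∀ c, x' * c = c * x' := fun c => by
    have h : (c : G) ∈ Subgroup.centralizer ({x} : Set G) := hCe ▸ c.2
    exact Subtype.ext (Subgroup.mem_centralizer_singleton_iff.mp h).symm
  set Z : Subgroup C := Subgroup.zpowers x' with hZd
  have hZ : Z ≤ Subgroup.center C := by
    rw [hZd, Subgroup.zpowers_le, Subgroup.mem_center_iff]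
    exact fun g => (hxc g).symm
  have hZn : Z.Normal := ⟨fun z hz g => by
    have h1 := Subgroup.mem_center_iff.mp (hZ hz) g
    rw [h1, mul_assoc, mul_inv_cancel, mul_one]; exact hz⟩
  have hZc : Nat.card Z = p ^ k := by
    rw [hZd, Nat.card_zpowers, ← Subgroup.orderOf_coe]; exact hx
  have hZp : IsPGroup p Z := IsPGroup.of_card hZc
  have := Fintype.ofFinite (C ⧸ Z)
  have hcard := Subgroup.card_eq_card_quotient_mul_card_subgroup Z
  set a := (Nat.card C).factorization p with ha
  have hfac : a = (Nat.card (C ⧸ Z)).factorization p + k := by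
    rw [ha, hcard, Nat.factorization_mul Nat.card_pos.ne' Nat.card_pos.ne', hZc]
    simp [hM.1.factorization_self]
  have hx2 : ∃ k : ℕ, orderOf x = p ^ k := ⟨k, hx⟩
  by_cases h0 : (Nat.card (C ⧸ Z)).factorization p = 0
  · have hH : ¬ p ∣ Nat.card (C ⧸ Z) := by
      intro h1
      have := hM.1.factorization_pos_of_dvd Nat.card_pos.ne' h1
      omega
    obtain ⟨f1, f2⟩ := forms_coprime (H := C ⧸ Z) hM hH
    have hone : classInner (fun _ : C ⧸ Z => (1 : ℂ)) (fun _ => (1 : ℂ)) = 1 :=
      classInner_self_of_irr (trv (C ⧸ Z)).2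
    have h1 := princ_core hM hx2 hCe hZ hZp (ι := Option PUnit.{u+1})
      (fun i => i.elim (0 : (C ⧸ Z) → ℂ) (fun _ => fun _ => (1 : ℂ))) f1 f2
      (fun i j => if i = j then 0 else 1) (by
        intro i j
        cases i with
        | none =>
          cases j with
          | none => simp [classInner_zero_left]
          | some y =>
            simp only [Option.elim, zero_sub, classInner_neg_left, classInner_neg_right, neg_neg]
            rw [hone]; simp
        | some y =>
          cases j with
          | none => simp only [Option.elim, sub_zero]; rw [hone]; simp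
          | some y' => simp [classInner_zero_left]) 1 (by simp) (by simp)
    rw [mul_one] at h1
    have h2 : (Nat.card {χ : IrrCharacter G // χ ∈ principalBlock M G ∧
      ¬ p ∣ charDegree (χ : G → ℂ)}) ≤ Nat.card Z := by exact_mod_cast h1
    rw [hZc] at h2
    rw [hfac, h0, zero_add]
    exact h2
  · have h1' : (Nat.card (C ⧸ Z)).factorization p = 1 := by omega
    obtain ⟨P⟩ : Nonempty (Sylow p (C ⧸ Z)) := inferInstance
    have hPc : Nat.card P = p := by rw [P.card_eq_multiplicity, h1', pow_one]
    have hloc : Loc p (P : Subgroup (C ⧸ Z)) := by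
      refine ⟨hPc, ?_⟩
      intro h2
      have := (hM.1.pow_dvd_iff_le_factorization Nat.card_pos.ne').mp h2
      omega
    obtain ⟨X, g, f, hXpos, hXf, g1, g2, g3⟩ := exists_forms_cyc hloc hM
    choose n hn hn1 hn2 hn3 using g3
    have hcι : (Fintype.card (Option X) : ℤ) - 1 = X.card := by
      rw [Fintype.card_option, Fintype.card_coe]; push_cast; ring
    have hsum : ∑ i, ∑ j, n i j = 2 * (X.card : ℤ) * (X.card + f) := by
      rw [Fintype.sum_option, Fintype.sum_option, hn1 none none rfl]
      have e1 : ∀ χ : X, n none (some χ) = 1 + f := fun χ => hn2 _ _ (by simp) (by simp)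
      have e2 : ∀ χ : X, n (some χ) none = 1 + f := fun χ => hn2 _ _ (by simp) (by simp)
      have e3 : ∀ χ χ' : X, n (some χ) (some χ') = 2 - if χ = χ' then 2 else 0 := by
        intro χ χ'
        by_cases h : χ = χ'
        · rw [hn1 _ _ (by rw [h]), if_pos h]; norm_num
        · rw [hn3 _ _ (by simp [h]) (by simp) (by simp), if_neg h]; norm_num
      have e4 : ∀ χ : X, ∑ j, n (some χ) j = (1 + f) + (2 * X.card - 2) := by
        intro χ
        rw [Fintype.sum_option, e2]
        congr 1
        rw [Finset.sum_congr rfl (fun χ' _ => e3 χ χ'), Finset.sum_sub_distrib,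
          Finset.sum_ite_eq, if_pos (Finset.mem_univ _), Finset.sum_const, Finset.card_univ,
          Fintype.card_coe, nsmul_eq_mul]
        ring
      rw [Finset.sum_congr rfl (fun χ _ => e1 χ), Finset.sum_congr rfl (fun χ _ => e4 χ),
        Finset.sum_const, Finset.sum_const, Finset.card_univ, Fintype.card_coe, nsmul_eq_mul,
        nsmul_eq_mul]
      ring
    have h1 := princ_core hM hx2 hCe hZ hZp (ι := Option X) g g1 g2 n hn (X.card + f) (by
      rw [Fintype.card_option, Fintype.card_coe]; omega) (by rw [hsum, hcι])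
    have h2 : (Nat.card {χ : IrrCharacter G // χ ∈ principalBlock M G ∧
      ¬ p ∣ charDegree (χ : G → ℂ)}) ≤ Nat.card Z * (X.card + f) := by exact_mod_cast h1
    refine h2.trans ?_
    rw [hZc, hfac, h1', Nat.add_comm 1 k, pow_succ]
    exact Nat.mul_le_mul_left _ hXf

theorem st4588 (hM : IsPModular p M)
    (hx : ∃ x : G, (∃ k : ℕ, orderOf x = p ^ k) ∧
      (Nat.card (Subgroup.centralizer ({x} : Set G))).factorization p ≤ 2) :
    Nat.card {χ : IrrCharacter G // χ ∈ principalBlock M G ∧
      ¬ p ∣ charDegree (χ : G → ℂ)} ≤ p ^ 2 := by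
  classical
  obtain ⟨x, ⟨k, hk⟩, h2⟩ := hx
  by_cases h : (Nat.card (Subgroup.centralizer ({x} : Set G))).factorization p ≤ k + 1
  · exact (princ_bound hM hk h).trans (Nat.pow_le_pow_right hM.1.pos h2)
  · push Not at h
    have hk0 : k = 0 := by omega
    have hx1 : x = 1 := by rw [hk0, pow_zero, orderOf_eq_one_iff] at hk; exact hk
    subst hx1
    have hc : (Nat.card G).factorization p = 2 := by
      have h3 : Subgroup.centralizer ({1} : Set G) = ⊤ := by
        rw [eq_top_iff]; intro g _
        rw [Subgroup.mem_centralizer_singleton_iff]; simp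
      rw [h3, Subgroup.card_top] at h2 h
      omega
    obtain ⟨P⟩ : Nonempty (Sylow p G) := inferInstance
    have hPc : Nat.card P = p ^ 2 := by rw [P.card_eq_multiplicity, hc]
    have hPg : IsPGroup p P := P.isPGroup'
    have hcomm := IsPGroup.commutative_of_card_eq_prime_sq hPc
    obtain ⟨y, hy⟩ : ∃ y : P, y ≠ 1 := by
      by_contra hcon
      push Not at hcon
      have : Subsingleton P := ⟨fun a b => by rw [hcon a, hcon b]⟩
      have h4 : Nat.card P = 1 := Nat.card_unique
      rw [hPc] at h4
      have := hM.1.two_le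
      nlinarith
    obtain ⟨j, hj⟩ := IsPGroup.iff_orderOf.mp hPg y
    have hj' : orderOf (y : G) = p ^ j := by rw [Subgroup.orderOf_coe, hj]
    have hj0 : j ≠ 0 := by
      rintro rfl
      rw [pow_zero, orderOf_eq_one_iff] at hj
      exact hy hj
    have hle : (Nat.card (Subgroup.centralizer ({(y : G)} : Set G))).factorization p ≤ 2 := by
      rw [← hc]
      exact (Nat.factorization_le_iff_dvd Nat.card_pos.ne' Nat.card_pos.ne').mpr
        (Subgroup.card_subgroup_dvd_card _) p
    exact (princ_bound hM hj' (by omega)).trans (Nat.pow_le_pow_right hM.1.pos hle)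

end PF

end Cfsg.Agent.H26
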