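import Mathlib
import Cfsg.Agent.H3.BrauerD

set_option autoImplicit false

/-!
# The `*`-construction, I: a labelled Burnside ring argument
-/

namespace Cfsg.Agent.H26

open Cfsg Cfsg.Agent.H3 Finset

universe u v

/-- An abstract poset of pairs over the subgroups of `T`. -/
structure PSys (T : Type u) (X : Type v) [Group T] [MulAction T X] where
  /-- underlying subgroup -/
  sub : X → Subgroup T
  /-- inclusion -/
  le : X → X → Prop
  refl : ∀ x, le x x
  trans : ∀ {x y z}, le x y → le y z → le x z
  mono : ∀ {x y}, le x y → sub x ≤ sub y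
  act : ∀ (t : T) {x y}, le x y → le (t • x) (t • y)
  sub_act : ∀ (t r : T) (x : X), r ∈ sub (t • x) ↔ t⁻¹ * r * t ∈ sub x
  self : ∀ x, ∀ r ∈ sub x, r • x = x
  ex : ∀ y, ∀ R ≤ sub y, ∃ x, le x y ∧ sub x = R
  uniq : ∀ {x x' y}, le x y → le x' y → sub x = sub x' → x = x'

namespace PSys

variable {T : Type u} {X : Type v} [Group T] [MulAction T X] (S : PSys T X)

theorem of_le {x y z : X} (hx : S.le x z) (hy : S.le y z) (h : S.sub x ≤ S.sub y) :
    S.le x y := by
  obtain ⟨x', h1, h2⟩ := S.ex y (S.sub x) h
  have := S.uniq (S.trans h1 hy) hx h2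
  rwa [← this]

theorem act_iff (t : T) {x y : X} : S.le (t • x) (t • y) ↔ S.le x y := by
  constructor
  · intro h
    have := S.act t⁻¹ h
    rwa [inv_smul_smul, inv_smul_smul] at this
  · exact S.act t

theorem eq_of_sub_eq {x y : X} (h : S.le x y) (h' : S.sub x = S.sub y) : x = y :=
  S.uniq h (S.refl y) h'

variable [Fintype T] [Fintype X]

open Classical in
/-- The divisibility condition. -/
def Good (w : X → ℂ) : Prop :=
  ∀ x : X, ∃ k : ℤ, ∑ n : T with n • x = x,
    ∑ y : X with (S.le x y ∧ S.sub y = S.sub x ⊔ Subgroup.zpowers n), w y =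
      (Nat.card (MulAction.stabilizer T x) : ℂ) * k

open Classical in
/-- The number of conjugates of `x₀` above `y`. -/
noncomputable def cnt (x₀ y : X) : ℂ := ((univ.filter (fun t : T => S.le y (t • x₀))).card : ℂ)

theorem cnt_act (x₀ y : X) (g : T) : S.cnt x₀ (g • y) = S.cnt x₀ y := by
  classical
  unfold cnt
  congr 1
  apply Finset.card_bij (fun t _ => g⁻¹ * t)
  · intro t ht
    have := (Finset.mem_filter.mp ht).2
    refine Finset.mem_filter.mpr ⟨Finset.mem_univ _, ?_⟩
    rw [← S.act_iff g, smul_smul, mul_inv_cancel_left]
    exact this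
  · intro a _ b _ h; exact mul_left_cancel h
  · intro t ht
    have := (Finset.mem_filter.mp ht).2
    refine ⟨g * t, Finset.mem_filter.mpr ⟨Finset.mem_univ _, ?_⟩, by group⟩
    rw [mul_smul]
    exact S.act g this

/-- Burnside counting. -/
theorem burnside (x₀ y : X) : ∃ k : ℤ, open Classical in ∑ n : T with n • y = y,
    ∑ z : X with (S.le y z ∧ S.sub z = S.sub y ⊔ Subgroup.zpowers n), S.cnt x₀ z =
      (Nat.card (MulAction.stabilizer T y) : ℂ) * (Nat.card (S.sub x₀) : ℂ) * k := by
  classical
  -- the double sum counts pairs
  have h1 : ∀ n : T, n • y = y →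
      ∑ z : X with (S.le y z ∧ S.sub z = S.sub y ⊔ Subgroup.zpowers n), S.cnt x₀ z =
      ((univ.filter (fun t : T => S.le y (t • x₀) ∧ n ∈ S.sub (t • x₀))).card : ℂ) := by
    intro n hn
    unfold cnt
    rw [← Nat.cast_sum]
    congr 1
    rw [← Finset.card_biUnion]
    · congr 1
      ext t
      simp only [Finset.mem_biUnion, Finset.mem_filter, Finset.mem_univ, true_and]
      constructor
      · rintro ⟨z, ⟨hz1, hz2⟩, hz3⟩
        refine ⟨S.trans hz1 hz3, S.mono hz3 ?_⟩
        rw [hz2]
        exact (le_sup_right : _ ≤ S.sub y ⊔ Subgroup.zpowers n) (Subgroup.mem_zpowers n)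
      · rintro ⟨ht1, ht2⟩
        obtain ⟨z, hz1, hz2⟩ := S.ex (t • x₀) (S.sub y ⊔ Subgroup.zpowers n)
          (sup_le (S.mono ht1) (Subgroup.zpowers_le.mpr ht2))
        exact ⟨z, ⟨S.of_le ht1 hz1 (by rw [hz2]; exact le_sup_left), hz2⟩, hz1⟩
    · intro z hz z' hz' hne
      rw [Function.onFun, Finset.disjoint_left]
      intro t ht ht'
      have a1 := (Finset.mem_filter.mp ht).2
      have a2 := (Finset.mem_filter.mp ht').2
      have b1 := (Finset.mem_filter.mp (Finset.mem_coe.mp hz)).2.2
      have b2 := (Finset.mem_filter.mp (Finset.mem_coe.mp hz')).2.2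
      exact hne (S.uniq a1 a2 (by rw [b1, b2]))
  rw [Finset.sum_congr rfl fun n hn => h1 n (Finset.mem_filter.mp hn).2]
  -- the action
  let A := MulAction.stabilizer T y × S.sub x₀
  let C := {t : T // S.le y (t • x₀)}
  let act : MulAction A C :=
    { smul := fun a t => ⟨(a.1 : T) * t * (a.2 : T)⁻¹, by
        rw [mul_smul, mul_smul]
        have h2 : ((a.2 : T)⁻¹) • x₀ = x₀ := S.self x₀ _ ((S.sub x₀).inv_mem a.2.2)
        rw [h2]
        have h3 : (a.1 : T) • y = y := a.1.2
        have := S.act (a.1 : T) t.2
        rwa [h3] at this⟩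
      one_smul := fun t => Subtype.ext (by
        change ((1 : A).1 : T) * (t : T) * ((1 : A).2 : T)⁻¹ = t
        simp)
      mul_smul := fun a b t => Subtype.ext (by
        change ((a.1 : T) * (b.1 : T)) * (t : T) * ((a.2 : T) * (b.2 : T))⁻¹ =
          (a.1 : T) * ((b.1 : T) * t * (b.2 : T)⁻¹) * (a.2 : T)⁻¹
        group) }
  have hfin : Fintype A := Fintype.ofFinite _
  have hfC : Fintype C := Fintype.ofFinite _
  have hfo : Fintype (Quotient (MulAction.orbitRel A C)) := Fintype.ofFinite _
  have hff : ∀ a : A, Fintype (MulAction.fixedBy C a) := fun a => Fintype.ofFinite _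
  have hb := MulAction.sum_card_fixedBy_eq_card_orbits_mul_card_group A C
  refine ⟨(Fintype.card (Quotient (MulAction.orbitRel A C)) : ℤ), ?_⟩
  have hA : (Fintype.card A : ℂ) = (Nat.card (MulAction.stabilizer T y) : ℂ) *
      (Nat.card (S.sub x₀) : ℂ) := by
    rw [← Nat.card_eq_fintype_card, Nat.card_prod, Nat.cast_mul]
  have hcount : ((∑ n : T with n • y = y,
      (univ.filter (fun t : T => S.le y (t • x₀) ∧ n ∈ S.sub (t • x₀))).card : ℕ)) =
      ∑ a : A, Fintype.card (MulAction.fixedBy C a) := by
    rw [← Finset.card_sigma, ← Fintype.card_sigma, ← Finset.card_univ]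
    symm
    apply Finset.card_bij (fun (q : Σ a : A, MulAction.fixedBy C a) _ =>
      (⟨(q.1.1 : T), ((q.2 : C) : T)⟩ : Σ _ : T, T))
    · rintro ⟨a, t, ht⟩ _
      have h4 : (a.1 : T) * (t : T) * (a.2 : T)⁻¹ = t := congrArg Subtype.val ht
      refine Finset.mem_sigma.mpr ⟨Finset.mem_filter.mpr ⟨Finset.mem_univ _, a.1.2⟩,
        Finset.mem_filter.mpr ⟨Finset.mem_univ _, t.2, ?_⟩⟩
      rw [S.sub_act]
      have h5 : (t : T)⁻¹ * (a.1 : T) * t = (a.2 : T) := by
        have h6 : (a.1 : T) * t = t * (a.2 : T) := mul_inv_eq_iff_eq_mul.mp h4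
        rw [mul_assoc, h6]; group
      change (t : T)⁻¹ * (a.1 : T) * t ∈ S.sub x₀
      rw [h5]; exact a.2.2
    · rintro ⟨a, t, ht⟩ _ ⟨b, t', ht'⟩ _ h
      have e1 : (a.1 : T) = b.1 := by
        have := congrArg Sigma.fst h; exact this
      have e2 : (t : T) = t' := by
        simp only [Sigma.mk.injEq, heq_eq_eq] at h
        exact h.2
      have h4 : (a.1 : T) * (t : T) * (a.2 : T)⁻¹ = t := congrArg Subtype.val ht
      have h4' : (b.1 : T) * (t' : T) * (b.2 : T)⁻¹ = t' := congrArg Subtype.val ht'
      have e3 : (a.2 : T) = b.2 := by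
        have h6 : (a.1 : T) * t = t * (a.2 : T) := mul_inv_eq_iff_eq_mul.mp h4
        have h6' : (b.1 : T) * t' = t' * (b.2 : T) := mul_inv_eq_iff_eq_mul.mp h4'
        rw [e1, e2, h6'] at h6
        exact (mul_left_cancel h6).symm
      have e4 : a = b := Prod.ext (Subtype.ext e1) (Subtype.ext e3)
      subst e4
      have e5 : t = t' := Subtype.ext e2
      subst e5
      rfl
    · rintro ⟨n, t⟩ hnt
      obtain ⟨h7, h8⟩ := Finset.mem_sigma.mp hnt
      have h9 := (Finset.mem_filter.mp h7).2
      have h10 := (Finset.mem_filter.mp h8).2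
      change n • y = y at h9
      change S.le y (t • x₀) ∧ n ∈ S.sub (t • x₀) at h10
      have h11 := (S.sub_act t n x₀).mp h10.2
      refine ⟨⟨(⟨n, h9⟩, ⟨t⁻¹ * n * t, h11⟩), ⟨⟨t, h10.1⟩, ?_⟩⟩, Finset.mem_univ _, rfl⟩
      apply Subtype.ext
      change n * t * (t⁻¹ * n * t)⁻¹ = t
      group
  have hb' : ((∑ n : T with n • y = y,
      (univ.filter (fun t : T => S.le y (t • x₀) ∧ n ∈ S.sub (t • x₀))).card : ℕ) : ℂ) =
      (Fintype.card (Quotient (MulAction.orbitRel A C)) : ℂ) * (Fintype.card A : ℂ) := by
    rw [hcount, hb]; push_cast; rfl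
  push_cast at hb'
  rw [hb', hA]
  push_cast
  ring

open Classical in
/-- The function attached to a weight. -/
noncomputable def Fn (ev : X → T → ℂ) (w : X → ℂ) (u : T) : ℂ :=
  ∑ x : X with S.sub x = Subgroup.zpowers u, ev x u * w x

theorem Fn_cnt {ev : X → T → ℂ}
    (hres : ∀ x y, S.le x y → ∀ r ∈ S.sub x, ev x r = ev y r)
    (hact : ∀ (t : T) x, ∀ r ∈ S.sub x, ev (t • x) (t * r * t⁻¹) = ev x r) (x₀ : X) :
    S.Fn ev (S.cnt x₀) = (Nat.card (S.sub x₀) : ℂ) •
      indFun (S.sub x₀) (fun r : S.sub x₀ => ev x₀ r) := by
  classical
  funext u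
  have hne : (Nat.card (S.sub x₀) : ℂ) ≠ 0 := by exact_mod_cast Nat.card_pos.ne'
  rw [Pi.smul_apply, smul_eq_mul, indFun, mul_inv_cancel_left₀ hne]
  unfold Fn cnt
  have h1 : ∀ x : X, ev x u * ((univ.filter (fun t : T => S.le x (t • x₀))).card : ℂ) =
      ∑ t : T, if S.le x (t • x₀) then ev x u else 0 := by
    intro x
    rw [← Finset.sum_filter, Finset.sum_const, nsmul_eq_mul, mul_comm]
  rw [Finset.sum_congr rfl fun x _ => h1 x, Finset.sum_comm]
  apply Finset.sum_congr rfl
  intro t _
  rw [← Finset.sum_filter, Finset.filter_filter]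
  by_cases hu : t⁻¹ * u * t ∈ S.sub x₀
  · rw [extendByZero_mem _ _ hu]
    have hu' : u ∈ S.sub (t • x₀) := (S.sub_act t u x₀).mpr hu
    obtain ⟨z, hz1, hz2⟩ := S.ex (t • x₀) (Subgroup.zpowers u) (Subgroup.zpowers_le.mpr hu')
    have hset : (univ.filter fun x : X => S.sub x = Subgroup.zpowers u ∧ S.le x (t • x₀)) =
        {z} := by
      ext x
      simp only [Finset.mem_filter, Finset.mem_univ, true_and, Finset.mem_singleton]
      constructor
      · rintro ⟨h2, h3⟩
        exact S.uniq h3 hz1 (by rw [h2, hz2])
      · rintro rfl; exact ⟨hz2, hz1⟩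
    rw [hset, Finset.sum_singleton]
    have h4 : ev z u = ev (t • x₀) u :=
      hres z _ hz1 u (by rw [hz2]; exact Subgroup.mem_zpowers u)
    rw [h4]
    have h5 := hact t x₀ _ hu
    have h6 : t * (t⁻¹ * u * t) * t⁻¹ = u := by group
    rw [h6] at h5
    exact h5
  · rw [extendByZero_not_mem _ _ hu]
    apply Finset.sum_eq_zero
    intro x hx
    exfalso
    obtain ⟨h2, h3⟩ := (Finset.mem_filter.mp hx).2
    apply hu
    rw [← S.sub_act]
    exact S.mono h3 (by rw [h2]; exact Subgroup.mem_zpowers u)

/-- **The labelled Burnside ring argument.** -/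
theorem isGen_Fn {ev : X → T → ℂ}
    (hres : ∀ x y, S.le x y → ∀ r ∈ S.sub x, ev x r = ev y r)
    (hact : ∀ (t : T) x, ∀ r ∈ S.sub x, ev (t • x) (t * r * t⁻¹) = ev x r)
    (hgen : ∀ x, IsGeneralizedCharacter (S.sub x) (fun r : S.sub x => ev x r)) {w : X → ℂ}
    (hw : ∀ (t : T) x, w (t • x) = w x) (hgood : S.Good w) :
    IsGeneralizedCharacter T (S.Fn ev w) := by
  classical
  have key : ∀ d : ℕ, ∀ m : ℕ, ∀ w : X → ℂ, (∀ (t : T) x, w (t • x) = w x) → S.Good w →
      (∀ x, w x ≠ 0 → Nat.card (S.sub x) ≤ d) →
      (univ.filter fun x : X => Nat.card (S.sub x) = d ∧ w x ≠ 0).card ≤ m →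
      IsGeneralizedCharacter T (S.Fn ev w) := by
    intro d
    induction d with
    | zero =>
      intro m w hw _ h0 _
      have hw0 : ∀ x, w x = 0 := by
        intro x
        by_contra h
        have := h0 x h
        have h2 : 0 < Nat.card (S.sub x) := Nat.card_pos
        omega
      have : S.Fn ev w = 0 := by
        funext u
        unfold Fn
        apply Finset.sum_eq_zero
        intro x _
        rw [hw0, mul_zero]
      rw [this]
      exact isGen_zero
    | succ d ihd =>
      intro m
      induction m with
      | zero =>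
        intro w hw hg h0 hm
        apply ihd (Fintype.card X) w hw hg
        · intro x hx
          have h1 := h0 x hx
          have h2 : Nat.card (S.sub x) ≠ d + 1 := by
            intro h3
            have : x ∈ univ.filter fun x : X => Nat.card (S.sub x) = d + 1 ∧ w x ≠ 0 :=
              Finset.mem_filter.mpr ⟨Finset.mem_univ _, h3, hx⟩
            rw [Finset.card_eq_zero.mp (Nat.le_zero.mp hm)] at this
            exact Finset.notMem_empty _ this
          omega
        · exact Finset.card_le_univ _
      | succ m ihm =>
        intro w hw hg h0 hm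
        by_cases hex : ∃ x₀, Nat.card (S.sub x₀) = d + 1 ∧ w x₀ ≠ 0
        · obtain ⟨x₀, hx1, hx2⟩ := hex
          -- integrality of the leading coefficient
          obtain ⟨k, hk⟩ := hg x₀
          have hRne : (Nat.card (S.sub x₀) : ℂ) ≠ 0 := by exact_mod_cast Nat.card_pos.ne'
          have hSne : (Nat.card (MulAction.stabilizer T x₀) : ℂ) ≠ 0 := by
            exact_mod_cast Nat.card_pos.ne'
          have hkey : (Nat.card (S.sub x₀) : ℂ) * w x₀ =
              (Nat.card (MulAction.stabilizer T x₀) : ℂ) * k := by
            rw [← hk]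
            have h1 : ∀ n : T, n • x₀ = x₀ → (∑ y : X with
                (S.le x₀ y ∧ S.sub y = S.sub x₀ ⊔ Subgroup.zpowers n), w y) =
                if n ∈ S.sub x₀ then w x₀ else 0 := by
              intro n hn
              split_ifs with hns
              · have h2 : S.sub x₀ ⊔ Subgroup.zpowers n = S.sub x₀ :=
                  sup_eq_left.mpr (Subgroup.zpowers_le.mpr hns)
                rw [h2]
                have hset : (univ.filter fun y : X => S.le x₀ y ∧ S.sub y = S.sub x₀) = {x₀} := by
                  ext y
                  simp only [Finset.mem_filter, Finset.mem_univ, true_and, Finset.mem_singleton]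
                  constructor
                  · rintro ⟨h3, h4⟩; exact (S.eq_of_sub_eq h3 h4.symm).symm
                  · rintro rfl; exact ⟨S.refl y, rfl⟩
                rw [hset, Finset.sum_singleton]
              · apply Finset.sum_eq_zero
                intro y hy
                obtain ⟨h3, h4⟩ := (Finset.mem_filter.mp hy).2
                by_contra hwy
                have h5 := h0 y hwy
                have h6 : S.sub x₀ < S.sub y := by
                  rw [h4]
                  refine lt_of_le_of_ne le_sup_left ?_
                  intro h7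
                  apply hns
                  rw [h7]
                  exact (le_sup_right : _ ≤ S.sub x₀ ⊔ Subgroup.zpowers n)
                    (Subgroup.mem_zpowers n)
                have h8 : Nat.card (S.sub x₀) < Nat.card (S.sub y) :=
                  Set.ncard_lt_ncard (SetLike.coe_ssubset_coe.mpr h6) (Set.toFinite _)
                omega
            rw [Finset.sum_congr rfl fun n hn => h1 n (Finset.mem_filter.mp hn).2,
              ← Finset.sum_filter, Finset.filter_filter, Finset.sum_const, nsmul_eq_mul]
            congr 2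
            rw [Nat.card_eq_fintype_card, Fintype.card_subtype]
            congr 1
            ext n
            simp only [Finset.mem_filter, Finset.mem_univ, true_and]
            exact ⟨fun h => ⟨S.self x₀ n h, h⟩, fun h => h.2⟩
          set c : ℂ := w x₀ / (Nat.card (MulAction.stabilizer T x₀) : ℂ) with hc
          have hcR : c * (Nat.card (S.sub x₀) : ℂ) = k := by
            rw [hc, div_mul_eq_mul_div, mul_comm, hkey, mul_div_cancel_left₀ _ hSne]
          set w' : X → ℂ := fun y => w y - c * S.cnt x₀ y with hw'
          have hFn : S.Fn ev w = S.Fn ev w' + (k : ℂ) •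
              indFun (S.sub x₀) (fun r : S.sub x₀ => ev x₀ r) := by
            have h1 : (k : ℂ) • indFun (S.sub x₀) (fun r : S.sub x₀ => ev x₀ r) =
                c • S.Fn ev (S.cnt x₀) := by
              rw [S.Fn_cnt hres hact, smul_smul, hcR]
            rw [h1]
            funext u
            simp only [Fn, Pi.add_apply, Pi.smul_apply, smul_eq_mul, hw', Finset.mul_sum]
            rw [← Finset.sum_add_distrib]
            apply Finset.sum_congr rfl
            intro x _
            ring
          rw [hFn]
          refine isGen_add ?_ (isGen_intCast_smul k (isGen_ind _ (hgen x₀)))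
          -- the cardinality of the leading term
          have hcnt0 : ∀ y, Nat.card (S.sub y) = d + 1 → S.cnt x₀ y ≠ 0 → w y = w x₀ ∧
              S.cnt x₀ y = (Nat.card (MulAction.stabilizer T x₀) : ℂ) := by
            intro y hy hcy
            have hex : ∃ t : T, S.le y (t • x₀) := by
              by_contra hcon
              push Not at hcon
              apply hcy
              unfold cnt
              rw [Finset.card_eq_zero.mpr (Finset.filter_eq_empty_iff.mpr fun t _ => hcon t),
                Nat.cast_zero]
            obtain ⟨t, ht⟩ := hex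
            have hcard : ∀ t : T, Nat.card (S.sub (t • x₀)) = d + 1 := by
              intro t
              rw [← hx1]
              apply Nat.card_congr
              refine ⟨fun r => ⟨t⁻¹ * r * t, (S.sub_act t r x₀).mp r.2⟩,
                fun r => ⟨t * r * t⁻¹, (S.sub_act t _ x₀).mpr (by
                  have : t⁻¹ * (t * (r : T) * t⁻¹) * t = r := by group
                  rw [this]; exact r.2)⟩, ?_, ?_⟩
              · intro r; apply Subtype.ext
                change t * (t⁻¹ * (r : T) * t) * t⁻¹ = r
                group
              · intro r; apply Subtype.ext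
                change t⁻¹ * (t * (r : T) * t⁻¹) * t = r
                group
            have hall : ∀ t : T, S.le y (t • x₀) ↔ y = t • x₀ := by
              intro t
              constructor
              · intro h
                exact S.eq_of_sub_eq h (Subgroup.eq_of_le_of_card_ge (S.mono h)
                  (by rw [hcard t, hy]))
              · rintro rfl; exact S.refl _
            have hyt := (hall t).mp ht
            refine ⟨by rw [hyt, hw], ?_⟩
            unfold cnt
            rw [Nat.card_eq_fintype_card, Fintype.card_subtype]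
            congr 1
            apply Finset.card_bij (fun g _ => t⁻¹ * g)
            · intro g hg
              have h2 := (hall g).mp (Finset.mem_filter.mp hg).2
              refine Finset.mem_filter.mpr ⟨Finset.mem_univ _, ?_⟩
              rw [MulAction.mem_stabilizer_iff, mul_smul, ← h2, hyt, inv_smul_smul]
            · intro a _ b _ h; exact mul_left_cancel h
            · intro g hg
              have h2 := (Finset.mem_filter.mp hg).2
              rw [MulAction.mem_stabilizer_iff] at h2
              refine ⟨t * g, Finset.mem_filter.mpr ⟨Finset.mem_univ _, ?_⟩, by group⟩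
              rw [hall, mul_smul, h2, hyt]
          have hcself : S.cnt x₀ x₀ ≠ 0 := by
            unfold cnt
            rw [Nat.cast_ne_zero]
            apply Finset.card_ne_zero_of_mem (a := (1 : T))
            refine Finset.mem_filter.mpr ⟨Finset.mem_univ _, ?_⟩
            rw [one_smul]; exact S.refl _
          apply ihm w'
          · intro t x
            simp only [hw']
            rw [hw, S.cnt_act]
          · intro x
            obtain ⟨k1, hk1⟩ := hg x
            obtain ⟨k2, hk2⟩ := S.burnside x₀ x
            refine ⟨k1 - k * k2, ?_⟩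
            simp only [hw', Finset.sum_sub_distrib, ← Finset.mul_sum]
            rw [hk1, hk2]
            push_cast
            rw [← hcR]
            ring
          · intro x hx
            by_contra hcon
            push Not at hcon
            have h1 : w x = 0 := by
              by_contra h2
              have := h0 x h2
              omega
            apply hx
            simp only [hw', h1, zero_sub, neg_eq_zero, mul_eq_zero]
            right
            unfold cnt
            rw [Finset.card_eq_zero.mpr (Finset.filter_eq_empty_iff.mpr fun t _ => ?_),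
              Nat.cast_zero]
            intro hle
            have h3 : Nat.card (S.sub x) ≤ Nat.card (S.sub (t • x₀)) :=
              Nat.card_le_card_of_injective _ (Subgroup.inclusion_injective (S.mono hle))
            have h4 := h0 (t • x₀) (by rw [hw]; exact hx2)
            omega
          · -- the support decreases
            have hsub : (univ.filter fun x : X => Nat.card (S.sub x) = d + 1 ∧ w' x ≠ 0) ⊆
                (univ.filter fun x : X => Nat.card (S.sub x) = d + 1 ∧ w x ≠ 0).erase x₀ := by
              intro y hy
              obtain ⟨h1, h2⟩ := (Finset.mem_filter.mp hy).2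
              have hcy : S.cnt x₀ y = 0 := by
                by_contra h3
                obtain ⟨h4, h5⟩ := hcnt0 y h1 h3
                apply h2
                simp only [hw']
                rw [h4, h5, hc, div_mul_cancel₀ _ hSne, sub_self]
              rw [Finset.mem_erase]
              constructor
              · rintro rfl; exact hcself hcy
              · refine Finset.mem_filter.mpr ⟨Finset.mem_univ _, h1, ?_⟩
                intro h3
                apply h2
                simp only [hw', h3, hcy, mul_zero, sub_zero]
            have h1 := Finset.card_le_card hsub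
            rw [Finset.card_erase_of_mem (Finset.mem_filter.mpr ⟨Finset.mem_univ _, hx1, hx2⟩)]
              at h1
            omega
        · push Not at hex
          apply ihm w hw hg h0
          rw [Finset.card_eq_zero.mpr (Finset.filter_eq_empty_iff.mpr ?_)]
          · exact Nat.zero_le _
          · rintro x - ⟨h1, h2⟩
            exact h2 (hex x h1)
  apply key (Fintype.card T) (Fintype.card X) w hw hgood
  · intro x _
    rw [← Nat.card_eq_fintype_card]
    exact Nat.card_le_card_of_injective _ (Subgroup.subtype_injective _)
  · exact Finset.card_le_univ _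

end PSys

end Cfsg.Agent.H26
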