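import Mathlib
import Cfsg.Agent.H3.BrauerD

set_option autoImplicit false

/-!
# The `*`-construction, II: traces of equivariant idempotent kernels
-/

namespace Cfsg.Agent.H26

open Cfsg Cfsg.Agent.H3 Finset

universe u v

section Ker

variable {Γ : Type u} [Group Γ] {Y : Type v} [Fintype Y] [MulAction Γ Y]

/-- the trace of an equivariant idempotent kernel on a permutation module -/
theorem isChar_kernel (κ : Y → Y → ℂ) (hinv : ∀ (γ : Γ) x y, κ (γ • x) (γ • y) = κ x y)
    (hid : ∀ x z, ∑ y : Y, κ x y * κ y z = κ x z) :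
    IsCharacter Γ (fun γ : Γ => ∑ x : Y, κ (γ⁻¹ • x) x) := by
  classical
  let e : (Y → ℂ) →ₗ[ℂ] (Y → ℂ) := Matrix.toLin' (Matrix.of κ)
  have he : ∀ f x, e f x = ∑ y : Y, κ x y * f y := by
    intro f x
    simp [e, Matrix.toLin'_apply, Matrix.mulVec, dotProduct]
  let ρ : Representation ℂ Γ (Y → ℂ) :=
    { toFun := fun γ => LinearMap.funLeft ℂ ℂ (fun y : Y => γ⁻¹ • y)
      map_one' := by
        ext f x
        simp [LinearMap.funLeft_apply]
      map_mul' := fun a b => by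
        apply LinearMap.ext
        intro f
        funext x
        change f ((a * b)⁻¹ • x) = f (b⁻¹ • (a⁻¹ • x))
        rw [mul_inv_rev, mul_smul] }
  have hρ : ∀ γ f x, ρ γ f x = f (γ⁻¹ • x) := fun _ _ _ => rfl
  have hee : e ∘ₗ e = e := by
    apply LinearMap.ext
    intro f
    funext x
    rw [LinearMap.comp_apply, he, he]
    simp only [he, Finset.mul_sum]
    rw [Finset.sum_comm]
    apply Finset.sum_congr rfl
    intro z _
    rw [← hid x z, Finset.sum_mul]
    apply Finset.sum_congr rfl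
    intro y _
    ring
  have hcomm : ∀ γ, e ∘ₗ (ρ γ) = (ρ γ) ∘ₗ e := by
    intro γ
    apply LinearMap.ext
    intro f
    funext x
    rw [LinearMap.comp_apply, LinearMap.comp_apply, he, hρ, he]
    rw [← Equiv.sum_comp (MulAction.toPerm γ : Equiv.Perm Y)]
    apply Finset.sum_congr rfl
    intro y _
    rw [MulAction.toPerm_apply, hρ, inv_smul_smul]
    congr 1
    rw [← hinv γ (γ⁻¹ • x) y, smul_inv_smul]
  let W := LinearMap.range e
  have hW : ∀ γ, ∀ w ∈ W, ρ γ w ∈ W := by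
    rintro γ _ ⟨f, rfl⟩
    exact ⟨ρ γ f, by rw [← LinearMap.comp_apply, hcomm]; rfl⟩
  have hWe : ∀ w ∈ W, e w = w := by
    rintro _ ⟨f, rfl⟩
    rw [← LinearMap.comp_apply, hee]
  let ρ' : Representation ℂ Γ W :=
    { toFun := fun γ => (ρ γ).restrict (hW γ)
      map_one' := by
        apply LinearMap.ext
        intro w
        apply Subtype.ext
        change ρ 1 (w : Y → ℂ) = w
        rw [map_one]; rfl
      map_mul' := fun a b => by
        apply LinearMap.ext
        intro w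
        apply Subtype.ext
        change ρ (a * b) (w : Y → ℂ) = ρ a (ρ b w)
        rw [map_mul]; rfl }
  have hchar := isCharacter_of_rep ρ'
  have heq : ρ'.character = fun γ : Γ => ∑ x : Y, κ (γ⁻¹ • x) x := by
    funext γ
    change LinearMap.trace ℂ W ((ρ γ).restrict (hW γ)) = _
    let π : (Y → ℂ) →ₗ[ℂ] W := e.rangeRestrict
    let ι : W →ₗ[ℂ] (Y → ℂ) := W.subtype
    have h1 : (ρ γ).restrict (hW γ) = π ∘ₗ ((ρ γ) ∘ₗ ι) := by
      apply LinearMap.ext
      intro w
      apply Subtype.ext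
      change ρ γ (w : Y → ℂ) = e (ρ γ w)
      exact (hWe _ (hW γ _ w.2)).symm
    rw [h1, LinearMap.trace_comp_comm']
    have h2 : ((ρ γ) ∘ₗ ι) ∘ₗ π = (ρ γ) ∘ₗ e := by
      apply LinearMap.ext
      intro f
      rfl
    rw [h2, LinearMap.trace_eq_matrix_trace ℂ (Pi.basisFun ℂ Y), Matrix.trace]
    apply Finset.sum_congr rfl
    intro x _
    rw [Matrix.diag_apply, LinearMap.toMatrix_apply, Pi.basisFun_repr, LinearMap.comp_apply, hρ,
      he, Pi.basisFun_apply]
    rw [Finset.sum_eq_single x]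
    · rw [Pi.single_eq_same, mul_one]
    · intro y _ hy
      rw [Pi.single_eq_of_ne hy, mul_zero]
    · intro h; exact absurd (Finset.mem_univ _) h
  rw [← heq]
  exact hchar

end Ker

section Grp

variable {Γ : Type u} [Group Γ] {G : Type v} [Group G] [Fintype G]

open Classical in
/-- Two-sided version, with a kernel given by a function on the group. -/
theorem isChar_two_sided (φ : Γ →* G × G) (Y : Set G)
    (hY : ∀ γ, ∀ x ∈ Y, (φ γ).1 * x * (φ γ).2⁻¹ ∈ Y) (a : G → ℂ)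
    (ha : ∀ γ g, a ((φ γ).1 * g * (φ γ).1⁻¹) = a g)
    (hid : ∀ x ∈ Y, ∀ z ∈ Y, ∑ y : G with y ∈ Y, a (x * y⁻¹) * a (y * z⁻¹) = a (x * z⁻¹)) :
    IsCharacter Γ (fun γ : Γ => ∑ x : G with x ∈ Y, a ((φ γ).1⁻¹ * x * (φ γ).2 * x⁻¹)) := by
  let act : MulAction Γ Y :=
    { smul := fun γ x => ⟨(φ γ).1 * x * (φ γ).2⁻¹, hY γ x x.2⟩
      one_smul := fun x => Subtype.ext (by
        change (φ 1).1 * (x : G) * (φ 1).2⁻¹ = x
        rw [map_one]; simp)
      mul_smul := fun a b x => Subtype.ext (by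
        change (φ (a * b)).1 * (x : G) * (φ (a * b)).2⁻¹ =
          (φ a).1 * ((φ b).1 * x * (φ b).2⁻¹) * (φ a).2⁻¹
        rw [map_mul, Prod.fst_mul, Prod.snd_mul]; group) }
  have hcoe : ∀ (γ : Γ) (x : Y), ((γ • x : Y) : G) = (φ γ).1 * x * (φ γ).2⁻¹ := fun _ _ => rfl
  have h := isChar_kernel (Γ := Γ) (Y := Y) (fun x y => a ((x : G) * (y : G)⁻¹)) (by
    intro γ x y
    rw [hcoe, hcoe]
    have : (φ γ).1 * (x : G) * (φ γ).2⁻¹ * ((φ γ).1 * (y : G) * (φ γ).2⁻¹)⁻¹ =
        (φ γ).1 * ((x : G) * (y : G)⁻¹) * (φ γ).1⁻¹ := by group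
    rw [this, ha]) (by
    intro x z
    rw [← hid x x.2 z z.2]
    exact (Finset.sum_subtype (univ.filter (· ∈ Y)) (by simp)
      (fun y : G => a ((x : G) * y⁻¹) * a (y * (z : G)⁻¹))).symm)
  convert h using 1
  funext γ
  rw [Finset.sum_subtype (univ.filter (· ∈ Y)) (p := (· ∈ Y)) (by simp)
      (fun x : G => a ((φ γ).1⁻¹ * x * (φ γ).2 * x⁻¹))]
  apply Finset.sum_congr rfl
  intro x _
  rw [hcoe, map_inv, Prod.fst_inv, Prod.snd_inv, inv_inv]

end Grp

end Cfsg.Agent.H26
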