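import Mathlib
import Cfsg.Agent.H26.Star3
import Cfsg.Agent.H1.Hall

set_option autoImplicit false

/-!
# The `*`-construction, IV: the transfer identity
-/

namespace Cfsg.Agent.H26

open MonoidAlgebra MulAction Cfsg Cfsg.Agent.H11 Cfsg.Agent.H3 Finset
open scoped ComplexConjugate Pointwise

universe u

section Grp

variable {G : Type u} [Group G]

/-- first projection of a subgroup of `G × G` -/
abbrev pr (R : Subgroup (G × G)) : Subgroup G := R.map (MonoidHom.fst G G)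

/-- fixed points of a subgroup of `G × G` on `G` -/
def fxs (R : Subgroup (G × G)) : Set G := {x | ∀ r ∈ R, r.1 * x = x * r.2}

theorem mem_fxs {R : Subgroup (G × G)} {x : G} : x ∈ fxs R ↔ ∀ r ∈ R, r.1 * x = x * r.2 := Iff.rfl

theorem mem_cz_pr {R : Subgroup (G × G)} {c : G} :
    c ∈ cz (pr R) ↔ ∀ r ∈ R, r.1 * c = c * r.1 := by
  rw [Subgroup.mem_centralizer_iff]
  constructor
  · intro h r hr
    exact h r.1 ⟨r, hr, rfl⟩
  · rintro h _ ⟨r, hr, rfl⟩
    exact h r hr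

theorem mem_fxs_iff {R : Subgroup (G × G)} {x₀ x : G} (h0 : x₀ ∈ fxs R) :
    x ∈ fxs R ↔ x * x₀⁻¹ ∈ cz (pr R) := by
  rw [mem_cz_pr]
  have hr2 : ∀ r ∈ R, r.2 = x₀⁻¹ * r.1 * x₀ := by
    intro r hr
    have := h0 r hr
    rw [mul_assoc, this]; group
  constructor
  · intro h r hr
    have h1 := h r hr
    rw [hr2 r hr] at h1
    calc r.1 * (x * x₀⁻¹) = (r.1 * x) * x₀⁻¹ := by group
      _ = x * x₀⁻¹ * r.1 := by rw [h1]; group
  · intro h r hr
    have h1 := h r hr
    rw [hr2 r hr]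
    calc r.1 * x = (r.1 * (x * x₀⁻¹)) * x₀ := by group
      _ = x * (x₀⁻¹ * r.1 * x₀) := by rw [h1]; group

theorem mul_mem_fxs {R : Subgroup (G × G)} {x₀ c : G} (h0 : x₀ ∈ fxs R) (hc : c ∈ cz (pr R)) :
    c * x₀ ∈ fxs R := by
  rw [mem_fxs_iff h0]
  have : c * x₀ * x₀⁻¹ = c := by group
  rwa [this]

open Classical in
theorem sum_fxs [Fintype G] {R : Subgroup (G × G)} {x₀ : G} (h0 : x₀ ∈ fxs R) (F : G → ℂ) :
    ∑ x : G with x ∈ fxs R, F x = ∑ c : G with c ∈ cz (pr R), F (c * x₀) := by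
  symm
  apply Finset.sum_bij (fun c _ => c * x₀)
  · intro c hc
    exact Finset.mem_filter.mpr ⟨Finset.mem_univ _, mul_mem_fxs h0 (Finset.mem_filter.mp hc).2⟩
  · intro a _ b _ hab; exact mul_right_cancel hab
  · intro x hx
    exact ⟨x * x₀⁻¹, Finset.mem_filter.mpr ⟨Finset.mem_univ _,
      (mem_fxs_iff h0).mp (Finset.mem_filter.mp hx).2⟩, by group⟩
  · intro _ _; rfl

theorem mem_sup_zpowers {C : Subgroup G} {u k : G} (hu : u ∈ nz C)
    (hk : k ∈ C ⊔ Subgroup.zpowers u) : ∃ c ∈ C, ∃ v ∈ Subgroup.zpowers u, k = c * v := by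
  have h : ((C ⊔ Subgroup.zpowers u : Subgroup G) : Set G) = (C : Set G) * Subgroup.zpowers u :=
    Subgroup.coe_mul_of_right_le_normalizer_left _ _ (Subgroup.zpowers_le.mpr hu)
  have hk' : k ∈ (C : Set G) * (Subgroup.zpowers u : Set G) := by rw [← h]; exact hk
  obtain ⟨c, hc, v, hv, rfl⟩ := hk'
  exact ⟨c, hc, v, hv, rfl⟩

theorem sup_zpowers_le_nz {C : Subgroup G} {u : G} (hu : u ∈ nz C) :
    C ⊔ Subgroup.zpowers u ≤ nz C :=
  sup_le Subgroup.le_normalizer (Subgroup.zpowers_le.mpr hu)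

theorem relIndex_sup_zpowers [Finite G] {p : ℕ} [hp : Fact p.Prime] {C : Subgroup G} {u : G}
    (hu : u ∈ nz C) (hup : ∃ k : ℕ, orderOf u = p ^ k) :
    ∃ j : ℕ, C.relIndex (C ⊔ Subgroup.zpowers u) = p ^ j := by
  obtain ⟨k, hk⟩ := hup
  have h1 := H1.card_sup_mul_card_inf_of_le_normalizer (Subgroup.zpowers_le.mpr hu :
    Subgroup.zpowers u ≤ Subgroup.normalizer (C : Set G))
  have h2 : Nat.card C * C.relIndex (C ⊔ Subgroup.zpowers u) =
      Nat.card (C ⊔ Subgroup.zpowers u : Subgroup G) := by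
    have := Subgroup.card_mul_index (C.subgroupOf (C ⊔ Subgroup.zpowers u))
    rw [Nat.card_congr (Subgroup.subgroupOfEquivOfLe
      (le_sup_left : C ≤ C ⊔ Subgroup.zpowers u)).toEquiv] at this
    exact this
  have h3 : C.relIndex (C ⊔ Subgroup.zpowers u) ∣ p ^ k := by
    rw [← hk, ← Nat.card_zpowers]
    refine ⟨Nat.card (C ⊓ Subgroup.zpowers u : Subgroup G), ?_⟩
    have h4 : 0 < Nat.card C := Nat.card_pos
    apply Nat.eq_of_mul_eq_mul_left h4
    rw [← h2] at h1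
    rw [← mul_assoc, h1]
  obtain ⟨j, -, hj⟩ := (Nat.dvd_prime_pow hp.out).mp h3
  exact ⟨j, hj⟩

end Grp

section Blk

variable {M : Ideal AlgInt} [hM : M.IsPrime] {p : ℕ} [hp : Fact p.Prime]
variable {G : Type u} [Group G] [Fintype G]

theorem isFx_sup_zpowers {C : Subgroup G} {u : G} {f : MonoidAlgebra (KF M) G}
    (hu : u ∈ nz C) (hf : IsFx C f) (hfu : cj u f = f) : IsFx (C ⊔ Subgroup.zpowers u) f := by
  have h1 : ∀ v ∈ Subgroup.zpowers u, cj v f = f := by
    intro v hv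
    have h2 : (Subgroup.zpowers u) ≤ stab (⊤ : Subgroup G) f := by
      rw [Subgroup.zpowers_le]
      exact mem_stab_top.mpr hfu
    exact mem_stab_top.mp (h2 hv)
  intro k hk
  obtain ⟨c, hc, v, hv, rfl⟩ := mem_sup_zpowers hu hk
  rw [cj_mul_apply, h1 v hv, hf c hc]

/-- blocks of `C` and of `C ⟨u⟩` for a central `p`-element -/
theorem isBlk_central_ext_iff (hMp : IsPModular p M) {C : Subgroup G} {u : G}
    (hu : u ∈ cz C) (hup : ∃ k : ℕ, orderOf u = p ^ k) {f : MonoidAlgebra (KF M) G} :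
    IsBlk (C ⊔ Subgroup.zpowers u) f ↔ IsBlk C f := by
  have huN : u ∈ nz C := centralizer_le_normalizer' C hu
  have hle := sup_zpowers_le_nz huN
  have hidx := relIndex_sup_zpowers huN hup
  have hcu : ∀ a : MonoidAlgebra (KF M) G, IsSup C a → cj u a = a := by
    intro a ha
    ext x
    rw [coeff_cj]
    by_cases hx : x ∈ C
    · have : u⁻¹ * x * u = x := by
        have h1 := Subgroup.mem_centralizer_iff.mp hu x hx
        rw [mul_assoc, h1]; group
      rw [this]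
    · rw [ha x hx, ha]
      intro h
      apply hx
      have h1 := (Subgroup.mem_normalizer_iff.mp (Subgroup.inv_mem _ huN) x)
      rw [inv_inv] at h1
      exact h1.mpr h
  constructor
  · intro hf
    have hs : IsSup C f := isSup_idem_of_reg hMp
      (fun x hx hxr => mem_of_relIndex_pow hle hidx hx hxr) hf.mem hf.idem
    refine ⟨⟨hs, hf.isFx.mono le_sup_left⟩, hf.idem, hf.ne_zero, ?_⟩
    intro g hg hgg hgf
    exact hf.2.2.2 g ⟨hg.1.mono le_sup_left, isFx_sup_zpowers huN hg.2 (hcu g hg.1)⟩ hgg hgf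
  · intro hf
    exact isBlk_of_stable_pow hMp le_sup_left hle hidx hf
      (isFx_sup_zpowers huN hf.isFx (hcu f hf.isSup))

theorem cz_inf_sup {C : Subgroup G} {u : G} (hu : u ∈ nz C) :
    cz (Subgroup.zpowers u) ⊓ (C ⊔ Subgroup.zpowers u) =
      (C ⊓ cz (Subgroup.zpowers u)) ⊔ Subgroup.zpowers u := by
  have hself : Subgroup.zpowers u ≤ cz (Subgroup.zpowers u) := by
    rw [Subgroup.zpowers_le, mem_cz_zpowers]
  apply le_antisymm
  · rintro k ⟨hk1, hk2⟩
    obtain ⟨c, hc, v, hv, rfl⟩ := mem_sup_zpowers hu hk2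
    have hc' : c ∈ cz (Subgroup.zpowers u) := by
      have := Subgroup.mul_mem _ hk1 (Subgroup.inv_mem _ (hself hv))
      rwa [mul_inv_cancel_right] at this
    exact Subgroup.mul_mem_sup ⟨hc, hc'⟩ hv
  · refine sup_le (le_inf inf_le_right (inf_le_left.trans le_sup_left))
      (le_inf hself le_sup_right)

end Blk

end Cfsg.Agent.H26
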