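import Mathlib
import Cfsg.Agent.H26.Star4

set_option autoImplicit false

/-!
# The `*`-construction, V: the transfer identity (continued)
-/

namespace Cfsg.Agent.H26

open MonoidAlgebra MulAction Cfsg Cfsg.Agent.H11 Cfsg.Agent.H3 Finset
open scoped ComplexConjugate

universe u

section Xi

variable {M : Ideal AlgInt} [hM : M.IsPrime] {p : ℕ} [hp : Fact p.Prime]
variable {G : Type u} [Group G] [Fintype G]

open Classical in
/-- The two-sided trace of a local block idempotent. -/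
noncomputable def Xi (R : Subgroup (G × G)) (f : MonoidAlgebra (KF M) G) (γ : G × G) : ℂ :=
  ∑ x : G with x ∈ fxs R, ec (cz (pr R)) f (γ.1⁻¹ * x * γ.2 * x⁻¹)

omit [Fintype G] in
theorem cz_sup (A B : Subgroup G) : cz (A ⊔ B) = cz A ⊓ cz B := by
  apply le_antisymm (le_inf (cz_anti le_sup_left) (cz_anti le_sup_right))
  rintro c ⟨h1, h2⟩
  rw [Subgroup.mem_centralizer_iff]
  have h3 : A ⊔ B ≤ Subgroup.centralizer ({c} : Set G) := by
    apply sup_le
    · intro a ha
      rw [Subgroup.mem_centralizer_singleton_iff]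
      exact Subgroup.mem_centralizer_iff.mp h1 a ha
    · intro a ha
      rw [Subgroup.mem_centralizer_singleton_iff]
      exact Subgroup.mem_centralizer_iff.mp h2 a ha
  intro x hx
  exact Subgroup.mem_centralizer_singleton_iff.mp (h3 hx)

omit [Fintype G] in
theorem pr_sup_zpowers (R : Subgroup (G × G)) (n : G × G) :
    pr (R ⊔ Subgroup.zpowers n) = pr R ⊔ Subgroup.zpowers n.1 := by
  unfold pr
  rw [Subgroup.map_sup, MonoidHom.map_zpowers]
  rfl

open Classical in
/-- **Transfer identity.** -/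
theorem Xi_transfer (hMp : IsPModular p M) {R : Subgroup (G × G)} {f : MonoidAlgebra (KF M) G}
    (hf : IsBlk (cz (pr R)) f) {n s : G × G} (hnR : ∀ r, n * r * n⁻¹ ∈ R ↔ r ∈ R)
    (hn : ∃ k : ℕ, orderOf n = p ^ k) (hfn : cj n.1 f = f) (hsR : ∀ r ∈ R, s * r = r * s)
    (hsn : s * n = n * s) (hs1 : ¬ p ∣ orderOf s.1) (hs2 : ¬ p ∣ orderOf s.2) :
    Xi R f (n * s) = ∑ f' ∈ bf (cz (pr (R ⊔ Subgroup.zpowers n)))
      (br (pr (R ⊔ Subgroup.zpowers n)) f), Xi (R ⊔ Subgroup.zpowers n) f' s := by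
  -- notation
  obtain ⟨u, n2⟩ := n
  obtain ⟨s1, s2⟩ := s
  change ¬ p ∣ orderOf s1 at hs1
  change ¬ p ∣ orderOf s2 at hs2
  change cj u f = f at hfn
  set H := R ⊔ Subgroup.zpowers ((u, n2) : G × G) with hH
  set C := cz (pr R) with hC
  have hprH : pr H = pr R ⊔ Subgroup.zpowers u := pr_sup_zpowers R (u, n2)
  have hC' : cz (pr H) = C ⊓ cz (Subgroup.zpowers u) := by rw [hprH, cz_sup]
  have hsn' : s1 * u = u * s1 ∧ s2 * n2 = n2 * s2 := by
    have := hsn
    simp only [Prod.mk_mul_mk, Prod.mk.injEq] at this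
    exact this
  -- orders
  obtain ⟨k, hk⟩ := hn
  have hup : ∃ k : ℕ, orderOf u = p ^ k := by
    have h1 : orderOf u ∣ p ^ k := by
      rw [← hk]
      exact orderOf_map_dvd (MonoidHom.fst G G) ((u, n2) : G × G)
    obtain ⟨j, -, hj⟩ := (Nat.dvd_prime_pow hp.out).mp h1
    exact ⟨j, hj⟩
  have hn2p : ∃ k : ℕ, orderOf n2 = p ^ k := by
    have h1 : orderOf n2 ∣ p ^ k := by
      rw [← hk]
      exact orderOf_map_dvd (MonoidHom.snd G G) ((u, n2) : G × G)
    obtain ⟨j, -, hj⟩ := (Nat.dvd_prime_pow hp.out).mp h1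
    exact ⟨j, hj⟩
  -- `s1` centralizes
  have hs1C : s1 ∈ C := by
    rw [hC, mem_cz_pr]
    intro r hr
    exact (congrArg Prod.fst (hsR r hr)).symm
  have hs1u : s1 ∈ cz (Subgroup.zpowers u) := mem_cz_zpowers.mpr hsn'.1
  -- normalizing
  have huR : u ∈ nz (pr R) := by
    rw [Subgroup.mem_normalizer_iff]
    intro a
    constructor
    · rintro ⟨r, hr, rfl⟩
      exact ⟨(u, n2) * r * (u, n2)⁻¹, (hnR r).mpr hr, rfl⟩
    · rintro ⟨r, hr, hra⟩
      have h1 : (u, n2)⁻¹ * r * (u, n2) ∈ R := by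
        rw [← hnR]
        have : (u, n2) * ((u, n2)⁻¹ * r * (u, n2)) * (u, n2)⁻¹ = r := by group
        rw [this]; exact hr
      refine ⟨_, h1, ?_⟩
      change u⁻¹ * r.1 * u = a
      have hra' : r.1 = u * a * u⁻¹ := hra
      rw [hra']; group
  have huC : u ∈ nz C := normalizer_le_normalizer_centralizer (pr R) huR
  set K := C ⊔ Subgroup.zpowers u with hK
  have hCK : C ≤ K := le_sup_left
  have hKn : K ≤ nz C := sup_zpowers_le_nz huC
  have hidx := relIndex_sup_zpowers huC hup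
  have huK : u ∈ K := (le_sup_right : _ ≤ C ⊔ Subgroup.zpowers u) (Subgroup.mem_zpowers u)
  have hfK : IsBlk K f := isBlk_of_stable_pow hMp hCK hKn hidx hf
    (isFx_sup_zpowers huC hf.isFx hfn)
  have hfixsub : fxs H ⊆ fxs R := fun x hx r hr =>
    hx r ((le_sup_left : R ≤ R ⊔ Subgroup.zpowers ((u, n2) : G × G)) hr)
  -- membership in `fxs H`
  have hmemH : ∀ x, x ∈ fxs R → u * x = x * n2 → x ∈ fxs H := by
    intro x hx hux
    have h1 : H ≤ ({ carrier := {r : G × G | r.1 * x = x * r.2}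
                     mul_mem' := by
                      intro a b ha hb
                      change a.1 * b.1 * x = x * (a.2 * b.2)
                      change a.1 * x = x * a.2 at ha
                      change b.1 * x = x * b.2 at hb
                      rw [mul_assoc, hb, ← mul_assoc, ha, mul_assoc]
                     one_mem' := by change 1 * x = x * 1; simp
                     inv_mem' := by
                      intro a ha
                      change a.1 * x = x * a.2 at ha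
                      change a.1⁻¹ * x = x * a.2⁻¹
                      calc a.1⁻¹ * x = a.1⁻¹ * (x * a.2) * a.2⁻¹ := by group
                        _ = x * a.2⁻¹ := by rw [← ha]; group } : Subgroup (G × G)) := by
      apply sup_le
      · intro r hr; exact hx r hr
      · rw [Subgroup.zpowers_le]; exact hux
    intro r hr
    exact h1 hr
  -- empty case
  by_cases hR0 : ∃ x0, x0 ∈ fxs R
  swap
  · push Not at hR0
    have h1 : Xi R f ((u, n2) * (s1, s2)) = 0 := by
      unfold Xi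
      rw [Finset.filter_false_of_mem (fun x _ => hR0 x), Finset.sum_empty]
    rw [h1]
    symm
    apply Finset.sum_eq_zero
    intro f' _
    unfold Xi
    rw [Finset.filter_false_of_mem (fun x _ h => hR0 x (hfixsub h)), Finset.sum_empty]
  -- general facts about a fixed point
  have hgen : ∀ x0, x0 ∈ fxs R → x0 * s2 * x0⁻¹ ∈ C ∧ x0 * n2 * x0⁻¹ ∈ K ∧
      (C ⊔ Subgroup.zpowers (x0 * n2 * x0⁻¹) = K) := by
    intro x0 hx0
    have hr2 : ∀ r ∈ R, r.2 = x0⁻¹ * r.1 * x0 := by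
      intro r hr
      have := hx0 r hr
      rw [mul_assoc, this]; group
    have h1 : x0 * s2 * x0⁻¹ ∈ C := by
      rw [hC, mem_cz_pr]
      intro r hr
      have h2 : s2 * r.2 = r.2 * s2 := congrArg Prod.snd (hsR r hr)
      rw [hr2 r hr] at h2
      calc r.1 * (x0 * s2 * x0⁻¹) = x0 * ((x0⁻¹ * r.1 * x0) * s2) * x0⁻¹ := by group
        _ = x0 * s2 * x0⁻¹ * r.1 := by rw [← h2]; group
    have h3 : u⁻¹ * (x0 * n2 * x0⁻¹) ∈ C := by
      rw [hC, mem_cz_pr]
      intro r hr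
      have h4 : ((u, n2) * r * (u, n2)⁻¹) ∈ R := (hnR r).mpr hr
      have h5 := hx0 _ h4
      change u * r.1 * u⁻¹ * x0 = x0 * (n2 * r.2 * n2⁻¹) at h5
      rw [hr2 r hr] at h5
      have h6 : u * r.1 * u⁻¹ = (x0 * n2 * x0⁻¹) * r.1 * (x0 * n2 * x0⁻¹)⁻¹ := by
        calc u * r.1 * u⁻¹ = (u * r.1 * u⁻¹ * x0) * x0⁻¹ := by group
          _ = _ := by rw [h5]; group
      calc r.1 * (u⁻¹ * (x0 * n2 * x0⁻¹)) = u⁻¹ * (u * r.1 * u⁻¹) * (x0 * n2 * x0⁻¹) := by group
        _ = u⁻¹ * (x0 * n2 * x0⁻¹) * r.1 := by rw [h6]; group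
    have h7 : x0 * n2 * x0⁻¹ ∈ K := by
      have : x0 * n2 * x0⁻¹ = u * (u⁻¹ * (x0 * n2 * x0⁻¹)) := by group
      rw [this]
      exact K.mul_mem huK (hCK h3)
    refine ⟨h1, h7, le_antisymm (sup_le hCK (Subgroup.zpowers_le.mpr h7)) ?_⟩
    rw [hK]
    apply sup_le le_sup_left
    rw [Subgroup.zpowers_le]
    have : u = (x0 * n2 * x0⁻¹) * (u⁻¹ * (x0 * n2 * x0⁻¹))⁻¹ := by group
    rw [this]
    exact Subgroup.mul_mem _ ((le_sup_right : _ ≤ C ⊔ Subgroup.zpowers (x0 * n2 * x0⁻¹))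
      (Subgroup.mem_zpowers _)) ((le_sup_left : C ≤ C ⊔ Subgroup.zpowers (x0 * n2 * x0⁻¹))
      (C.inv_mem h3))
  -- rewriting the left side
  have hleft : ∀ x0, x0 ∈ fxs R → (Nat.card K : ℂ) * Xi R f ((u, n2) * (s1, s2)) =
      (Nat.card C : ℂ) * ∑ k : G with k ∈ K, ec K f ((u * s1)⁻¹ * k *
        ((x0 * n2 * x0⁻¹) * (x0 * s2 * x0⁻¹)) * k⁻¹) := by
    intro x0 hx0
    obtain ⟨g1, g2, g3⟩ := hgen x0 hx0
    have h1 : Xi R f ((u, n2) * (s1, s2)) = ∑ c : G with c ∈ C,
        ec K f ((u * s1)⁻¹ * (c * ((x0 * n2 * x0⁻¹) * (x0 * s2 * x0⁻¹)) * c⁻¹)) := by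
      unfold Xi
      rw [sum_fxs hx0]
      apply Finset.sum_congr rfl
      intro c _
      rw [ec_eq hCK hKn hf hfK]
      congr 1
      change (u * s1)⁻¹ * (c * x0) * (n2 * s2) * (c * x0)⁻¹ = _
      group
    rw [h1]
    have hnz' : x0 * n2 * x0⁻¹ ∈ nz C := hKn g2
    have h2 := avg_conj (C := C) (K := K) hCK (w := (x0 * n2 * x0⁻¹) * (x0 * s2 * x0⁻¹)) (by
      intro k hk
      rw [← g3] at hk
      obtain ⟨c, hc, v, hv, rfl⟩ := mem_sup_zpowers hnz' hk
      refine ⟨c, hc, ?_⟩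
      have h3 : Commute v ((x0 * n2 * x0⁻¹) * (x0 * s2 * x0⁻¹)) := by
        obtain ⟨i, rfl⟩ := Subgroup.mem_zpowers_iff.mp hv
        apply Commute.zpow_left
        apply Commute.mul_right (Commute.refl _)
        change (x0 * n2 * x0⁻¹) * (x0 * s2 * x0⁻¹) = (x0 * s2 * x0⁻¹) * (x0 * n2 * x0⁻¹)
        calc (x0 * n2 * x0⁻¹) * (x0 * s2 * x0⁻¹) = x0 * (n2 * s2) * x0⁻¹ := by group
          _ = _ := by rw [← hsn'.2]; group
      calc c * v * ((x0 * n2 * x0⁻¹) * (x0 * s2 * x0⁻¹)) * (c * v)⁻¹ =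
          c * (v * ((x0 * n2 * x0⁻¹) * (x0 * s2 * x0⁻¹))) * v⁻¹ * c⁻¹ := by group
        _ = _ := by rw [h3.eq]; group) (fun g => ec K f ((u * s1)⁻¹ * g))
    rw [h2]
    congr 1
    apply Finset.sum_congr rfl
    intro k _
    congr 1
    group
  have hKne : (Nat.card K : ℂ) ≠ 0 := by exact_mod_cast Nat.card_pos.ne'
  by_cases hH0 : ∃ x0, x0 ∈ fxs H
  · -- main case
    obtain ⟨x0, hx0⟩ := hH0
    have hx0R := hfixsub hx0
    obtain ⟨g1, g2, g3⟩ := hgen x0 hx0R
    have hux : x0 * n2 * x0⁻¹ = u := by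
      have := hx0 (u, n2) ((le_sup_right : _ ≤ R ⊔ Subgroup.zpowers ((u, n2) : G × G))
        (Subgroup.mem_zpowers _))
      change u * x0 = x0 * n2 at this
      rw [← this]; group
    have hs2C' : x0 * s2 * x0⁻¹ ∈ cz (Subgroup.zpowers u) := by
      rw [mem_cz_zpowers, ← hux]
      calc x0 * s2 * x0⁻¹ * (x0 * n2 * x0⁻¹) = x0 * (s2 * n2) * x0⁻¹ := by group
        _ = _ := by rw [hsn'.2]; group
    have hL := hleft x0 hx0R
    rw [hux] at hL
    have hordc : ∀ g : G, orderOf (x0 * g * x0⁻¹) = orderOf g := fun g => orderOf_conj' g x0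
    rw [sec_sub hMp hfK huK hup (hCK hs1C) (hCK g1) hs1u hs2C' hs1 (by rwa [hordc])] at hL
    -- the finset of blocks
    have hC'' : cz (Subgroup.zpowers u) ⊓ K = cz (pr H) ⊔ Subgroup.zpowers u := by
      rw [hC', hK, cz_inf_sup huC]
    have huC' : u ∈ cz (cz (pr H)) := by
      rw [Subgroup.mem_centralizer_iff]
      intro c hc
      rw [hC'] at hc
      exact mem_cz_zpowers.mp hc.2
    have huC'n : u ∈ nz (cz (pr H)) := centralizer_le_normalizer' _ huC'
    have hbr : br (Subgroup.zpowers u) f = br (pr H) f := by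
      ext x
      by_cases h1 : x ∈ cz (pr H)
      · have h2 : x ∈ cz (Subgroup.zpowers u) := by rw [hC'] at h1; exact h1.2
        rw [coeff_br_of_mem _ h1, coeff_br_of_mem _ h2]
      · rw [coeff_br_of_notMem _ h1]
        by_cases h2 : x ∈ cz (Subgroup.zpowers u)
        · rw [coeff_br_of_mem _ h2]
          apply hf.isSup
          intro h3
          apply h1
          rw [hC']; exact ⟨h3, h2⟩
        · rw [coeff_br_of_notMem _ h2]
    have hbf : bf (cz (Subgroup.zpowers u) ⊓ K) (br (Subgroup.zpowers u) f) =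
        bf (cz (pr H)) (br (pr H) f) := by
      ext g
      rw [mem_bf, mem_bf, hbr, hC'', isBlk_central_ext_iff hMp huC' hup]
    rw [hbf] at hL
    -- compare the inner sums
    have hin : ∀ f' ∈ bf (cz (pr H)) (br (pr H) f),
        (Nat.card (cz (pr H)) : ℂ) * ∑ c : G with c ∈ cz (Subgroup.zpowers u) ⊓ K,
          ec (cz (Subgroup.zpowers u) ⊓ K) f' (s1⁻¹ * c * (x0 * s2 * x0⁻¹) * c⁻¹) =
        (Nat.card (cz (Subgroup.zpowers u) ⊓ K : Subgroup G) : ℂ) * Xi H f' (s1, s2) := by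
      intro f' hf'
      have hf'1 : IsBlk (cz (pr H)) f' := (mem_bf.mp hf').1
      have hf'2 : IsBlk (cz (pr H) ⊔ Subgroup.zpowers u) f' :=
        (isBlk_central_ext_iff hMp huC' hup).mpr hf'1
      have h1 : Xi H f' (s1, s2) = ∑ c : G with c ∈ cz (pr H),
          ec (cz (Subgroup.zpowers u) ⊓ K) f' (s1⁻¹ * (c * (x0 * s2 * x0⁻¹) * c⁻¹)) := by
        unfold Xi
        rw [sum_fxs hx0]
        apply Finset.sum_congr rfl
        intro c _
        rw [hC'', ec_eq le_sup_left (sup_zpowers_le_nz huC'n) hf'1 hf'2]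
        congr 1
        change s1⁻¹ * (c * x0) * s2 * (c * x0)⁻¹ = _
        group
      rw [h1]
      have h2 := avg_conj (C := cz (pr H)) (K := cz (Subgroup.zpowers u) ⊓ K)
        (by rw [hC'']; exact le_sup_left) (w := x0 * s2 * x0⁻¹) (by
        intro k hk
        rw [hC''] at hk
        obtain ⟨c, hc, v, hv, rfl⟩ := mem_sup_zpowers huC'n hk
        refine ⟨c, hc, ?_⟩
        have h3 : v * (x0 * s2 * x0⁻¹) = (x0 * s2 * x0⁻¹) * v :=
          Subgroup.mem_centralizer_iff.mp hs2C' v hv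
        calc c * v * (x0 * s2 * x0⁻¹) * (c * v)⁻¹ =
            c * (v * (x0 * s2 * x0⁻¹)) * v⁻¹ * c⁻¹ := by group
          _ = _ := by rw [h3]; group)
        (fun g => ec (cz (Subgroup.zpowers u) ⊓ K) f' (s1⁻¹ * g))
      rw [h2]
      congr 1
      apply Finset.sum_congr rfl
      intro k _
      congr 1
      group
    -- cardinalities
    have hcard : (Nat.card K : ℂ) * (Nat.card (cz (pr H)) : ℂ) =
        (Nat.card C : ℂ) * (Nat.card (cz (Subgroup.zpowers u) ⊓ K : Subgroup G) : ℂ) := by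
      have e1 := H1.card_sup_mul_card_inf_of_le_normalizer (Subgroup.zpowers_le.mpr huC :
        Subgroup.zpowers u ≤ Subgroup.normalizer (C : Set G))
      have e2 := H1.card_sup_mul_card_inf_of_le_normalizer (Subgroup.zpowers_le.mpr huC'n :
        Subgroup.zpowers u ≤ Subgroup.normalizer ((cz (pr H) : Subgroup G) : Set G))
      have e3 : cz (pr H) ⊓ Subgroup.zpowers u = C ⊓ Subgroup.zpowers u := by
        rw [hC']
        have hself : Subgroup.zpowers u ≤ cz (Subgroup.zpowers u) := by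
          rw [Subgroup.zpowers_le, mem_cz_zpowers]
        apply le_antisymm
        · rintro x ⟨⟨h1, -⟩, h2⟩; exact ⟨h1, h2⟩
        · rintro x ⟨h1, h2⟩; exact ⟨⟨h1, hself h2⟩, h2⟩
      rw [e3, ← hC''] at e2
      have hpos : 0 < Nat.card (C ⊓ Subgroup.zpowers u : Subgroup G) := Nat.card_pos
      have e4 : Nat.card K * Nat.card (cz (pr H)) =
          Nat.card C * Nat.card (cz (Subgroup.zpowers u) ⊓ K : Subgroup G) := by
        apply Nat.eq_of_mul_eq_mul_right hpos
        calc Nat.card K * Nat.card (cz (pr H)) * Nat.card (C ⊓ Subgroup.zpowers u : Subgroup G) =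
            (Nat.card K * Nat.card (C ⊓ Subgroup.zpowers u : Subgroup G)) *
              Nat.card (cz (pr H)) := by ring
          _ = Nat.card C * Nat.card (Subgroup.zpowers u) * Nat.card (cz (pr H)) := by rw [e1]
          _ = Nat.card C * (Nat.card (cz (pr H)) * Nat.card (Subgroup.zpowers u)) := by ring
          _ = Nat.card C * (Nat.card (cz (Subgroup.zpowers u) ⊓ K : Subgroup G) *
              Nat.card (C ⊓ Subgroup.zpowers u : Subgroup G)) := by rw [e2]
          _ = _ := by ring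
      exact_mod_cast e4
    have hC'ne : (Nat.card (cz (pr H)) : ℂ) ≠ 0 := by exact_mod_cast Nat.card_pos.ne'
    have hfin : (Nat.card K : ℂ) * (Nat.card (cz (pr H)) : ℂ) *
        Xi R f ((u, n2) * (s1, s2)) = (Nat.card K : ℂ) * (Nat.card (cz (pr H)) : ℂ) *
        ∑ f' ∈ bf (cz (pr H)) (br (pr H) f), Xi H f' (s1, s2) := by
      calc (Nat.card K : ℂ) * (Nat.card (cz (pr H)) : ℂ) * Xi R f ((u, n2) * (s1, s2)) =
          (Nat.card (cz (pr H)) : ℂ) * ((Nat.card K : ℂ) * Xi R f ((u, n2) * (s1, s2))) := by ring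
        _ = (Nat.card C : ℂ) * ∑ f' ∈ bf (cz (pr H)) (br (pr H) f),
            (Nat.card (cz (pr H)) : ℂ) * ∑ c : G with c ∈ cz (Subgroup.zpowers u) ⊓ K,
            ec (cz (Subgroup.zpowers u) ⊓ K) f' (s1⁻¹ * c * (x0 * s2 * x0⁻¹) * c⁻¹) := by
          rw [hL, ← Finset.mul_sum]; ring
        _ = (Nat.card C : ℂ) * ∑ f' ∈ bf (cz (pr H)) (br (pr H) f),
            (Nat.card (cz (Subgroup.zpowers u) ⊓ K : Subgroup G) : ℂ) * Xi H f' (s1, s2) := by
          rw [Finset.sum_congr rfl hin]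
        _ = _ := by rw [← Finset.mul_sum, hcard]; ring
    exact mul_left_cancel₀ (mul_ne_zero hKne hC'ne) hfin
  · -- no fixed point of `H`
    obtain ⟨x0, hx0⟩ := hR0
    push Not at hH0
    obtain ⟨g1, g2, g3⟩ := hgen x0 hx0
    have hL := hleft x0 hx0
    have hordc : ∀ g : G, orderOf (x0 * g * x0⁻¹) = orderOf g := fun g => orderOf_conj' g x0
    have hzero := sec_zero hMp hfK huK g2 (hCK hs1C) (hCK g1) hup
      (by rw [hordc]; exact hn2p) hsn'.1.symm (y := s1) (z := x0 * s2 * x0⁻¹) (by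
        calc (x0 * n2 * x0⁻¹) * (x0 * s2 * x0⁻¹) = x0 * (n2 * s2) * x0⁻¹ := by group
          _ = _ := by rw [← hsn'.2]; group) hs1 (by rwa [hordc]) (by
        intro k hk hku
        have hnz' : x0 * n2 * x0⁻¹ ∈ nz C := hKn g2
        have hk' : k⁻¹ ∈ C ⊔ Subgroup.zpowers (x0 * n2 * x0⁻¹) := by
          rw [g3]; exact K.inv_mem hk
        obtain ⟨c, hc, v, hv, hkv⟩ := mem_sup_zpowers hnz' hk'
        have h3 : v * (x0 * n2 * x0⁻¹) = (x0 * n2 * x0⁻¹) * v := by
          obtain ⟨i, rfl⟩ := Subgroup.mem_zpowers_iff.mp hv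
          exact ((Commute.refl (x0 * n2 * x0⁻¹)).zpow_left i).eq
        have h4 : u = c * (x0 * n2 * x0⁻¹) * c⁻¹ := by
          calc u = k⁻¹ * (k * u * k⁻¹) * k := by group
            _ = k⁻¹ * (x0 * n2 * x0⁻¹) * (k⁻¹)⁻¹ := by rw [hku, inv_inv]
            _ = c * (v * (x0 * n2 * x0⁻¹)) * v⁻¹ * c⁻¹ := by rw [hkv]; group
            _ = _ := by rw [h3]; group
        apply hH0 (c * x0)
        apply hmemH _ (mul_mem_fxs hx0 hc)
        conv_lhs => rw [h4]
        group)
    rw [hzero, mul_zero] at hL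
    rcases mul_eq_zero.mp hL with h1 | h1
    · exact absurd h1 hKne
    · rw [h1]
      symm
      apply Finset.sum_eq_zero
      intro f' _
      unfold Xi
      rw [Finset.filter_false_of_mem (fun x _ => hH0 x), Finset.sum_empty]

end Xi

end Cfsg.Agent.H26
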