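import Mathlib
import Cfsg.Agent.H26.Star1
import Cfsg.Agent.H26.Star2
import Cfsg.Agent.H26.Star5

set_option autoImplicit false

/-!
# The `*`-construction, VI: the pairs of a `p`-subgroup of `G × G`
-/

namespace Cfsg.Agent.H26

open MonoidAlgebra MulAction Cfsg Cfsg.Agent.H11 Cfsg.Agent.H3 Finset
open scoped ComplexConjugate

universe u

section Xi2

variable {M : Ideal AlgInt} [hM : M.IsPrime] {p : ℕ} [hp : Fact p.Prime]
variable {G : Type u} [Group G] [Fintype G]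

omit [Fintype G] in
theorem pr_cg (R : Subgroup (G × G)) (g : G × G) : pr (cg R g) = cg (pr R) g.1 := by
  ext x
  constructor
  · rintro ⟨_, ⟨r, hr, rfl⟩, rfl⟩
    exact ⟨r.1, ⟨r, hr, rfl⟩, rfl⟩
  · rintro ⟨_, ⟨r, hr, rfl⟩, rfl⟩
    exact ⟨g * r * g⁻¹, ⟨r, hr, rfl⟩, rfl⟩

omit [Fintype G] in
theorem mem_fxs_cg {R : Subgroup (G × G)} {g : G × G} {x : G} :
    g.1 * x * g.2⁻¹ ∈ fxs (cg R g) ↔ x ∈ fxs R := by
  constructor
  · intro h r hr
    have h1 := h (g * r * g⁻¹) ⟨r, hr, rfl⟩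
    change g.1 * r.1 * g.1⁻¹ * (g.1 * x * g.2⁻¹) = g.1 * x * g.2⁻¹ * (g.2 * r.2 * g.2⁻¹) at h1
    calc r.1 * x = g.1⁻¹ * (g.1 * r.1 * g.1⁻¹ * (g.1 * x * g.2⁻¹)) * g.2 := by group
      _ = x * r.2 := by rw [h1]; group
  · rintro h _ ⟨r, hr, rfl⟩
    have h1 := h r hr
    change g.1 * r.1 * g.1⁻¹ * (g.1 * x * g.2⁻¹) = g.1 * x * g.2⁻¹ * (g.2 * r.2 * g.2⁻¹)
    calc g.1 * r.1 * g.1⁻¹ * (g.1 * x * g.2⁻¹) = g.1 * (r.1 * x) * g.2⁻¹ := by group
      _ = _ := by rw [h1]; group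

theorem Xi_conj {R : Subgroup (G × G)} {f : MonoidAlgebra (KF M) G}
    (hf : IsBlk (cz (pr R)) f) (g γ : G × G) :
    Xi (cg R g) (cj g.1 f) (g * γ * g⁻¹) = Xi R f γ := by
  classical
  unfold Xi
  symm
  apply Finset.sum_bij (fun x _ => g.1 * x * g.2⁻¹)
  · intro x hx
    exact Finset.mem_filter.mpr ⟨Finset.mem_univ _, mem_fxs_cg.mpr (Finset.mem_filter.mp hx).2⟩
  · intro a _ b _ hab
    exact mul_left_cancel (mul_right_cancel hab)
  · intro y hy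
    have h1 : g.1 * (g.1⁻¹ * y * g.2) * g.2⁻¹ = y := by group
    refine ⟨g.1⁻¹ * y * g.2, Finset.mem_filter.mpr ⟨Finset.mem_univ _, ?_⟩, h1⟩
    rw [← mem_fxs_cg (g := g), h1]
    exact (Finset.mem_filter.mp hy).2
  · intro x _
    rw [pr_cg, ← cg_cz]
    have h2 : (g * γ * g⁻¹).1⁻¹ * (g.1 * x * g.2⁻¹) * (g * γ * g⁻¹).2 * (g.1 * x * g.2⁻¹)⁻¹ =
        g.1 * (γ.1⁻¹ * x * γ.2 * x⁻¹) * g.1⁻¹ := by
      change (g.1 * γ.1 * g.1⁻¹)⁻¹ * (g.1 * x * g.2⁻¹) * (g.2 * γ.2 * g.2⁻¹) *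
        (g.1 * x * g.2⁻¹)⁻¹ = _
      group
    rw [h2, ec_cj hf]

open Classical in
theorem ec_conv_fxs {R : Subgroup (G × G)} {f : MonoidAlgebra (KF M) G} {x z : G}
    (hz : z ∈ fxs R) :
    ∑ y : G with y ∈ fxs R, ec (cz (pr R)) f (x * y⁻¹) * ec (cz (pr R)) f (y * z⁻¹) =
      ec (cz (pr R)) f (x * z⁻¹) := by
  rw [← ec_conv (cz (pr R)) f (x * z⁻¹)]
  have h1 : ∑ y : G with y ∈ fxs R, ec (cz (pr R)) f (x * y⁻¹) * ec (cz (pr R)) f (y * z⁻¹) =
      ∑ y : G, ec (cz (pr R)) f (x * y⁻¹) * ec (cz (pr R)) f (y * z⁻¹) := by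
    rw [Finset.sum_filter]
    apply Finset.sum_congr rfl
    intro y _
    split_ifs with hy
    · rfl
    · rw [ec_of_notMem (g := y * z⁻¹) (fun h => hy ((mem_fxs_iff hz).mpr h)), mul_zero]
  rw [h1]
  apply Finset.sum_bij (fun y _ => x * y⁻¹)
  · intro _ _; exact Finset.mem_univ _
  · intro a _ b _ hab
    exact inv_injective (mul_left_cancel hab)
  · intro v _
    exact ⟨v⁻¹ * x, Finset.mem_univ _, by group⟩
  · intro y _
    congr 2
    group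

end Xi2

section Lab

variable {M : Ideal AlgInt} [hM : M.IsPrime] {p : ℕ} [hp : Fact p.Prime]
variable {G : Type u} [Group G]

/-- Label systems: compatible generalized characters on the pairs of a block. -/
structure IsLab (p : ℕ) (E : MonoidAlgebra (KF M) G)
    (lab : Subgroup G → MonoidAlgebra (KF M) G → G → ℂ) : Prop where
  res : ∀ Q f Q' f', InB p E Q' f' → PLE p Q f Q' f' → ∀ r ∈ Q, lab Q f r = lab Q' f' r
  cjg : ∀ g Q f, InB p E Q f → ∀ r ∈ Q, lab (cg Q g) (cj g f) (g * r * g⁻¹) = lab Q f r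
  gen : ∀ Q f, InB p E Q f → IsGeneralizedCharacter Q (fun r : Q => lab Q f r)

end Lab

section Pairs

variable {M : Ideal AlgInt} [hM : M.IsPrime] {p : ℕ} [hp : Fact p.Prime] [hch : CharP (KF M) p]
variable {G : Type u} [Group G] [Fintype G]

/-- The pairs over a subgroup of `G × G`. -/
def XP (p : ℕ) (E : MonoidAlgebra (KF M) G) (T : Subgroup (G × G)) : Type u :=
  {x : Subgroup T × MonoidAlgebra (KF M) G // InB p E (pr (um x.1)) x.2}

variable {E : MonoidAlgebra (KF M) G} {T : Subgroup (G × G)}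

instance : Finite (XP p E T) := by
  let F : XP p E T → Σ R : Subgroup T, blks (KF M) (cz (pr (um R))) := fun x =>
    ⟨x.1.1, ⟨x.1.2, x.2.2.1.2⟩⟩
  have hfin : ∀ R : Subgroup T, Finite (blks (KF M) (cz (pr (um R)))) := fun R =>
    (blks_finite (k := KF M) (cz (pr (um R)))).to_subtype
  apply Finite.of_injective F
  rintro ⟨⟨R, f⟩, h⟩ ⟨⟨R', f'⟩, h'⟩ hF
  simp only [F, Sigma.mk.injEq] at hF
  obtain ⟨h1, h2⟩ := hF
  subst h1
  have h3 : f = f' := congrArg Subtype.val (eq_of_heq h2)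
  subst h3
  rfl

noncomputable instance : MulAction T (XP p E T) where
  smul t x := ⟨(cg x.1.1 t, cj (t : G × G).1 x.1.2), by
    have h := x.2.cj (t : G × G).1
    have h2 : pr (um (cg x.1.1 t)) = cg (pr (um x.1.1)) (t : G × G).1 := by
      rw [um_cg, pr_cg]
    rw [h2]
    exact h⟩
  one_smul x := by
    apply Subtype.ext
    change (cg x.1.1 1, cj ((1 : T) : G × G).1 x.1.2) = x.1
    rw [cg_one]
    change (x.1.1, cj 1 x.1.2) = x.1
    rw [cj_one_apply]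
  mul_smul a b x := by
    apply Subtype.ext
    change (cg x.1.1 (a * b), cj ((a : G × G).1 * (b : G × G).1) x.1.2) =
      (cg (cg x.1.1 b) a, cj (a : G × G).1 (cj (b : G × G).1 x.1.2))
    rw [cg_cg, cj_mul_apply]

omit hp hch in
theorem XP_smul_fst (t : T) (x : XP p E T) : (t • x).1.1 = cg x.1.1 t := rfl

omit hp hch in
theorem XP_smul_snd (t : T) (x : XP p E T) : (t • x).1.2 = cj (t : G × G).1 x.1.2 := rfl

/-- The poset structure. -/
noncomputable def XPS (p : ℕ) [hp : Fact p.Prime] [hch : CharP (KF M) p]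
    (E : MonoidAlgebra (KF M) G) (T : Subgroup (G × G)) : PSys T (XP p E T) where
  sub x := x.1.1
  le x y := x.1.1 ≤ y.1.1 ∧ PLE p (pr (um x.1.1)) x.1.2 (pr (um y.1.1)) y.1.2
  refl x := ⟨le_rfl, PLE.refl _ _⟩
  trans h1 h2 := ⟨h1.1.trans h2.1, h1.2.trans h2.2⟩
  mono h := h.1
  act t x y h := by
    refine ⟨cg_mono h.1 t, ?_⟩
    have h1 := h.2.cj (t : G × G).1
    change PLE p (pr (um (cg x.1.1 t))) (cj (t : G × G).1 x.1.2)
      (pr (um (cg y.1.1 t))) (cj (t : G × G).1 y.1.2)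
    rw [um_cg, pr_cg, um_cg, pr_cg]
    exact h1
  sub_act t r x := by
    change r ∈ cg x.1.1 t ↔ _
    rw [mem_cg]
  self x r hr := by
    apply Subtype.ext
    change (cg x.1.1 r, cj (r : G × G).1 x.1.2) = x.1
    have h1 : cj (r : G × G).1 x.1.2 = x.1.2 := by
      apply isFx_of_isSup_cz x.2.2.1.2.isSup
      exact ⟨(r : G × G), ⟨r, hr, rfl⟩, rfl⟩
    rw [cg_eq_of_mem hr, h1]
  ex y R hR := by
    obtain ⟨f, hf⟩ := exists_ple y.2.2.1 (pr (um R))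
      (Subgroup.map_mono (Subgroup.map_mono hR))
    exact ⟨⟨(R, f), y.2.of_ple' hf⟩, ⟨hR, hf⟩, rfl⟩
  uniq {x x' y} h1 h2 h := by
    obtain ⟨⟨R, f⟩, hx⟩ := x
    obtain ⟨⟨R', f'⟩, hx'⟩ := x'
    change R = R' at h
    subst h
    have h3 := ple_unique y.2.2.1 _ h1.2 h2.2
    change f = f' at h3
    subst h3
    rfl

/-- Restriction of pairs in terms of Brauer maps. -/
theorem pair_iff {R : Subgroup (G × G)} {f f' : MonoidAlgebra (KF M) G} {n : G × G}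
    (hf : InB p E (pr R) f) (hn : n.1 ∈ nz (pr R)) (hfn : cj n.1 f = f)
    (hpg : IsPGroup p (pr (R ⊔ Subgroup.zpowers n))) :
    (InB p E (pr (R ⊔ Subgroup.zpowers n)) f' ∧
      PLE p (pr R) f (pr (R ⊔ Subgroup.zpowers n)) f') ↔
    f' ∈ bf (cz (pr (R ⊔ Subgroup.zpowers n))) (br (pr (R ⊔ Subgroup.zpowers n)) f) := by
  have hnz : pr (R ⊔ Subgroup.zpowers n) ≤ nz (pr R) := by
    rw [pr_sup_zpowers]
    exact sup_zpowers_le_nz hn
  rw [mem_bf]
  constructor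
  · rintro ⟨h1, h2⟩
    have h3 := h2.nsub h1.2.1 hnz
    exact ⟨h1.2.1.2, h3.2.2.2.2.2⟩
  · rintro ⟨h1, h2⟩
    have hle : pr R ≤ pr (R ⊔ Subgroup.zpowers n) := Subgroup.map_mono le_sup_left
    have hfx : IsFx (pr (R ⊔ Subgroup.zpowers n)) f := by
      rw [pr_sup_zpowers]
      exact isFx_sup_zpowers hn (isFx_of_isSup_cz hf.2.1.2.isSup) hfn
    have h3 : NSub p (pr R) f (pr (R ⊔ Subgroup.zpowers n)) f' :=
      ⟨hf.2.1, ⟨hpg, h1⟩, hle, hnz, hfx, h2⟩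
    exact ⟨hf.of_ple h3.ple, h3.ple⟩

end Pairs

end Cfsg.Agent.H26
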