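import Mathlib
import Cfsg.Agent.H26.Star6

set_option autoImplicit false

/-!
# The `*`-construction, VII: generalized characters on `p`-subgroups of `G × G`
-/

namespace Cfsg.Agent.H26

open MonoidAlgebra MulAction Cfsg Cfsg.Agent.H11 Cfsg.Agent.H3 Finset
open scoped ComplexConjugate

universe u

section Wt

variable {M : Ideal AlgInt} [hM : M.IsPrime] {p : ℕ} [hp : Fact p.Prime] [hch : CharP (KF M) p]
variable {G : Type u} [Group G] [Fintype G]
variable {E : MonoidAlgebra (KF M) G} {T S : Subgroup (G × G)}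

/-- weights of pairs -/
noncomputable def wt (S : Subgroup (G × G)) [Fintype S] (β : S → ℂ) (R : Subgroup (G × G))
    (f : MonoidAlgebra (KF M) G) : ℂ :=
  classInner (fun s : S => Xi R f (s : G × G)) β

omit hM hp hch [Fintype G] in
theorem um_zpowers (u : T) : um (Subgroup.zpowers u) = Subgroup.zpowers (u : G × G) := by
  rw [um, MonoidHom.map_zpowers]; rfl

omit hM hp hch [Fintype G] in
theorem isPGroup_pr {R : Subgroup (G × G)} (hT : IsPGroup p T) (hR : R ≤ T) :
    IsPGroup p (pr R) := (hT.to_le hR).map _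

/-- data attached to an element of the stabilizer -/
theorem stab_data {x : XP p E T} {n : T} (hn : n • x = x) :
    (∀ r, (n : G × G) * r * (n : G × G)⁻¹ ∈ um x.1.1 ↔ r ∈ um x.1.1) ∧
      cj (n : G × G).1 x.1.2 = x.1.2 ∧ (n : G × G).1 ∈ nz (pr (um x.1.1)) := by
  have h1 : cg x.1.1 n = x.1.1 := by
    have := XP_smul_fst n x
    rw [hn] at this
    exact this.symm
  have h2 : cj (n : G × G).1 x.1.2 = x.1.2 := by
    have := XP_smul_snd n x
    rw [hn] at this
    exact this.symm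
  have h3 : cg (um x.1.1) (n : G × G) = um x.1.1 := by
    rw [← um_cg, h1]
  refine ⟨fun r => ?_, h2, ?_⟩
  · constructor
    · intro h
      rw [← h3, mem_cg] at h
      have : (n : G × G)⁻¹ * ((n : G × G) * r * (n : G × G)⁻¹) * (n : G × G) = r := by group
      rwa [this] at h
    · intro h
      rw [← h3, mem_cg]
      have : (n : G × G)⁻¹ * ((n : G × G) * r * (n : G × G)⁻¹) * (n : G × G) = r := by group
      rwa [this]
  · apply mem_nz_of_cg_eq
    rw [← pr_cg, h3]

open Classical in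
theorem inner_wt (hMp : IsPModular p M) (hT : IsPGroup p T)
    (hTS : ∀ t ∈ T, ∀ s ∈ S, t * s = s * t) [Fintype S] (hS : ∀ s ∈ S, ¬ p ∣ orderOf s)
    (β : S → ℂ) {hfX : Fintype (XP p E T)} {x : XP p E T} {n : T} (hn : n • x = x) :
    ∑ y : XP p E T with ((XPS p E T).le x y ∧ (XPS p E T).sub y =
      (XPS p E T).sub x ⊔ Subgroup.zpowers n), wt S β (um y.1.1) y.1.2 =
      classInner (fun s : S => Xi (um x.1.1) x.1.2 ((n : G × G) * (s : G × G))) β := by
  obtain ⟨hnR, hfn, hnz⟩ := stab_data hn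
  have hnT : (n : G × G) ∈ T := n.2
  have hRT : um x.1.1 ≤ T := um_le _
  have hHT : um x.1.1 ⊔ Subgroup.zpowers (n : G × G) ≤ T :=
    sup_le hRT (Subgroup.zpowers_le.mpr hnT)
  have hpg := isPGroup_pr hT hHT
  have hum : um (x.1.1 ⊔ Subgroup.zpowers n) = um x.1.1 ⊔ Subgroup.zpowers (n : G × G) := by
    rw [um_sup, um_zpowers]
  obtain ⟨k, hk⟩ := (IsPGroup.iff_orderOf.mp hT) n
  have hk' : ∃ k : ℕ, orderOf (n : G × G) = p ^ k := ⟨k, by rw [Subgroup.orderOf_coe, hk]⟩
  have hord1 : ∀ s : S, ¬ p ∣ orderOf (s : G × G).1 := fun s h =>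
    hS s s.2 (h.trans (orderOf_map_dvd (MonoidHom.fst G G) (s : G × G)))
  have hord2 : ∀ s : S, ¬ p ∣ orderOf (s : G × G).2 := fun s h =>
    hS s s.2 (h.trans (orderOf_map_dvd (MonoidHom.snd G G) (s : G × G)))
  have htr : (fun s : S => Xi (um x.1.1) x.1.2 ((n : G × G) * (s : G × G))) =
      ∑ f' ∈ bf (cz (pr (um x.1.1 ⊔ Subgroup.zpowers (n : G × G))))
        (br (pr (um x.1.1 ⊔ Subgroup.zpowers (n : G × G))) x.1.2),
        fun s : S => Xi (um x.1.1 ⊔ Subgroup.zpowers (n : G × G)) f' (s : G × G) := by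
    funext s
    rw [Finset.sum_apply]
    exact Xi_transfer hMp x.2.2.1.2 hnR hk' hfn (fun r hr => (hTS r (hRT hr) s s.2).symm)
      (hTS _ hnT s s.2).symm (hord1 s) (hord2 s)
  rw [htr, classInner_sum_left]
  apply Finset.sum_bij (fun y _ => y.1.2)
  · intro y hy
    obtain ⟨⟨h1, h2⟩, h3⟩ := (Finset.mem_filter.mp hy).2
    change y.1.1 = x.1.1 ⊔ Subgroup.zpowers n at h3
    have h4 := y.2
    rw [h3, hum] at h4 h2
    exact (pair_iff x.2 hnz hfn hpg).mp ⟨h4, h2⟩
  · intro y hy y' hy' h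
    have h3 : y.1.1 = x.1.1 ⊔ Subgroup.zpowers n := (Finset.mem_filter.mp hy).2.2
    have h3' : y'.1.1 = x.1.1 ⊔ Subgroup.zpowers n := (Finset.mem_filter.mp hy').2.2
    apply Subtype.ext
    exact Prod.ext (h3.trans h3'.symm) h
  · intro f' hf'
    obtain ⟨h1, h2⟩ := (pair_iff x.2 hnz hfn hpg).mpr hf'
    rw [← hum] at h1 h2
    exact ⟨⟨(x.1.1 ⊔ Subgroup.zpowers n, f'), h1⟩,
      Finset.mem_filter.mpr ⟨Finset.mem_univ _, ⟨le_sup_left, h2⟩, rfl⟩, rfl⟩
  · intro y hy
    have h3 : y.1.1 = x.1.1 ⊔ Subgroup.zpowers n := (Finset.mem_filter.mp hy).2.2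
    unfold wt
    rw [h3, hum]

open Classical in
theorem good_wt (hMp : IsPModular p M) (hT : IsPGroup p T)
    (hTS : ∀ t ∈ T, ∀ s ∈ S, t * s = s * t) [Fintype T] [Fintype S]
    (hS : ∀ s ∈ S, ¬ p ∣ orderOf s)
    (β : S → ℂ) (hβ : IsCharacter S β) [hfX : Fintype (XP p E T)] :
    (XPS p E T).Good (fun x => wt S β (um x.1.1) x.1.2) := by
  intro x
  let N := MulAction.stabilizer T x
  have hfN : Fintype N := Fintype.ofFinite _
  let φ : N × S →* G × G := MonoidHom.mk' (fun γ => ((γ.1 : T) : G × G) * (γ.2 : G × G)) (by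
    intro a b
    change (((a.1 : T) : G × G) * ((b.1 : T) : G × G)) * ((a.2 : G × G) * (b.2 : G × G)) =
      (((a.1 : T) : G × G) * (a.2 : G × G)) * (((b.1 : T) : G × G) * (b.2 : G × G))
    have h1 := hTS ((b.1 : T) : G × G) (b.1 : T).2 a.2 a.2.2
    calc (((a.1 : T) : G × G) * ((b.1 : T) : G × G)) * ((a.2 : G × G) * (b.2 : G × G)) =
        ((a.1 : T) : G × G) * (((b.1 : T) : G × G) * (a.2 : G × G)) * (b.2 : G × G) := by group
      _ = _ := by rw [h1]; group)
  have hφ : ∀ γ : N × S, φ γ = ((γ.1 : T) : G × G) * (γ.2 : G × G) := fun _ => rfl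
  have hRT : um x.1.1 ≤ T := um_le _
  have hsR : ∀ s : S, ∀ r ∈ um x.1.1, (s : G × G) * r = r * (s : G × G) := fun s r hr =>
    (hTS r (hRT hr) s s.2).symm
  have hchar : IsCharacter (N × S) (fun γ : N × S => Xi (um x.1.1) x.1.2 (φ γ)) := by
    apply isChar_two_sided φ (fxs (um x.1.1))
    · intro γ y hy
      obtain ⟨hnR, -, -⟩ := stab_data (x := x) (n := (γ.1 : T)) γ.1.2
      have h3 : cg (um x.1.1) (φ γ) = um x.1.1 := by
        rw [hφ, ← cg_cg]
        have h4 : cg (um x.1.1) (γ.2 : G × G) = um x.1.1 := by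
          ext r
          rw [mem_cg]
          constructor
          · intro h
            have h5 := hsR γ.2 _ h
            have h6 : r = (γ.2 : G × G) * ((γ.2 : G × G)⁻¹ * r * (γ.2 : G × G)) *
              (γ.2 : G × G)⁻¹ := by group
            rw [h5] at h6
            have h7 : r = (γ.2 : G × G)⁻¹ * r * (γ.2 : G × G) := by
              conv_lhs => rw [h6]
              group
            rw [h7]; exact h
          · intro h
            have h5 := hsR γ.2 r h
            have h6 : (γ.2 : G × G)⁻¹ * r * (γ.2 : G × G) = r := by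
              rw [mul_assoc, ← h5]; group
            rw [h6]; exact h
        rw [h4]
        ext r
        rw [mem_cg]
        rw [← hnR ((((γ.1 : T) : G × G))⁻¹ * r * ((γ.1 : T) : G × G))]
        have h5 : ((γ.1 : T) : G × G) * ((((γ.1 : T) : G × G))⁻¹ * r * ((γ.1 : T) : G × G)) *
          (((γ.1 : T) : G × G))⁻¹ = r := by group
        rw [h5]
      have h5 := (mem_fxs_cg (g := φ γ)).mpr hy
      rwa [h3] at h5
    · intro γ g
      obtain ⟨-, hfn, hnz⟩ := stab_data (x := x) (n := (γ.1 : T)) γ.1.2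
      have hs1 : (γ.2 : G × G).1 ∈ cz (pr (um x.1.1)) := by
        rw [mem_cz_pr]
        intro r hr
        exact (congrArg Prod.fst (hsR γ.2 r hr)).symm
      have h1 : (φ γ).1 = ((γ.1 : T) : G × G).1 * (γ.2 : G × G).1 := rfl
      apply ec_inv x.2.2.1.2
      · rw [h1]
        exact Subgroup.mul_mem _ (normalizer_le_normalizer_centralizer _ hnz)
          (Subgroup.le_normalizer hs1)
      · rw [h1, cj_mul_apply, x.2.2.1.2.isFx _ hs1, hfn]
    · intro y hy z hz
      exact ec_conv_fxs hz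
  obtain ⟨k, hk⟩ := classInner_char_nat hchar (isChar_comp hβ (MonoidHom.snd N S))
  refine ⟨k, ?_⟩
  rw [Finset.sum_congr rfl fun n hn => inner_wt hMp hT hTS hS β (Finset.mem_filter.mp hn).2]
  have hNS : (Nat.card (N × S) : ℂ) = (Nat.card N : ℂ) * Nat.card S := by
    rw [Nat.card_prod, Nat.cast_mul]
  have hNne : (Nat.card N : ℂ) ≠ 0 := by exact_mod_cast Nat.card_pos.ne'
  have hSne : (Nat.card S : ℂ) ≠ 0 := by exact_mod_cast Nat.card_pos.ne'
  have h2 : (Nat.card N : ℂ) * (k : ℂ) = ∑ n : N,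
      classInner (fun s : S => Xi (um x.1.1) x.1.2 (((n : T) : G × G) * (s : G × G))) β := by
    rw [← hk]
    unfold classInner
    rw [hNS, Fintype.sum_prod_type, ← Finset.mul_sum, mul_inv, ← mul_assoc, ← mul_assoc,
      mul_inv_cancel₀ hNne, one_mul]
    rfl
  change _ = (Nat.card N : ℂ) * ((k : ℤ) : ℂ)
  rw [Int.cast_natCast, h2]
  exact Finset.sum_subtype (univ.filter fun n : T => n • x = x) (by simp [N]) _

open Classical in
/-- The twisted trace. -/
noncomputable def ThT (lab : Subgroup G → MonoidAlgebra (KF M) G → G → ℂ)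
    (E : MonoidAlgebra (KF M) G) (u s : G × G) : ℂ :=
  ∑ f ∈ bf (cz (Subgroup.zpowers u.1)) (br (Subgroup.zpowers u.1) E),
    lab (Subgroup.zpowers u.1) f u.1 * Xi (Subgroup.zpowers u) f s

theorem isGen_ThT (hMp : IsPModular p M) (hE : IsBlk (⊤ : Subgroup G) E) (hT : IsPGroup p T)
    (hTS : ∀ t ∈ T, ∀ s ∈ S, t * s = s * t) [Fintype S]
    (hS : ∀ s ∈ S, ¬ p ∣ orderOf s) {lab : Subgroup G → MonoidAlgebra (KF M) G → G → ℂ}
    (hlab : IsLab p E lab) (β : S → ℂ) (hβ : IsCharacter S β) :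
    IsGeneralizedCharacter T (fun u : T =>
      classInner (fun s : S => ThT lab E (u : G × G) (s : G × G)) β) := by
  classical
  have hfT : Fintype T := Fintype.ofFinite T
  have hfX : Fintype (XP p E T) := Fintype.ofFinite _
  have key := (XPS p E T).isGen_Fn
    (ev := fun x t => lab (pr (um x.1.1)) x.1.2 (t : G × G).1)
    (w := fun x => wt S β (um x.1.1) x.1.2)
    (by
      intro x y hxy r hr
      exact hlab.res _ _ _ _ y.2 hxy.2 _ ⟨(r : G × G), ⟨r, hr, rfl⟩, rfl⟩)
    (by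
      intro t x r hr
      have h1 := hlab.cjg (t : G × G).1 _ _ x.2 (r : G × G).1 ⟨(r : G × G), ⟨r, hr, rfl⟩, rfl⟩
      rw [← pr_cg, ← um_cg] at h1
      exact h1)
    (by
      intro x
      let φ : ((XPS p E T).sub x) →* pr (um x.1.1) :=
        MonoidHom.mk' (fun r => ⟨((r : T) : G × G).1, ⟨((r : T) : G × G), ⟨r, r.2, rfl⟩, rfl⟩⟩)
          (fun a b => rfl)
      exact isGen_comp (hlab.gen _ _ x.2) φ)
    (by
      intro t x
      change wt S β (um (cg x.1.1 t)) (cj (t : G × G).1 x.1.2) = wt S β (um x.1.1) x.1.2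
      unfold wt
      congr 1
      funext s
      rw [um_cg, ← Xi_conj x.2.2.1.2 (t : G × G) (s : G × G)]
      congr 1
      rw [hTS t t.2 s s.2]; group)
    (good_wt hMp hT hTS hS β hβ)
  convert key using 1
  funext u
  unfold PSys.Fn
  have hpr : pr (Subgroup.zpowers (u : G × G)) = Subgroup.zpowers (u : G × G).1 := by
    unfold pr
    rw [MonoidHom.map_zpowers]; rfl
  have hpg : IsPGroup p (Subgroup.zpowers (u : G × G).1) := by
    rw [← hpr]
    exact isPGroup_pr hT (Subgroup.zpowers_le.mpr u.2)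
  have h1 : (fun s : S => ThT lab E (u : G × G) (s : G × G)) =
      ∑ f ∈ bf (cz (Subgroup.zpowers (u : G × G).1)) (br (Subgroup.zpowers (u : G × G).1) E),
        lab (Subgroup.zpowers (u : G × G).1) f (u : G × G).1 •
          fun s : S => Xi (Subgroup.zpowers (u : G × G)) f (s : G × G) := by
    funext s
    rw [Finset.sum_apply]
    rfl
  rw [h1, classInner_sum_left]
  symm
  apply Finset.sum_bij (fun x _ => x.1.2)
  · intro x hx
    have h2 : x.1.1 = Subgroup.zpowers u := (Finset.mem_filter.mp hx).2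
    have h3 := x.2
    rw [h2, um_zpowers, hpr] at h3
    exact mem_bf.mpr ⟨h3.2.1.2, h3.2.2⟩
  · intro x hx x' hx' h
    have h2 : x.1.1 = Subgroup.zpowers u := (Finset.mem_filter.mp hx).2
    have h2' : x'.1.1 = Subgroup.zpowers u := (Finset.mem_filter.mp hx').2
    exact Subtype.ext (Prod.ext (h2.trans h2'.symm) h)
  · intro f hf
    obtain ⟨h2, h3⟩ := mem_bf.mp hf
    have h4 : InB p E (pr (um (Subgroup.zpowers u))) f := by
      rw [um_zpowers, hpr]
      exact ⟨hE, ⟨hpg, h2⟩, h3⟩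
    exact ⟨⟨(Subgroup.zpowers u, f), h4⟩, Finset.mem_filter.mpr ⟨Finset.mem_univ _, rfl⟩, rfl⟩
  · intro x hx
    have h2 : x.1.1 = Subgroup.zpowers u := (Finset.mem_filter.mp hx).2
    rw [classInner_smul_left]
    change lab (pr (um x.1.1)) x.1.2 (u : G × G).1 * wt S β (um x.1.1) x.1.2 = _
    rw [h2, um_zpowers, hpr]
    rfl

end Wt

end Cfsg.Agent.H26
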