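import Mathlib
import Cfsg.Agent.H26.Star7

set_option autoImplicit false

/-!
# The `*`-construction, VIII: elementary subgroups
-/

namespace Cfsg.Agent.H26

open MonoidAlgebra MulAction Cfsg Cfsg.Agent.H11 Cfsg.Agent.H3 Finset
open scoped ComplexConjugate

universe u

section El

variable {Γ : Type u} [Group Γ] [Finite Γ] {p q : ℕ} [hp : Fact p.Prime]

omit hp in
theorem eq_top_of_idx {D : Type u} [Group D] [Finite D] {A B H : Subgroup D} {q k : ℕ}
    (hq : q.Prime) (hA : A.index = q ^ k) (hB : ¬ q ∣ B.index) (hAH : A ≤ H) (hBH : B ≤ H) :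
    H = ⊤ := by
  rw [← Subgroup.index_eq_one]
  have h1 : H.index ∣ q ^ k := by rw [← hA]; exact Subgroup.index_dvd_of_le hAH
  have h2 : H.index ∣ B.index := Subgroup.index_dvd_of_le hBH
  obtain ⟨j, _, hj⟩ := (Nat.dvd_prime_pow hq).mp h1
  rcases Nat.eq_zero_or_pos j with h0 | h0
  · rw [hj, h0, pow_zero]
  · exact absurd ((hj ▸ dvd_pow_self q h0.ne').trans h2) hB

theorem elem_split' {D : Type u} [Group D] [Finite D] (hq : q.Prime) (h : IsElementary q D) :
    ∃ T S : Subgroup D, (∀ t ∈ T, ∀ s ∈ S, t * s = s * t) ∧ IsPGroup p T ∧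
      (∀ s ∈ S, ¬ p ∣ orderOf s) ∧ T ⊔ S = ⊤ := by
  obtain ⟨x, hx, hxq, k, hk⟩ := h
  rw [Subgroup.mem_center_iff] at hx
  have hqf := Fact.mk hq
  rcases eq_or_ne q p with rfl | hqp
  · obtain ⟨T⟩ : Nonempty (Sylow q D) := inferInstance
    refine ⟨T, Subgroup.zpowers x, ?_, T.isPGroup', ?_, ?_⟩
    · rintro t ht _ ⟨m, rfl⟩
      exact (Commute.zpow_right (show Commute t x from hx t) m).eq
    · intro s hs hd
      have h1 : orderOf s ∣ orderOf x := by
        have := orderOf_dvd_natCard (⟨s, hs⟩ : Subgroup.zpowers x)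
        rwa [Subgroup.orderOf_mk, Nat.card_zpowers] at this
      have h2 : q ∣ Nat.gcd (orderOf x) q := Nat.dvd_gcd (hd.trans h1) dvd_rfl
      rw [hxq] at h2
      exact hq.one_lt.ne' (Nat.dvd_one.mp h2)
    · exact eq_top_of_idx hq hk T.not_dvd_index le_sup_right le_sup_left
  · obtain ⟨u, v, huv, hc, ⟨j, hj⟩, hv, ⟨a, ha⟩, ⟨b, hb⟩⟩ := exists_isPPart_full hp.out x
    obtain ⟨Q⟩ : Nonempty (Sylow q D) := inferInstance
    have hu : ∀ g, g * u = u * g := by
      intro g; rw [ha]; exact (Commute.pow_right (show Commute g x from hx g) a).eq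
    have hvc : ∀ g, g * v = v * g := by
      intro g; rw [hb]; exact (Commute.pow_right (show Commute g x from hx g) b).eq
    refine ⟨Subgroup.zpowers u, Subgroup.zpowers v ⊔ (Q : Subgroup D), ?_, ?_, ?_, ?_⟩
    · rintro _ ⟨m, rfl⟩ s _
      exact (Commute.zpow_left (show Commute u s from (hu s).symm) m).eq
    · exact IsPGroup.of_card (by rw [Nat.card_zpowers, hj])
    · intro s hs hd
      have hN : (Subgroup.zpowers v).Normal := ⟨by
        rintro _ ⟨m, rfl⟩ g
        refine ⟨m, ?_⟩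
        have := (Commute.zpow_right (show Commute g v from hvc g) m).eq
        change v ^ m = g * v ^ m * g⁻¹
        rw [this]; group⟩
      rw [← SetLike.mem_coe, Subgroup.normal_mul] at hs
      obtain ⟨_, ⟨m, rfl⟩, y, hy, rfl⟩ := Set.mem_mul.mp hs
      have h1 : (v ^ m * y) ^ (orderOf v * Nat.card (Q : Subgroup D)) = 1 := by
        have hcm : Commute (v ^ m) y := (Commute.zpow_right (show Commute y v from hvc y) m).symm
        rw [hcm.mul_pow, pow_mul, ← zpow_natCast (v ^ m), ← zpow_mul, mul_comm m, zpow_mul,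
          zpow_natCast, pow_orderOf_eq_one, one_zpow, one_pow, one_mul, mul_comm, pow_mul]
        have : y ^ Nat.card (Q : Subgroup D) = 1 := by
          have := pow_card_eq_one' (x := (⟨y, hy⟩ : (Q : Subgroup D)))
          exact congrArg Subtype.val this
        rw [this, one_pow]
      have h2 := hd.trans (orderOf_dvd_of_pow_eq_one h1)
      rcases hp.out.dvd_mul.mp h2 with h3 | h3
      · exact hv h3
      · obtain ⟨n, hn⟩ := (IsPGroup.iff_card.mp Q.isPGroup')
        have h4 : p ∣ q ^ n := by rw [← hn]; exact h3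
        exact hqp ((Nat.prime_dvd_prime_iff_eq hp.out hq).mp (hp.out.dvd_of_dvd_pow h4)).symm
    · have h1 : Subgroup.zpowers x ≤ Subgroup.zpowers u ⊔ (Subgroup.zpowers v ⊔ (Q : Subgroup D)) := by
        rw [Subgroup.zpowers_le, ← huv]
        exact Subgroup.mul_mem _ (Subgroup.mem_sup_left (Subgroup.mem_zpowers u))
          (Subgroup.mem_sup_right (Subgroup.mem_sup_left (Subgroup.mem_zpowers v)))
      exact eq_top_of_idx hq hk Q.not_dvd_index h1 (le_sup_right.trans le_sup_right)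

theorem elem_split {D : Subgroup Γ} (hq : q.Prime) (h : IsElementary q D) :
    ∃ T S : Subgroup Γ, (∀ t ∈ T, ∀ s ∈ S, t * s = s * t) ∧ IsPGroup p T ∧
      (∀ s ∈ S, ¬ p ∣ orderOf s) ∧ T ⊔ S = D := by
  obtain ⟨T, S, h1, h2, h3, h4⟩ := elem_split' (p := p) hq h
  refine ⟨T.map D.subtype, S.map D.subtype, ?_, h2.map _, ?_, ?_⟩
  · rintro _ ⟨t, ht, rfl⟩ _ ⟨s, hs, rfl⟩
    exact congrArg Subtype.val (h1 t ht s hs)
  · rintro _ ⟨s, hs, rfl⟩
    have h5 := h3 s hs
    change ¬ p ∣ orderOf (s : Γ)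
    rwa [Subgroup.orderOf_coe]
  · rw [← Subgroup.map_sup, h4, ← MonoidHom.range_eq_map, Subgroup.range_subtype]

theorem eq_one_of_pp {g : Γ} (h1 : ∃ k : ℕ, orderOf g = p ^ k) (h2 : ¬ p ∣ orderOf g) :
    g = 1 := by
  obtain ⟨k, hk⟩ := h1
  rcases Nat.eq_zero_or_pos k with h0 | h0
  · rw [h0, pow_zero] at hk
    exact orderOf_eq_one_iff.mp hk
  · exact absurd (hk ▸ dvd_pow_self p h0.ne') h2

theorem isGen_of_split {T S : Subgroup Γ} [Fintype T] [Fintype S]
    (hTS : ∀ t ∈ T, ∀ s ∈ S, t * s = s * t) (hT : IsPGroup p T)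
    (hS : ∀ s ∈ S, ¬ p ∣ orderOf s) {θ : Γ → ℂ} (hθ : IsClassFunction Γ θ)
    (h : ∀ β : S → ℂ, IsCharacter S β →
      IsGeneralizedCharacter T (fun u : T => classInner (fun s : S => θ ((u : Γ) * (s : Γ))) β)) :
    IsGeneralizedCharacter (T ⊔ S : Subgroup Γ) (fun d => θ (d : Γ)) := by
  classical
  let φ : T × S →* (T ⊔ S : Subgroup Γ) := MonoidHom.mk' (fun x => ⟨(x.1 : Γ) * (x.2 : Γ),
    Subgroup.mul_mem _ (Subgroup.mem_sup_left x.1.2) (Subgroup.mem_sup_right x.2.2)⟩) (by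
    intro a b
    apply Subtype.ext
    change ((a.1 : Γ) * (b.1 : Γ)) * ((a.2 : Γ) * (b.2 : Γ)) =
      ((a.1 : Γ) * (a.2 : Γ)) * ((b.1 : Γ) * (b.2 : Γ))
    have h1 := hTS (b.1 : Γ) b.1.2 (a.2 : Γ) a.2.2
    calc ((a.1 : Γ) * (b.1 : Γ)) * ((a.2 : Γ) * (b.2 : Γ)) =
        (a.1 : Γ) * ((b.1 : Γ) * (a.2 : Γ)) * (b.2 : Γ) := by group
      _ = _ := by rw [h1]; group)
  have hφ : ∀ x, (φ x : Γ) = (x.1 : Γ) * (x.2 : Γ) := fun _ => rfl
  have hinj : Function.Injective φ := by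
    rw [injective_iff_map_eq_one]
    rintro ⟨t, s⟩ hts
    have h1 : (t : Γ) * (s : Γ) = 1 := congrArg Subtype.val hts
    have h2 : (s : Γ) = (t : Γ)⁻¹ := (inv_eq_of_mul_eq_one_right h1).symm
    have h3 : (s : Γ) = 1 := by
      apply eq_one_of_pp (p := p) _ (hS s s.2)
      rw [h2, orderOf_inv]
      obtain ⟨k, hk⟩ := (IsPGroup.iff_orderOf.mp hT) t
      exact ⟨k, by rw [Subgroup.orderOf_coe, hk]⟩
    have h4 : (t : Γ) = 1 := by rw [h3, mul_one] at h1; exact h1
    exact Prod.ext (Subtype.ext h4) (Subtype.ext h3)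
  have hsurj : Function.Surjective φ := by
    rintro ⟨d, hd⟩
    have h5 : T ⊔ S ≤ (φ.range).map (T ⊔ S : Subgroup Γ).subtype := by
      apply sup_le
      · intro t ht
        exact ⟨φ (⟨t, ht⟩, 1), ⟨_, rfl⟩, by change t * ((1 : S) : Γ) = t; simp⟩
      · intro s hs
        exact ⟨φ (1, ⟨s, hs⟩), ⟨_, rfl⟩, by change ((1 : T) : Γ) * s = s; simp⟩
    obtain ⟨_, ⟨x, rfl⟩, hx⟩ := h5 hd
    exact ⟨x, Subtype.ext hx⟩
  let φe : T × S ≃* (T ⊔ S : Subgroup Γ) := MulEquiv.ofBijective φ ⟨hinj, hsurj⟩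
  have key : IsGeneralizedCharacter (T × S) (fun x => θ (φ x : Γ)) := by
    have hft : Fintype (T × S) := inferInstance
    rw [isGen_iff]
    constructor
    · intro a b
      change θ (φ (b * a * b⁻¹) : Γ) = θ (φ a : Γ)
      rw [map_mul, map_mul, map_inv]
      exact hθ (φ a : Γ) (φ b : Γ)
    · intro ψ
      obtain ⟨φ1, ψ1, hφ1, hψ1, hψ⟩ := (isIrr_prod_iff (ψ : T × S → ℂ)).mp ψ.2
      obtain ⟨n, hn⟩ := classInner_gen_int (h ψ1 (irr_isChar hψ1)) (isGen_of_irr hφ1)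
      refine ⟨n, ?_⟩
      rw [← hn, hψ]
      unfold classInner
      have hsum : ∀ F : T × S → ℂ, ∑ x : T × S, F x = ∑ t : T, ∑ s : S, F (t, s) := by
        intro F
        convert Fintype.sum_prod_type F
      rw [hsum, Nat.card_prod, Nat.cast_mul, mul_inv, mul_assoc]
      congr 1
      rw [Finset.mul_sum]
      apply Finset.sum_congr rfl
      intro t _
      rw [mul_assoc]
      congr 1
      rw [Finset.sum_mul]
      apply Finset.sum_congr rfl
      intro s _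
      change θ (φ (t, s) : Γ) * conj (φ1 t * ψ1 s) =
        θ ((t : Γ) * (s : Γ)) * conj (ψ1 s) * conj (φ1 t)
      rw [hφ, map_mul]
      ring
  have h6 := isGen_comp key φe.symm.toMonoidHom
  have h7 : (fun h : (T ⊔ S : Subgroup Γ) => θ (φ (φe.symm.toMonoidHom h) : Γ)) =
      fun d : (T ⊔ S : Subgroup Γ) => θ (d : Γ) := by
    funext d
    have : φ (φe.symm.toMonoidHom d) = d := φe.apply_symm_apply d
    rw [this]
  rw [← h7]
  exact h6

end El

end Cfsg.Agent.H26
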