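import Mathlib
import Cfsg.Agent.H26.Star8

set_option autoImplicit false

/-!
# The `*`-construction, IX: the construction
-/

namespace Cfsg.Agent.H26

open MonoidAlgebra MulAction Cfsg Cfsg.Agent.H11 Cfsg.Agent.H3 Finset
open scoped ComplexConjugate

universe u

section St

variable {M : Ideal AlgInt} [hM : M.IsPrime] {p : ℕ} [hp : Fact p.Prime] [hch : CharP (KF M) p]
variable {G : Type u} [Group G] [Fintype G]
variable {E : MonoidAlgebra (KF M) G}

/-- the contribution of a block of `C`, as a function on `G` -/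
noncomputable def tct (C : Subgroup G) (f : MonoidAlgebra (KF M) G) (χ : G → ℂ) (g : G) : ℂ :=
  ∑ c : G, ec C f c * χ (g * c)

theorem tct_eq_ct {C : Subgroup G} [Fintype C] {f : MonoidAlgebra (KF M) G} {χ : G → ℂ}
    (hχ : IsClassFunction G χ) {u : G} (hu : ∀ c ∈ C, u * c = c * u) (s : C) :
    tct C f χ (u * s) = ct C u (bs C f) χ s := by
  classical
  rw [ct_eq]
  have h1 : ∀ c : C, kr (bs C f) s c = ∑ k : C, ec C f ((s : G)⁻¹ * k * c * (k : G)⁻¹) := by
    intro c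
    have h2 := sum_ec_conj (M := M) (C := C) (f := f) (y := (s : G)) (z := (c : G)) s.2 c.2
    rw [← Subtype.coe_eta s s.2, ← Subtype.coe_eta c c.2, ← h2]
    exact Finset.sum_subtype (univ.filter fun c : G => c ∈ C) (by simp) _
  have hsum : tct C f χ (u * s) = ∑ d : C, ec C f (d : G) * χ (u * s * d) := by
    unfold tct
    have h3 : ∑ c : G, ec C f c * χ (u * s * c) =
        ∑ c ∈ univ.filter (fun c : G => c ∈ C), ec C f c * χ (u * s * c) := by
      rw [Finset.sum_filter]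
      apply Finset.sum_congr rfl
      intro c _
      split_ifs with hc
      · rfl
      · rw [ec_of_notMem hc, zero_mul]
    rw [h3]
    exact Finset.sum_subtype (univ.filter fun c : G => c ∈ C) (by simp) _
  rw [hsum]
  have h4 : ∑ c : C, χ (u * c) * kr (bs C f) s c =
      ∑ k : C, ∑ d : C, ec C f (d : G) * χ (u * s * d) := by
    simp_rw [h1, Finset.mul_sum]
    rw [Finset.sum_comm]
    apply Finset.sum_congr rfl
    intro k _
    symm
    apply Finset.sum_bij' (fun (d : C) _ => k⁻¹ * s * d * k) (fun (c : C) _ => s⁻¹ * k * c * k⁻¹)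
    · intro _ _; exact Finset.mem_univ _
    · intro _ _; exact Finset.mem_univ _
    · intro d _; group
    · intro c _; group
    · intro d _
      have h5 : (s : G)⁻¹ * k * ((k⁻¹ * s * d * k : C) : G) * (k : G)⁻¹ = d := by
        push_cast; group
      have h6 : u * ((k⁻¹ * s * d * k : C) : G) = (k : G)⁻¹ * (u * s * d) * ((k : G)⁻¹)⁻¹ := by
        have h7 := hu (k : G)⁻¹ (C.inv_mem k.2)
        push_cast
        calc u * ((k : G)⁻¹ * s * d * k) = (u * (k : G)⁻¹) * (s * d * k) := by group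
          _ = _ := by rw [h7]; group
      rw [h5, h6, hχ, mul_comm]
  rw [h4, Finset.sum_const, Finset.card_univ, nsmul_eq_mul, Nat.card_eq_fintype_card,
    ← mul_assoc, inv_mul_cancel₀ (by exact_mod_cast Fintype.card_ne_zero), one_mul]

theorem tct_cj {C : Subgroup G} {f : MonoidAlgebra (KF M) G} (hf : IsBlk C f) {χ : G → ℂ}
    (hχ : IsClassFunction G χ) (h g : G) :
    tct (cg C h) (cj h f) χ (h * g * h⁻¹) = tct C f χ g := by
  unfold tct
  symm
  apply Finset.sum_bij (fun c _ => h * c * h⁻¹)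
  · intro _ _; exact Finset.mem_univ _
  · intro a _ b _ hab
    exact mul_left_cancel (mul_right_cancel hab)
  · intro b _
    exact ⟨h⁻¹ * b * h, Finset.mem_univ _, by group⟩
  · intro c _
    rw [ec_cj hf]
    have : h * g * h⁻¹ * (h * c * h⁻¹) = h * (g * c) * h⁻¹ := by group
    rw [this, hχ]

/-- the `p`-part of an element -/
noncomputable def pp (p : ℕ) [hp : Fact p.Prime] (g : G) : G := (exists_isPPart hp.out g).choose

theorem pp_spec (p : ℕ) [hp : Fact p.Prime] (g : G) : IsPPart p g (pp p g) :=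
  (exists_isPPart hp.out g).choose_spec

theorem pp_eq {g x : G} (h : IsPPart p g x) : pp p g = x :=
  isPPart_unique hp.out (pp_spec p g) h

theorem pp_conj (h g : G) : pp p (h * g * h⁻¹) = h * pp p g * h⁻¹ :=
  pp_eq (isPPart_conj (pp_spec p g) h)

theorem bf_cj {C : Subgroup G} {a : MonoidAlgebra (KF M) G} (h : G) (F : MonoidAlgebra (KF M) G → ℂ) :
    ∑ f ∈ bf (cg C h) (cj h a), F f = ∑ f ∈ bf C a, F (cj h f) := by
  symm
  apply Finset.sum_bij (fun f _ => cj h f)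
  · intro f hf
    rw [mem_bf] at hf ⊢
    exact ⟨hf.1.cj h, by rw [← map_mul, hf.2]⟩
  · intro a _ b _ hab
    exact (cj h).injective hab
  · intro b hb
    rw [mem_bf] at hb
    refine ⟨cj h⁻¹ b, ?_, cj_cj_inv h b⟩
    rw [mem_bf]
    have h1 := hb.1.cj h⁻¹
    change IsBlk (cg (cg C h) h⁻¹) _ at h1
    rw [cg_inv_cg] at h1
    refine ⟨h1, ?_⟩
    have h2 := congrArg (cj h⁻¹) hb.2
    rwa [map_mul, cj_inv_cj] at h2
  · intro _ _; rfl

open Classical in
/-- The twisted character. -/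
noncomputable def stc (p : ℕ) [hp : Fact p.Prime]
    (lab : Subgroup G → MonoidAlgebra (KF M) G → G → ℂ)
    (E : MonoidAlgebra (KF M) G) (χ : G → ℂ) (g : G) : ℂ :=
  ∑ f ∈ bf (cz (Subgroup.zpowers (pp p g))) (br (Subgroup.zpowers (pp p g)) E),
    lab (Subgroup.zpowers (pp p g)) f (pp p g) * tct (cz (Subgroup.zpowers (pp p g))) f χ g

theorem inB_of_mem_bf (hE : IsBlk (⊤ : Subgroup G) E) {u : G} (hu : ∃ k : ℕ, orderOf u = p ^ k)
    {f : MonoidAlgebra (KF M) G}
    (hf : f ∈ bf (cz (Subgroup.zpowers u)) (br (Subgroup.zpowers u) E)) :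
    InB p E (Subgroup.zpowers u) f :=
  ⟨hE, ⟨isPGroup_zpowers hu, (mem_bf.mp hf).1⟩, (mem_bf.mp hf).2⟩

theorem pp_ppow (g : G) : ∃ k : ℕ, orderOf (pp p g) = p ^ k := by
  obtain ⟨_, _, _, h, _⟩ := pp_spec p g
  exact h

theorem stc_classFun (hE : IsBlk (⊤ : Subgroup G) E)
    {lab : Subgroup G → MonoidAlgebra (KF M) G → G → ℂ}
    (hlab : IsLab p E lab) {χ : G → ℂ} (hχ : IsClassFunction G χ) :
    IsClassFunction G (stc p lab E χ) := by
  intro g h
  unfold stc
  rw [pp_conj, ← cg_zpowers, ← cg_cz]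
  have h1 : br (cg (Subgroup.zpowers (pp p g)) h) E =
      cj h (br (Subgroup.zpowers (pp p g)) E) := by
    rw [cj_br', hE.isFx h (Subgroup.mem_top h)]
  rw [h1, bf_cj]
  apply Finset.sum_congr rfl
  intro f hf
  have hI := inB_of_mem_bf hE (pp_ppow g) hf
  rw [tct_cj hI.2.1.2 hχ]
  congr 1
  exact hlab.cjg h _ f hI (pp p g) (Subgroup.mem_zpowers _)

open Classical in
theorem sum_tct_mul (hMp : IsPModular p M) {B : Set (IrrCharacter G)} (hB : IsPBlock M B)
    {hfi : Fintype (IrrCharacter G)}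
    {u s : G × G} (hu1 : ∃ k : ℕ, orderOf u.1 = p ^ k) (hu2 : ∃ k : ℕ, orderOf u.2 = p ^ k)
    (hc1 : u.1 * s.1 = s.1 * u.1) (hc2 : u.2 * s.2 = s.2 * u.2)
    (hs1 : ¬ p ∣ orderOf s.1) (hs2 : ¬ p ∣ orderOf s.2) {f : MonoidAlgebra (KF M) G}
    (hf : InB p (EG M B) (Subgroup.zpowers u.1) f) :
    ∑ χ : IrrCharacter G with χ ∈ B,
      tct (cz (Subgroup.zpowers u.1)) f (χ : G → ℂ) (u.1 * s.1) *
        conj ((χ : G → ℂ) (u.2 * s.2)) = Xi (Subgroup.zpowers u) f s := by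
  have hpr : pr (Subgroup.zpowers u) = Subgroup.zpowers u.1 := by
    unfold pr
    rw [MonoidHom.map_zpowers]; rfl
  set C := cz (Subgroup.zpowers u.1) with hCdef
  have hfC : Fintype C := Fintype.ofFinite C
  have hCx : C = Subgroup.centralizer ({u.1} : Set G) := centralizer_zpowers u.1
  obtain ⟨hb, hbf⟩ := isPBlock_bs hf.2.1.2
  have hind : IsInducedBlock M C (bs C f) B := by
    rw [hCdef, isInducedBlock_cz_iff (isPGroup_zpowers hu1)]
    refine ⟨hb, hB, ?_⟩
    rw [hbf]; exact hf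
  have hs1C : s.1 ∈ C := mem_cz_zpowers.mpr hc1.symm
  have htct : ∀ χ : IrrCharacter G, tct C f (χ : G → ℂ) (u.1 * s.1) =
      (Nat.card C : ℂ)⁻¹ * ∑ c : C, (χ : G → ℂ) (u.1 * c) * kr (bs C f) ⟨s.1, hs1C⟩ c := by
    intro χ
    have h1 := tct_eq_ct (C := C) (f := f) (irr_classFun χ.2) (u := u.1)
      (fun c hc => (mem_cz_zpowers.mp hc).symm) ⟨s.1, hs1C⟩
    rw [h1, ct_eq]
  simp_rw [htct]
  have hord : ¬ p ∣ orderOf (⟨s.1, hs1C⟩ : C) := by rwa [Subgroup.orderOf_mk]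
  have hswap : ∑ χ : IrrCharacter G with χ ∈ B, ((Nat.card C : ℂ)⁻¹ *
        ∑ c : C, (χ : G → ℂ) (u.1 * c) * kr (bs C f) ⟨s.1, hs1C⟩ c) *
          conj ((χ : G → ℂ) (u.2 * s.2)) =
      (Nat.card C : ℂ)⁻¹ * ∑ c : C, kr (bs C f) ⟨s.1, hs1C⟩ c *
        ∑ χ : IrrCharacter G with χ ∈ B, (χ : G → ℂ) (u.1 * c) *
          conj ((χ : G → ℂ) (u.2 * s.2)) := by
    simp_rw [Finset.mul_sum, Finset.sum_mul]
    rw [Finset.sum_comm]
    apply Finset.sum_congr rfl
    intro c _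
    apply Finset.sum_congr rfl
    intro χ _
    ring
  rw [hswap]
  by_cases hx0 : ∃ x₀, u.1 * x₀ = x₀ * u.2
  · obtain ⟨x₀, hx₀⟩ := hx0
    have hu2' : u.2 = x₀⁻¹ * u.1 * x₀ := by rw [mul_assoc, hx₀]; group
    have hzC : x₀ * s.2 * x₀⁻¹ ∈ C := by
      rw [hCdef, mem_cz_zpowers]
      have h1 : u.1 = x₀ * u.2 * x₀⁻¹ := by rw [← hx₀]; group
      rw [h1]
      calc x₀ * s.2 * x₀⁻¹ * (x₀ * u.2 * x₀⁻¹) = x₀ * (s.2 * u.2) * x₀⁻¹ := by group
        _ = _ := by rw [← hc2]; group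
    have hzr : ¬ p ∣ orderOf (⟨x₀ * s.2 * x₀⁻¹, hzC⟩ : C) := by
      rw [Subgroup.orderOf_mk]
      have : orderOf (x₀ * s.2 * x₀⁻¹) = orderOf s.2 :=
        orderOf_injective (MulAut.conj x₀).toMonoidHom (MulAut.conj x₀).injective s.2
      rwa [this]
    have hval : ∀ χ : IrrCharacter G, (χ : G → ℂ) (u.2 * s.2) =
        (χ : G → ℂ) (u.1 * ((⟨x₀ * s.2 * x₀⁻¹, hzC⟩ : C) : G)) := by
      intro χ
      have h1 : u.2 * s.2 = x₀⁻¹ * (u.1 * (x₀ * s.2 * x₀⁻¹)) * (x₀⁻¹)⁻¹ := by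
        rw [hu2']; group
      rw [h1, irr_classFun χ.2]
    simp_rw [hval]
    have hterm : ∀ c : C, kr (bs C f) ⟨s.1, hs1C⟩ c *
        ∑ χ : IrrCharacter G with χ ∈ B, (χ : G → ℂ) (u.1 * c) *
          conj ((χ : G → ℂ) (u.1 * ((⟨x₀ * s.2 * x₀⁻¹, hzC⟩ : C) : G))) =
        ∑ b' ∈ indS M C B, kr (bs C f) ⟨s.1, hs1C⟩ c * kr b' c ⟨x₀ * s.2 * x₀⁻¹, hzC⟩ := by
      intro c
      rw [← Finset.mul_sum]
      by_cases hcr : p ∣ orderOf c
      · rw [kr_eq_zero hMp hb hord hcr, zero_mul, zero_mul]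
      · rw [section_pairing' hMp hB hu1 hCx c _ hcr hzr]
    simp_rw [hterm]
    rw [Finset.sum_comm]
    simp_rw [sum_kr_mul]
    rw [Finset.sum_eq_single (bs C f)]
    · rw [Set.inter_self, ← mul_assoc, inv_mul_cancel₀ (by exact_mod_cast Nat.card_pos.ne'),
        one_mul]
      have hx₀f : x₀ ∈ fxs (Subgroup.zpowers u) := by
        rintro _ ⟨m, rfl⟩
        change u.1 ^ m * x₀ = x₀ * u.2 ^ m
        have h1 : SemiconjBy x₀ u.2 u.1 := hx₀.symm
        exact (h1.zpow_right m).symm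
      unfold Xi
      rw [hpr, sum_fxs hx₀f, hpr, ← sum_ec_conj hs1C hzC]
      apply Finset.sum_congr rfl
      intro c _
      congr 1
      group
    · intro b' hb' hne
      rw [block_inter hMp hb (mem_indS.mp hb').1 (Ne.symm hne), kr_empty, mul_zero]
    · intro h
      exact absurd (mem_indS.mpr hind) h
  · push_neg at hx0
    have hRHS : Xi (Subgroup.zpowers u) f s = 0 := by
      unfold Xi
      apply Finset.sum_eq_zero
      intro x hx
      have h1 := (Finset.mem_filter.mp hx).2 u (Subgroup.mem_zpowers u)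
      exact absurd h1 (hx0 x)
    rw [hRHS]
    apply mul_eq_zero_of_right
    apply Finset.sum_eq_zero
    intro c _
    by_cases hcr : p ∣ orderOf c
    · rw [kr_eq_zero hMp hb hord hcr, zero_mul]
    · apply mul_eq_zero_of_right
      have h := block_orthogonality (G := G) hMp (g := u.1 * c)
        (h := u.2 * s.2) (x := u.1) (y := u.2)
        ⟨(c : G), rfl, (mem_cz_zpowers.mp c.2).symm, hu1, by rwa [Subgroup.orderOf_coe]⟩
        ⟨s.2, rfl, hc2, hu2, hs2⟩
        (by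
          intro hc
          obtain ⟨k, hk⟩ := isConj_iff.mp hc
          apply hx0 k⁻¹
          rw [← hk]; group) hB
      rw [finsum_mem_irr] at h
      rw [← h]
      apply Finset.sum_congr rfl
      intro χ _
      rw [char_inv (irr_isChar χ.2)]

end St

end Cfsg.Agent.H26
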