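import Mathlib
import Cfsg.Agent.H26.Star9

set_option autoImplicit false

/-!
# The `*`-construction, X: twisted characters are generalized characters
-/

namespace Cfsg.Agent.H26

open MonoidAlgebra MulAction Cfsg Cfsg.Agent.H11 Cfsg.Agent.H3 Finset
open scoped ComplexConjugate

universe u

section Th

variable {M : Ideal AlgInt} [hM : M.IsPrime] {p : ℕ} [hp : Fact p.Prime] [hch : CharP (KF M) p]
variable {G : Type u} [Group G] [Fintype G]

/-- The kernel of the twist. -/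
noncomputable def Th (p : ℕ) [hp : Fact p.Prime]
    (lab : Subgroup G → MonoidAlgebra (KF M) G → G → ℂ) (B : Set (IrrCharacter G))
    (γ : G × G) : ℂ :=
  ∑ᶠ χ ∈ B, stc p lab (EG M B) (χ : G → ℂ) γ.1 * conj ((χ : G → ℂ) γ.2)

theorem Th_us (hMp : IsPModular p M) {B : Set (IrrCharacter G)} (hB : IsPBlock M B)
    (lab : Subgroup G → MonoidAlgebra (KF M) G → G → ℂ)
    {u s : G × G} (hu1 : ∃ k : ℕ, orderOf u.1 = p ^ k) (hu2 : ∃ k : ℕ, orderOf u.2 = p ^ k)
    (hc1 : u.1 * s.1 = s.1 * u.1) (hc2 : u.2 * s.2 = s.2 * u.2)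
    (hs1 : ¬ p ∣ orderOf s.1) (hs2 : ¬ p ∣ orderOf s.2) :
    Th p lab B (u * s) = ThT lab (EG M B) u s := by
  classical
  have hfi := Fintype.ofFinite (IrrCharacter G)
  unfold Th
  rw [finsum_mem_irr]
  have hpp : pp p (u.1 * s.1) = u.1 := pp_eq ⟨s.1, rfl, hc1, hu1, hs1⟩
  change ∑ χ : IrrCharacter G with χ ∈ B, stc p lab (EG M B) (χ : G → ℂ) (u.1 * s.1) *
    conj ((χ : G → ℂ) (u.2 * s.2)) = _
  unfold stc ThT
  rw [hpp]
  simp_rw [Finset.sum_mul]
  rw [Finset.sum_comm]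
  apply Finset.sum_congr rfl
  intro f hf
  rw [← sum_tct_mul hMp hB hu1 hu2 hc1 hc2 hs1 hs2 (inB_of_mem_bf (isBlk_EG hB) hu1 hf),
    Finset.mul_sum]
  apply Finset.sum_congr rfl
  intro χ _
  ring

theorem Th_classFun {B : Set (IrrCharacter G)} (hB : IsPBlock M B)
    {lab : Subgroup G → MonoidAlgebra (KF M) G → G → ℂ}
    (hlab : IsLab p (EG M B) lab) : IsClassFunction (G × G) (Th p lab B) := by
  intro γ δ
  unfold Th
  apply finsum_mem_congr rfl
  intro χ _
  have h1 := stc_classFun (isBlk_EG hB) hlab (irr_classFun χ.2) γ.1 δ.1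
  have h2 := irr_classFun χ.2 γ.2 δ.2
  change stc p lab (EG M B) (χ : G → ℂ) (δ.1 * γ.1 * δ.1⁻¹) *
    conj ((χ : G → ℂ) (δ.2 * γ.2 * δ.2⁻¹)) = _
  rw [h1, h2]

theorem isGen_Th (hMp : IsPModular p M) {B : Set (IrrCharacter G)} (hB : IsPBlock M B)
    {lab : Subgroup G → MonoidAlgebra (KF M) G → G → ℂ}
    (hlab : IsLab p (EG M B) lab) : IsGeneralizedCharacter (G × G) (Th p lab B) := by
  classical
  apply brauer_char _ (Th_classFun hB hlab)
  intro D q hq hD
  obtain ⟨T, S, hTS, hT, hS, rfl⟩ := elem_split (p := p) hq hD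
  have hfT := Fintype.ofFinite T
  have hfS := Fintype.ofFinite S
  apply isGen_of_split hTS hT hS (Th_classFun hB hlab)
  intro β hβ
  have key := isGen_ThT hMp (isBlk_EG hB) hT hTS hS hlab β hβ
  convert key using 4 with u s
  obtain ⟨k, hk⟩ := (IsPGroup.iff_orderOf.mp hT) u
  rw [← Subgroup.orderOf_coe] at hk
  have h1 : ∃ k : ℕ, orderOf (u : G × G).1 = p ^ k := by
    have h2 : orderOf (u : G × G).1 ∣ p ^ k := by
      rw [← hk]; exact orderOf_map_dvd (MonoidHom.fst G G) (u : G × G)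
    obtain ⟨j, _, hj⟩ := (Nat.dvd_prime_pow hp.out).mp h2
    exact ⟨j, hj⟩
  have h2 : ∃ k : ℕ, orderOf (u : G × G).2 = p ^ k := by
    have h2 : orderOf (u : G × G).2 ∣ p ^ k := by
      rw [← hk]; exact orderOf_map_dvd (MonoidHom.snd G G) (u : G × G)
    obtain ⟨j, _, hj⟩ := (Nat.dvd_prime_pow hp.out).mp h2
    exact ⟨j, hj⟩
  have h3 := hTS u u.2 s s.2
  exact Th_us hMp hB lab h1 h2 (congrArg Prod.fst h3) (congrArg Prod.snd h3)
    (fun h => hS s s.2 (h.trans (orderOf_map_dvd (MonoidHom.fst G G) (s : G × G))))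
    (fun h => hS s s.2 (h.trans (orderOf_map_dvd (MonoidHom.snd G G) (s : G × G))))

/-- The main theorem of Broué and Puig: twisted characters are generalized characters. -/
theorem isGen_stc (hMp : IsPModular p M) {B : Set (IrrCharacter G)} (hB : IsPBlock M B)
    {lab : Subgroup G → MonoidAlgebra (KF M) G → G → ℂ}
    (hlab : IsLab p (EG M B) lab) {χ : IrrCharacter G} (hχ : χ ∈ B) :
    IsGeneralizedCharacter G (stc p lab (EG M B) (χ : G → ℂ)) := by
  classical
  have hfi := Fintype.ofFinite (IrrCharacter G)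
  rw [isGen_iff]
  refine ⟨stc_classFun (isBlk_EG hB) hlab (irr_classFun χ.2), fun ψ => ?_⟩
  have hirr : IsIrrCharacter (G × G) (fun γ => (ψ : G → ℂ) γ.1 * conj ((χ : G → ℂ) γ.2)) :=
    (isIrr_prod_iff _).mpr ⟨ψ, fun g => conj ((χ : G → ℂ) g), ψ.2, isIrr_conj χ.2, rfl⟩
  obtain ⟨n, hn⟩ := classInner_gen_int (isGen_Th hMp hB hlab) (isGen_of_irr hirr)
  refine ⟨n, ?_⟩
  rw [← hn]
  have h1 : Th p lab B = ∑ χ' : IrrCharacter G with χ' ∈ B,
      fun γ : G × G => stc p lab (EG M B) (χ' : G → ℂ) γ.1 *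
        (fun g => conj ((χ' : G → ℂ) g)) γ.2 := by
    funext γ
    unfold Th
    rw [finsum_mem_irr, Finset.sum_apply]
  rw [h1, classInner_sum_left]
  symm
  rw [Finset.sum_eq_single χ]
  · have h2 := classInner_prod (stc p lab (EG M B) (χ : G → ℂ)) (ψ : G → ℂ)
      (fun g => conj ((χ : G → ℂ) g)) (fun g => conj ((χ : G → ℂ) g))
    rw [classInner_self_of_irr (isIrr_conj χ.2), mul_one] at h2
    exact h2
  · intro χ' _ hne
    have h2 := classInner_prod (stc p lab (EG M B) (χ' : G → ℂ)) (ψ : G → ℂ)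
      (fun g => conj ((χ' : G → ℂ) g)) (fun g => conj ((χ : G → ℂ) g))
    rw [classInner_conj_conj, classInner_of_irr_ne χ'.2 χ.2 (fun h => hne (Subtype.ext h)),
      map_zero, mul_zero] at h2
    exact h2
  · intro h
    exact absurd (Finset.mem_filter.mpr ⟨Finset.mem_univ _, hχ⟩) h

end Th

end Cfsg.Agent.H26
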