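import Mathlib
import Cfsg.Agent.H26.Star10
import Cfsg.Agent.H26.BFus
import Cfsg.Agent.H26.Tot

set_option autoImplicit false

/-!
# The `*`-construction, XI: labels from stable functions on a defect group
-/

namespace Cfsg.Agent.H26

open MonoidAlgebra MulAction Cfsg Cfsg.Agent.H11 Cfsg.Agent.H3 Finset
open scoped ComplexConjugate

universe u

section LabF

variable {M : Ideal AlgInt} [hM : M.IsPrime] {p : ℕ} [hp : Fact p.Prime] [hch : CharP (KF M) p]
variable {G : Type u} [Group G] [Fintype G] {P : Subgroup G} {e E : MonoidAlgebra (KF M) G}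

/-- `η` is invariant under the fusion maps of `(P, e)`. -/
def FStab (p : ℕ) (P : Subgroup G) (e : MonoidAlgebra (KF M) G) (η : G → ℂ) : Prop :=
  ∀ Q g, BMor p P e Q g → ∀ r ∈ Q, η (g * r * g⁻¹) = η r

open Classical in
/-- The label system of a stable function. -/
noncomputable def labF (p : ℕ) (P : Subgroup G) (e : MonoidAlgebra (KF M) G) (η : G → ℂ)
    (Q : Subgroup G) (f : MonoidAlgebra (KF M) G) (r : G) : ℂ :=
  if h : ∃ x, PLE p (cg Q x) (cj x f) P e then η (h.choose * r * h.choose⁻¹) else 0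

theorem labF_eq {η : G → ℂ} (hη : FStab p P e η) {Q : Subgroup G} {f : MonoidAlgebra (KF M) G}
    {x : G} (hx : PLE p (cg Q x) (cj x f) P e) {r : G} (hr : r ∈ Q) :
    labF p P e η Q f r = η (x * r * x⁻¹) := by
  have h : ∃ x, PLE p (cg Q x) (cj x f) P e := ⟨x, hx⟩
  unfold labF
  rw [dif_pos h]
  set y := h.choose
  have hy : PLE p (cg Q y) (cj y f) P e := h.choose_spec
  have h1 : BMor p P e (cg Q y) (x * y⁻¹) := by
    have h2 : cg (cg Q y) (x * y⁻¹) = cg Q x := by rw [cg_cg]; congr 2; group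
    have h3 : cj (x * y⁻¹) (cj y f) = cj x f := by
      rw [← cj_mul_apply]; congr 2; group
    refine ⟨?_, cj y f, hy, ?_⟩
    · rw [h2]; exact hx.le
    · rw [h2, h3]; exact hx
  have h4 := hη _ _ h1 (y * r * y⁻¹) ⟨r, hr, rfl⟩
  rw [← h4]
  congr 1
  group

theorem isLab_labF (hm : MaxB p E P e) {η : G → ℂ} (hη : FStab p P e η)
    (hgen : IsGeneralizedCharacter P (fun r : P => η r)) : IsLab p E (labF p P e η) where
  res := by
    intro Q f Q' f' hI hle r hr
    obtain ⟨x, hx⟩ := hm.exists_conj hI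
    rw [labF_eq hη hx (hle.le hr), labF_eq hη ((hle.cj x).trans hx) hr]
  cjg := by
    intro g Q f hI r hr
    obtain ⟨x, hx⟩ := hm.exists_conj hI
    have h2 : cg (cg Q g) (x * g⁻¹) = cg Q x := by rw [cg_cg]; congr 2; group
    have h3 : cj (x * g⁻¹) (cj g f) = cj x f := by
      rw [← cj_mul_apply]; congr 2; group
    have hx' : PLE p (cg (cg Q g) (x * g⁻¹)) (cj (x * g⁻¹) (cj g f)) P e := by
      rw [h2, h3]; exact hx
    have h4 := labF_eq hη hx' (r := g * r * g⁻¹) ⟨r, hr, rfl⟩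
    rw [labF_eq hη hx hr, h4]
    congr 1
    group
  gen := by
    intro Q f hI
    obtain ⟨x, hx⟩ := hm.exists_conj hI
    let φ : Q →* P := MonoidHom.mk' (fun r => ⟨x * (r : G) * x⁻¹, hx.le ⟨(r : G), r.2, rfl⟩⟩) (by
      intro a b
      apply Subtype.ext
      change x * ((a : G) * (b : G)) * x⁻¹ = x * a * x⁻¹ * (x * b * x⁻¹)
      group)
    have h1 := isGen_comp hgen φ
    convert h1 using 2 with r
    rw [labF_eq hη hx r.2]
    rfl

end LabF

section Inner

variable {M : Ideal AlgInt} [hM : M.IsPrime] {p : ℕ} [hp : Fact p.Prime] [hch : CharP (KF M) p]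
variable {G : Type u} [Group G] [Fintype G] {P : Subgroup G} {e E : MonoidAlgebra (KF M) G}

theorem stc_us {lab : Subgroup G → MonoidAlgebra (KF M) G → G → ℂ} {χ : G → ℂ} {u s : G}
    (hu : ∃ k : ℕ, orderOf u = p ^ k) (hc : u * s = s * u) (hs : ¬ p ∣ orderOf s) :
    stc p lab E χ (u * s) =
      ∑ f ∈ bf (cz (Subgroup.zpowers u)) (br (Subgroup.zpowers u) E),
        lab (Subgroup.zpowers u) f u * tct (cz (Subgroup.zpowers u)) f χ (u * s) := by
  have hpp : pp p (u * s) = u := pp_eq ⟨s, rfl, hc, hu, hs⟩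
  unfold stc
  rw [hpp]

omit hp in
theorem mm_diag {X : Type u} [Group X] [Fintype X] {ι : Type*} (S : Finset ι) (a a' : ι → ℂ)
    (v v' : ι → X → ℂ) (h : ∀ i ∈ S, ∀ j ∈ S, i ≠ j → mm p (v i) (v' j) = 0) :
    mm p (∑ i ∈ S, a i • v i) (∑ i ∈ S, a' i • v' i) =
      ∑ i ∈ S, a i * conj (a' i) * mm p (v i) (v' i) := by
  classical
  rw [mm_sum_left]
  apply Finset.sum_congr rfl
  intro i hi
  rw [mm_sum_right, Finset.sum_eq_single i]
  · ring
  · intro j hj hne
    rw [h i hi j hj (Ne.symm hne), mul_zero]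
  · intro h; exact absurd hi h

omit hp in
open Classical in
theorem mm_eq_sum {X : Type u} [Group X] [Fintype X] (χ ψ : X → ℂ) :
    mm p χ ψ = (Nat.card X : ℂ)⁻¹ * ∑ s : X with ¬ p ∣ orderOf s, χ s * conj (ψ s) := by
  unfold mm classInner
  rw [Finset.sum_filter]
  congr 1
  apply Finset.sum_congr rfl
  intro s _
  by_cases hs : p ∣ orderOf s
  · rw [pr_sing hs, zero_mul, if_neg (not_not.mpr hs)]
  · rw [pr_reg hs, if_pos hs]

open Classical in
theorem local_stc (hMp : IsPModular p M) (hE : IsBlk (⊤ : Subgroup G) E) {u : G}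
    (hu : ∃ k : ℕ, orderOf u = p ^ k)
    (lab lab' : Subgroup G → MonoidAlgebra (KF M) G → G → ℂ) {χ χ' : G → ℂ}
    (hχ : IsClassFunction G χ) (hχ' : IsClassFunction G χ') :
    ∑ c : G with (c ∈ cz (Subgroup.zpowers u) ∧ ¬ p ∣ orderOf c),
        stc p lab E χ (u * c) * conj (stc p lab' E χ' (u * c)) =
      (Nat.card (cz (Subgroup.zpowers u)) : ℂ) *
        ∑ f ∈ bf (cz (Subgroup.zpowers u)) (br (Subgroup.zpowers u) E),
          lab (Subgroup.zpowers u) f u * conj (lab' (Subgroup.zpowers u) f u) *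
            cnk p (cz (Subgroup.zpowers u)) u f χ χ' := by
  set C := cz (Subgroup.zpowers u) with hCdef
  have hfC : Fintype C := Fintype.ofFinite C
  have h1 : ∑ c : G with (c ∈ C ∧ ¬ p ∣ orderOf c),
      stc p lab E χ (u * c) * conj (stc p lab' E χ' (u * c)) =
      ∑ s : C with ¬ p ∣ orderOf s, stc p lab E χ (u * s) * conj (stc p lab' E χ' (u * s)) := by
    symm
    apply Finset.sum_bij (fun (s : C) _ => (s : G))
    · intro s hs
      rw [Finset.mem_filter]
      exact ⟨Finset.mem_univ _, s.2, by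
        rw [Subgroup.orderOf_coe]; exact (Finset.mem_filter.mp hs).2⟩
    · intro a _ b _ h; exact Subtype.ext h
    · intro c hc
      obtain ⟨h3, h4⟩ := (Finset.mem_filter.mp hc).2
      refine ⟨⟨c, h3⟩, ?_, rfl⟩
      rw [Finset.mem_filter]
      refine ⟨Finset.mem_univ _, ?_⟩
      rw [← Subgroup.orderOf_coe]
      exact h4
    · intro _ _; rfl
  rw [h1]
  have h2 : ∀ (lab : Subgroup G → MonoidAlgebra (KF M) G → G → ℂ) {χ : G → ℂ},
      IsClassFunction G χ → ∀ s : C, ¬ p ∣ orderOf s → stc p lab E χ (u * s) =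
      (∑ f ∈ bf C (br (Subgroup.zpowers u) E), lab (Subgroup.zpowers u) f u •
        ct C u (bs C f) χ) s := by
    intro lab χ hχ s hs
    rw [stc_us hu (mem_cz_zpowers.mp s.2).symm (by rwa [Subgroup.orderOf_coe]),
      Finset.sum_apply]
    apply Finset.sum_congr rfl
    intro f _
    rw [← hCdef, tct_eq_ct hχ (fun c hc => (mem_cz_zpowers.mp hc).symm) s]
    rfl
  have h3 : ∑ s : C with ¬ p ∣ orderOf s, stc p lab E χ (u * s) *
      conj (stc p lab' E χ' (u * s)) = (Nat.card C : ℂ) *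
      mm p (∑ f ∈ bf C (br (Subgroup.zpowers u) E), lab (Subgroup.zpowers u) f u •
        ct C u (bs C f) χ) (∑ f ∈ bf C (br (Subgroup.zpowers u) E),
          lab' (Subgroup.zpowers u) f u • ct C u (bs C f) χ') := by
    rw [mm_eq_sum, ← mul_assoc, mul_inv_cancel₀ (by exact_mod_cast Nat.card_pos.ne'), one_mul]
    apply Finset.sum_congr rfl
    intro s hs
    have hs' := (Finset.mem_filter.mp hs).2
    rw [h2 lab hχ s hs', h2 lab' hχ' s hs']
  rw [h3, mm_diag]
  · congr 1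
    apply Finset.sum_congr rfl
    intro f hf
    congr 1
    unfold cnk cn mm
    congr!
  · intro f hf f' hf' hne
    have hI := inB_of_mem_bf (p := p) hE hu hf
    have hI' := inB_of_mem_bf (p := p) hE hu hf'
    apply mm_ct_eq_zero hMp u (isPBlock_bs hI.2.1.2).1 (isPBlock_bs hI'.2.1.2).1
    intro h
    apply hne
    rw [← (isPBlock_bs hI.2.1.2).2, ← (isPBlock_bs hI'.2.1.2).2, h]

open Classical in
/-- Inner products of twisted characters. -/
theorem inner_stc (hMp : IsPModular p M) (hE : IsBlk (⊤ : Subgroup G) E)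
    {Ω : Finset (G × MonoidAlgebra (KF M) G)}
    (hΩ : ∀ x f, (x, f) ∈ Ω ↔ (∃ j : ℕ, orderOf x = p ^ j) ∧ InB p E (Subgroup.zpowers x) f)
    (lab lab' : Subgroup G → MonoidAlgebra (KF M) G → G → ℂ) {χ χ' : G → ℂ}
    (hχ : IsClassFunction G χ) (hχ' : IsClassFunction G χ') :
    (Nat.card G : ℂ) * classInner (stc p lab E χ) (stc p lab' E χ') =
      ∑ ω ∈ Ω, (Nat.card (cz (Subgroup.zpowers ω.1)) : ℂ) *
        (lab (Subgroup.zpowers ω.1) ω.2 ω.1 * conj (lab' (Subgroup.zpowers ω.1) ω.2 ω.1) *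
          cnk p (cz (Subgroup.zpowers ω.1)) ω.1 ω.2 χ χ') := by
  unfold classInner
  rw [← mul_assoc, mul_inv_cancel₀ (by exact_mod_cast Nat.card_pos.ne'), one_mul,
    ← sum_pparts (p := p) (fun g => stc p lab E χ g * conj (stc p lab' E χ' g))]
  have h1 : ∀ x ∈ univ.filter (fun x : G => ∃ j : ℕ, orderOf x = p ^ j),
      ∑ c : G with (c ∈ cz (Subgroup.zpowers x) ∧ ¬ p ∣ orderOf c),
        stc p lab E χ (x * c) * conj (stc p lab' E χ' (x * c)) =
      ∑ f ∈ bf (cz (Subgroup.zpowers x)) (br (Subgroup.zpowers x) E),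
        (Nat.card (cz (Subgroup.zpowers x)) : ℂ) *
          (lab (Subgroup.zpowers x) f x * conj (lab' (Subgroup.zpowers x) f x) *
            cnk p (cz (Subgroup.zpowers x)) x f χ χ') := by
    intro x hx
    rw [local_stc hMp hE (Finset.mem_filter.mp hx).2 lab lab' hχ hχ', Finset.mul_sum]
  rw [Finset.sum_congr rfl h1, Finset.sum_sigma']
  apply Finset.sum_bij (fun (y : (_ : G) × MonoidAlgebra (KF M) G) _ => (y.1, y.2))
  · rintro ⟨x, f⟩ h
    rw [Finset.mem_sigma, Finset.mem_filter] at h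
    exact (hΩ x f).mpr ⟨h.1.2, inB_of_mem_bf hE h.1.2 h.2⟩
  · rintro ⟨x, f⟩ _ ⟨y, g⟩ _ h
    rw [Prod.mk.injEq] at h
    obtain ⟨rfl, rfl⟩ := h
    rfl
  · rintro ⟨x, f⟩ h
    obtain ⟨h1, h2⟩ := (hΩ x f).mp h
    refine ⟨⟨x, f⟩, ?_, rfl⟩
    rw [Finset.mem_sigma, Finset.mem_filter]
    exact ⟨⟨Finset.mem_univ _, h1⟩, mem_bf.mpr ⟨h2.2.1.2, h2.2.2⟩⟩
  · rintro ⟨x, f⟩ _
    rfl

end Inner

end Cfsg.Agent.H26
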