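import Mathlib
import Cfsg.Agent.H26.Star11

set_option autoImplicit false

/-!
# The `*`-construction, XII: composition of twists and linear twists
-/

namespace Cfsg.Agent.H26

open MonoidAlgebra MulAction Cfsg Cfsg.Agent.H11 Cfsg.Agent.H3 Finset
open scoped ComplexConjugate

universe u

section Comp

variable {M : Ideal AlgInt} [hM : M.IsPrime] {p : ℕ} [hp : Fact p.Prime] [hch : CharP (KF M) p]
variable {G : Type u} [Group G] [Fintype G] {E : MonoidAlgebra (KF M) G}

theorem sum_bf_indS {B : Set (IrrCharacter G)} (hB : IsPBlock M B)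
    {u : G} (hu : ∃ k : ℕ, orderOf u = p ^ k) (F : MonoidAlgebra (KF M) G → ℂ) :
    ∑ f ∈ bf (cz (Subgroup.zpowers u)) (br (Subgroup.zpowers u) (EG M B)), F f =
      ∑ b ∈ indS M (cz (Subgroup.zpowers u)) B, F (EH M (cz (Subgroup.zpowers u)) b) := by
  symm
  apply Finset.sum_bij (fun b _ => EH M (cz (Subgroup.zpowers u)) b)
  · intro b hb
    rw [mem_indS, isInducedBlock_cz_iff (isPGroup_zpowers hu)] at hb
    exact mem_bf.mpr ⟨hb.2.2.2.1.2, hb.2.2.2.2⟩
  · intro b hb b' hb' h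
    exact EH_injective (mem_indS.mp hb).1 (mem_indS.mp hb').1 h
  · intro f hf
    have hI := inB_of_mem_bf (p := p) (isBlk_EG hB) hu hf
    obtain ⟨b, hb, rfl⟩ := exists_EH hI.2.1.2
    refine ⟨b, ?_, rfl⟩
    rw [mem_indS, isInducedBlock_cz_iff (isPGroup_zpowers hu)]
    exact ⟨hb, hB, hI⟩
  · intro _ _; rfl

/-- The trivial labels give the identity. -/
theorem stc_one (hMp : IsPModular p M) {B : Set (IrrCharacter G)} (hB : IsPBlock M B)
    {χ : IrrCharacter G} (hχ : χ ∈ B) (g : G) :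
    stc p (fun _ _ _ => 1) (EG M B) (χ : G → ℂ) g = (χ : G → ℂ) g := by
  obtain ⟨s, hus, hc, hu, hs⟩ := pp_spec p g
  set u := pp p g
  rw [← hus, stc_us hu hc hs]
  have hfC : Fintype (cz (Subgroup.zpowers u)) := Fintype.ofFinite _
  have hsC : s ∈ cz (Subgroup.zpowers u) := mem_cz_zpowers.mpr hc.symm
  rw [sum_bf_indS hB hu (fun f => 1 * tct (cz (Subgroup.zpowers u)) f (χ : G → ℂ) (u * s))]
  have h1 := char_eq_sum_ct hMp hB hu (C := cz (Subgroup.zpowers u)) (centralizer_zpowers u) hχ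
    ⟨s, hsC⟩ (by rwa [Subgroup.orderOf_mk])
  rw [show ((χ : G → ℂ) (u * s)) = (χ : G → ℂ) (u * ((⟨s, hsC⟩ : cz (Subgroup.zpowers u)) : G))
    from rfl, h1]
  apply Finset.sum_congr rfl
  intro b hb
  have hbP : IsPBlock M b := (mem_indS.mp hb).1
  rw [one_mul]
  have h2 := tct_eq_ct (C := cz (Subgroup.zpowers u)) (f := EH M (cz (Subgroup.zpowers u)) b)
    (irr_classFun χ.2) (u := u) (fun c hc => (mem_cz_zpowers.mp hc).symm) ⟨s, hsC⟩
  rw [bs_EH hbP] at h2
  exact h2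

omit [Fintype G] in
theorem cz_zpowers_one : cz (Subgroup.zpowers (1 : G)) = ⊤ := by
  ext x
  rw [mem_cz_zpowers]
  simp

theorem bf_top (hE : IsBlk (⊤ : Subgroup G) E) :
    bf (cz (Subgroup.zpowers (1 : G))) (br (Subgroup.zpowers (1 : G)) E) = {E} := by
  ext f
  rw [mem_bf, Finset.mem_singleton, cz_zpowers_one]
  have h1 : br (Subgroup.zpowers (1 : G)) E = E := by
    rw [Subgroup.zpowers_one_eq_bot]
    exact br_bot E
  rw [h1]
  constructor
  · rintro ⟨hf, h⟩
    by_contra hne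
    rw [hE.mul_of_ne hf (Ne.symm hne)] at h
    exact hf.ne_zero h.symm
  · rintro rfl
    exact ⟨hE, hE.idem⟩

theorem stc_reg (hE : IsBlk (⊤ : Subgroup G) E)
    (lab : Subgroup G → MonoidAlgebra (KF M) G → G → ℂ) (χ : G → ℂ) {s : G}
    (hs : ¬ p ∣ orderOf s) :
    stc p lab E χ s = lab (Subgroup.zpowers 1) E 1 * tct (cz (Subgroup.zpowers 1)) E χ s := by
  have h1 := stc_us (lab := lab) (E := E) (χ := χ) (u := 1) (s := s) (p := p)
    ⟨0, by simp⟩ (by simp) hs
  rw [one_mul, bf_top hE, Finset.sum_singleton] at h1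
  exact h1

/-- Twists multiply by the value of the label on the `p`-regular elements. -/
theorem stc_reg' (hMp : IsPModular p M) {B : Set (IrrCharacter G)} (hB : IsPBlock M B)
    (lab : Subgroup G → MonoidAlgebra (KF M) G → G → ℂ)
    {χ : IrrCharacter G} (hχ : χ ∈ B) {s : G} (hs : ¬ p ∣ orderOf s) :
    stc p lab (EG M B) (χ : G → ℂ) s =
      lab (Subgroup.zpowers 1) (EG M B) 1 * (χ : G → ℂ) s := by
  rw [stc_reg (isBlk_EG hB) lab _ hs, ← stc_one hMp hB hχ s, stc_reg (isBlk_EG hB) _ _ hs,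
    one_mul]

theorem tct_stc (hMp : IsPModular p M) {B : Set (IrrCharacter G)} (hB : IsPBlock M B)
    {lab : Subgroup G → MonoidAlgebra (KF M) G → G → ℂ} (hlab : IsLab p (EG M B) lab)
    {χ : G → ℂ} (hχ : IsClassFunction G χ)
    {u s : G} (hu : ∃ k : ℕ, orderOf u = p ^ k) (hc : u * s = s * u) (hs : ¬ p ∣ orderOf s)
    {f : MonoidAlgebra (KF M) G}
    (hf : f ∈ bf (cz (Subgroup.zpowers u)) (br (Subgroup.zpowers u) (EG M B))) :
    tct (cz (Subgroup.zpowers u)) f (stc p lab (EG M B) χ) (u * s) =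
      lab (Subgroup.zpowers u) f u * tct (cz (Subgroup.zpowers u)) f χ (u * s) := by
  classical
  have hI := inB_of_mem_bf (p := p) (isBlk_EG hB) hu hf
  have hst := stc_classFun (isBlk_EG hB) hlab hχ
  set C := cz (Subgroup.zpowers u) with hCdef
  have hfC : Fintype C := Fintype.ofFinite C
  have hsC : s ∈ C := mem_cz_zpowers.mpr hc.symm
  have hord : ¬ p ∣ orderOf (⟨s, hsC⟩ : C) := by rwa [Subgroup.orderOf_mk]
  have hcom : ∀ c ∈ C, u * c = c * u := fun c hc => (mem_cz_zpowers.mp hc).symm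
  have hb := (isPBlock_bs hI.2.1.2).1
  have h1 := tct_eq_ct (f := f) hst hcom ⟨s, hsC⟩
  have h2 := tct_eq_ct (f := f) hχ hcom ⟨s, hsC⟩
  change tct C f (stc p lab (EG M B) χ) (u * s) = _ at h1
  change tct C f χ (u * s) = _ at h2
  rw [h1, h2, ct_eq, ct_eq]
  have h3 : ∀ c : C, stc p lab (EG M B) χ (u * c) * kr (bs C f) ⟨s, hsC⟩ c =
      ∑ f' ∈ bf C (br (Subgroup.zpowers u) (EG M B)), lab (Subgroup.zpowers u) f' u *
        (ct C u (bs C f') χ c * kr (bs C f) ⟨s, hsC⟩ c) := by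
    intro c
    by_cases hcr : p ∣ orderOf c
    · rw [kr_eq_zero hMp hb hord hcr, mul_zero]
      symm
      apply Finset.sum_eq_zero
      intro f' _
      rw [mul_zero, mul_zero]
    · rw [stc_us hu (hcom c c.2) (by rwa [Subgroup.orderOf_coe]), Finset.sum_mul]
      apply Finset.sum_congr rfl
      intro f' _
      rw [← hCdef, tct_eq_ct hχ hcom c]
      ring
  simp_rw [h3]
  rw [Finset.sum_comm]
  simp_rw [← Finset.mul_sum]
  have h4 : ∀ f' ∈ bf C (br (Subgroup.zpowers u) (EG M B)),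
      ∑ c : C, ct C u (bs C f') χ c * kr (bs C f) ⟨s, hsC⟩ c =
      ∑ d : C, χ (u * d) * kr (bs C f ∩ bs C f') ⟨s, hsC⟩ d := by
    intro f' _
    simp_rw [ct_eq, Finset.mul_sum, Finset.sum_mul]
    rw [Finset.sum_comm]
    apply Finset.sum_congr rfl
    intro d _
    have h5 := sum_kr_mul (bs C f) (bs C f') ⟨s, hsC⟩ d
    have h6 : ∑ c : C, (Nat.card C : ℂ)⁻¹ * (χ (u * d) * kr (bs C f') c d) *
        kr (bs C f) ⟨s, hsC⟩ c = (Nat.card C : ℂ)⁻¹ * χ (u * d) *
        ∑ c : C, kr (bs C f) ⟨s, hsC⟩ c * kr (bs C f') c d := by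
      rw [Finset.mul_sum]
      apply Finset.sum_congr rfl
      intro c _
      ring
    rw [h6, h5]
    have h7 : (Nat.card C : ℂ) ≠ 0 := by exact_mod_cast Nat.card_pos.ne'
    field_simp
  rw [Finset.sum_congr rfl fun f' hf' => by rw [h4 f' hf'], Finset.sum_eq_single f]
  · rw [Set.inter_self]; ring
  · intro f' hf' hne
    have hI' := inB_of_mem_bf (p := p) (isBlk_EG hB) hu hf'
    have hne' : bs C f ≠ bs C f' := by
      intro h
      apply hne
      rw [← (isPBlock_bs hI.2.1.2).2, ← (isPBlock_bs hI'.2.1.2).2, ← hCdef, h]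
    rw [block_inter hMp hb (isPBlock_bs hI'.2.1.2).1 hne']
    simp_rw [kr_empty, mul_zero]
    rw [Finset.sum_const_zero, mul_zero]
  · intro h; exact absurd hf h

theorem stc_stc (hMp : IsPModular p M) {B : Set (IrrCharacter G)} (hB : IsPBlock M B)
    {lab : Subgroup G → MonoidAlgebra (KF M) G → G → ℂ} (hlab : IsLab p (EG M B) lab)
    (lab' : Subgroup G → MonoidAlgebra (KF M) G → G → ℂ)
    {χ : G → ℂ} (hχ : IsClassFunction G χ) (g : G) :
    stc p lab' (EG M B) (stc p lab (EG M B) χ) g =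
      stc p (fun Q f r => lab' Q f r * lab Q f r) (EG M B) χ g := by
  obtain ⟨s, hus, hc, hu, hs⟩ := pp_spec p g
  set u := pp p g
  rw [← hus, stc_us hu hc hs, stc_us hu hc hs]
  apply Finset.sum_congr rfl
  intro f hf
  rw [tct_stc hMp hB hlab hχ hu hc hs hf]
  ring

end Comp

section Lin

variable {M : Ideal AlgInt} [hM : M.IsPrime] {p : ℕ} [hp : Fact p.Prime] [hch : CharP (KF M) p]
variable {G : Type u} [Group G] [Fintype G]

/-- Linear twists of irreducible characters are irreducible characters of the block. -/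
theorem stc_linear (hMp : IsPModular p M) {B : Set (IrrCharacter G)} (hB : IsPBlock M B)
    {lab : Subgroup G → MonoidAlgebra (KF M) G → G → ℂ} (hlab : IsLab p (EG M B) lab)
    (h1 : lab (Subgroup.zpowers 1) (EG M B) 1 = 1)
    (hu : ∀ Q f r, InB p (EG M B) Q f → r ∈ Q → lab Q f r * conj (lab Q f r) = 1)
    {χ : IrrCharacter G} (hχ : χ ∈ B) :
    ∃ ψ ∈ B, (ψ : G → ℂ) = stc p lab (EG M B) (χ : G → ℂ) := by
  classical
  have hfi := Fintype.ofFinite (IrrCharacter G)
  obtain ⟨Ω, hΩ, hΩ2⟩ := exists_Om (p := p) hB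
  have hgen := isGen_stc hMp hB hlab hχ
  have h2 := inner_stc hMp (isBlk_EG hB) hΩ lab lab (irr_classFun χ.2) (irr_classFun χ.2)
  have h3 : ∑ ω ∈ Ω, (Nat.card (cz (Subgroup.zpowers ω.1)) : ℂ) *
        (lab (Subgroup.zpowers ω.1) ω.2 ω.1 * conj (lab (Subgroup.zpowers ω.1) ω.2 ω.1) *
          cnk p (cz (Subgroup.zpowers ω.1)) ω.1 ω.2 (χ : G → ℂ) (χ : G → ℂ)) =
      Nat.card G := by
    rw [← total_cn hMp hB hΩ2 hχ]
    apply Finset.sum_congr rfl
    intro ω hω
    rw [hu _ _ _ ((hΩ ω.1 ω.2).mp hω).2 (Subgroup.mem_zpowers _), one_mul]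
  rw [h3] at h2
  have h4 : classInner (stc p lab (EG M B) (χ : G → ℂ)) (stc p lab (EG M B) (χ : G → ℂ)) = 1 := by
    have h0 : (Nat.card G : ℂ) ≠ 0 := by exact_mod_cast Nat.card_pos.ne'
    exact mul_left_cancel₀ h0 (by rw [h2, mul_one])
  have h5 : stc p lab (EG M B) (χ : G → ℂ) 1 = (χ : G → ℂ) 1 := by
    have hone : ¬ p ∣ orderOf (1 : G) := by
      rw [orderOf_one]; exact fun h => hp.out.one_lt.ne' (Nat.dvd_one.mp h)
    rw [stc_reg' hMp hB lab hχ hone, h1, one_mul]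
  have hirr : IsIrrCharacter G (stc p lab (EG M B) (χ : G → ℂ)) := by
    rcases gen_norm_one hgen h4 with h | h
    · exact h
    · exfalso
      obtain ⟨n, hn⟩ := char_one_eq_nat (irr_isChar h)
      obtain ⟨m, hm⟩ := char_one_eq_nat (irr_isChar χ.2)
      have h6 : -(m : ℂ) = n := by
        rw [← hn, ← hm, ← h5]; rfl
      have h7 : (m : ℤ) = 0 := by
        have : -(m : ℤ) = n := by exact_mod_cast h6
        omega
      have h8 : (χ : G → ℂ) 1 = 0 := by
        rw [hm]; exact_mod_cast h7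
      exact irr_one_ne_zero χ.2 h8
  refine ⟨⟨_, hirr⟩, ?_, rfl⟩
  by_contra hnot
  have h6 := blockPart_congr_reg hMp hB (θ := stc p lab (EG M B) (χ : G → ℂ))
    (η := (χ : G → ℂ)) (fun c hc => by rw [stc_reg' hMp hB lab hχ hc, h1, one_mul]) (g := 1)
    (by rw [orderOf_one]; exact fun h => hp.out.one_lt.ne' (Nat.dvd_one.mp h))
  rw [blockPart_eq_sum, blockPart_eq_sum] at h6
  rw [Finset.sum_eq_zero, Finset.sum_eq_single χ] at h6
  · rw [classInner_self_of_irr χ.2, one_mul] at h6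
    exact irr_one_ne_zero χ.2 h6.symm
  · intro ψ _ hne
    rw [classInner_of_irr_ne χ.2 ψ.2 (fun h => hne (Subtype.ext h.symm)), zero_mul]
  · intro h
    exact absurd (Finset.mem_filter.mpr ⟨Finset.mem_univ _, hχ⟩) h
  · intro ψ hψ
    have hψB := (Finset.mem_filter.mp hψ).2
    rw [classInner_of_irr_ne hirr ψ.2 (fun h => hnot (by
      have : (⟨_, hirr⟩ : IrrCharacter G) = ψ := Subtype.ext h
      rw [this]; exact hψB)), zero_mul]

end Lin

end Cfsg.Agent.H26
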