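import Mathlib
import Cfsg.Agent.H26.Coef3

set_option autoImplicit false

/-!
# Contributions for `p = 2`
-/

namespace Cfsg.Agent.H26

open Cfsg Cfsg.Agent.H3 Cfsg.Agent.H11 Cfsg.Agent.H27 Finset
open scoped ComplexConjugate

universe u

section Avg

theorem sq_eq_one_or {z : ℂ} (h : z ^ 2 = 1) : z = 1 ∨ z = -1 := by
  have h1 : (z - 1) * (z + 1) = 0 := by linear_combination h
  rcases mul_eq_zero.mp h1 with h2 | h2
  · left; exact sub_eq_zero.mp h2
  · right; exact eq_neg_of_add_eq_zero_left h2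

theorem mem_cop_two {j m : ℕ} : m ∈ cop (2 ^ (j + 1)) ↔ m < 2 ^ (j + 1) ∧ m % 2 = 1 := by
  rw [mem_cop, Nat.coprime_pow_right_iff (Nat.succ_pos j), Nat.coprime_two_right,
    Nat.odd_iff]

theorem root_avg {j : ℕ} {μ : ℂ} (hμ : μ ^ 2 ^ (j + 1) = 1) :
    ∃ t : ℤ, ∑ m ∈ cop (2 ^ (j + 1)), μ ^ m = ((cop (2 ^ (j + 1))).card : ℂ) * t := by
  have hodd : ∀ m : ℕ, m % 2 = 1 → (-1 : ℂ) ^ m = -1 := fun m hm =>
    Odd.neg_one_pow (Nat.odd_iff.mpr hm)
  by_cases h1 : μ = 1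
  · refine ⟨1, ?_⟩
    simp [h1]
  by_cases h2 : μ = -1
  · refine ⟨-1, ?_⟩
    rw [h2, Finset.sum_congr rfl fun m hm => hodd m (mem_cop_two.mp hm).2, Finset.sum_const,
      nsmul_eq_mul]
    push_cast; ring
  refine ⟨0, ?_⟩
  rw [Int.cast_zero, mul_zero]
  -- there is an even t with μ ^ t = -1
  have hex : ∃ t : ℕ, t % 2 = 0 ∧ t < 2 ^ (j + 1) ∧ μ ^ t = -1 := by
    obtain ⟨i, hi, hord⟩ := (Nat.dvd_prime_pow Nat.prime_two).mp (orderOf_dvd_of_pow_eq_one hμ)
    have hi2 : 2 ≤ i := by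
      by_contra hcon
      have : i = 0 ∨ i = 1 := by omega
      rcases this with rfl | rfl
      · apply h1
        rw [pow_zero] at hord
        exact orderOf_eq_one_iff.mp hord
      · have h3 : μ ^ 2 = 1 := by
          have := pow_orderOf_eq_one μ
          rwa [hord, pow_one] at this
        rcases sq_eq_one_or h3 with h | h
        · exact h1 h
        · exact h2 h
    refine ⟨2 ^ (i - 1), ?_, ?_, ?_⟩
    · have : i - 1 = (i - 2) + 1 := by omega
      rw [this, pow_succ]; omega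
    · exact Nat.pow_lt_pow_right (by norm_num) (by omega)
    · have h3 : (μ ^ 2 ^ (i - 1)) ^ 2 = 1 := by
        rw [← pow_mul, ← pow_succ, show i - 1 + 1 = i by omega, ← hord, pow_orderOf_eq_one]
      rcases sq_eq_one_or h3 with h | h
      · exfalso
        have h4 := orderOf_dvd_of_pow_eq_one h
        rw [hord] at h4
        have h5 := Nat.le_of_dvd (by positivity) h4
        have h6 := (Nat.pow_le_pow_iff_right (by norm_num : 1 < 2)).mp h5
        omega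
      · exact h
  obtain ⟨t, ht0, htN, ht⟩ := hex
  have hper : ∀ n : ℕ, μ ^ (n % 2 ^ (j + 1)) = μ ^ n := by
    intro n
    conv_rhs => rw [← Nat.mod_add_div n (2 ^ (j + 1)), pow_add, pow_mul, hμ, one_pow, mul_one]
  have h2N : 2 ∣ 2 ^ (j + 1) := dvd_pow_self 2 (Nat.succ_ne_zero j)
  have hpos : 0 < 2 ^ (j + 1) := by positivity
  have key : ∑ m ∈ cop (2 ^ (j + 1)), μ ^ ((m + t) % 2 ^ (j + 1)) =
      ∑ m ∈ cop (2 ^ (j + 1)), μ ^ m := by
    apply Finset.sum_nbij' (fun m => (m + t) % 2 ^ (j + 1))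
      (fun m => (m + (2 ^ (j + 1) - t)) % 2 ^ (j + 1))
    · intro m hm
      rw [mem_cop_two] at hm ⊢
      refine ⟨Nat.mod_lt _ hpos, ?_⟩
      rw [Nat.mod_mod_of_dvd _ h2N]; omega
    · intro m hm
      rw [mem_cop_two] at hm ⊢
      refine ⟨Nat.mod_lt _ hpos, ?_⟩
      rw [Nat.mod_mod_of_dvd _ h2N]
      obtain ⟨w, hw⟩ := h2N
      omega
    · intro m hm
      rw [mem_cop_two] at hm
      rw [Nat.mod_add_mod, show m + t + (2 ^ (j + 1) - t) = m + 2 ^ (j + 1) by omega,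
        Nat.add_mod_right, Nat.mod_eq_of_lt hm.1]
    · intro m hm
      rw [mem_cop_two] at hm
      rw [Nat.mod_add_mod, show m + (2 ^ (j + 1) - t) + t = m + 2 ^ (j + 1) by omega,
        Nat.add_mod_right, Nat.mod_eq_of_lt hm.1]
    · intro m _
      rfl
  have key2 : ∑ m ∈ cop (2 ^ (j + 1)), μ ^ ((m + t) % 2 ^ (j + 1)) =
      - ∑ m ∈ cop (2 ^ (j + 1)), μ ^ m := by
    rw [← Finset.sum_neg_distrib]
    apply Finset.sum_congr rfl
    intro m _
    rw [hper, pow_add, ht]; ring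
  have h5 : ∑ m ∈ cop (2 ^ (j + 1)), μ ^ m = - ∑ m ∈ cop (2 ^ (j + 1)), μ ^ m := by
    rw [← key2, key]
  have h6 : (2 : ℂ) * ∑ m ∈ cop (2 ^ (j + 1)), μ ^ m = 0 := by linear_combination h5
  exact (mul_eq_zero.mp h6).resolve_left two_ne_zero

/-- Symmetric sums modulo 2. -/
theorem sum_symm_mod_two {ι : Type*} (s : Finset ι) (f : ι → ι → ℤ) (hf : ∀ i j, f i j = f j i) :
    ∃ k : ℤ, ∑ i ∈ s, ∑ j ∈ s, f i j = ∑ i ∈ s, f i i + 2 * k := by
  classical
  induction s using Finset.induction_on with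
  | empty => exact ⟨0, by simp⟩
  | insert a s ha ih =>
    obtain ⟨k, hk⟩ := ih
    refine ⟨k + ∑ j ∈ s, f a j, ?_⟩
    rw [Finset.sum_insert ha, Finset.sum_insert ha]
    have h1 : ∑ i ∈ s, ∑ j ∈ insert a s, f i j = ∑ i ∈ s, f i a + ∑ i ∈ s, ∑ j ∈ s, f i j := by
      rw [← Finset.sum_add_distrib]
      apply Finset.sum_congr rfl
      intro i _
      rw [Finset.sum_insert ha]
    rw [h1, hk, Finset.sum_insert ha, Finset.sum_congr rfl fun i _ => hf i a]
    ring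

end Avg

section Two

variable {G : Type u} [Group G] [Fintype G] {M : Ideal AlgInt}

instance : Fact (Nat.Prime 2) := ⟨Nat.prime_two⟩

/-- The key facts for S4541. -/
theorem two_contr (hM : IsPModular 2 M) (B : Set (IrrCharacter G)) (hB : IsPBlock M B) (u : G)
    (hu : ∃ j : ℕ, orderOf u = 2 ^ j) (C : Subgroup G) [Fintype C]
    (hC : C = Subgroup.centralizer ({u} : Set G))
    (b : Set (IrrCharacter C)) (hb : IsInducedBlock M C b B)
    [Fintype (IrrCharacter G)] (S : Finset (IrrCharacter G))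
    (hS : ∀ χ, χ ∈ S ↔ χ ∈ B ∧ blockHeight 2 B (χ : G → ℂ) = 0) :
    ∃ x : IrrCharacter G → ℤ, (∀ χ ∈ S, ∃ k : ℤ, x χ = 2 * k + 1) ∧
      (∀ χ ∈ S, (S.card : ℤ) ≤ 2 ^ blockDefect 2 b * x χ) ∧
      ∑ χ ∈ S, x χ ≤ 2 ^ blockDefect 2 b * blockRank 2 b := by
  classical
  have := hM.2.1.isPrime
  have := Fintype.ofFinite (IrrCharacter C)
  obtain ⟨j, hj⟩ := hu
  let x : C := ⟨u, by rw [hC, Subgroup.mem_centralizer_singleton_iff]⟩
  have hx : ∀ c : C, x * c = c * x := by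
    intro c
    apply Subtype.ext
    have hc : ∀ g ∈ C, u * g = g * u := by
      intro g hg
      rw [hC] at hg
      exact (Subgroup.mem_centralizer_singleton_iff.mp hg).symm
    exact hc c c.2
  have hxo : orderOf x = 2 ^ j := by rw [← Subgroup.orderOf_coe]; exact hj
  have hxp : ∃ k : ℕ, orderOf x = 2 ^ k := ⟨j, hxo⟩
  set N := 2 ^ (j + 1) with hNdef
  have hN : N ≠ 0 := by positivity
  have hxN : x ^ N = 1 := by
    rw [← orderOf_dvd_iff_pow_eq_one, hxo, hNdef]; exact pow_dvd_pow 2 (Nat.le_succ j)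
  set q := blockDefect 2 b with hq
  -- powers of x
  have hxm : ∀ m : ℕ, ∀ c : C, x ^ m * c = c * x ^ m := fun m c =>
    (Commute.pow_left (show Commute x c from hx c) m).eq
  have hxmp : ∀ m : ℕ, ∃ k : ℕ, orderOf (x ^ m) = 2 ^ k := by
    intro m
    obtain ⟨k, -, hk⟩ := (Nat.dvd_prime_pow Nat.prime_two).mp
      (show orderOf (x ^ m) ∣ 2 ^ j by rw [← hxo]; exact orderOf_pow_dvd m)
    exact ⟨k, hk⟩
  have hCm : ∀ m ∈ cop N, C = Subgroup.centralizer ({u ^ m} : Set G) := by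
    intro m hm
    have hm2 := (mem_cop_two.mp hm).2
    have hcop : m.Coprime (orderOf u) := by
      rw [hj]
      exact Nat.Coprime.pow_right _ (Nat.coprime_two_right.mpr (Nat.odd_iff.mpr hm2))
    rw [hC, ← centralizer_zpowers u, ← centralizer_zpowers (u ^ m)]
    have : Subgroup.zpowers (u ^ m) = Subgroup.zpowers u := by
      apply Subgroup.eq_of_le_of_card_ge
      · rw [Subgroup.zpowers_le]; exact Subgroup.npow_mem_zpowers u m
      · rw [Nat.card_zpowers, Nat.card_zpowers, Nat.Coprime.orderOf_pow hcop.symm]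
    rw [this]
  have hum : ∀ m : ℕ, ∃ k : ℕ, orderOf (u ^ m) = 2 ^ k := by
    intro m
    obtain ⟨k, hk⟩ := hxmp m
    refine ⟨k, ?_⟩
    rw [← Subgroup.orderOf_coe, Subgroup.coe_pow] at hk
    exact hk
  obtain ⟨c, hcs, -, hcn⟩ := exists_cn_int (G := G) hM hb.1
  have hn : ∀ (χ : IrrCharacter G) (θ : IrrCharacter C), ∃ n : ℕ,
      classInner (fun c : C => (χ : G → ℂ) c) (θ : C → ℂ) = n := fun χ θ =>
    classInner_char_nat (isChar_restrict' (C := C) (irr_isChar χ.2)) (irr_isChar θ.2)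
  choose n hn using hn
  -- the averages of roots of unity
  have hμ : ∀ θ θ' : IrrCharacter C,
      (lv x (θ : C → ℂ) * conj (lv x (θ' : C → ℂ))) ^ 2 ^ (j + 1) = 1 := by
    intro θ θ'
    rw [mul_pow, ← map_pow, lv_pow_eq_one θ.2 hx hxN, lv_pow_eq_one θ'.2 hx hxN, map_one, mul_one]
  have hτ := fun θ θ' : IrrCharacter C => root_avg (hμ θ θ')
  choose τ hτ using hτ
  have hcard0 : ((cop N).card : ℂ) ≠ 0 := by
    exact_mod_cast (Finset.card_pos.mpr (cop_nonempty hN)).ne'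
  have hτs : ∀ θ θ', τ θ θ' = τ θ' θ := by
    intro θ θ'
    have h1 := congrArg conj (hτ θ θ')
    rw [map_sum, map_mul, Complex.conj_natCast] at h1
    have h2 : ∀ m : ℕ, conj ((lv x (θ : C → ℂ) * conj (lv x (θ' : C → ℂ))) ^ m) =
        (lv x (θ' : C → ℂ) * conj (lv x (θ : C → ℂ))) ^ m := by
      intro m
      rw [map_pow, map_mul, Complex.conj_conj, mul_comm]
    simp only [h2] at h1
    rw [hτ θ' θ, map_intCast] at h1
    exact_mod_cast (mul_left_cancel₀ hcard0 h1).symm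
  have hτ1 : ∀ θ, τ θ θ = 1 := by
    intro θ
    have h1 := hτ θ θ
    have h2 : lv x (θ : C → ℂ) * conj (lv x (θ : C → ℂ)) = 1 := by
      rw [conj_lv θ.2 hx hN hxN]
      apply mul_inv_cancel₀
      intro h
      have := lv_pow_eq_one θ.2 hx hxN
      rw [h, zero_pow hN] at this
      exact zero_ne_one this
    rw [h2] at h1
    simp only [one_pow, Finset.sum_const, nsmul_eq_mul] at h1
    exact_mod_cast (mul_left_cancel₀ hcard0 h1).symm
  -- the formula for the contributions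
  have hform : ∀ (χ : IrrCharacter G) (m : ℕ),
      (2 : ℂ) ^ q * cn 2 C ((x : G) ^ m) b (χ : G → ℂ) (χ : G → ℂ) =
      ∑ θ : IrrCharacter C, ∑ θ' : IrrCharacter C, (n χ θ : ℂ) * n χ θ' * c θ θ' *
        (lv x (θ : C → ℂ) * conj (lv x (θ' : C → ℂ))) ^ m := by
    intro χ m
    have h1 := hcn ((x : G) ^ m) (χ : G → ℂ) (χ : G → ℂ)
    rw [Nat.cast_ofNat] at h1
    rw [h1]
    apply Finset.sum_congr rfl
    intro θ _
    apply Finset.sum_congr rfl
    intro θ' _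
    have h2 : ((x ^ m : C) : G) = (x : G) ^ m := Subgroup.coe_pow _ _ _
    rw [← h2, ac_eq (irr_isChar χ.2) (hxm m), ac_eq (irr_isChar χ.2) (hxm m), hn, hn,
      lv_pow θ.2 hx, lv_pow θ'.2 hx, map_mul, Complex.conj_natCast, map_pow, mul_pow]
    ring
  let X : IrrCharacter G → ℤ := fun χ =>
    ∑ θ : IrrCharacter C, ∑ θ' : IrrCharacter C, (n χ θ : ℤ) * n χ θ' * c θ θ' * τ θ θ'
  have hX : ∀ χ : IrrCharacter G, ∑ m ∈ cop N, (2 : ℂ) ^ q *
      cn 2 C ((x : G) ^ m) b (χ : G → ℂ) (χ : G → ℂ) = ((cop N).card : ℂ) * X χ := by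
    intro χ
    simp only [hform]
    rw [Finset.sum_comm]
    push_cast [X]
    rw [Finset.mul_sum]
    apply Finset.sum_congr rfl
    intro θ _
    rw [Finset.sum_comm, Finset.mul_sum]
    apply Finset.sum_congr rfl
    intro θ' _
    rw [← Finset.mul_sum, hτ θ θ']
    ring
  -- real versions
  have hreal : ∀ (χ : IrrCharacter G) (m : ℕ), m ∈ cop N →
      cn 2 C ((x : G) ^ m) b (χ : G → ℂ) (χ : G → ℂ) =
      ((∑ ψ : IrrCharacter G with ψ ∈ B,
        ‖cn 2 C ((x : G) ^ m) b (χ : G → ℂ) (ψ : G → ℂ)‖ ^ 2 : ℝ) : ℂ) := by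
    intro χ m hm
    rw [← cn_mul hM hB (hum m) (hCm m hm) hb]
    push_cast
    apply Finset.sum_congr rfl
    intro ψ _
    rw [← cn_conj (p := 2) ((x : G) ^ m) b (χ : G → ℂ) (ψ : G → ℂ), Complex.mul_conj,
      Complex.normSq_eq_norm_sq]
    push_cast; rfl
  -- units
  have hunit : ∀ χ ∈ S, ∀ ψ ∈ S, ∀ m : ℕ,
      (2 : ℂ) ^ q * cn 2 C ((x : G) ^ m) b (χ : G → ℂ) (ψ : G → ℂ) ≠ 0 := by
    intro χ hχ ψ hψ m
    obtain ⟨t, ht, ht', -, htt⟩ := not_li_cn hM hb hx hxp ((hS χ).mp hχ).1 ((hS χ).mp hχ).2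
      ((hS ψ).mp hψ).1 ((hS ψ).mp hψ).2
    have h1 := htt (x ^ m) (hxm m) (hxmp m)
    rw [Subgroup.coe_pow] at h1
    apply ne_zero_of_not_li (M := M)
    rw [Nat.cast_ofNat] at h1
    rwa [li_congr h1]
  refine ⟨X, ?_, ?_, ?_⟩
  · -- oddness
    intro χ hχ
    obtain ⟨k1, hk1⟩ := sum_symm_mod_two (univ : Finset (IrrCharacter C))
      (fun θ θ' => (n χ θ : ℤ) * n χ θ' * c θ θ' * τ θ θ') (fun θ θ' => by
        rw [hcs θ θ', hτs θ θ']; ring)
    obtain ⟨k2, hk2⟩ := sum_symm_mod_two (univ : Finset (IrrCharacter C))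
      (fun θ θ' => (n χ θ : ℤ) * n χ θ' * c θ θ') (fun θ θ' => by
        rw [hcs θ θ']; ring)
    have h1 : ∑ θ : IrrCharacter C, (n χ θ : ℤ) * n χ θ * c θ θ * τ θ θ =
        ∑ θ : IrrCharacter C, (n χ θ : ℤ) * n χ θ * c θ θ := by
      apply Finset.sum_congr rfl
      intro θ _
      rw [hτ1, mul_one]
    rw [h1] at hk1
    set Y : ℤ := ∑ θ : IrrCharacter C, ∑ θ' : IrrCharacter C, (n χ θ : ℤ) * n χ θ' * c θ θ'
      with hY
    have hYodd : ¬ (2 : ℤ) ∣ Y := by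
      have h2 := hform χ 0
      simp only [pow_zero, mul_one] at h2
      obtain ⟨t, ht, ht', -, htt⟩ := not_li_cn hM hb hx hxp ((hS χ).mp hχ).1 ((hS χ).mp hχ).2
        ((hS χ).mp hχ).1 ((hS χ).mp hχ).2
      have h3 := htt 1 (fun c => by rw [one_mul, mul_one]) ⟨0, by rw [orderOf_one, pow_zero]⟩
      rw [Subgroup.coe_one, Nat.cast_ofNat, h2] at h3
      have h4 : ¬ MemLocalIdeal M (Y : ℂ) := by
        have h5 : (Y : ℂ) = ∑ θ : IrrCharacter C, ∑ θ' : IrrCharacter C,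
            (n χ θ : ℂ) * n χ θ' * c θ θ' := by
          push_cast [hY]; rfl
        rw [h5, li_congr h3]
        exact ht'
      intro h5
      apply h4
      rw [li_intCast_iff hM]
      exact h5
    have h6 : X χ = Y + 2 * (k1 - k2) := by
      have : X χ = ∑ θ : IrrCharacter C, ∑ θ' : IrrCharacter C,
        (n χ θ : ℤ) * n χ θ' * c θ θ' * τ θ θ' := rfl
      rw [this, hk1, hk2]; ring
    have h7 : ¬ (2 : ℤ) ∣ X χ := by
      intro h
      apply hYodd
      have : Y = X χ - 2 * (k1 - k2) := by rw [h6]; ring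
      rw [this]
      exact dvd_sub h (dvd_mul_right _ _)
    exact ⟨X χ / 2, by omega⟩
  · -- lower bound
    intro χ hχ
    have hcardpos : (0 : ℝ) < ((cop N).card : ℝ) := by
      exact_mod_cast Finset.card_pos.mpr (cop_nonempty hN)
    have h1 : ∀ ψ ∈ S, ((cop N).card : ℝ) ≤ ∑ m ∈ cop N,
        ‖(2 : ℂ) ^ q * cn 2 C ((x : G) ^ m) b (χ : G → ℂ) (ψ : G → ℂ)‖ ^ 2 := by
      intro ψ hψ
      have hg := gal_cn hM hb.1 hN (irr_isChar χ.2) (irr_isChar ψ.2) hx hxN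
      rw [Nat.cast_ofNat] at hg
      apply totient_le_sum hN (hg.mul (isGalSeq_conj hN hg))
      · intro m _
        rw [Complex.mul_conj, Complex.normSq_eq_norm_sq]
      · intro m _
        apply pow_pos
        rw [norm_pos_iff]
        exact hunit χ hχ ψ hψ m
    have h2 : (S.card : ℝ) * (cop N).card ≤ ∑ m ∈ cop N, ∑ ψ ∈ S,
        ‖(2 : ℂ) ^ q * cn 2 C ((x : G) ^ m) b (χ : G → ℂ) (ψ : G → ℂ)‖ ^ 2 := by
      rw [Finset.sum_comm, ← nsmul_eq_mul]
      exact Finset.card_nsmul_le_sum _ _ _ h1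
    have h3 : ∀ m ∈ cop N, ∑ ψ ∈ S,
        ‖(2 : ℂ) ^ q * cn 2 C ((x : G) ^ m) b (χ : G → ℂ) (ψ : G → ℂ)‖ ^ 2 ≤
        (2 : ℝ) ^ q * ((2 : ℝ) ^ q * ∑ ψ : IrrCharacter G with ψ ∈ B,
        ‖cn 2 C ((x : G) ^ m) b (χ : G → ℂ) (ψ : G → ℂ)‖ ^ 2) := by
      intro m _
      rw [← mul_assoc, ← sq, Finset.mul_sum]
      have h4 : ∀ ψ : IrrCharacter G,
          ‖(2 : ℂ) ^ q * cn 2 C ((x : G) ^ m) b (χ : G → ℂ) (ψ : G → ℂ)‖ ^ 2 =
          ((2 : ℝ) ^ q) ^ 2 * ‖cn 2 C ((x : G) ^ m) b (χ : G → ℂ) (ψ : G → ℂ)‖ ^ 2 := by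
        intro ψ
        rw [norm_mul, mul_pow, norm_pow]
        norm_num
      simp only [h4]
      apply Finset.sum_le_sum_of_subset_of_nonneg
      · intro ψ hψ
        exact Finset.mem_filter.mpr ⟨Finset.mem_univ _, ((hS ψ).mp hψ).1⟩
      · intro ψ _ _; positivity
    have h4 : ∑ m ∈ cop N, (2 : ℝ) ^ q * ((2 : ℝ) ^ q * ∑ ψ : IrrCharacter G with ψ ∈ B,
        ‖cn 2 C ((x : G) ^ m) b (χ : G → ℂ) (ψ : G → ℂ)‖ ^ 2) =
        (2 : ℝ) ^ q * ((cop N).card * X χ) := by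
      rw [← Finset.mul_sum]
      congr 1
      have h5 := hX χ
      rw [Finset.sum_congr rfl fun m hm => by rw [hreal χ m hm]] at h5
      have h6 : ((∑ m ∈ cop N, (2 : ℝ) ^ q * ∑ ψ : IrrCharacter G with ψ ∈ B,
        ‖cn 2 C ((x : G) ^ m) b (χ : G → ℂ) (ψ : G → ℂ)‖ ^ 2 : ℝ) : ℂ) =
        (((cop N).card * X χ : ℝ) : ℂ) := by
        push_cast
        push_cast at h5
        exact h5
      exact_mod_cast h6
    have h5 := h2.trans ((Finset.sum_le_sum h3).trans h4.le)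
    have h6 : (S.card : ℝ) ≤ (2 : ℝ) ^ q * X χ := by
      have h7 : (S.card : ℝ) * (cop N).card ≤ ((2 : ℝ) ^ q * X χ) * (cop N).card := by
        calc (S.card : ℝ) * (cop N).card ≤ (2 : ℝ) ^ q * ((cop N).card * X χ) := h5
          _ = _ := by ring
      exact le_of_mul_le_mul_right h7 hcardpos
    exact_mod_cast h6
  · -- upper bound
    have hcardpos : (0 : ℝ) < ((cop N).card : ℝ) := by
      exact_mod_cast Finset.card_pos.mpr (cop_nonempty hN)
    have h1 : ∀ χ : IrrCharacter G, ((cop N).card : ℝ) * X χ =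
        ∑ m ∈ cop N, (2 : ℝ) ^ q * ∑ ψ : IrrCharacter G with ψ ∈ B,
        ‖cn 2 C ((x : G) ^ m) b (χ : G → ℂ) (ψ : G → ℂ)‖ ^ 2 := by
      intro χ
      have h5 := hX χ
      rw [Finset.sum_congr rfl fun m hm => by rw [hreal χ m hm]] at h5
      have h6 : ((∑ m ∈ cop N, (2 : ℝ) ^ q * ∑ ψ : IrrCharacter G with ψ ∈ B,
        ‖cn 2 C ((x : G) ^ m) b (χ : G → ℂ) (ψ : G → ℂ)‖ ^ 2 : ℝ) : ℂ) =
        (((cop N).card * X χ : ℝ) : ℂ) := by
        push_cast
        push_cast at h5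
        exact h5
      exact_mod_cast h6.symm
    have h2 : ∑ χ ∈ S, ((cop N).card : ℝ) * X χ ≤
        ∑ χ : IrrCharacter G with χ ∈ B, ((cop N).card : ℝ) * X χ := by
      apply Finset.sum_le_sum_of_subset_of_nonneg
      · intro ψ hψ
        exact Finset.mem_filter.mpr ⟨Finset.mem_univ _, ((hS ψ).mp hψ).1⟩
      · intro χ _ _
        rw [h1]; positivity
    have h3 : ∑ χ : IrrCharacter G with χ ∈ B, ((cop N).card : ℝ) * X χ =
        ((cop N).card : ℝ) * ((2 : ℝ) ^ q * blockRank 2 b) := by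
      rw [Finset.sum_congr rfl fun χ _ => h1 χ, Finset.sum_comm]
      have h4 : ∀ m ∈ cop N, ∑ χ : IrrCharacter G with χ ∈ B, (2 : ℝ) ^ q *
          ∑ ψ : IrrCharacter G with ψ ∈ B,
            ‖cn 2 C ((x : G) ^ m) b (χ : G → ℂ) (ψ : G → ℂ)‖ ^ 2 =
          (2 : ℝ) ^ q * blockRank 2 b := by
        intro m hm
        rw [← Finset.mul_sum, sum_norm_cn hM hB (hum m) (hCm m hm) hb]
      rw [Finset.sum_congr rfl h4, Finset.sum_const, nsmul_eq_mul]
    rw [h3, ← Finset.mul_sum] at h2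
    have h4 := le_of_mul_le_mul_left h2 hcardpos
    exact_mod_cast h4

/-- S4541 -/
theorem st4541 (hM : IsPModular 2 M) (B : Set (IrrCharacter G)) (hB : IsPBlock M B) (u : G)
    (hu : ∃ j : ℕ, orderOf u = 2 ^ j)
    (b : Set (IrrCharacter ↥(Subgroup.centralizer ({u} : Set G))))
    (hb : IsInducedBlock M (Subgroup.centralizer ({u} : Set G)) b B) :
    (Odd (Nat.sqrt (blockRank 2 b)) → Nat.card {χ : IrrCharacter G // χ ∈ B ∧
      blockHeight 2 B (χ : G → ℂ) = 0} ≤ Nat.sqrt (blockRank 2 b) * 2 ^ blockDefect 2 b) ∧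
    (¬ Odd (Nat.sqrt (blockRank 2 b)) → (Nat.sqrt (blockRank 2 b) + 1) *
      Nat.card {χ : IrrCharacter G // χ ∈ B ∧ blockHeight 2 B (χ : G → ℂ) = 0} ≤
        blockRank 2 b * 2 ^ blockDefect 2 b) ∧
    (blockRank 2 b ≤ 3 → Nat.card {χ : IrrCharacter G // χ ∈ B ∧
      blockHeight 2 B (χ : G → ℂ) = 0} ≤ 2 ^ blockDefect 2 b) := by
  classical
  have := Fintype.ofFinite (IrrCharacter G)
  have := Fintype.ofFinite (Subgroup.centralizer ({u} : Set G))
  set S := univ.filter (fun χ : IrrCharacter G => χ ∈ B ∧ blockHeight 2 B (χ : G → ℂ) = 0) with hS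
  obtain ⟨x, hodd, hlow, hup⟩ := two_contr hM B hB u hu _ rfl b hb S (fun χ => by simp [hS])
  have hcard : Nat.card {χ : IrrCharacter G // χ ∈ B ∧ blockHeight 2 B (χ : G → ℂ) = 0} =
      S.card := by
    rw [Nat.card_eq_fintype_card, Fintype.card_subtype]
  rw [hcard]
  set l := blockRank 2 b with hl
  set s := Nat.sqrt l with hs
  set Q := 2 ^ blockDefect 2 b with hQ
  have hlow' : ∀ χ ∈ S, (S.card : ℤ) ≤ (Q : ℤ) * x χ := by
    intro χ hχ; rw [hQ]; push_cast; exact hlow χ hχ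
  have hup' : ∑ χ ∈ S, x χ ≤ (Q : ℤ) * l := by rw [hQ]; push_cast; exact hup
  have hQpos : 0 < Q := by rw [hQ]; positivity
  have hl1 : s * s ≤ l := Nat.sqrt_le l
  have hl2 : l < (s + 1) * (s + 1) := Nat.lt_succ_sqrt l
  have claim1 : Odd s → S.card ≤ s * Q := by
    intro hso
    by_contra hcon
    push Not at hcon
    have h1 : ∀ χ ∈ S, (s : ℤ) + 2 ≤ x χ := by
      intro χ hχ
      have h2 := hlow' χ hχ
      have h3 : (s : ℤ) * Q < Q * x χ := by
        have : ((s * Q : ℕ) : ℤ) < S.card := by exact_mod_cast hcon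
        push_cast at this
        linarith
      have h4 : (s : ℤ) < x χ := by
        have hQ' : (0 : ℤ) < Q := by exact_mod_cast hQpos
        nlinarith
      obtain ⟨k, hk⟩ := hodd χ hχ
      obtain ⟨k', hk'⟩ := hso
      have h5 : (s : ℤ) = 2 * k' + 1 := by exact_mod_cast hk'
      omega
    have h2 : (S.card : ℤ) * (s + 2) ≤ ∑ χ ∈ S, x χ := by
      have := Finset.card_nsmul_le_sum S x ((s : ℤ) + 2) h1
      rwa [nsmul_eq_mul] at this
    have h3 : (l : ℤ) ≤ s * (s + 2) := by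
      have : l ≤ s * (s + 2) := by nlinarith
      exact_mod_cast this
    have h4 : (S.card : ℤ) * (s + 2) ≤ (s * Q : ℤ) * (s + 2) := by
      have hQ' : (0 : ℤ) < Q := by exact_mod_cast hQpos
      nlinarith
    have h5 : (S.card : ℤ) ≤ s * Q := by
      have : (0 : ℤ) < (s : ℤ) + 2 := by positivity
      exact le_of_mul_le_mul_right h4 this
    have h6 : S.card ≤ s * Q := by exact_mod_cast h5
    omega
  have claim2 : ¬ Odd s → (s + 1) * S.card ≤ l * Q := by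
    intro hse
    have hQ' : (0 : ℤ) < Q := by exact_mod_cast hQpos
    by_cases hall : ∀ χ ∈ S, (s : ℤ) + 1 ≤ x χ
    · have h2 : (S.card : ℤ) * (s + 1) ≤ ∑ χ ∈ S, x χ := by
        have := Finset.card_nsmul_le_sum S x ((s : ℤ) + 1) hall
        rwa [nsmul_eq_mul] at this
      have h3 : ((s + 1) * S.card : ℤ) ≤ l * Q := by linarith
      exact_mod_cast h3
    · push Not at hall
      obtain ⟨χ, hχ, hx⟩ := hall
      obtain ⟨k, hk⟩ := hodd χ hχ
      have hs2 : ∃ k' : ℕ, s = 2 * k' := by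
        rw [Nat.not_odd_iff_even] at hse
        obtain ⟨k', hk'⟩ := hse
        exact ⟨k', by omega⟩
      obtain ⟨k', hk'⟩ := hs2
      have h1 : x χ ≤ (s : ℤ) - 1 := by
        have : (s : ℤ) = 2 * k' := by exact_mod_cast hk'
        omega
      have h2 := hlow' χ hχ
      have h3 : (S.card : ℤ) ≤ Q * ((s : ℤ) - 1) := by nlinarith
      have h4 : ((s : ℤ) + 1) * S.card ≤ l * Q := by
        have h5 : (s : ℤ) * s ≤ l := by exact_mod_cast hl1
        have h6 : (0 : ℤ) ≤ (s : ℤ) + 1 := by positivity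
        nlinarith
      exact_mod_cast h4
  refine ⟨claim1, claim2, ?_⟩
  intro hl3
  have hs1 : s ≤ 1 := by
    by_contra h
    push Not at h
    have : 2 * 2 ≤ s * s := Nat.mul_le_mul h h
    omega
  rcases Nat.lt_or_ge s 1 with h | h
  · have hs0 : s = 0 := by omega
    have h1 := claim2 (by rw [hs0]; exact Nat.not_odd_zero)
    have hl0 : l = 0 := by rw [hs0] at hl2; omega
    rw [hs0, hl0] at h1
    omega
  · have hs1' : s = 1 := le_antisymm hs1 h
    have h1 := claim1 (by rw [hs1']; exact odd_one)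
    rw [hs1', one_mul] at h1
    exact h1

end Two

end Cfsg.Agent.H26
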